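import Mathlib
import Cfsg.Agent.H19.MinimalNormal
import Cfsg.Agent.H19.Cores
import Cfsg.Agent.H19.Fitting
import Cfsg.Agent.H24.MaxClass
import Cfsg.Agent.H85.AbelianConjugate

/-!
# Solvable groups in which abelian subgroups of the same order are conjugate
-/

set_option autoImplicit false
set_option linter.style.haveILetI false
set_option linter.unusedSectionVars false

namespace Cfsg.Agent.H85

universe u

variable {G : Type u} [Group G] [Finite G]

theorem not_dvd_card_of_sylow_top {p : ℕ} [Fact p.Prime] (P : Sylow p G) {H : Subgroup G}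
    (h : (P : Subgroup G) ⊓ H = ⊥) [H.Normal] : ¬ p ∣ Nat.card H := by
  intro hd
  obtain ⟨⟨x, hx⟩, hxo⟩ := exists_prime_orderOf_dvd_card' (G := H) p hd
  rw [Subgroup.orderOf_mk] at hxo
  obtain ⟨Q, hQ⟩ := (IsPGroup.of_card (n := 1)
    (by rw [Nat.card_zpowers, hxo, pow_one]) : IsPGroup p (Subgroup.zpowers x)).exists_le_sylow
  obtain ⟨g, hg⟩ := MulAction.exists_smul_eq G Q P
  have h1 : g * x * g⁻¹ ∈ (P : Subgroup G) ⊓ H := by
    refine Subgroup.mem_inf.2 ⟨?_, (inferInstance : H.Normal).conj_mem x hx g⟩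
    rw [← hg, Sylow.coe_subgroup_smul]
    exact ⟨x, hQ (Subgroup.mem_zpowers x), rfl⟩
  rw [h, Subgroup.mem_bot, mul_inv_eq_one, mul_eq_left] at h1
  rw [h1, orderOf_one] at hxo
  exact (Fact.out : p.Prime).one_lt.ne hxo

namespace AbConj

variable {p : ℕ} [hp : Fact p.Prime]

/-- The order-`p` elements lie in the normal subgroup of order `p`. -/
theorem pow_eq_one_mem (hB : AbConj G) {V : Subgroup G} [V.Normal] (hV : Nat.card V = p) {x : G}
    (hx : x ^ p = 1) : x ∈ V := by
  by_cases hx1 : x = 1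
  · rw [hx1]; exact one_mem V
  obtain ⟨⟨v, hv⟩, hvo⟩ := exists_prime_orderOf_dvd_card' (G := V) p (dvd_of_eq hV.symm)
  rw [Subgroup.orderOf_mk] at hvo
  exact hB.mem_of_orderOf_eq inferInstance hv (hvo.trans (orderOf_eq_prime hx hx1).symm)

/-- The data attached to an abelian subgroup of the quotient whose order is divisible by `p`. -/
theorem preimage_structure (hB : AbConj G) {V : Subgroup G} [V.Normal] (hV : Nat.card V = p)
    {A : Subgroup (G ⧸ V)} (hA : IsMulCommutative A) (hpA : p ∣ Nat.card A) :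
    ∃ X K : Subgroup G, X ⊔ K = A.comap (QuotientGroup.mk' V) ∧ IsPGroup p X ∧ ¬ p ∣ Nat.card K ∧
      (∀ a ∈ K, ∀ b ∈ K, a * b = b * a) ∧ (∀ x ∈ X, ∀ k ∈ K, x * k = k * x) ∧
      Nat.card X * Nat.card K = p * Nat.card A ∧ ∃ y ∈ X, orderOf y = p ^ 2 := by
  set π := QuotientGroup.mk' V with hπ
  set H := A.comap π with hH
  have hVH : V ≤ H := fun v hv => by
    rw [hH, Subgroup.mem_comap, show π v = 1 from (QuotientGroup.eq_one_iff v).2 hv]; exact one_mem A
  have hcardH : Nat.card H = p * Nat.card A := by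
    have h1 := Subgroup.card_mul_index H
    rw [hH, Subgroup.index_comap_of_surjective _ (QuotientGroup.mk'_surjective V), ← hH] at h1
    have h2 := Subgroup.card_mul_index A
    have h3 := Subgroup.card_mul_index V
    rw [hV, Subgroup.index_eq_card, ← h2, ← h1, ← mul_assoc] at h3
    exact (Nat.eq_of_mul_eq_mul_right (Nat.pos_of_ne_zero Subgroup.FiniteIndex.index_ne_zero) h3).symm
  obtain ⟨S⟩ := (inferInstance : Nonempty (Sylow p H))
  have hVp : IsPGroup p (V.subgroupOf H) :=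
    (IsPGroup.of_card (n := 1) (by rw [hV, pow_one]) : IsPGroup p V).of_equiv
      (Subgroup.subgroupOfEquivOfLe hVH).symm
  haveI : (V.subgroupOf H).Normal := Subgroup.normal_subgroupOf
  have hVS : V.subgroupOf H ≤ (S : Subgroup H) := by
    have h3 := S.3 (S.2.to_sup_of_normal_right hVp) le_sup_left
    rw [← h3]; exact le_sup_right
  have hcomm : ∀ a b : H, (a : G) * b * (a : G)⁻¹ * (b : G)⁻¹ ∈ V := fun a b => by
    rw [← QuotientGroup.eq_one_iff]
    show π ((a : G) * b * (a : G)⁻¹ * (b : G)⁻¹) = 1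
    have h1 : π a * π b = π b * π a :=
      congrArg Subtype.val (hA.is_comm.comm ⟨π a, a.2⟩ ⟨π b, b.2⟩)
    rw [map_mul, map_mul, map_mul, map_inv, map_inv, h1, mul_inv_cancel_right, mul_inv_cancel]
  haveI hSn : (S : Subgroup H).Normal := ⟨fun s hs a => by
    have h1 : a * s * a⁻¹ * s⁻¹ ∈ (S : Subgroup H) := hVS (hcomm a s)
    have h2 := mul_mem h1 hs
    rwa [inv_mul_cancel_right] at h2⟩
  obtain ⟨K₀, hK₀⟩ := Subgroup.exists_right_complement'_of_coprime (N := (S : Subgroup H)) (by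
    obtain ⟨j, hj⟩ := IsPGroup.iff_card.1 S.2
    rw [hj]
    exact (hp.out.coprime_iff_not_dvd.2 S.not_dvd_index).pow_left j)
  have hK₀p : ¬ p ∣ Nat.card K₀ := by
    rw [← hK₀.symm.index_eq_card]; exact S.not_dvd_index
  -- an element of order p²
  obtain ⟨y, hyS, hyo⟩ : ∃ y : H, y ∈ (S : Subgroup H) ∧ orderOf (y : G) = p ^ 2 := by
    have hlt : Nat.card (V.subgroupOf H) < Nat.card (S : Subgroup H) := by
      rw [Nat.card_congr (Subgroup.subgroupOfEquivOfLe hVH).toEquiv, hV]
      have h1 : p ^ 2 ∣ Nat.card H := by rw [hcardH, sq]; exact mul_dvd_mul_left p hpA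
      have h2 : p ^ 2 ∣ Nat.card (S : Subgroup H) := by
        rw [Sylow.card_eq_multiplicity S]
        exact pow_dvd_pow p ((hp.out.pow_dvd_iff_le_factorization Nat.card_pos.ne').1 h1)
      have h3 := Nat.le_of_dvd Nat.card_pos h2
      nlinarith [hp.out.one_lt]
    obtain ⟨z, hz, hzV⟩ : ∃ z ∈ (S : Subgroup H), (z : G) ∉ V := by
      by_contra hall
      push Not at hall
      have h5 : (S : Subgroup H) ≤ V.subgroupOf H := fun z hz => hall z hz
      exact absurd (Subgroup.card_le_of_le h5) (not_le.2 hlt)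
    obtain ⟨j, hj⟩ := IsPGroup.iff_orderOf.1 S.2 ⟨z, hz⟩
    rw [Subgroup.orderOf_mk, ← Subgroup.orderOf_coe] at hj
    have hj2 : 2 ≤ j := by
      by_contra hlt'
      refine hzV (hB.pow_eq_one_mem hV (orderOf_dvd_iff_pow_eq_one.1 ?_))
      rw [hj]
      exact (pow_dvd_pow p (show j ≤ 1 by omega)).trans (dvd_of_eq (pow_one p))
    refine ⟨z ^ p ^ (j - 2), pow_mem hz _, ?_⟩
    rw [Subgroup.coe_pow, orderOf_pow_of_dvd (pow_ne_zero _ hp.out.ne_zero)
      (hj ▸ pow_dvd_pow p (Nat.sub_le j 2)), hj, Nat.pow_div (Nat.sub_le j 2) hp.out.pos]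
    congr 1
    omega
  -- `K₀` centralises `V`
  have hyV : (y : G) ^ p ∈ V := hB.pow_eq_one_mem hV (by
    rw [← pow_mul, ← sq, ← hyo, pow_orderOf_eq_one])
  have hypne : (y : G) ^ p ≠ 1 := fun h => by
    have h1 := Nat.le_of_dvd hp.out.pos (orderOf_dvd_of_pow_eq_one h)
    rw [hyo] at h1
    nlinarith [hp.out.one_lt]
  have hVy : V = Subgroup.zpowers ((y : G) ^ p) := by
    refine (Subgroup.eq_of_le_of_card_ge (Subgroup.zpowers_le.2 hyV) ?_).symm
    rw [Nat.card_zpowers, hV]
    exact (orderOf_eq_prime (by rw [← pow_mul, ← sq, ← hyo, pow_orderOf_eq_one]) hypne).ge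
  have hKV : ∀ k : H, ∀ v ∈ V, Commute (k : G) v := by
    intro k v hv
    set w := (y : G)⁻¹ * ((k : G) * y * (k : G)⁻¹) with hw
    have hwV : w ∈ V := by
      have h1 := hcomm k y
      have h2 := (inferInstance : V.Normal).conj_mem _ h1 (y : G)⁻¹
      rw [inv_inv] at h2
      rwa [hw, show (y : G)⁻¹ * ((k : G) * y * (k : G)⁻¹) =
        (y : G)⁻¹ * ((k : G) * y * (k : G)⁻¹ * (y : G)⁻¹) * y by group]
    have hwy : Commute (y : G) w := by
      have h1 := hwV
      rw [hVy] at h1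
      obtain ⟨i, hi⟩ := h1
      rw [← hi]
      exact ((Commute.refl (y : G)).pow_right p).zpow_right i
    have hwp : w ^ p = 1 := by
      have h1 := congrArg Subtype.val (pow_card_eq_one' (x := (⟨w, hwV⟩ : V)))
      rwa [hV] at h1
    have hk : Commute (k : G) ((y : G) ^ p) := by
      have h1 : ((k : G) * y * (k : G)⁻¹) ^ p = ((y : G) * w) ^ p := by rw [hw, mul_inv_cancel_left]
      rw [conj_pow, hwy.mul_pow, hwp, mul_one, mul_inv_eq_iff_eq_mul] at h1
      exact h1
    rw [hVy] at hv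
    obtain ⟨i, rfl⟩ := hv
    exact hk.zpow_right i
  have hKS : ∀ k : H, k ∈ K₀ → ∀ x : H, x ∈ (S : Subgroup H) → Commute (x : G) (k : G) := by
    intro k hk x _
    set w := (x : G)⁻¹ * ((k : G) * x * (k : G)⁻¹) with hw
    have hwV : w ∈ V := by
      have h1 := (inferInstance : V.Normal).conj_mem _ (hcomm k x) (x : G)⁻¹
      rw [inv_inv] at h1
      rwa [hw, show (x : G)⁻¹ * ((k : G) * x * (k : G)⁻¹) =
        (x : G)⁻¹ * ((k : G) * x * (k : G)⁻¹ * (x : G)⁻¹) * x by group]
    have hpow : ∀ i : ℕ, (k : G) ^ i * x * ((k : G) ^ i)⁻¹ = x * w ^ i := by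
      intro i
      induction i with
      | zero => simp
      | succ i ih =>
        calc (k : G) ^ (i + 1) * x * ((k : G) ^ (i + 1))⁻¹
            = k * ((k : G) ^ i * x * ((k : G) ^ i)⁻¹) * (k : G)⁻¹ := by
              rw [pow_succ', mul_inv_rev]; group
          _ = k * x * (k : G)⁻¹ * (k * w ^ i * (k : G)⁻¹) := by rw [ih]; group
          _ = k * x * (k : G)⁻¹ * w ^ i := by
              rw [(hKV k _ (pow_mem hwV i)).eq, mul_inv_cancel_right]
          _ = x * w ^ (i + 1) := by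
              rw [pow_succ', ← mul_assoc (x : G) w, show (x : G) * w = k * x * (k : G)⁻¹ by
                rw [hw]; group]
    have h1 := hpow (orderOf (k : G))
    rw [pow_orderOf_eq_one, one_mul, inv_one, mul_one, eq_comm, mul_eq_left] at h1
    have hw1 : w = 1 := by
      have hko : orderOf (k : G) ∣ Nat.card K₀ := by
        rw [Subgroup.orderOf_coe, ← Subgroup.orderOf_mk k hk]; exact orderOf_dvd_natCard _
      exact orderOf_eq_one_iff.1 (Nat.eq_one_of_dvd_coprimes (hp.out.coprime_iff_not_dvd.2 hK₀p)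
        (hV ▸ (Subgroup.orderOf_mk w hwV ▸ orderOf_dvd_natCard _))
        ((orderOf_dvd_of_pow_eq_one h1).trans hko))
    rw [hw, inv_mul_eq_one, eq_comm, mul_inv_eq_iff_eq_mul] at hw1
    exact hw1.symm
  refine ⟨(S : Subgroup H).map H.subtype, K₀.map H.subtype, ?_, S.2.map _, ?_, ?_, ?_, ?_, y, ?_, hyo⟩
  · rw [← Subgroup.map_sup, hK₀.sup_eq_top, ← MonoidHom.range_eq_map, Subgroup.range_subtype]
  · rwa [← Nat.card_congr (K₀.equivMapOfInjective _ H.subtype_injective).toEquiv]
  · rintro _ ⟨a, ha, rfl⟩ _ ⟨b, hb, rfl⟩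
    have h1 : a * b * a⁻¹ * b⁻¹ ∈ (S : Subgroup H) := hVS (hcomm a b)
    have h2 : a * b * a⁻¹ * b⁻¹ ∈ K₀ := mul_mem (mul_mem (mul_mem ha hb) (inv_mem ha)) (inv_mem hb)
    have h3 := Subgroup.disjoint_def.1 hK₀.disjoint h1 h2
    rw [mul_inv_eq_one, mul_inv_eq_iff_eq_mul] at h3
    exact congrArg Subtype.val h3
  · rintro _ ⟨x, hx, rfl⟩ _ ⟨k, hk, rfl⟩
    exact (hKS k hk x hx).eq
  · rw [← Nat.card_congr ((S : Subgroup H).equivMapOfInjective _ H.subtype_injective).toEquiv,
      ← Nat.card_congr (K₀.equivMapOfInjective _ H.subtype_injective).toEquiv, hK₀.card_mul_card, hcardH]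
  · exact ⟨y, hyS, rfl⟩

/-- In a subgroup generated by commuting `X` and `K` of coprime orders, the elements of order
prime to `p` lie in `K`. -/
theorem mem_right_of_coprime {X K : Subgroup G} (hX : IsPGroup p X)
    (hc : ∀ x ∈ X, ∀ k ∈ K, x * k = k * x) {g : G} (hg : g ∈ X ⊔ K) (hgo : ¬ p ∣ orderOf g) :
    g ∈ K := by
  have hle : K ≤ Subgroup.normalizer (X : Set G) := fun k hk => by
    refine Subgroup.centralizer_le_normalizer _ (Subgroup.mem_centralizer_iff.2 fun x hx => hc x hx k hk)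
  obtain ⟨x, hx, k, hk, rfl⟩ : ∃ x ∈ X, ∃ k ∈ K, x * k = g := by
    rw [← SetLike.mem_coe, Subgroup.coe_mul_of_right_le_normalizer_left X K hle] at hg
    obtain ⟨x, hx, k, hk, h⟩ := hg
    exact ⟨x, hx, k, hk, h⟩
  have hxk : Commute x k := hc x hx k hk
  obtain ⟨j, hj⟩ := IsPGroup.iff_orderOf.1 hX ⟨x, hx⟩
  rw [Subgroup.orderOf_mk] at hj
  set m := orderOf (x * k) with hm
  have h1 : x ^ m * k ^ m = 1 := by rw [← hxk.mul_pow, hm, pow_orderOf_eq_one]
  have hco : Nat.Coprime m (p ^ j) := ((hp.out.coprime_iff_not_dvd.2 hgo).symm).pow_right j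
  obtain ⟨t, ht⟩ := exists_pow_eq_self_of_coprime (x := x) (n := m) (hj ▸ hco)
  have hxK : x ∈ K := by
    rw [← ht, eq_inv_of_mul_eq_one_left h1]
    exact pow_mem (inv_mem (pow_mem hk m)) t
  exact mul_mem hxK hk

/-- Quotient by a normal subgroup of prime order, the Sylow subgroups cyclic or of order `≤ p³`. -/
theorem quotient_prime_step (hB : AbConj G) {V : Subgroup G} [V.Normal] (hV : Nat.card V = p)
    (hP : ∀ P : Sylow p G, IsCyclic (P : Subgroup G) ∨ Nat.card (P : Subgroup G) ∣ p ^ 3)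
    {A B : Subgroup (G ⧸ V)} (hA : IsMulCommutative A) (hB' : IsMulCommutative B)
    (hcard : Nat.card A = Nat.card B) (hpA : p ∣ Nat.card A) :
    ∃ g : G ⧸ V, B = A.map (MulAut.conj g).toMonoidHom := by
  obtain ⟨X, K, hXK, hXp, hKp, hKc, hXKc, hXcard, y, hyX, hyo⟩ := hB.preimage_structure hV hA hpA
  obtain ⟨Y, L, hYL, hYp, hLp, hLc, hYLc, hYcard, z, hzY, hzo⟩ :=
    hB.preimage_structure hV hB' (hcard ▸ hpA)
  obtain ⟨i, hi⟩ := IsPGroup.iff_card.1 hXp
  obtain ⟨j, hj⟩ := IsPGroup.iff_card.1 hYp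
  have hij : i = j ∧ Nat.card K = Nat.card L := by
    have h1 : p ^ i * Nat.card K = p ^ j * Nat.card L := by rw [← hi, ← hj, hXcard, hYcard, hcard]
    have h2 : (p ^ i * Nat.card K).factorization p = (p ^ j * Nat.card L).factorization p := by rw [h1]
    rw [Nat.factorization_mul (pow_ne_zero _ hp.out.ne_zero) Nat.card_pos.ne',
      Nat.factorization_mul (pow_ne_zero _ hp.out.ne_zero) Nat.card_pos.ne', Finsupp.add_apply,
      Finsupp.add_apply, Nat.factorization_eq_zero_of_not_dvd hKp,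
      Nat.factorization_eq_zero_of_not_dvd hLp, hp.out.factorization_pow, hp.out.factorization_pow,
      Finsupp.single_eq_same, Finsupp.single_eq_same, add_zero, add_zero] at h2
    subst h2
    exact ⟨rfl, Nat.eq_of_mul_eq_mul_left (pow_pos hp.out.pos i) h1⟩
  obtain ⟨rfl, hKL⟩ := hij
  -- conjugate preimages give conjugate subgroups
  suffices hmain : ∃ g : G, Y ⊔ L = (X ⊔ K).map (MulAut.conj g).toMonoidHom by
    obtain ⟨g, hg⟩ := hmain
    refine ⟨QuotientGroup.mk' V g, ?_⟩
    rw [hXK, hYL] at hg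
    have h1 := congrArg (Subgroup.map (QuotientGroup.mk' V)) hg
    rw [Subgroup.map_comap_eq_self_of_surjective (QuotientGroup.mk'_surjective V), Subgroup.map_map] at h1
    rw [h1]
    have h2 : (QuotientGroup.mk' V).comp (MulAut.conj g).toMonoidHom =
        (MulAut.conj (QuotientGroup.mk' V g)).toMonoidHom.comp (QuotientGroup.mk' V) := by
      ext x; simp
    rw [h2, ← Subgroup.map_map, Subgroup.map_comap_eq_self_of_surjective (QuotientGroup.mk'_surjective V)]
  have habel : ∀ (X K : Subgroup G), IsMulCommutative X → (∀ a ∈ K, ∀ b ∈ K, a * b = b * a) →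
      (∀ x ∈ X, ∀ k ∈ K, x * k = k * x) → IsMulCommutative ↥(X ⊔ K) := by
    intro X K hX hK hc
    rw [← Subgroup.closure_eq X, ← Subgroup.closure_eq K, ← Subgroup.closure_union]
    refine Subgroup.isMulCommutative_closure ?_
    rintro a (ha | ha) b (hb | hb)
    · exact congrArg Subtype.val (hX.is_comm.comm ⟨a, ha⟩ ⟨b, hb⟩)
    · exact hc a ha b hb
    · exact (hc b hb a ha).symm
    · exact hK a ha b hb
  have hcardsup : ∀ (X K : Subgroup G) (n : ℕ), Nat.card X = p ^ n → ¬ p ∣ Nat.card K →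
      (∀ x ∈ X, ∀ k ∈ K, x * k = k * x) → Nat.card ↥(X ⊔ K) = p ^ n * Nat.card K := by
    intro X K n hX hK hc
    have hle : K ≤ Subgroup.normalizer (X : Set G) := fun k hk =>
      Subgroup.centralizer_le_normalizer _ (Subgroup.mem_centralizer_iff.2 fun x hx => hc x hx k hk)
    rw [← hX, ← Nat.card_prod]
    refine (Nat.card_eq_of_bijective (fun z : X × K =>
      (⟨(z.1 : G) * z.2, mul_mem (Subgroup.mem_sup_left z.1.2) (Subgroup.mem_sup_right z.2.2)⟩ :
        ↥(X ⊔ K))) ⟨?_, ?_⟩).symm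
    · intro a b hab
      have hab' : (a.1 : G) * a.2 = b.1 * b.2 := congrArg Subtype.val hab
      have hbot : Disjoint X K := Subgroup.disjoint_of_coprime_natCard (by
        rw [hX]; exact (hp.out.coprime_iff_not_dvd.2 hK).pow_left n)
      exact Subgroup.mul_injective_of_disjoint hbot hab'
    · rintro ⟨g, hg⟩
      rw [← SetLike.mem_coe, Subgroup.coe_mul_of_right_le_normalizer_left X K hle] at hg
      obtain ⟨x, hx, k, hk, h⟩ := hg
      exact ⟨(⟨x, hx⟩, ⟨k, hk⟩), Subtype.ext h⟩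
  by_cases habX : IsMulCommutative X ∧ IsMulCommutative Y
  · exact hB _ _ (habel X K habX.1 hKc hXKc) (habel Y L habX.2 hLc hYLc)
      (by rw [hcardsup X K i hi hKp hXKc, hcardsup Y L i hj hLp hYLc, hKL])
  -- the Sylow subgroups have order `p³`
  have hbad : ∀ Z : Subgroup G, IsPGroup p Z → ¬ IsMulCommutative Z →
      ∃ P : Sylow p G, (P : Subgroup G) = Z := by
    intro Z hZ hna
    obtain ⟨P, hP'⟩ := hZ.exists_le_sylow
    refine ⟨P, ((Subgroup.eq_of_le_of_card_ge hP' ?_)).symm⟩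
    rcases hP P with hc | h3
    · exact absurd (haveI := Subgroup.isCyclic_of_le hP'; IsCyclic.isMulCommutative) hna
    · obtain ⟨l, hl⟩ := IsPGroup.iff_card.1 hZ
      refine (Nat.le_of_dvd (pow_pos hp.out.pos 3) h3).trans ?_
      rw [hl]
      refine Nat.pow_le_pow_right hp.out.pos ?_
      by_contra hlt
      apply hna
      rcases (by omega : l ≤ 1 ∨ l = 2) with h | h
      · haveI := Cfsg.Agent.H24.isCyclic_of_card_pow_le hl h
        exact IsCyclic.isMulCommutative
      · exact IsPGroup.isMulCommutative_of_card_eq_prime_sq (h ▸ hl)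
  have hi3 : ∀ Z : Subgroup G, IsPGroup p Z → Nat.card Z = p ^ i → ∃ P : Sylow p G, (P : Subgroup G) = Z := by
    intro Z hZ hZc
    rcases not_and_or.1 habX with hna | hna <;>
      [obtain ⟨P, hP'⟩ := hbad X hXp hna; obtain ⟨P, hP'⟩ := hbad Y hYp hna] <;>
      · obtain ⟨Q, hQ⟩ := hZ.exists_le_sylow
        refine ⟨Q, (Subgroup.eq_of_le_of_card_ge hQ ?_).symm⟩
        rw [hZc, Sylow.card_eq_multiplicity Q, ← Sylow.card_eq_multiplicity P, hP']
        first | exact hi.le | exact hj.le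
  -- first conjugate the cyclic extensions, moving `K` to `L`
  have hyz : Nat.card (Subgroup.zpowers y) = p ^ 2 := by rw [Nat.card_zpowers, hyo]
  have hzz : Nat.card (Subgroup.zpowers z) = p ^ 2 := by rw [Nat.card_zpowers, hzo]
  have hyc : ∀ x ∈ Subgroup.zpowers y, ∀ k ∈ K, x * k = k * x := fun x hx =>
    hXKc x (Subgroup.zpowers_le.2 hyX hx)
  have hzc : ∀ x ∈ Subgroup.zpowers z, ∀ k ∈ L, x * k = k * x := fun x hx =>
    hYLc x (Subgroup.zpowers_le.2 hzY hx)
  obtain ⟨g, hg⟩ := hB _ _ (habel (Subgroup.zpowers y) K inferInstance hKc hyc)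
    (habel (Subgroup.zpowers z) L inferInstance hLc hzc)
    (by rw [hcardsup _ K 2 hyz hKp hyc, hcardsup _ L 2 hzz hLp hzc, hKL])
  have hKg : K.map (MulAut.conj g).toMonoidHom = L := by
    refine Subgroup.eq_of_le_of_card_ge (fun l hl => ?_) ?_
    · obtain ⟨k, hk, rfl⟩ := hl
      refine mem_right_of_coprime (IsPGroup.of_card hzz) hzc ?_ ?_
      · rw [hg]; exact ⟨k, Subgroup.mem_sup_right hk, rfl⟩
      · show ¬ p ∣ orderOf (MulAut.conj g k)
        rw [(MulAut.conj g).orderOf_eq, ← Subgroup.orderOf_mk k hk]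
        exact fun h => hKp (h.trans (orderOf_dvd_natCard _))
    · rw [← hKL]
      exact (Nat.card_congr (K.equivMapOfInjective _ (MulAut.conj g).injective).toEquiv).le
  set X' := X.map (MulAut.conj g).toMonoidHom with hX'
  have hX'p : IsPGroup p X' := hXp.map _
  obtain ⟨P, hP'⟩ := hi3 X' hX'p (by
    rw [hX', ← hi]
    exact (Nat.card_congr (X.equivMapOfInjective _ (MulAut.conj g).injective).toEquiv).symm)
  obtain ⟨Q, hQ'⟩ := hi3 Y hYp hj
  set C := Subgroup.centralizer (L : Set G) with hC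
  have hPC : (P : Subgroup G) ≤ C := by
    rw [hP', hX']
    rintro _ ⟨x, hx, rfl⟩
    refine Subgroup.mem_centralizer_iff.2 fun l hl => ?_
    obtain ⟨k, hk, rfl⟩ : l ∈ K.map (MulAut.conj g).toMonoidHom := hKg.symm ▸ hl
    rw [← map_mul, ← map_mul, hXKc x hx k hk]
  have hQC : (Q : Subgroup G) ≤ C := by
    rw [hQ']
    exact fun x hx => Subgroup.mem_centralizer_iff.2 fun l hl => (hYLc x hx l hl).symm
  obtain ⟨h, hh⟩ := MulAction.exists_smul_eq C (P.subtype hPC) (Q.subtype hQC)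
  rw [Sylow.smul_subtype] at hh
  have hh' := congrArg (fun S : Sylow p G => (S : Subgroup G)) (Sylow.subtype_injective hh)
  change ((h • P : Sylow p G) : Subgroup G) = (Q : Subgroup G) at hh'
  refine ⟨(h : G) * g, ?_⟩
  have hcomp : ∀ Z : Subgroup G, Z.map (MulAut.conj ((h : G) * g)).toMonoidHom =
      (Z.map (MulAut.conj g).toMonoidHom).map (MulAut.conj (h : G)).toMonoidHom := by
    intro Z
    rw [Subgroup.map_map]
    congr 1
    ext x
    simp [mul_assoc]
  rw [Subgroup.map_sup, hcomp, hcomp, hKg, ← hX', ← hP', ← hQ', ← hh']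
  congr 1
  ext l
  constructor
  · intro hl
    refine ⟨l, hl, ?_⟩
    show (h : G) * l * (h : G)⁻¹ = l
    rw [(Subgroup.mem_centralizer_iff.1 h.2 l hl).symm, mul_inv_cancel_right]
  · rintro ⟨m, hm, rfl⟩
    show (h : G) * m * (h : G)⁻¹ ∈ L
    rw [(Subgroup.mem_centralizer_iff.1 h.2 m hm).symm, mul_inv_cancel_right]
    exact hm

/-- Complements of a normal Hall subgroup: the quotient step. -/
theorem quotient_coprime_step (hB : AbConj G) {V : Subgroup G} [V.Normal] {A B : Subgroup (G ⧸ V)}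
    (hA : IsMulCommutative A) (hB' : IsMulCommutative B) (hcard : Nat.card A = Nat.card B)
    (hco : (Nat.card V).Coprime (Nat.card A)) :
    ∃ g : G ⧸ V, B = A.map (MulAut.conj g).toMonoidHom := by
  have key : ∀ D : Subgroup (G ⧸ V), IsMulCommutative D → (Nat.card V).Coprime (Nat.card D) →
      ∃ K : Subgroup G, IsMulCommutative K ∧ K.map (QuotientGroup.mk' V) = D ∧
        Nat.card K = Nat.card D := by
    intro D hD hDco
    set π := QuotientGroup.mk' V with hπ
    set H := D.comap π with hH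
    have hVH : V ≤ H := fun v hv => by
      rw [hH, Subgroup.mem_comap, show π v = 1 from (QuotientGroup.eq_one_iff v).2 hv]; exact one_mem D
    haveI : (V.subgroupOf H).Normal := Subgroup.normal_subgroupOf
    let f : H →* D := (π.comp H.subtype).codRestrict D fun h => h.2
    have hsurj : Function.Surjective f := fun d => by
      obtain ⟨g, hg⟩ := QuotientGroup.mk'_surjective V (d : G ⧸ V)
      refine ⟨⟨g, ?_⟩, Subtype.ext hg⟩
      rw [hH, Subgroup.mem_comap, show π g = _ from hg]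
      exact d.2
    have hker : f.ker = V.subgroupOf H := by
      ext h
      rw [MonoidHom.mem_ker, Subgroup.mem_subgroupOf, Subtype.ext_iff]
      exact QuotientGroup.eq_one_iff _
    have hidx : (V.subgroupOf H).index = Nat.card D := by
      rw [← hker, Subgroup.index_ker, MonoidHom.range_eq_top.2 hsurj, Subgroup.card_top]
    obtain ⟨K₀, hK₀⟩ := Subgroup.exists_right_complement'_of_coprime (N := V.subgroupOf H) (by
      rw [hidx, Nat.card_congr (Subgroup.subgroupOfEquivOfLe hVH).toEquiv]; exact hDco)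
    have hinj : Function.Injective (f.comp K₀.subtype) := by
      rw [injective_iff_map_eq_one]
      intro k hk
      have h1 : (k : H) ∈ f.ker := hk
      rw [hker] at h1
      exact Subtype.ext (Subgroup.disjoint_def.1 hK₀.disjoint h1 k.2)
    have hsur : Function.Surjective (f.comp K₀.subtype) := by
      refine ((Nat.bijective_iff_injective_and_card _).2 ⟨hinj, ?_⟩).2
      rw [← hK₀.symm.index_eq_card, hidx]
    haveI : IsMulCommutative K₀ := ⟨⟨fun a b => hinj (by
      rw [map_mul, map_mul]; exact hD.is_comm.comm _ _)⟩⟩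
    refine ⟨K₀.map H.subtype, Subgroup.map_isMulCommutative _ _, ?_, ?_⟩
    · apply le_antisymm
      · rintro _ ⟨_, ⟨k, hk, rfl⟩, rfl⟩
        exact k.2
      · intro d hd
        obtain ⟨k, hk⟩ := hsur ⟨d, hd⟩
        exact ⟨(k : H), ⟨k, k.2, rfl⟩, congrArg Subtype.val hk⟩
    · rw [← Nat.card_congr (K₀.equivMapOfInjective _ H.subtype_injective).toEquiv,
        ← hK₀.symm.index_eq_card, hidx]
  obtain ⟨K, hKc, rfl, hKn⟩ := key A hA hco
  obtain ⟨L, hLc, rfl, hLn⟩ := key B hB' (hcard ▸ hco)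
  obtain ⟨g, hg⟩ := hB K L hKc hLc (by rw [hKn, hLn, hcard])
  refine ⟨QuotientGroup.mk' V g, ?_⟩
  rw [hg, Subgroup.map_map, Subgroup.map_map]
  congr 1

/-- Quotient by a minimal normal subgroup of a solvable group. -/
theorem quotient_minimal_step (hB : AbConj G) (hsol : Group.IsSolvable G) {V : Subgroup G} [V.Normal]
    (hVne : V ≠ ⊥) (hmin : ∀ W : Subgroup G, W.Normal → W ≤ V → W = ⊥ ∨ W = V)
    (h2 : Nat.card V = 2 → ∀ P : Sylow 2 G, IsCyclic (P : Subgroup G) ∨
      Nat.card (P : Subgroup G) ∣ 2 ^ 3) :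
    AbConj (G ⧸ V) := by
  intro A B hA hB' hcard
  haveI := hsol
  obtain ⟨hVc, q, hq, hqp, hexp⟩ :=
    Cfsg.Agent.H19.minimalNormal_elementary V inferInstance hVne hmin
  haveI : Fact q.Prime := ⟨hq⟩
  obtain ⟨t, ht⟩ := IsPGroup.iff_card.1 hqp
  have ht0 : t ≠ 0 := fun h0 => hVne (Subgroup.card_eq_one.1 (by rw [ht, h0, pow_zero]))
  have hel : Cfsg.IsElementaryAbelian q V := ⟨hVc, hexp⟩
  by_cases ht2 : 2 ≤ t
  · refine hB.quotient_coprime_step hA hB' hcard ?_
    -- `V` is a Sylow subgroup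
    obtain ⟨P, hP⟩ := hqp.exists_le_sylow
    have hPV : (P : Subgroup G) ≤ V := fun x hx => by
      by_cases hx1 : x = 1
      · rw [hx1]; exact one_mem V
      obtain ⟨k, hk⟩ := IsPGroup.iff_orderOf.1 P.2 ⟨x, hx⟩
      rw [Subgroup.orderOf_mk] at hk
      have h1 := hB.pow_prime_eq_one hel (ht ▸ pow_dvd_pow q ht2) ⟨k, hk⟩
      obtain ⟨⟨v, hv⟩, hvo⟩ := exists_prime_orderOf_dvd_card' (G := V) q (ht ▸ dvd_pow_self q ht0)
      rw [Subgroup.orderOf_mk] at hvo
      exact hB.mem_of_orderOf_eq inferInstance hv (hvo.trans (orderOf_eq_prime h1 hx1).symm)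
    have hidx : ¬ q ∣ V.index := by
      rw [show V = (P : Subgroup G) from le_antisymm hP hPV]; exact P.not_dvd_index
    refine Nat.Coprime.coprime_dvd_right ?_ (ht ▸ (hq.coprime_iff_not_dvd.2 hidx).pow_left t)
    rw [Subgroup.index_eq_card]
    exact Subgroup.card_subgroup_dvd_card A
  · obtain rfl : t = 1 := by omega
    rw [pow_one] at ht
    by_cases hd : q ∣ Nat.card A
    · refine hB.quotient_prime_step ht (fun P => ?_) hA hB' hcard hd
      rcases hB.cyclic_quaternion_or_exponent P.2 with h | ⟨rfl, -⟩ | h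
      · exact Or.inl h
      · exact h2 ht P
      · left
        have hle : (P : Subgroup G) ≤ V := fun x hx => hB.pow_eq_one_mem ht (h x hx)
        haveI : IsCyclic V := isCyclic_of_prime_card ht
        exact Subgroup.isCyclic_of_le hle
    · exact hB.quotient_coprime_step hA hB' hcard (ht ▸ hq.coprime_iff_not_dvd.2 hd)

theorem transport {H : Type*} [Group H] (e : G ≃* H) (hB : AbConj G) : AbConj H := by
  intro A B hA hB' hcard
  have hmap : ∀ D : Subgroup H, IsMulCommutative D → IsMulCommutative (D.map e.symm.toMonoidHom) :=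
    fun D hD => haveI := hD; Subgroup.map_isMulCommutative _ _
  have hc : ∀ D : Subgroup H, Nat.card (D.map e.symm.toMonoidHom) = Nat.card D := fun D =>
    (Nat.card_congr (D.equivMapOfInjective _ e.symm.injective).toEquiv).symm
  obtain ⟨g, hg⟩ := hB _ _ (hmap A hA) (hmap B hB') (by rw [hc, hc, hcard])
  refine ⟨e g, Subgroup.map_injective (f := e.symm.toMonoidHom) e.symm.injective ?_⟩
  rw [hg, Subgroup.map_map, Subgroup.map_map]
  congr 1
  ext x
  simp

end AbConj

theorem quotient_induction (good : ∀ (G : Type u) [Group G], Subgroup G → Prop)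
    (hmono : ∀ (G : Type u) [Group G] [Finite G] (V M : Subgroup G) [V.Normal], V ≤ M →
      good G M → good (G ⧸ V) (M.map (QuotientGroup.mk' V)))
    (hstep : ∀ (G : Type u) [Group G] [Finite G] (V M : Subgroup G) [V.Normal], AbConj G →
      Group.IsSolvable G → V ≤ M → V ≠ ⊥ →
      (∀ W : Subgroup G, W.Normal → W ≤ V → W = ⊥ ∨ W = V) → good G M → AbConj (G ⧸ V)) :
    ∀ (G : Type u) [Group G] [Finite G], AbConj G → Group.IsSolvable G →
      ∀ (M : Subgroup G) [M.Normal], good G M → AbConj (G ⧸ M) := by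
  intro G
  induction hn : Nat.card G using Nat.strong_induction_on generalizing G with
  | _ n ih =>
    intro _ _ hB hsol M _ hM
    subst hn
    by_cases hbot : M = ⊥
    · subst hbot
      exact hB.transport (QuotientGroup.quotientBot (G := G)).symm
    obtain ⟨V, hV, hVne, hVM, hmin⟩ := Cfsg.Agent.H19.exists_minimalNormal_le M hbot
    have hlt : Nat.card (G ⧸ V) < Nat.card G := by
      have h1 := Subgroup.card_mul_index V
      rw [Subgroup.index_eq_card] at h1
      have h2 : 1 < Nat.card V := (Subgroup.one_lt_card_iff_ne_bot V).2 hVne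
      have : 0 < Nat.card (G ⧸ V) := Nat.card_pos
      nlinarith
    haveI := hsol
    haveI : (M.map (QuotientGroup.mk' V)).Normal :=
      Subgroup.Normal.map inferInstance _ (QuotientGroup.mk'_surjective V)
    have h3 := ih _ hlt (G ⧸ V) rfl (hstep G V M hB hsol hVM hVne hmin hM) inferInstance
      (M.map (QuotientGroup.mk' V)) (hmono G V M hVM hM)
    exact h3.transport (QuotientGroup.quotientQuotientEquivQuotient V M hVM)

/-- Quotients by normal subgroups of odd order. -/
theorem AbConj.quotient_odd {G : Type u} [Group G] [Finite G] (hB : AbConj G)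
    (hsol : Group.IsSolvable G) (M : Subgroup G) [M.Normal] (hM : Odd (Nat.card M)) :
    AbConj (G ⧸ M) :=
  quotient_induction.{u} (fun G _ M => Odd (Nat.card M))
    (fun G _ _ V M _ _ h => h.of_dvd_nat (M.card_map_dvd _))
    (fun G _ _ V M _ hB hsol hVM hVne hmin h => hB.quotient_minimal_step hsol hVne hmin
      fun h2 => absurd (h.of_dvd_nat (h2 ▸ Subgroup.card_dvd_of_le hVM)) (by decide))
    G hB hsol M hM

/-- A quaternion Sylow subgroup of such a solvable group has order 8. -/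
theorem AbConj.card_quaternion_dvd {G : Type u} [Group G] [Finite G] (hB : AbConj G)
    (hsol : Group.IsSolvable G) (P : Sylow 2 G) {n : ℕ}
    (e : (P : Subgroup G) ≃* QuaternionGroup (2 ^ n)) : Nat.card (P : Subgroup G) ∣ 2 ^ 3 := by
  haveI : Fact (Nat.Prime 2) := ⟨Nat.prime_two⟩
  have hcP : Nat.card (P : Subgroup G) = 4 * 2 ^ n := by
    rw [Nat.card_congr e.toEquiv, Nat.card_eq_fintype_card, QuaternionGroup.card]
  by_cases hn : n ≤ 1
  · rw [hcP, show (4 : ℕ) = 2 ^ 2 from rfl, ← pow_add]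
    exact pow_dvd_pow 2 (by omega)
  exfalso
  haveI := hsol
  set O := Cfsg.pPrimeCore 2 G with hO
  haveI : O.Normal := Cfsg.Agent.H19.pPrimeCore_normal 2 G
  have hB' : AbConj (G ⧸ O) := hB.quotient_odd hsol O
    (Nat.coprime_two_right.1 (Cfsg.Agent.H19.pPrimeCore_coprime (G := G) 2))
  have hO1 : Cfsg.pPrimeCore 2 (G ⧸ O) = ⊥ := Cfsg.Agent.H19.pPrimeCore_quotient_pPrimeCore 2
  set π := QuotientGroup.mk' O
  set P' : Sylow 2 (G ⧸ O) := P.mapSurjective (QuotientGroup.mk'_surjective O) with hP'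
  let f : (P : Subgroup G) →* (P' : Subgroup (G ⧸ O)) :=
    (π.comp (P : Subgroup G).subtype).codRestrict _ fun x => ⟨x, x.2, rfl⟩
  have hf : Function.Bijective f := by
    refine ⟨?_, fun ⟨y, x, hx, hxy⟩ => ⟨⟨x, hx⟩, Subtype.ext hxy⟩⟩
    rw [injective_iff_map_eq_one]
    intro x hx
    have h1 : (x : G) ∈ O := (QuotientGroup.eq_one_iff _).1 (congrArg Subtype.val hx)
    obtain ⟨k, hk⟩ := IsPGroup.iff_orderOf.1 P.2 x
    refine orderOf_eq_one_iff.1 (Nat.eq_one_of_dvd_coprimes ?_ (dvd_of_eq hk)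
      (Subgroup.orderOf_coe x ▸ Subgroup.orderOf_mk (x : G) h1 ▸ orderOf_dvd_natCard _))
    exact (Cfsg.Agent.H19.pPrimeCore_coprime (G := G) 2).symm.pow_left k
  set e' : (P' : Subgroup (G ⧸ O)) ≃* QuaternionGroup (2 ^ n) := (MulEquiv.ofBijective f hf).symm.trans e
  obtain ⟨m, rfl⟩ : ∃ m, n = m + 2 := ⟨n - 2, by omega⟩
  set T := Cfsg.pCore 2 (G ⧸ O) with hT
  haveI : T.Normal := Cfsg.Agent.H19.pCore_normal 2 _
  have hTp : IsPGroup 2 T := Cfsg.Agent.H19.pCore_isPGroup 2
  have hTP : T ≤ (P' : Subgroup (G ⧸ O)) := Cfsg.Agent.H19.pCore_le_sylow P'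
  have hCT := Cfsg.Agent.H19.centralizer_pCore_le (G := G ⧸ O) (p := 2) hO1
  -- squares and elements of order four
  set a : QuaternionGroup (2 ^ (m + 2)) := QuaternionGroup.a 1 with ha
  have hb4 : orderOf ((a ^ 2 ^ m) ^ 2) = 4 := by
    rw [← pow_mul, ← pow_succ, orderOf_pow_of_dvd (pow_ne_zero _ two_ne_zero),
      QuaternionGroup.orderOf_a_one]
    · rw [show 2 * 2 ^ (m + 2) = 4 * 2 ^ (m + 1) by ring, Nat.mul_div_cancel _ (Nat.two_pow_pos _)]
    · rw [QuaternionGroup.orderOf_a_one]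
      exact ⟨4, by ring⟩
  -- `T` contains an element of order four
  obtain ⟨t, htT, ht4⟩ : ∃ t ∈ T, orderOf t = 4 := by
    by_contra hall
    push Not at hall
    have hsq : ∀ t ∈ T, t * t = 1 := by
      intro t ht
      obtain ⟨k, hk⟩ := IsPGroup.iff_orderOf.1 hTp ⟨t, ht⟩
      rw [Subgroup.orderOf_mk] at hk
      rcases k with _ | _ | k
      · rw [pow_zero, orderOf_eq_one_iff] at hk; rw [hk, one_mul]
      · rw [← sq, ← orderOf_dvd_iff_pow_eq_one, hk, zero_add, pow_one]
      · exfalso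
        apply hall (t ^ 2 ^ k) (pow_mem ht _)
        rw [orderOf_pow_of_dvd (pow_ne_zero _ two_ne_zero) (hk ▸ pow_dvd_pow 2 (by omega)), hk,
          pow_add, pow_add, Nat.mul_assoc, Nat.mul_div_cancel_left _ (Nat.two_pow_pos k)]
        norm_num
    have hcen : ∀ t ∈ T, ∀ g : G ⧸ O, g * t = t * g := by
      intro t ht g
      by_cases ht1 : t = 1
      · rw [ht1]; simp
      have hQ : ∀ w : QuaternionGroup (2 ^ (m + 2)), w * w = 1 → w ≠ 1 →
          w = QuaternionGroup.a ((2 ^ (m + 2) : ℕ) : ZMod _) := by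
        rintro (j | j) hw hw1
        · rw [QuaternionGroup.a_mul_a, ← QuaternionGroup.a_zero] at hw
          have hj : j + j = 0 := QuaternionGroup.a.inj hw
          have h2 : 2 * 2 ^ (m + 2) ∣ 2 * j.val := by
            rw [← ZMod.natCast_eq_zero_iff, Nat.cast_mul, ZMod.natCast_zmod_val, Nat.cast_two,
              two_mul j, hj]
          obtain ⟨i, hi⟩ := Nat.dvd_of_mul_dvd_mul_left two_pos h2
          have := j.val_lt
          rcases i with _ | _ | i
          · exfalso; apply hw1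
            rw [← QuaternionGroup.a_zero, ← ZMod.natCast_zmod_val j, hi, mul_zero, Nat.cast_zero]
          · rw [← ZMod.natCast_zmod_val j, hi, zero_add, mul_one]
          · exfalso; nlinarith
        · exfalso
          have h1 := QuaternionGroup.orderOf_xa j
          have h2 := Nat.le_of_dvd two_pos (orderOf_dvd_of_pow_eq_one (by rw [sq]; exact hw :
            (QuaternionGroup.xa j) ^ 2 = 1))
          omega
      have hu : ∀ s ∈ T, s ≠ 1 → s = t := by
        intro s hs hs1
        have h1 : ∀ r (hr : r ∈ T), r ≠ 1 → e' ⟨r, hTP hr⟩ = QuaternionGroup.a _ := fun r hr hr1 =>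
          hQ _ (by rw [← map_mul]; exact (congrArg e' (Subtype.ext (hsq r hr) : (⟨r, hTP hr⟩ :
            (P' : Subgroup (G ⧸ O))) * ⟨r, hTP hr⟩ = 1)).trans (map_one e'))
            (fun h => hr1 (congrArg Subtype.val (e'.map_eq_one_iff.1 h)))
        exact congrArg Subtype.val (e'.injective ((h1 s hs hs1).trans (h1 t ht ht1).symm))
      have := hu (g * t * g⁻¹) ((inferInstance : T.Normal).conj_mem t ht g) (fun h => ht1 (by
        rwa [mul_inv_eq_one, mul_eq_left] at h))
      exact mul_inv_eq_iff_eq_mul.1 this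
    have htop : (⊤ : Subgroup (G ⧸ O)) ≤ T := fun g _ =>
      hCT (Subgroup.mem_centralizer_iff.2 fun t ht => (hcen t ht g).symm)
    have hz : (e'.symm ((a ^ 2 ^ m) ^ 2) : G ⧸ O) ∈ T := htop (Subgroup.mem_top _)
    exact hall _ hz (by rw [Subgroup.orderOf_coe, MulEquiv.orderOf_eq, hb4])
  -- so `T` is the Sylow subgroup
  have hall4 : ∀ y : G ⧸ O, orderOf y = 4 → y ∈ T := fun y hy =>
    hB'.mem_of_orderOf_eq inferInstance htT (ht4.trans hy.symm)
  have hPT : ∀ y : (P' : Subgroup (G ⧸ O)), (y : G ⧸ O) ∈ T := by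
    intro y
    obtain ⟨w, rfl⟩ : ∃ w, e'.symm w = y := ⟨e' y, e'.symm_apply_apply y⟩
    rcases w with j | j
    · rw [show QuaternionGroup.a j = (QuaternionGroup.xa 0 * QuaternionGroup.xa
          (j - ((2 ^ (m + 2) : ℕ) : ZMod (2 * 2 ^ (m + 2)))) : QuaternionGroup (2 ^ (m + 2))) by
          rw [QuaternionGroup.xa_mul_xa]; congr 1; ring, map_mul]
      exact mul_mem (hall4 _ (by rw [Subgroup.orderOf_coe, MulEquiv.orderOf_eq, QuaternionGroup.orderOf_xa]))
        (hall4 _ (by rw [Subgroup.orderOf_coe, MulEquiv.orderOf_eq, QuaternionGroup.orderOf_xa]))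
    · exact hall4 _ (by rw [Subgroup.orderOf_coe, MulEquiv.orderOf_eq, QuaternionGroup.orderOf_xa])
  have hPeq : (P' : Subgroup (G ⧸ O)) = T := le_antisymm (fun y hy => hPT ⟨y, hy⟩) hTP
  set b : G ⧸ O := ((e'.symm ((a ^ 2 ^ m) ^ 2) : (P' : Subgroup (G ⧸ O))) : G ⧸ O) with hb
  set x : G ⧸ O := ((e'.symm (QuaternionGroup.xa 0) : (P' : Subgroup (G ⧸ O))) : G ⧸ O) with hx
  obtain ⟨g, c, hc, hxc⟩ := hB'.exists_conj_mem (A := Subgroup.zpowers b) inferInstance (x := x) (by
    rw [Nat.card_zpowers, hb, hx, Subgroup.orderOf_coe, Subgroup.orderOf_coe, MulEquiv.orderOf_eq,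
      MulEquiv.orderOf_eq, hb4, QuaternionGroup.orderOf_xa])
  obtain ⟨i, rfl⟩ := hc
  set s : G ⧸ O := g * ((e'.symm (a ^ 2 ^ m) : (P' : Subgroup (G ⧸ O))) : G ⧸ O) ^ i * g⁻¹ with hs
  have hsP : s ∈ (P' : Subgroup (G ⧸ O)) := by
    rw [hPeq]
    exact (inferInstance : T.Normal).conj_mem _ (zpow_mem (hPT _) i) g
  have hss : x = s ^ 2 := by
    rw [hxc, hs, conj_pow]
    congr 2
    have hbw : b = ((e'.symm (a ^ 2 ^ m) : (P' : Subgroup (G ⧸ O))) : G ⧸ O) ^ 2 := by
      rw [hb, map_pow, Subgroup.coe_pow]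
    rw [hbw]
    dsimp only
    generalize ((e'.symm (a ^ 2 ^ m) : (P' : Subgroup (G ⧸ O))) : G ⧸ O) = w
    rw [← zpow_natCast, ← zpow_natCast, ← zpow_mul, ← zpow_mul, mul_comm]
  have h5 : QuaternionGroup.xa 0 = e' ⟨s, hsP⟩ ^ 2 := by
    rw [← map_pow, ← e'.symm.injective.eq_iff, e'.symm_apply_apply]
    exact Subtype.ext hss
  generalize e' ⟨s, hsP⟩ = w at h5
  rcases w with j | j <;> simp [sq] at h5

/-- Quotients of solvable groups with the property have it. -/
theorem AbConj.quotient {G : Type u} [Group G] [Finite G] (hB : AbConj G)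
    (hsol : Group.IsSolvable G) (M : Subgroup G) [M.Normal] : AbConj (G ⧸ M) :=
  quotient_induction.{u} (fun _ _ _ => True) (fun _ _ _ _ _ _ _ _ => trivial)
    (fun G _ _ V M _ hB hsol _ hVne hmin _ => hB.quotient_minimal_step hsol hVne hmin fun hV P => by
      haveI : Fact (Nat.Prime 2) := ⟨Nat.prime_two⟩
      rcases hB.cyclic_quaternion_or_exponent P.2 with h | ⟨-, n, ⟨e⟩⟩ | h
      · exact Or.inl h
      · exact Or.inr (hB.card_quaternion_dvd hsol P e)
      · left
        haveI : IsCyclic V := isCyclic_of_prime_card hV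
        exact Subgroup.isCyclic_of_le (H' := V) fun x hx => hB.pow_eq_one_mem hV (h x hx))
    G hB hsol M trivial

end Cfsg.Agent.H85
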