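import Mathlib
import Cfsg.Prelude.Def_Transfer
import Cfsg.Agent.H28.ZStar
import Cfsg.Agent.H85.ClassCount

/-!
# Many classes of 2-elements force a normal 2-complement
-/

set_option autoImplicit false
set_option linter.style.haveILetI false
set_option linter.unusedSectionVars false

namespace Cfsg.Agent.H85

universe u

section Basic

variable {G : Type u} [Group G] [Finite G] {p : ℕ} [hp : Fact p.Prime]

theorem hasNormalPComplement_of (N : Subgroup G) [N.Normal] (h1 : ¬ p ∣ Nat.card N)
    (h2 : ∃ k, N.index = p ^ k) : Cfsg.HasNormalPComplement p G := by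
  obtain ⟨P⟩ := (inferInstance : Nonempty (Sylow p G))
  obtain ⟨k, hk⟩ := h2
  refine ⟨P, N, inferInstance, Subgroup.isComplement'_of_coprime ?_ ?_⟩
  · have hmul := Subgroup.card_mul_index N
    rw [hk] at hmul
    rw [Sylow.card_eq_multiplicity P, ← hmul, Nat.factorization_mul Nat.card_pos.ne'
      (pow_ne_zero _ hp.out.ne_zero), Finsupp.add_apply, Nat.factorization_eq_zero_of_not_dvd h1,
      hp.out.factorization_pow, Finsupp.single_eq_same, zero_add]
  · obtain ⟨l, hl⟩ := IsPGroup.iff_card.1 P.2
    rw [hl]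
    exact ((hp.out.coprime_iff_not_dvd.2 h1).symm).pow_right l

/-- `2`-power elements conjugate modulo a normal `p'`-subgroup are conjugate. -/
theorem isConj_of_mk_isConj (O : Subgroup G) [O.Normal] (hO : ¬ p ∣ Nat.card O) {x y : G}
    (hx : ∃ k, orderOf x = p ^ k) (hy : ∃ k, orderOf y = p ^ k)
    (h : IsConj (QuotientGroup.mk' O x) (QuotientGroup.mk' O y)) : IsConj x y := by
  obtain ⟨c, hc⟩ := isConj_iff.1 h
  obtain ⟨g, rfl⟩ := QuotientGroup.mk'_surjective O c
  rw [← map_inv, ← map_mul, ← map_mul] at hc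
  set z := g * x * g⁻¹ with hz
  have hzo : orderOf z = orderOf x := (MulAut.conj g).orderOf_eq x
  set K := Subgroup.zpowers y ⊔ O with hK
  have hyK : y ∈ K := Subgroup.mem_sup_left (Subgroup.mem_zpowers y)
  have hzK : z ∈ K := by
    have h1 : y⁻¹ * z ∈ O := QuotientGroup.eq.1 hc.symm
    simpa using mul_mem hyK (Subgroup.mem_sup_right (S := Subgroup.zpowers y) h1)
  haveI : (O.subgroupOf K).Normal := Subgroup.normal_subgroupOf
  obtain ⟨ky, hky⟩ := hy
  obtain ⟨kz, hkz⟩ := hx
  have hKcard : ∀ S : Subgroup G, S ≤ K → IsPGroup p S → ∃ k, Nat.card S = p ^ k := fun S _ h => IsPGroup.iff_card.1 h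
  have hyp : IsPGroup p (Subgroup.zpowers (⟨y, hyK⟩ : K)) := IsPGroup.of_card (n := ky)
    (by rw [Nat.card_zpowers, Subgroup.orderOf_mk, hky])
  have hidx : ¬ p ∣ (Subgroup.zpowers (⟨y, hyK⟩ : K)).index := by
    intro hd
    apply hO
    refine hd.trans ?_
    have h1 : Subgroup.zpowers (⟨y, hyK⟩ : K) ⊔ O.subgroupOf K = ⊤ := by
      apply Subgroup.map_injective K.subtype_injective
      rw [Subgroup.map_sup, MonoidHom.map_zpowers, Subgroup.subgroupOf_map_subtype,
        inf_eq_left.2 (le_sup_right : O ≤ K), ← MonoidHom.range_eq_map, Subgroup.range_subtype]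
      rfl
    have h2 := Subgroup.relIndex_mul_relIndex (Subgroup.zpowers (⟨y, hyK⟩ : K) ⊓ O.subgroupOf K)
      (O.subgroupOf K) ⊤ inf_le_right le_top
    have h3 := Subgroup.relIndex_mul_relIndex (Subgroup.zpowers (⟨y, hyK⟩ : K) ⊓ O.subgroupOf K)
      (Subgroup.zpowers (⟨y, hyK⟩ : K)) ⊤ inf_le_left le_top
    rw [Subgroup.inf_relIndex_left, ← Subgroup.relIndex_sup_left (H := Subgroup.zpowers (⟨y, hyK⟩ : K)),
      sup_comm, h1, Subgroup.relIndex_top_right, Subgroup.relIndex_top_right] at h3
    rw [Subgroup.inf_relIndex_right, Subgroup.relIndex_top_right, ← h3, mul_comm] at h2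
    have hne : (O.subgroupOf K).index ≠ 0 := Subgroup.FiniteIndex.index_ne_zero
    rw [← mul_left_cancel₀ hne h2,
      ← Nat.card_congr (Subgroup.subgroupOfEquivOfLe (le_sup_right : O ≤ K)).toEquiv]
    exact Subgroup.relIndex_dvd_card _ _
  have hzp : IsPGroup p (Subgroup.zpowers (⟨z, hzK⟩ : K)) := IsPGroup.of_card (n := kz)
    (by rw [Nat.card_zpowers, Subgroup.orderOf_mk, hzo, hkz])
  obtain ⟨R, hR⟩ := hzp.exists_le_sylow
  obtain ⟨k, hk⟩ := MulAction.exists_smul_eq K R (hyp.toSylow hidx)
  have h1 : k * ⟨z, hzK⟩ * k⁻¹ ∈ Subgroup.zpowers (⟨y, hyK⟩ : K) := by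
    have h2 : k * ⟨z, hzK⟩ * k⁻¹ ∈ ((k • R : Sylow p K) : Subgroup K) := by
      rw [Sylow.coe_subgroup_smul]
      exact ⟨_, hR (Subgroup.mem_zpowers _), rfl⟩
    rw [hk] at h2
    exact h2
  obtain ⟨i, hi⟩ := h1
  have hi' : y ^ i = (k : G) * z * (k : G)⁻¹ := congrArg Subtype.val hi
  have hky' : QuotientGroup.mk' O (k : G) ∈ Subgroup.zpowers (QuotientGroup.mk' O y) := by
    have h3 : (k : G) ∈ Subgroup.zpowers y ⊔ O := k.2
    obtain ⟨a, ⟨j, rfl⟩, o, ho, he⟩ := Subgroup.mem_sup_of_normal_right.1 h3
    have ho1 : QuotientGroup.mk' O o = 1 := (QuotientGroup.eq_one_iff o).2 ho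
    rw [← he, map_mul, ho1, mul_one, map_zpow]
    exact zpow_mem (Subgroup.mem_zpowers _) _
  obtain ⟨j, hj⟩ := hky'
  have h4 : QuotientGroup.mk' O (y ^ i) = QuotientGroup.mk' O y := by
    rw [hi', map_mul, map_mul, map_inv, hc, ← hj]
    exact (((Commute.refl (QuotientGroup.mk' O y)).zpow_left j).eq).symm ▸ mul_inv_cancel_right _ _
  have h5 : y ^ i * y⁻¹ ∈ O := by
    rw [← QuotientGroup.eq_one_iff]
    show QuotientGroup.mk' O (y ^ i * y⁻¹) = 1
    rw [map_mul, h4, map_inv, mul_inv_cancel]
  have h6 : y ^ i = y := by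
    rw [← mul_inv_eq_one, ← orderOf_eq_one_iff]
    have ha : orderOf (y ^ i * y⁻¹) ∣ p ^ ky := by
      rw [← hky]
      exact orderOf_dvd_of_mem_zpowers (mul_mem ⟨i, rfl⟩ (inv_mem (Subgroup.mem_zpowers y)))
    have hb : orderOf (y ^ i * y⁻¹) ∣ Nat.card O := by
      rw [← Subgroup.orderOf_mk _ h5]
      exact orderOf_dvd_natCard _
    exact Nat.eq_one_of_dvd_coprimes ((hp.out.coprime_iff_not_dvd.2 hO).pow_left ky) ha hb
  refine isConj_iff.2 ⟨k * g, ?_⟩
  rw [← h6, hi', hz]
  group

end Basic

section Two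

variable {G : Type u} [Group G] [Finite G]

theorem two_group_mem_orderOf {P : Sylow 2 G} {z : G} (hz : z ∈ (P : Subgroup G)) :
    ∃ k, orderOf z = 2 ^ k := by
  obtain ⟨k, hk⟩ := IsPGroup.iff_orderOf.1 P.2 ⟨z, hz⟩
  exact ⟨k, by rwa [Subgroup.orderOf_mk] at hk⟩

/-- A `2`-element isolated in a Sylow subgroup gives an isolated involution. -/
theorem exists_isolated_involution (P : Sylow 2 G) {z : G} (hz : z ∈ (P : Subgroup G)) (hz1 : z ≠ 1)
    (hiso : ∀ g : G, g * z * g⁻¹ ∈ (P : Subgroup G) → g * z * g⁻¹ = z) :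
    ∃ w : G, orderOf w = 2 ∧ w ∈ (P : Subgroup G) ∧
      ∀ g : G, g * w * g⁻¹ ∈ P → g * w * g⁻¹ = w := by
  haveI : Fact (Nat.Prime 2) := ⟨Nat.prime_two⟩
  obtain ⟨k, hk⟩ := two_group_mem_orderOf hz
  have hk0 : k ≠ 0 := fun h => hz1 (by rw [h, pow_zero, orderOf_eq_one_iff] at hk; exact hk)
  obtain ⟨k, rfl⟩ : ∃ l, k = l + 1 := ⟨k - 1, by omega⟩
  set w := z ^ 2 ^ k with hw
  have hwo : orderOf w = 2 := by
    rw [hw, orderOf_pow_of_dvd (pow_ne_zero _ two_ne_zero) (hk ▸ pow_dvd_pow 2 k.le_succ), hk, pow_succ,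
      Nat.mul_div_cancel_left _ (Nat.two_pow_pos k)]
  refine ⟨w, hwo, pow_mem hz _, fun g hg => ?_⟩
  set w' := g * w * g⁻¹ with hw'
  set z' := g * z * g⁻¹ with hz'
  have hcent : ∀ a ∈ (P : Subgroup G), a * z = z * a := fun a ha => by
    have := hiso a (mul_mem (mul_mem ha hz) (inv_mem ha))
    rwa [mul_inv_eq_iff_eq_mul] at this
  set H := Subgroup.centralizer ({w'} : Set G) with hH
  have hzH : z ∈ H := Subgroup.mem_centralizer_singleton_iff.2 (hcent w' hg).symm
  have hz'H : z' ∈ H := by
    rw [Subgroup.mem_centralizer_singleton_iff, hz', hw', hw]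
    group
  have hpg : ∀ (x : H), (∃ m, orderOf (x : G) = 2 ^ m) → IsPGroup 2 (Subgroup.zpowers x) :=
    fun x ⟨m, hm⟩ => IsPGroup.of_card (n := m) (by rw [Nat.card_zpowers, ← Subgroup.orderOf_coe, hm])
  obtain ⟨Q, hQ⟩ := (hpg ⟨z, hzH⟩ ⟨_, hk⟩).exists_le_sylow
  obtain ⟨R, hR⟩ := (hpg ⟨z', hz'H⟩ ⟨_, ((MulAut.conj g).orderOf_eq z).trans hk⟩).exists_le_sylow
  obtain ⟨h, hh⟩ := MulAction.exists_smul_eq H R Q
  have h1 : (h : G) * z' * (h : G)⁻¹ ∈ (Q : Subgroup H).map H.subtype := by
    refine ⟨h * ⟨z', hz'H⟩ * h⁻¹, ?_, rfl⟩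
    rw [← hh, Sylow.coe_subgroup_smul]
    exact ⟨_, hR (Subgroup.mem_zpowers _), rfl⟩
  obtain ⟨S, hS⟩ := (Q.2.map H.subtype).exists_le_sylow
  obtain ⟨a, ha⟩ := MulAction.exists_smul_eq G P S
  have h2 : ∀ x ∈ (S : Subgroup G), a⁻¹ * x * a ∈ (P : Subgroup G) := by
    intro x hx
    rw [← ha, Sylow.coe_subgroup_smul] at hx
    obtain ⟨b, hb, rfl⟩ := hx
    show a⁻¹ * (a * b * a⁻¹) * a ∈ _
    simp [mul_assoc]
    exact hb
  have h3 : a⁻¹ * z * a = z := by
    have := hiso a⁻¹ (by rw [inv_inv]; exact h2 z (hS ⟨⟨z, hzH⟩, hQ (Subgroup.mem_zpowers _), rfl⟩))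
    rwa [inv_inv] at this
  have h4 : a⁻¹ * ((h : G) * z' * (h : G)⁻¹) * a = z := by
    have e : a⁻¹ * ((h : G) * z' * (h : G)⁻¹) * a = (a⁻¹ * h * g) * z * (a⁻¹ * h * g)⁻¹ := by
      rw [hz']; group
    rw [e]
    exact hiso _ (e ▸ h2 _ (hS h1))
  have h5 : (h : G) * z' * (h : G)⁻¹ = z := by
    rw [← h3] at h4
    exact mul_left_cancel (mul_right_cancel h4)
  have h6 : (h : G) * w' * (h : G)⁻¹ = w := by
    rw [hw', hw]
    conv_rhs => rw [← h5, hz', conj_pow, conj_pow]
  have h7 : (h : G) * w' = w' * h := Subgroup.mem_centralizer_singleton_iff.1 h.2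
  rwa [h7, mul_inv_cancel_right] at h6

theorem two_mul_pClassCount_le_card : ∀ (G : Type u) [Group G] [Finite G],
    ¬ Cfsg.HasNormalPComplement 2 G → ∀ P : Sylow 2 G,
      2 * pClassCount 2 G ≤ Nat.card (P : Subgroup G) := by
  intro G
  induction hn : Nat.card G using Nat.strong_induction_on generalizing G with
  | _ n ih =>
    intro _ _ hnc P
    subst hn
    haveI : Fact (Nat.Prime 2) := ⟨Nat.prime_two⟩
    by_cases hex : ∃ z ∈ (P : Subgroup G), z ≠ 1 ∧
        ∀ g : G, g * z * g⁻¹ ∈ (P : Subgroup G) → g * z * g⁻¹ = z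
    · obtain ⟨z, hz, hz1, hiso⟩ := hex
      obtain ⟨w, hwo, hwP, hwiso⟩ := exists_isolated_involution P hz hz1 hiso
      have hZ := Cfsg.Agent.H28.zStar (Cfsg.Agent.H28.isIsolatedInvolution_of_sylow P hwo hwiso)
      set O := Cfsg.pPrimeCore 2 G with hO
      haveI : O.Normal := Cfsg.Agent.H19.pPrimeCore_normal 2 G
      have hOodd : ¬ 2 ∣ Nat.card O := fun h =>
        (Nat.prime_two.coprime_iff_not_dvd.1 (Cfsg.Agent.H19.pPrimeCore_coprime (G := G) 2).symm) h
      by_cases hOb : O = ⊥
      · -- `w` is central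
        have hwc : w ∈ Subgroup.center G := Subgroup.mem_center_iff.2 fun g => by
          have := hZ g
          rw [hOb, Subgroup.mem_bot, mul_inv_eq_one, mul_inv_eq_iff_eq_mul] at this
          exact this.symm
        set W := Subgroup.zpowers w with hW
        have hWc : W ≤ Subgroup.center G := Subgroup.zpowers_le.2 hwc
        haveI : W.Normal := ⟨fun a ha b => by
          rw [Subgroup.mem_center_iff.1 (hWc ha) b, mul_inv_cancel_right]; exact ha⟩
        have hWcard : Nat.card W = 2 := by rw [Nat.card_zpowers, hwo]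
        set π := QuotientGroup.mk' W with hπ
        have hlt : Nat.card (G ⧸ W) < Nat.card G := by
          have h1 := Subgroup.card_mul_index W
          rw [hWcard, Subgroup.index_eq_card] at h1
          have : 0 < Nat.card (G ⧸ W) := Nat.card_pos
          omega
        have hncq : ¬ Cfsg.HasNormalPComplement 2 (G ⧸ W) := by
          rintro ⟨P', N, hN, hNP⟩
          apply hnc
          have hNodd : ¬ 2 ∣ Nat.card N := by
            rw [← hNP.index_eq_card]; exact P'.not_dvd_index
          set K := N.comap π with hKdef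
          haveI : K.Normal := Subgroup.Normal.comap hN π
          haveI : (W.subgroupOf K).Normal := Subgroup.normal_subgroupOf
          have hWK : W ≤ K := fun a ha => by
            rw [hKdef, Subgroup.mem_comap, show π a = 1 from (QuotientGroup.eq_one_iff a).2 ha]
            exact one_mem _
          have hKcard : Nat.card K = 2 * Nat.card N := by
            have h1 := Subgroup.card_mul_index K
            have h2 : K.index = N.index :=
              Subgroup.index_comap_of_surjective _ (QuotientGroup.mk'_surjective W)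
            have h3 := Subgroup.card_mul_index N
            have h4 := Subgroup.card_mul_index W
            rw [hWcard, Subgroup.index_eq_card, ← h3, ← h1, ← h2, ← mul_assoc] at h4
            exact (Nat.eq_of_mul_eq_mul_right (Nat.pos_of_ne_zero Subgroup.FiniteIndex.index_ne_zero) h4).symm
          have hcop : Nat.Coprime (Nat.card (W.subgroupOf K)) (W.subgroupOf K).index := by
            rw [Nat.card_congr (Subgroup.subgroupOfEquivOfLe hWK).toEquiv, hWcard]
            have h1 := Subgroup.card_mul_index (W.subgroupOf K)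
            rw [Nat.card_congr (Subgroup.subgroupOfEquivOfLe hWK).toEquiv, hWcard, hKcard] at h1
            rw [Nat.eq_of_mul_eq_mul_left two_pos h1]
            exact Nat.prime_two.coprime_iff_not_dvd.2 hNodd
          obtain ⟨L, hL⟩ := Subgroup.exists_right_complement'_of_coprime hcop
          have hLcard : Nat.card L = Nat.card N := by
            have h1 := hL.card_mul
            rw [Nat.card_congr (Subgroup.subgroupOfEquivOfLe hWK).toEquiv, hWcard, hKcard] at h1
            exact Nat.eq_of_mul_eq_mul_left two_pos h1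
          have hchar : ∀ k : K, k ∈ L ↔ k ^ Nat.card N = 1 := by
            intro k
            constructor
            · intro hk
              rw [← hLcard]
              exact congrArg Subtype.val (pow_card_eq_one' (x := (⟨k, hk⟩ : L)))
            · intro hk
              obtain ⟨⟨a, b⟩, hab, -⟩ := Subgroup.IsComplement.existsUnique hL k
              have hc : Commute (a : K) (b : K) :=
                Subtype.ext (Subgroup.mem_center_iff.1 (hWc a.2) (b : K)).symm
              rw [← hab, hc.mul_pow] at hk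
              have hb : (b : K) ^ Nat.card N = 1 := by
                rw [← hLcard]; exact congrArg Subtype.val (pow_card_eq_one' (x := b))
              rw [hb, mul_one] at hk
              have ha2 : (a : K) ^ 2 = 1 := by
                have h1 := congrArg Subtype.val
                  (pow_card_eq_one' (x := (⟨(a : K), a.2⟩ : W.subgroupOf K)))
                rwa [Nat.card_congr (Subgroup.subgroupOfEquivOfLe hWK).toEquiv, hWcard] at h1
              have ha : (a : K) = 1 := orderOf_eq_one_iff.1
                (Nat.eq_one_of_dvd_coprimes (Nat.prime_two.coprime_iff_not_dvd.2 hNodd)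
                  (orderOf_dvd_of_pow_eq_one ha2) (orderOf_dvd_of_pow_eq_one hk))
              rw [← hab, ha, one_mul]
              exact b.2
          haveI : (L.map K.subtype).Normal := ⟨by
            rintro _ ⟨l, hl, rfl⟩ g
            refine ⟨⟨g * l * g⁻¹, (inferInstance : K.Normal).conj_mem l l.2 g⟩,
              (hchar _).2 (Subtype.ext ?_), rfl⟩
            simp [conj_pow, show (l : G) ^ Nat.card N = 1 by
              simpa using congrArg Subtype.val ((hchar l).1 hl)]⟩
          have hcardL : Nat.card (L.map K.subtype) = Nat.card N := by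
            rw [← hLcard]
            exact (Nat.card_congr (L.equivMapOfInjective _ K.subtype_injective).toEquiv).symm
          refine hasNormalPComplement_of (p := 2) (L.map K.subtype) (hcardL ▸ hNodd) ?_
          obtain ⟨l, hl⟩ := IsPGroup.iff_card.1 P'.2
          refine ⟨l + 1, ?_⟩
          have h1 := Subgroup.card_mul_index (L.map K.subtype)
          have h3 : Nat.card N * Nat.card (P' : Subgroup (G ⧸ W)) = Nat.card (G ⧸ W) := hNP.card_mul
          have h4 := Subgroup.card_mul_index W
          rw [hWcard, Subgroup.index_eq_card, ← h3, hl] at h4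
          rw [hcardL, ← h4] at h1
          have h5 : 0 < Nat.card N := Nat.card_pos
          apply Nat.eq_of_mul_eq_mul_left h5
          rw [h1, pow_succ]
          ring
        have hIH := ih _ hlt (G ⧸ W) rfl hncq (P.mapSurjective (QuotientGroup.mk'_surjective W))
        have hPcard : 2 * Nat.card ((P.mapSurjective (QuotientGroup.mk'_surjective W) : Sylow 2 (G ⧸ W)) :
            Subgroup (G ⧸ W)) = Nat.card (P : Subgroup G) := by
          rw [Sylow.card_eq_multiplicity, Sylow.card_eq_multiplicity]
          have h1 := Subgroup.card_mul_index W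
          rw [hWcard, Subgroup.index_eq_card] at h1
          rw [← h1, Nat.factorization_mul two_ne_zero Nat.card_pos.ne', Finsupp.add_apply,
            Nat.prime_two.factorization_self, pow_add, pow_one]
        -- classes
        have key : pClassCount 2 G ≤ 2 * pClassCount 2 (G ⧸ W) := by
          classical
          have hrep : ∀ c : {c : ConjClasses (G ⧸ W) // ∀ x ∈ c.carrier, ∃ k : ℕ, orderOf x = 2 ^ k},
              ∃ r : G, ConjClasses.mk (π r) = c.1 := fun c => by
            obtain ⟨y, hy⟩ := c.1.exists_rep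
            obtain ⟨r, rfl⟩ := QuotientGroup.mk'_surjective W y
            exact ⟨r, hy⟩
          choose r hr using hrep
          have himg : ∀ c : {c : ConjClasses G // ∀ x ∈ c.carrier, ∃ k : ℕ, orderOf x = 2 ^ k},
              ∃ d : {c : ConjClasses (G ⧸ W) // ∀ x ∈ c.carrier, ∃ k : ℕ, orderOf x = 2 ^ k} × Bool,
                c.1 = ConjClasses.mk (r d.1 * if d.2 then w else 1) := by
            rintro ⟨c, hc⟩
            obtain ⟨x, rfl⟩ := c.exists_rep
            obtain ⟨k, hk⟩ := hc x ConjClasses.mem_carrier_mk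
            let d1 : {c : ConjClasses (G ⧸ W) // ∀ x ∈ c.carrier, ∃ k : ℕ, orderOf x = 2 ^ k} :=
              ⟨ConjClasses.mk (π x), fun y hy => by
                obtain ⟨j, -, hj⟩ := (Nat.dvd_prime_pow Nat.prime_two).1
                  (hk ▸ orderOf_map_dvd π x)
                exact ⟨j, by rw [orderOf_eq_of_mem_carrier hy ConjClasses.mem_carrier_mk, hj]⟩⟩
            obtain ⟨cc, hcc⟩ := isConj_iff.1 (ConjClasses.mk_eq_mk_iff_isConj.1 (hr d1)).symm
            obtain ⟨g, rfl⟩ := QuotientGroup.mk'_surjective W cc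
            rw [← map_inv, ← map_mul, ← map_mul] at hcc
            obtain ⟨i, hi⟩ : (r d1)⁻¹ * (g * x * g⁻¹) ∈ W := QuotientGroup.eq.1 hcc.symm
            refine ⟨(d1, decide (Odd i)), ConjClasses.mk_eq_mk_iff_isConj.2 (isConj_iff.2 ⟨g, ?_⟩)⟩
            rw [← mul_inv_cancel_left (r d1) (g * x * g⁻¹), ← hi]
            congr 1
            have hw2 : w * w = 1 := by rw [← sq, ← hwo, pow_orderOf_eq_one]
            rcases Int.even_or_odd i with he | ho
            · simp only [Int.not_odd_iff_even.2 he, decide_false, Bool.false_eq_true, if_false]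
              obtain ⟨j, rfl⟩ := he
              show w ^ (j + j) = 1
              rw [zpow_add, ← (Commute.refl w).mul_zpow, hw2, one_zpow]
            · simp only [ho, decide_true, if_true]
              obtain ⟨j, rfl⟩ := ho
              show w ^ (2 * j + 1) = w
              rw [zpow_add, two_mul, zpow_add, ← (Commute.refl w).mul_zpow, hw2, one_zpow, one_mul,
                zpow_one]
          choose f hf using himg
          have h1 := Nat.card_le_card_of_injective f fun a b hab =>
            Subtype.ext (by rw [hf a, hf b, hab])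
          rw [Nat.card_prod, Nat.card_eq_fintype_card (α := Bool), Fintype.card_bool] at h1
          unfold pClassCount
          omega
        omega
      · -- reduce modulo the odd core
        set π := QuotientGroup.mk' O with hπ
        have hlt : Nat.card (G ⧸ O) < Nat.card G := by
          have h1 := Subgroup.card_mul_index O
          rw [Subgroup.index_eq_card] at h1
          have h2 : 1 < Nat.card O := (Subgroup.one_lt_card_iff_ne_bot O).2 hOb
          have : 0 < Nat.card (G ⧸ O) := Nat.card_pos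
          nlinarith
        have hncq : ¬ Cfsg.HasNormalPComplement 2 (G ⧸ O) := by
          rintro ⟨P', N, hN, hNP⟩
          apply hnc
          haveI : (N.comap π).Normal := Subgroup.Normal.comap hN π
          obtain ⟨l, hl⟩ := IsPGroup.iff_card.1 P'.2
          have hidx : (N.comap π).index = 2 ^ l := by
            rw [Subgroup.index_comap_of_surjective _ (QuotientGroup.mk'_surjective O),
              hNP.symm.index_eq_card, hl]
          refine hasNormalPComplement_of (p := 2) (N.comap π) (fun h2 => ?_) ⟨l, hidx⟩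
          have h1 := Subgroup.card_mul_index (N.comap π)
          have h3 := Subgroup.card_mul_index O
          rw [Subgroup.index_eq_card, ← (hNP.card_mul : _ = Nat.card (G ⧸ O)), hl, ← h1, hidx,
            ← mul_assoc] at h3
          rw [← Nat.eq_of_mul_eq_mul_right (Nat.two_pow_pos l) h3, Nat.prime_two.dvd_mul] at h2
          rcases h2 with h2 | h2
          · exact hOodd h2
          · rw [← hNP.index_eq_card] at h2; exact P'.not_dvd_index h2
        have hIH := ih _ hlt (G ⧸ O) rfl hncq (P.mapSurjective (QuotientGroup.mk'_surjective O))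
        have hle : Nat.card ((P.mapSurjective (QuotientGroup.mk'_surjective O) : Sylow 2 (G ⧸ O)) :
            Subgroup (G ⧸ O)) ≤ Nat.card (P : Subgroup G) := by
          rw [Sylow.coe_mapSurjective]
          exact Nat.le_of_dvd Nat.card_pos ((P : Subgroup G).card_map_dvd π)
        have key : pClassCount 2 G ≤ pClassCount 2 (G ⧸ O) := by
          have himg : ∀ c : {c : ConjClasses G // ∀ x ∈ c.carrier, ∃ k : ℕ, orderOf x = 2 ^ k},
              ∃ d : {c : ConjClasses (G ⧸ O) // ∀ x ∈ c.carrier, ∃ k : ℕ, orderOf x = 2 ^ k},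
                ∀ x ∈ c.1.carrier, d.1 = ConjClasses.mk (π x) := by
            rintro ⟨c, hc⟩
            obtain ⟨x, rfl⟩ := c.exists_rep
            obtain ⟨k, hk⟩ := hc x ConjClasses.mem_carrier_mk
            refine ⟨⟨ConjClasses.mk (π x), fun y hy => ?_⟩, fun y hy => ?_⟩
            · obtain ⟨j, -, hj⟩ := (Nat.dvd_prime_pow Nat.prime_two).1 (hk ▸ orderOf_map_dvd π x)
              exact ⟨j, by rw [orderOf_eq_of_mem_carrier hy ConjClasses.mem_carrier_mk, hj]⟩
            · exact ConjClasses.mk_eq_mk_iff_isConj.2 (MonoidHom.map_isConj π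
                (ConjClasses.mk_eq_mk_iff_isConj.1 (ConjClasses.mem_carrier_iff_mk_eq.1 hy).symm))
          choose f hf using himg
          refine Nat.card_le_card_of_injective f fun a b hab => ?_
          obtain ⟨x, hx⟩ := a.1.exists_rep
          obtain ⟨y, hy⟩ := b.1.exists_rep
          have hxm : x ∈ a.1.carrier := ConjClasses.mem_carrier_iff_mk_eq.2 hx
          have hym : y ∈ b.1.carrier := ConjClasses.mem_carrier_iff_mk_eq.2 hy
          have h1 : IsConj (π x) (π y) := ConjClasses.mk_eq_mk_iff_isConj.1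
            ((hf a x hxm).symm.trans ((congrArg Subtype.val hab).trans (hf b y hym)))
          refine Subtype.ext (hx.symm.trans ((ConjClasses.mk_eq_mk_iff_isConj.2 ?_).trans hy))
          exact isConj_of_mk_isConj O hOodd (a.2 x hxm) (b.2 y hym) h1
        omega
    · -- no isolated elements: each nontrivial class meets `P` twice
      push Not at hex
      classical
      let s := Function.surjInv (sylowToClass_surjective P)
      have hs : ∀ c, sylowToClass P (s c) = c := Function.surjInv_eq (sylowToClass_surjective P)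
      have h2 : ∀ c, ∃ z : (P : Subgroup G) ⊕ Unit,
          (∃ y, z = .inl y ∧ y ≠ s c ∧ sylowToClass P y = c) ∨ (z = .inr () ∧ (s c : G) = 1) := by
        intro c
        by_cases h1 : (s c : G) = 1
        · exact ⟨.inr (), Or.inr ⟨rfl, h1⟩⟩
        · obtain ⟨g, hg, hne⟩ := hex (s c) (s c).2 h1
          refine ⟨.inl ⟨g * s c * g⁻¹, hg⟩, Or.inl ⟨_, rfl, fun he => hne (congrArg Subtype.val he), ?_⟩⟩
          conv_rhs => rw [← hs c]
          exact Subtype.ext (ConjClasses.mk_eq_mk_iff_isConj.2 (isConj_iff.2 ⟨g⁻¹, by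
            show g⁻¹ * (g * (s c : G) * g⁻¹) * g⁻¹⁻¹ = _
            group⟩))
      choose z hz using h2
      have hsinj : Function.Injective s := Function.injective_surjInv _
      let j : {c : ConjClasses G // ∀ x ∈ c.carrier, ∃ k : ℕ, orderOf x = 2 ^ k} ⊕
          {c : ConjClasses G // ∀ x ∈ c.carrier, ∃ k : ℕ, orderOf x = 2 ^ k} → (P : Subgroup G) ⊕ Unit :=
        Sum.elim (fun c => .inl (s c)) z
      have hjinj : Function.Injective j := by
        rintro (a | a) (b | b) hab <;> simp only [j, Sum.elim_inl, Sum.elim_inr] at hab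
        · exact congrArg _ (hsinj (Sum.inl_injective hab))
        · exfalso
          rcases hz b with ⟨y, hy, hy1, hy2⟩ | ⟨hb, -⟩
          · rw [hy, Sum.inl.injEq] at hab
            rw [← hab, hs] at hy2
            subst hy2
            exact hy1 hab.symm
          · rw [hb] at hab; simp at hab
        · exfalso
          rcases hz a with ⟨y, hy, hy1, hy2⟩ | ⟨ha, -⟩
          · rw [hy, Sum.inl.injEq] at hab
            rw [hab, hs] at hy2
            subst hy2
            exact hy1 hab
          · rw [ha] at hab; simp at hab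
        · rcases hz a with ⟨y, hy, -, hy2⟩ | ⟨ha, ha1⟩ <;>
            rcases hz b with ⟨y', hy', -, hy2'⟩ | ⟨hb, hb1⟩
          · rw [hy, hy', Sum.inl.injEq] at hab
            rw [← hy2, ← hy2', hab]
          · rw [hy, hb] at hab; simp at hab
          · rw [ha, hy'] at hab; simp at hab
          · exact congrArg _ (hsinj (Subtype.ext (ha1.trans hb1.symm)))
      have h3 := Nat.card_le_card_of_injective j hjinj
      rw [Nat.card_sum, Nat.card_sum, Nat.card_unique (α := Unit)] at h3
      have h4 : 2 ∣ Nat.card (P : Subgroup G) := by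
        obtain ⟨l, hl⟩ := IsPGroup.iff_card.1 P.2
        rcases l with _ | l
        · exfalso
          apply hnc
          refine hasNormalPComplement_of (p := 2) (⊤ : Subgroup G) ?_ ⟨0, by simp⟩
          rw [Subgroup.card_top]
          intro h2
          have h5 := P.dvd_card_of_dvd_card h2
          rw [hl] at h5
          norm_num at h5
        · rw [hl]; exact dvd_pow_self 2 l.succ_ne_zero
      unfold pClassCount
      omega

/-- With a normal complement, `2`-element classes correspond to classes of the Sylow subgroup. -/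
theorem pClassCount_eq_sylow {p : ℕ} [Fact p.Prime] (P : Sylow p G)
    (hc : Cfsg.HasNormalPComplement p G) :
    pClassCount p G = Nat.card (ConjClasses (P : Subgroup G)) := by
  obtain ⟨Q, N, hN, hNQ⟩ := hc
  have hdisj : N ⊓ (P : Subgroup G) = ⊥ := by
    refine disjoint_iff.1 (Subgroup.disjoint_of_coprime_natCard ?_)
    rw [← hNQ.index_eq_card, Sylow.card_eq_multiplicity P]
    exact ((Fact.out : p.Prime).coprime_iff_not_dvd.2 Q.not_dvd_index).symm.pow_right _
  let φ : (P : Subgroup G) →* G ⧸ N := (QuotientGroup.mk' N).comp (P : Subgroup G).subtype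
  have hinj : Function.Injective φ := by
    rw [injective_iff_map_eq_one]
    intro x hx
    have : (x : G) ∈ N ⊓ (P : Subgroup G) := ⟨(QuotientGroup.eq_one_iff _).1 hx, x.2⟩
    rw [hdisj, Subgroup.mem_bot] at this
    exact Subtype.ext this
  have hsurj : Function.Surjective φ := by
    refine ((Nat.bijective_iff_injective_and_card φ).2 ⟨hinj, ?_⟩).2
    rw [← Subgroup.index_eq_card, Subgroup.IsComplement'.index_eq_card hNQ.symm,
      Sylow.card_eq_multiplicity P, Sylow.card_eq_multiplicity Q]
  let F : ConjClasses (P : Subgroup G) →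
      {c : ConjClasses G // ∀ x ∈ c.carrier, ∃ k : ℕ, orderOf x = p ^ k} :=
    fun c => Quotient.liftOn c (sylowToClass P) fun a b hab => Subtype.ext
      (ConjClasses.mk_eq_mk_iff_isConj.2 (MonoidHom.map_isConj (P : Subgroup G).subtype hab))
  refine (Nat.card_eq_of_bijective F ⟨?_, fun c => ?_⟩).symm
  · intro c d hcd
    obtain ⟨a, rfl⟩ := c.exists_rep
    obtain ⟨b, rfl⟩ := d.exists_rep
    obtain ⟨g, hg⟩ := isConj_iff.1
      (ConjClasses.mk_eq_mk_iff_isConj.1 (congrArg Subtype.val hcd))
    obtain ⟨u, hu⟩ := hsurj (QuotientGroup.mk' N g)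
    refine ConjClasses.mk_eq_mk_iff_isConj.2 (isConj_iff.2 ⟨u, hinj ?_⟩)
    rw [map_mul, map_mul, map_inv, hu]
    show _ * QuotientGroup.mk' N (a : G) * _ = QuotientGroup.mk' N (b : G)
    rw [← map_inv, ← map_mul, ← map_mul, hg]
  · obtain ⟨x, hx⟩ := sylowToClass_surjective P c
    exact ⟨ConjClasses.mk x, hx⟩

theorem many_two_classes_iff (P : Sylow 2 G) :
    Nat.card (P : Subgroup G) < 2 * pClassCount 2 G ↔ Cfsg.HasNormalPComplement 2 G ∧
      Nat.card (P : Subgroup G) < 2 * Nat.card (ConjClasses (P : Subgroup G)) := by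
  haveI : Fact (Nat.Prime 2) := ⟨Nat.prime_two⟩
  constructor
  · intro h
    have hc : Cfsg.HasNormalPComplement 2 G :=
      by_contra fun hnc => absurd (two_mul_pClassCount_le_card G hnc P) (not_le.2 h)
    exact ⟨hc, by rwa [pClassCount_eq_sylow P hc] at h⟩
  · rintro ⟨hc, h⟩
    rwa [pClassCount_eq_sylow P hc]

end Two

end Cfsg.Agent.H85
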