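import Mathlib
import Cfsg.Prelude.Def_OddOrderLocal
import Cfsg.Agent.H85.ClassCountTwo

/-!
# Many classes of π-elements, `2 ∈ π`
-/

set_option autoImplicit false
set_option linter.style.haveILetI false
set_option linter.unusedSectionVars false

namespace Cfsg.Agent.H85

variable {G : Type*} [Group G] [Finite G]

theorem eq_one_of_conj_twice {l x : G} (hl : Odd (orderOf l)) (h : l ^ 2 * x * (l ^ 2)⁻¹ = x) :
    l * x * l⁻¹ = x := by
  obtain ⟨m, hm⟩ := hl
  have h1 : Commute (l ^ 2) x := mul_inv_eq_iff_eq_mul.1 h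
  have h2 := h1.pow_left (m + 1)
  rw [← pow_mul, show 2 * (m + 1) = orderOf l + 1 by omega, pow_succ, pow_orderOf_eq_one, one_mul] at h2
  rw [h2.eq, mul_inv_cancel_right]

/-- An odd order subgroup normalising `Q`: `3 k_q(G) ≤ |Q| + 2 |Q ∩ C(L)|`. -/
theorem three_mul_pClassCount_le {q : ℕ} [Fact q.Prime] (Q : Sylow q G) (L : Subgroup G)
    (hL : L ≤ Subgroup.normalizer ((Q : Subgroup G) : Set G)) (hodd : Odd (Nat.card L)) :
    3 * pClassCount q G ≤ Nat.card (Q : Subgroup G) +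
      2 * Nat.card ↥((Q : Subgroup G) ⊓ Subgroup.centralizer (L : Set G)) := by
  classical
  set F := (Q : Subgroup G) ⊓ Subgroup.centralizer (L : Set G) with hF
  let s := Function.surjInv (sylowToClass_surjective Q)
  have hs : ∀ c, sylowToClass Q (s c) = c := Function.surjInv_eq (sylowToClass_surjective Q)
  have hsinj : Function.Injective s := Function.injective_surjInv _
  have key : ∀ (c : {c : ConjClasses G // ∀ x ∈ c.carrier, ∃ k : ℕ, orderOf x = q ^ k}),
      ∃ z : Bool → (Q : Subgroup G) ⊕ (F × Bool),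
        ∀ b, (∃ y, z b = .inl y ∧ y ≠ s c ∧ sylowToClass Q y = c ∧ z (!b) ≠ z b) ∨
          (∃ f : F, z b = .inr (f, b) ∧ (f : G) = s c) := by
    intro c
    by_cases h : (s c : G) ∈ F
    · exact ⟨fun b => .inr (⟨_, h⟩, b), fun b => Or.inr ⟨_, rfl, rfl⟩⟩
    · have h1 : ¬ (s c : G) ∈ Subgroup.centralizer (L : Set G) := fun h' => h ⟨(s c).2, h'⟩
      rw [Subgroup.mem_centralizer_iff] at h1
      push Not at h1
      obtain ⟨l, hl, hne⟩ := h1
      have hlo : Odd (orderOf l) := by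
        rw [← Subgroup.orderOf_mk l hl]
        exact hodd.of_dvd_nat (orderOf_dvd_natCard _)
      have hne1 : l * (s c : G) * l⁻¹ ≠ s c := fun he => hne (mul_inv_eq_iff_eq_mul.1 he)
      have hmem : ∀ n : ℕ, l ^ n * (s c : G) * (l ^ n)⁻¹ ∈ (Q : Subgroup G) := fun n =>
        (Subgroup.mem_normalizer_iff.1 (hL (pow_mem hl n)) _).1 (s c).2
      have hcl : ∀ n : ℕ, sylowToClass Q ⟨_, hmem n⟩ = c := fun n => by
        conv_rhs => rw [← hs c]
        refine Subtype.ext (ConjClasses.mk_eq_mk_iff_isConj.2 (isConj_iff.2 ⟨(l ^ n)⁻¹, ?_⟩))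
        show (l ^ n)⁻¹ * (l ^ n * (s c : G) * (l ^ n)⁻¹) * (l ^ n)⁻¹⁻¹ = s c
        group
      refine ⟨fun b => if b then .inl ⟨_, hmem 1⟩ else .inl ⟨_, hmem 2⟩, fun b => Or.inl ?_⟩
      cases b
      · refine ⟨⟨_, hmem 2⟩, rfl, fun he => hne1 (eq_one_of_conj_twice hlo (congrArg Subtype.val he)),
          hcl 2, fun he => ?_⟩
        simp only [Bool.not_false, if_true, Bool.false_eq_true, if_false, Sum.inl.injEq,
          Subtype.mk.injEq, pow_one] at he
        apply hne1
        have e : l * (l * (s c : G) * l⁻¹) * l⁻¹ = l ^ 2 * (s c : G) * (l ^ 2)⁻¹ := by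
          rw [sq]; group
        rw [← he] at e
        exact mul_left_cancel (mul_right_cancel e)
      · refine ⟨⟨_, hmem 1⟩, rfl, fun he => hne1 (by simpa using congrArg Subtype.val he), hcl 1,
          fun he => ?_⟩
        simp only [Bool.not_true, if_true, Bool.false_eq_true, if_false, Sum.inl.injEq,
          Subtype.mk.injEq, pow_one] at he
        apply hne1
        have e : l * (l * (s c : G) * l⁻¹) * l⁻¹ = l ^ 2 * (s c : G) * (l ^ 2)⁻¹ := by
          rw [sq]; group
        rw [he] at e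
        exact mul_left_cancel (mul_right_cancel e)
  choose z hz using key
  let j : {c : ConjClasses G // ∀ x ∈ c.carrier, ∃ k : ℕ, orderOf x = q ^ k} × Option Bool →
      (Q : Subgroup G) ⊕ (F × Bool) := fun a => a.2.elim (.inl (s a.1)) (z a.1)
  have hjinj : Function.Injective j := by
    rintro ⟨a, _ | b⟩ ⟨a', _ | b'⟩ hab <;> simp only [j, Option.elim] at hab
    · rw [hsinj (Sum.inl_injective hab)]
    · exfalso
      rcases hz a' b' with ⟨y, hy, hy1, hy2, -⟩ | ⟨f, hf, -⟩
      · rw [hy, Sum.inl.injEq] at hab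
        rw [← hab, hs] at hy2
        subst hy2
        exact hy1 hab.symm
      · rw [hf] at hab; simp at hab
    · exfalso
      rcases hz a b with ⟨y, hy, hy1, hy2, -⟩ | ⟨f, hf, -⟩
      · rw [hy, Sum.inl.injEq] at hab
        rw [hab, hs] at hy2
        subst hy2
        exact hy1 hab
      · rw [hf] at hab; simp at hab
    · rcases hz a b with ⟨y, hy, -, hy2, hne⟩ | ⟨f, hf, hf2⟩ <;>
        rcases hz a' b' with ⟨y', hy', -, hy2', -⟩ | ⟨f', hf', hf2'⟩
      · have hyy : y = y' := by rw [hy, hy', Sum.inl.injEq] at hab; exact hab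
        have haa : a = a' := by rw [← hy2, ← hy2', hyy]
        subst haa
        by_cases hbb : b = b'
        · rw [hbb]
        · have hb' : b' = !b := by cases b <;> cases b' <;> simp_all
          subst hb'
          exact absurd hab.symm hne
      · rw [hy, hf'] at hab; simp at hab
      · rw [hf, hy'] at hab; simp at hab
      · rw [hf, hf', Sum.inr.injEq, Prod.mk.injEq] at hab
        have haa : a = a' := hsinj (Subtype.ext
          (hf2.symm.trans ((congrArg Subtype.val hab.1).trans hf2')))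
        rw [haa, hab.2]
  have h1 := Nat.card_le_card_of_injective j hjinj
  rw [Nat.card_sum, Nat.card_prod, Nat.card_prod, Finite.card_option,
    Nat.card_eq_fintype_card (α := Bool), Fintype.card_bool] at h1
  unfold pClassCount
  omega

/-- The local step for an odd prime. -/
theorem odd_prime_step (N : Subgroup G) [N.Normal] (hNodd : Odd (Nat.card N)) {q : ℕ}
    [hq : Fact q.Prime] (hqi : ¬ q ∣ N.index)
    (hk : ∀ Q : Sylow q G, Nat.card (Q : Subgroup G) < 2 * pClassCount q G) :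
    ∃ M : Subgroup G, M.Normal ∧ M ≤ N ∧ ¬ q ∣ Nat.card M ∧ (∃ k, M.relIndex N = q ^ k) ∧
      ∀ a ∈ N, ∀ b ∈ N, a * b * a⁻¹ * b⁻¹ ∈ M := by
  obtain ⟨Q⟩ := (inferInstance : Nonempty (Sylow q G))
  have hQN : (Q : Subgroup G) ≤ N := by
    intro x hx
    rw [← QuotientGroup.eq_one_iff, ← orderOf_eq_one_iff]
    obtain ⟨k, hk'⟩ := IsPGroup.iff_orderOf.1 Q.2 ⟨x, hx⟩
    rw [Subgroup.orderOf_mk] at hk'
    refine Nat.eq_one_of_dvd_coprimes ((hq.out.coprime_iff_not_dvd.2 hqi).pow_left k)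
      (hk' ▸ orderOf_map_dvd (QuotientGroup.mk' N) x) ?_
    rw [Subgroup.index_eq_card]
    exact orderOf_dvd_natCard _
  set L := Subgroup.normalizer ((Q : Subgroup G) : Set G) ⊓ N with hL
  have hLodd : Odd (Nat.card L) := hNodd.of_dvd_nat (Subgroup.card_dvd_of_le inf_le_right)
  have h3 := three_mul_pClassCount_le Q L inf_le_left hLodd
  set F := (Q : Subgroup G) ⊓ Subgroup.centralizer (L : Set G) with hF
  have hQL : (Q : Subgroup G) ≤ L := le_inf Subgroup.le_normalizer hQN
  have hFQ : F = (Q : Subgroup G) := by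
    by_contra hne
    obtain ⟨m, hm⟩ : Nat.card F ∣ Nat.card (Q : Subgroup G) := Subgroup.card_dvd_of_le inf_le_left
    have hm1 : m ≠ 1 := fun h1 =>
      hne (Subgroup.eq_of_le_of_card_ge inf_le_left (by rw [hm, h1, mul_one]))
    have hFpos : 0 < Nat.card F := Nat.card_pos
    have hm3 : m < 4 := by
      have := hk Q
      rw [hm] at h3 this
      nlinarith
    obtain ⟨n, hn⟩ := IsPGroup.iff_card.1 Q.2
    obtain ⟨i, -, hi⟩ := (Nat.dvd_prime_pow hq.out).1
      (show m ∣ q ^ n from hn ▸ ⟨Nat.card F, by rw [hm, mul_comm]⟩)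
    rcases i with _ | i
    · exact hm1 (by rw [hi, pow_zero])
    have hodd : Odd q := by
      refine (hq.out.eq_two_or_odd'.resolve_left fun h2 => ?_)
      have hd : q ∣ Nat.card N := (dvd_pow_self q (show n ≠ 0 from fun h0 => hm1 (by
        rw [hn, h0, pow_zero] at hm
        exact Nat.eq_one_of_mul_eq_one_left hm.symm))).trans (hn ▸ Subgroup.card_dvd_of_le hQN)
      subst h2
      exact (Nat.not_even_iff_odd.2 hNodd) (even_iff_two_dvd.2 hd)
    have hq3 : 3 ≤ q := by
      obtain ⟨t, ht⟩ := hodd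
      have := hq.out.two_le
      omega
    have hqm : q = 3 ∧ m = 3 := by
      have h1 : q ≤ q ^ (i + 1) := Nat.le_self_pow i.succ_ne_zero q
      omega
    obtain ⟨rfl, rfl⟩ := hqm
    -- `F` has index 3
    obtain ⟨x, hxQ, hxF⟩ : ∃ x ∈ (Q : Subgroup G), x ∉ F := by
      by_contra hall
      push Not at hall
      exact hne (le_antisymm inf_le_left hall)
    have hFc : ∀ f ∈ F, ∀ l ∈ L, Commute f l := fun f hf l hl =>
      (Subgroup.mem_centralizer_iff.1 hf.2 l hl).symm
    haveI : (F.subgroupOf (Q : Subgroup G)).Normal := ⟨fun f hf a => by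
      show (a : G) * f * (a : G)⁻¹ ∈ F
      rw [← (hFc (f : G) hf a (hQL a.2)).eq, mul_inv_cancel_right]
      exact hf⟩
    have hcard : Nat.card ((Q : Subgroup G) ⧸ F.subgroupOf (Q : Subgroup G)) = 3 := by
      have h1 := Subgroup.card_mul_index (F.subgroupOf (Q : Subgroup G))
      rw [Nat.card_congr (Subgroup.subgroupOfEquivOfLe (inf_le_left : F ≤ _)).toEquiv, hm,
        Subgroup.index_eq_card] at h1
      exact Nat.eq_of_mul_eq_mul_left hFpos h1
    set π := QuotientGroup.mk' (F.subgroupOf (Q : Subgroup G))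
    haveI : Fact (Nat.Prime 3) := ⟨Nat.prime_three⟩
    have hx1 : π ⟨x, hxQ⟩ ≠ 1 := fun h => hxF ((QuotientGroup.eq_one_iff (⟨x, hxQ⟩ : (Q : Subgroup G))).1 h)
    have hper : π ⟨x, hxQ⟩ ^ 3 = 1 := by
      have h := pow_card_eq_one' (x := π ⟨x, hxQ⟩)
      rwa [hcard] at h
    have hπ : ∀ a : (Q : Subgroup G), π a = 1 → (a : G) ∈ F := fun a h =>
      (QuotientGroup.eq_one_iff a).1 h
    have hx3 : x * (x * x) ∈ F := by
      have h1 : π (⟨x, hxQ⟩ * (⟨x, hxQ⟩ * ⟨x, hxQ⟩)) = 1 := by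
        rw [map_mul, map_mul, ← hper]; simp [pow_succ, mul_assoc]
      exact hπ _ h1
    have hcos : ∀ y ∈ (Q : Subgroup G), y ∈ F ∨ x⁻¹ * y ∈ F ∨ x * y ∈ F := by
      intro y hy
      have hgen := mem_powers_of_prime_card hcard (g' := π ⟨y, hy⟩) hx1
      obtain ⟨t, ht⟩ := Submonoid.mem_powers_iff _ _ |>.1 hgen
      rw [← Nat.div_add_mod t 3, pow_add, pow_mul, hper, one_pow, one_mul] at ht
      rcases (by omega : t % 3 = 0 ∨ t % 3 = 1 ∨ t % 3 = 2) with h | h | h <;> rw [h] at ht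
      · left; rw [pow_zero] at ht; exact hπ ⟨y, hy⟩ ht.symm
      · right; left
        rw [pow_one] at ht
        exact hπ (⟨x, hxQ⟩⁻¹ * ⟨y, hy⟩) (by rw [map_mul, map_inv, ht, inv_mul_cancel])
      · right; right
        have : π (⟨x, hxQ⟩ * ⟨y, hy⟩) = 1 := by rw [map_mul, ← ht, ← pow_succ', hper]
        exact hπ _ this
    have hQc : ∀ a ∈ (Q : Subgroup G), Commute a x := by
      intro a ha
      rcases hcos a ha with h | h | h
      · exact hFc a h x (hQL hxQ)
      · have := (Commute.refl x).mul_left (hFc _ h x (hQL hxQ))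
        rwa [mul_inv_cancel_left] at this
      · have := (Commute.refl x).inv_left.mul_left (hFc _ h x (hQL hxQ))
        rwa [inv_mul_cancel_left] at this
    -- every element of `L` centralises `x`
    refine hxF (Subgroup.mem_inf.2 ⟨hxQ, Subgroup.mem_centralizer_iff.2 fun l hl => ?_⟩)
    obtain ⟨u, v, rfl, huv, ⟨k, hk'⟩, hv, -⟩ := exists_prime_part (G := G) hq.out l
    have hco : (orderOf u).Coprime (orderOf v) := hk' ▸ (hq.out.coprime_iff_not_dvd.2 hv).pow_left k
    obtain ⟨huL, hvL⟩ : u ∈ L ∧ v ∈ L := by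
      obtain ⟨c, hc⟩ := exists_pow_eq_self_of_coprime (x := u) hco.symm
      have h1 : u ∈ L := by
        have h2 : ((u * v) ^ orderOf v) ^ c ∈ L := pow_mem (pow_mem hl _) _
        rwa [huv.mul_pow, pow_orderOf_eq_one, mul_one, hc] at h2
      exact ⟨h1, by simpa using mul_mem (inv_mem h1) hl⟩
    have huQ : u ∈ (Q : Subgroup G) := by
      have hp : IsPGroup 3 (Subgroup.zpowers u) := IsPGroup.of_card (n := k) (by rw [Nat.card_zpowers, hk'])
      have h4 := Q.3 (Q.2.to_sup_of_normal_left' hp (Subgroup.zpowers_le.2 huL.1)) le_sup_left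
      rw [← h4]; exact Subgroup.mem_sup_right (Subgroup.mem_zpowers u)
    suffices hvx : Commute v x from ((hQc u huQ).mul_left hvx).eq
    have hvo : Odd (orderOf v) := by
      rw [← Subgroup.orderOf_mk v hvL]; exact hLodd.of_dvd_nat (orderOf_dvd_natCard _)
    have hvx' : v * x * v⁻¹ ∈ (Q : Subgroup G) := (Subgroup.mem_normalizer_iff.1 hvL.1 x).1 hxQ
    rcases hcos _ hvx' with h | h | h
    · exfalso
      have h1 := hFc _ h v hvL
      have h2 : v * x * v⁻¹ = x := by
        have := h1.eq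
        calc v * x * v⁻¹ = v⁻¹ * (v * (v * x * v⁻¹)) := by group
          _ = v⁻¹ * (v * x * v⁻¹ * v) := by rw [this]
          _ = x := by group
      exact hxF (h2 ▸ h)
    · set f := x⁻¹ * (v * x * v⁻¹) with hf
      have hfv := hFc f h v hvL
      have hfx := hFc f h x (hQL hxQ)
      have hpow : ∀ t : ℕ, v ^ t * x * (v ^ t)⁻¹ = x * f ^ t := by
        intro t
        induction t with
        | zero => simp
        | succ t ih =>
          calc v ^ (t + 1) * x * (v ^ (t + 1))⁻¹ = v * (v ^ t * x * (v ^ t)⁻¹) * v⁻¹ := by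
                rw [pow_succ', mul_inv_rev]; group
            _ = v * x * v⁻¹ * (v * f ^ t * v⁻¹) := by rw [ih]; group
            _ = v * x * v⁻¹ * f ^ t := by rw [(hfv.symm.pow_right t).eq, mul_inv_cancel_right]
            _ = x * f ^ (t + 1) := by
                rw [pow_succ', ← mul_assoc x f, show x * f = v * x * v⁻¹ by rw [hf]; group]
      have h5 := hpow (orderOf v)
      rw [pow_orderOf_eq_one, one_mul, inv_one, mul_one, eq_comm, mul_eq_left] at h5
      have hf1 : f = 1 := by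
        obtain ⟨k2, hk2⟩ := IsPGroup.iff_orderOf.1 Q.2 ⟨f, h.1⟩
        rw [Subgroup.orderOf_mk] at hk2
        exact orderOf_eq_one_iff.1 (Nat.eq_one_of_dvd_coprimes
          ((hq.out.coprime_iff_not_dvd.2 hv).pow_left k2) (dvd_of_eq hk2) (orderOf_dvd_of_pow_eq_one h5))
      rw [hf, inv_mul_eq_one, eq_comm, mul_inv_eq_iff_eq_mul] at hf1
      exact hf1
    · -- inversion modulo `F` is impossible for odd order
      exfalso
      set f := x * (v * x * v⁻¹) with hf
      have hfv := hFc f h v hvL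
      have hfx := hFc f h x (hQL hxQ)
      have h6 : v ^ 2 * x * (v ^ 2)⁻¹ = x := by
        have e1 : v * x * v⁻¹ = x⁻¹ * f := by rw [hf]; group
        calc v ^ 2 * x * (v ^ 2)⁻¹ = v * (v * x * v⁻¹) * v⁻¹ := by rw [sq]; group
          _ = v * (x⁻¹ * f) * v⁻¹ := by rw [e1]
          _ = (v * x * v⁻¹)⁻¹ * (v * f * v⁻¹) := by group
          _ = (x⁻¹ * f)⁻¹ * f := by rw [e1, hfv.symm.eq, mul_inv_cancel_right]
          _ = f⁻¹ * x * f := by group
          _ = x := by rw [mul_assoc, ← hfx.eq, inv_mul_cancel_left]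
      have h7 := eq_one_of_conj_twice hvo h6
      rw [hf, h7] at h
      apply hxF
      simpa [mul_assoc] using mul_mem hx3 (inv_mem (show x * x ∈ F from h))
  -- `Q` is centralised by `L`, so `N` has a normal `q`-complement
  obtain ⟨M₀, hM₀n, hM₀c⟩ : ∃ M₀ : Subgroup N, M₀.Normal ∧
      M₀.IsComplement' ((Q.subtype hQN : Sylow q N) : Subgroup N) := by
    have hQn : Subgroup.normalizer (((Q.subtype hQN : Sylow q N) : Subgroup N) : Set N) ≤
        Subgroup.centralizer (((Q.subtype hQN : Sylow q N) : Subgroup N) : Set N) := by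
      intro n hn
      have hnL : (n : G) ∈ L := by
        refine Subgroup.mem_inf.2 ⟨Subgroup.mem_normalizer_iff.2 fun y => ⟨fun hy => ?_, fun hy => ?_⟩, n.2⟩
        · exact (Subgroup.mem_normalizer_iff.1 hn ⟨y, hQN hy⟩).1 hy
        · have hyN : y ∈ N := by
            simpa [mul_assoc] using mul_mem (mul_mem (inv_mem n.2) (hQN hy)) n.2
          exact (Subgroup.mem_normalizer_iff.1 hn ⟨y, hyN⟩).2 hy
      rw [Subgroup.mem_centralizer_iff]
      intro y hy
      have hyQ : (y : G) ∈ F := hFQ.symm ▸ (show (y : G) ∈ (Q : Subgroup G) from hy)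
      exact Subtype.ext (Subgroup.mem_centralizer_iff.1 hyQ.2 n hnL).symm
    exact ⟨_, MonoidHom.normal_ker _, MonoidHom.ker_transferSylow_isComplement' _ hQn⟩
  haveI := hM₀n
  obtain ⟨k, hk'⟩ := IsPGroup.iff_card.1 (Q.subtype hQN).2
  have hidx : M₀.index = q ^ k := hM₀c.symm.index_eq_card.trans hk'
  have hnd : ¬ q ∣ Nat.card M₀ := by
    rw [← hM₀c.index_eq_card]; exact (Q.subtype hQN).not_dvd_index
  have hchar : ∀ g : N, g ^ Nat.card M₀ = 1 → g ∈ M₀ := by
    intro g hg
    rw [← QuotientGroup.eq_one_iff, ← orderOf_eq_one_iff]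
    refine Nat.eq_one_of_dvd_coprimes ((hq.out.coprime_iff_not_dvd.2 hnd).pow_left k) ?_
      (orderOf_dvd_of_pow_eq_one (by rw [← QuotientGroup.mk_pow, hg, QuotientGroup.mk_one]))
    rw [← hidx, Subgroup.index_eq_card]
    exact orderOf_dvd_natCard _
  refine ⟨M₀.map N.subtype, ⟨?_⟩, Subgroup.map_subtype_le _, ?_, ⟨k, ?_⟩, ?_⟩
  · rintro _ ⟨l, hl, rfl⟩ g
    refine ⟨⟨g * l * g⁻¹, (inferInstance : N.Normal).conj_mem l l.2 g⟩, hchar _ (Subtype.ext ?_), rfl⟩
    have h1 : (l : G) ^ Nat.card M₀ = 1 := by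
      have := congrArg Subtype.val (congrArg Subtype.val (pow_card_eq_one' (x := (⟨l, hl⟩ : M₀))))
      simpa only [SubmonoidClass.coe_pow, OneMemClass.coe_one] using this
    simp [conj_pow, h1]
  · rwa [← Nat.card_congr (M₀.equivMapOfInjective _ N.subtype_injective).toEquiv]
  · rw [Subgroup.relIndex, Subgroup.subgroupOf,
      Subgroup.comap_map_eq_self_of_injective N.subtype_injective, hidx]
  · intro a ha b hb
    refine ⟨⟨a, ha⟩ * ⟨b, hb⟩ * ⟨a, ha⟩⁻¹ * ⟨b, hb⟩⁻¹, ?_, rfl⟩
    have hs : ∀ a : N, ∃ y ∈ ((Q.subtype hQN : Sylow q N) : Subgroup N), (y : N ⧸ M₀) = a := by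
      intro a
      obtain ⟨⟨n, y⟩, hny, -⟩ := hM₀c.existsUnique a
      refine ⟨y, y.2, QuotientGroup.eq.2 ?_⟩
      rw [← hny]
      simpa [mul_assoc] using hM₀n.conj_mem n n.2 ((y : N)⁻¹)
    obtain ⟨c, hc, hca⟩ := hs ⟨a, ha⟩
    obtain ⟨d, hd, hdb⟩ := hs ⟨b, hb⟩
    have hcd : (c : N ⧸ M₀) * (d : N ⧸ M₀) = (d : N ⧸ M₀) * (c : N ⧸ M₀) := by
      have hdF : (d : G) ∈ F := hFQ.symm ▸ (show (d : G) ∈ (Q : Subgroup G) from hd)
      have he : c * d = d * c := Subtype.ext (Subgroup.mem_centralizer_iff.1 hdF.2 c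
        (hQL (show (c : G) ∈ (Q : Subgroup G) from hc)))
      rw [← QuotientGroup.mk_mul, he, QuotientGroup.mk_mul]
    rw [SetLike.mem_coe, ← QuotientGroup.eq_one_iff, QuotientGroup.mk_mul, QuotientGroup.mk_mul, QuotientGroup.mk_mul,
      QuotientGroup.mk_inv, QuotientGroup.mk_inv, ← hca, ← hdb, hcd, mul_inv_cancel_right,
      mul_inv_cancel]

end Cfsg.Agent.H85
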