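import Mathlib
import Cfsg.Agent.H19.Cores
import Cfsg.Agent.H55.FittingHall

/-!
# Left-normed commutator values and nilpotency of the terms of the lower central series
-/

set_option autoImplicit false
set_option linter.style.haveILetI false
set_option linter.unusedSectionVars false

namespace Cfsg.Agent.H85

variable {G : Type*} [Group G]

/-- The left-normed commutator values with `k + 1` entries. -/
def IsValue : ℕ → G → Prop
  | 0, _ => True
  | k + 1, x => ∃ a b : G, IsValue k a ∧ x = a * b * a⁻¹ * b⁻¹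

theorem isValue_iff (k : ℕ) (x : G) :
    IsValue k x ↔ ∃ f : Fin (k + 1) → G,
      x = ((List.ofFn f).tail).foldl (fun a b => a * b * a⁻¹ * b⁻¹) (f 0) := by
  have hrw : ∀ (n : ℕ) (f : Fin (n + 1) → G), (List.ofFn f).tail = List.ofFn fun i : Fin n => f i.succ :=
    fun n f => by rw [List.ofFn_succ, List.tail_cons]
  induction k generalizing x with
  | zero => exact ⟨fun _ => ⟨fun _ => x, by simp⟩, fun _ => trivial⟩
  | succ k ih =>
    constructor
    · rintro ⟨a, b, ha, rfl⟩
      obtain ⟨f, rfl⟩ := (ih a).1 ha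
      refine ⟨Fin.snoc f b, ?_⟩
      rw [hrw, hrw, List.ofFn_succ' (fun i : Fin (k + 1) => (Fin.snoc f b : Fin (k + 2) → G) i.succ),
        List.concat_eq_append, List.foldl_append]
      simp only [List.foldl_cons, List.foldl_nil, Fin.succ_castSucc, Fin.snoc_castSucc, Fin.succ_last,
        Fin.snoc_last]
      have h0 : (Fin.snoc f b : Fin (k + 2) → G) 0 = f 0 := by
        simpa using (Fin.snoc_castSucc (α := fun _ => G) (x := b) (p := f) (0 : Fin (k + 1)))
      rw [h0]
    · rintro ⟨f, rfl⟩
      refine ⟨_, f (Fin.last (k + 1)), (ih _).2 ⟨fun i => f i.castSucc, rfl⟩, ?_⟩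
      rw [hrw, hrw, List.ofFn_succ' (fun i : Fin (k + 1) => f i.succ), List.concat_eq_append,
        List.foldl_append]
      simp only [List.foldl_cons, List.foldl_nil, Fin.succ_castSucc, Fin.succ_last]
      rfl

theorem IsValue.pred {k : ℕ} {x : G} (h : IsValue (k + 1) x) : IsValue k x := by
  induction k generalizing x with
  | zero => trivial
  | succ k ih =>
    obtain ⟨a, b, ha, rfl⟩ := h
    exact ⟨a, b, ih ha, rfl⟩

theorem IsValue.map {H : Type*} [Group H] (f : G →* H) : ∀ {k : ℕ} {x : G}, IsValue k x → IsValue k (f x)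
  | 0, _, _ => trivial
  | k + 1, x, h => by
    obtain ⟨a, b, ha, rfl⟩ := h
    exact ⟨f a, f b, IsValue.map f ha, by simp⟩

theorem IsValue.conj {k : ℕ} {x : G} (h : IsValue k x) (g : G) : IsValue k (g * x * g⁻¹) := by
  simpa using h.map (MulAut.conj g).toMonoidHom

/-- A preimage of a value. -/
theorem IsValue.lift {H : Type*} [Group H] (f : G →* H) :
    ∀ {k : ℕ} {y : H}, IsValue k y → (∀ z : H, z ∈ f.range) → ∃ x : G, IsValue k x ∧ f x = y
  | 0, y, _, hs => by obtain ⟨x, hx⟩ := hs y; exact ⟨x, trivial, hx⟩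
  | k + 1, y, h, hs => by
    obtain ⟨a, b, ha, rfl⟩ := h
    obtain ⟨a', ha', rfl⟩ := IsValue.lift f ha hs
    obtain ⟨b', rfl⟩ := hs b
    exact ⟨_, ⟨a', b', ha', rfl⟩, by simp⟩

theorem IsValue.mem_lcs : ∀ {k : ℕ} {x : G}, IsValue k x → x ∈ (⊤ : Subgroup G).lowerCentralSeries k
  | 0, x, _ => by simp
  | k + 1, x, h => by
    obtain ⟨a, b, ha, rfl⟩ := h
    rw [Subgroup.lowerCentralSeries_succ]
    exact Subgroup.commutator_mem_commutator (IsValue.mem_lcs ha) (Subgroup.mem_top b)

/-- The terms of the lower central series are generated by the values. -/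
theorem lcs_le_closure_values (k : ℕ) :
    (⊤ : Subgroup G).lowerCentralSeries k ≤ Subgroup.closure {x : G | IsValue k x} := by
  induction k with
  | zero => exact fun g _ => Subgroup.subset_closure trivial
  | succ k ih =>
    set N := Subgroup.closure {x : G | IsValue (k + 1) x} with hN
    haveI hNn : N.Normal := by
      refine ⟨fun x hx g => ?_⟩
      suffices hle : N ≤ N.comap (MulAut.conj g).toMonoidHom from hle hx
      conv_lhs => rw [hN]
      rw [Subgroup.closure_le]
      intro y hy
      exact Subgroup.subset_closure (IsValue.conj hy g)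
    rw [Subgroup.lowerCentralSeries_succ, Subgroup.commutator_le]
    intro a ha b _
    have h1 : (QuotientGroup.mk' N) a ∈ Subgroup.center (G ⧸ N) := by
      have h2 : (⊤ : Subgroup G).lowerCentralSeries k ≤ (Subgroup.center (G ⧸ N)).comap (QuotientGroup.mk' N) := by
        refine ih.trans ((Subgroup.closure_le _).2 fun c hc => ?_)
        rw [SetLike.mem_coe, Subgroup.mem_comap, Subgroup.mem_center_iff]
        intro d
        obtain ⟨d, rfl⟩ := QuotientGroup.mk'_surjective N d
        have h3 : QuotientGroup.mk' N (c * d * c⁻¹ * d⁻¹) = 1 :=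
          (QuotientGroup.eq_one_iff _).2 (Subgroup.subset_closure ⟨c, d, hc, rfl⟩)
        rw [map_mul, map_mul, map_mul, map_inv, map_inv, mul_inv_eq_one, mul_inv_eq_iff_eq_mul] at h3
        exact h3.symm
      exact h2 ha
    rw [commutatorElement_def, ← QuotientGroup.eq_one_iff]
    show QuotientGroup.mk' N (a * b * a⁻¹ * b⁻¹) = 1
    rw [map_mul, map_mul, map_mul, map_inv, map_inv, ← Subgroup.mem_center_iff.1 h1,
      mul_inv_cancel_right, mul_inv_cancel]

/-- The order condition on values. -/
def ValueCondition (k : ℕ) (G : Type*) [Group G] : Prop :=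
  ∀ x y : G, IsValue k x → IsValue k y → (orderOf x).Coprime (orderOf y) →
    (∀ r : ℕ, r.Prime → r ∣ orderOf x * orderOf y → r ∣ orderOf (x * y)) ∨
      orderOf x * orderOf y ≤ orderOf (x * y)

theorem ValueCondition.of_injective {k : ℕ} {H : Type*} [Group H] (f : H →* G)
    (hf : Function.Injective f) (h : ValueCondition k G) : ValueCondition k H := by
  intro x y hx hy hco
  have e : ∀ z, orderOf (f z) = orderOf z := fun z => orderOf_injective f hf z
  have := h (f x) (f y) (hx.map f) (hy.map f) (by rwa [e, e])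
  rwa [← map_mul, e, e, e] at this

variable [Finite G]

/-- Values centralise the subgroups of coprime order which they normalise. -/
theorem ValueCondition.commute {k : ℕ} (h : ValueCondition k G) {y u : G} (hy : IsValue k y)
    {P : Subgroup G} (hn : y ∈ Subgroup.normalizer (P : Set G))
    (hco : (orderOf y).Coprime (Nat.card P)) (hu : u ∈ P) : Commute y u := by
  set x := y * u * y⁻¹ * u⁻¹ with hx
  have hxP : x ∈ P := mul_mem ((Subgroup.mem_normalizer_iff.1 hn u).1 hu) (inv_mem hu)
  have hxv : IsValue k x := IsValue.pred ⟨y, u, hy, rfl⟩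
  have hy' : orderOf (u * y * u⁻¹) = orderOf y := (MulAut.conj u).orderOf_eq y
  have hxo : orderOf x ∣ Nat.card P := by
    rw [← Subgroup.orderOf_mk x hxP]; exact orderOf_dvd_natCard _
  have hxy : x * (u * y * u⁻¹) = y := by rw [hx]; group
  have hco' : (orderOf x).Coprime (orderOf y) := (Nat.Coprime.coprime_dvd_right hxo hco).symm
  suffices h1 : x = 1 by
    rw [hx, mul_inv_eq_one, mul_inv_eq_iff_eq_mul] at h1
    exact h1
  by_contra hne
  rcases h x (u * y * u⁻¹) hxv (hy.conj u) (by rwa [hy']) with h1 | h1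
  · obtain ⟨r, hr, hrd⟩ := Nat.exists_prime_and_dvd (fun h2 => hne (orderOf_eq_one_iff.1 h2))
    have h2 := h1 r hr (hrd.mul_right _)
    rw [hxy] at h2
    exact hr.one_lt.ne' (Nat.eq_one_of_dvd_coprimes hco' hrd h2)
  · rw [hxy, hy'] at h1
    have h2 : 2 ≤ orderOf x := by
      have := orderOf_pos x
      have : orderOf x ≠ 1 := fun h2 => hne (orderOf_eq_one_iff.1 h2)
      omega
    have := orderOf_pos y
    nlinarith

theorem valueCondition_of_nilpotent {k : ℕ}
    (h : Group.IsNilpotent ((⊤ : Subgroup G).lowerCentralSeries k)) : ValueCondition k G := by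
  intro x y hx hy hco
  refine Or.inr (le_of_eq ?_)
  set L := (⊤ : Subgroup G).lowerCentralSeries k
  have hxy : Commute (⟨x, hx.mem_lcs⟩ : L) ⟨y, hy.mem_lcs⟩ := by
    exact Cfsg.Agent.H55.commute_of_coprime_orderOf h (by rwa [Subgroup.orderOf_mk, Subgroup.orderOf_mk])
  have hxy' : Commute x y := congrArg Subtype.val hxy
  exact (hxy'.orderOf_mul_eq_mul_orderOf_of_coprime hco).symm

end Cfsg.Agent.H85
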