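import Mathlib
import Cfsg.Agent.H85.OddCyclic

/-!
# Geometric sums of numbers congruent to 1 modulo an odd prime
-/

set_option autoImplicit false

namespace Cfsg.Agent.H85

/-- The geometric sum `1 + u + ... + u^(k-1)`. -/
def gsum (u : ℤ) (k : ℕ) : ℤ := ∑ l ∈ Finset.range k, u ^ l

theorem gsum_zero (u : ℤ) : gsum u 0 = 0 := rfl

theorem gsum_one (u : ℤ) : gsum u 1 = 1 := by simp [gsum]

theorem gsum_add (u : ℤ) (j l : ℕ) : gsum u (j + l) = gsum u j + u ^ j * gsum u l := by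
  simp [gsum, Finset.sum_range_add, Finset.mul_sum, pow_add]

theorem pow_sub_one_eq (u : ℤ) (k : ℕ) : u ^ k - 1 = (u - 1) * gsum u k :=
  (mul_geom_sum u k).symm

theorem gsum_mul (u : ℤ) (j l : ℕ) : gsum u (j * l) = gsum u j * gsum (u ^ j) l := by
  induction l with
  | zero => simp [gsum]
  | succ l ih =>
    rw [Nat.mul_succ, gsum_add, ih, gsum, gsum, gsum, Finset.sum_range_succ _ l, ← pow_mul]
    ring

variable {p : ℕ} [hp : Fact p.Prime]

theorem dvd_pow_sub_one {u : ℤ} (hu : (p : ℤ) ∣ u - 1) (k : ℕ) : (p : ℤ) ∣ u ^ k - 1 :=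
  pow_sub_one_eq u k ▸ dvd_mul_of_dvd_left hu _

theorem gsum_modEq {u : ℤ} (hu : (p : ℤ) ∣ u - 1) (k : ℕ) : (p : ℤ) ∣ gsum u k - k := by
  induction k with
  | zero => simp [gsum]
  | succ k ih =>
    have h := dvd_add ih (dvd_pow_sub_one hu k)
    have e : gsum u (k + 1) = gsum u k + u ^ k := by
      simp [gsum, Finset.sum_range_succ]
    rw [e]
    have e2 : gsum u k + u ^ k - ((k + 1 : ℕ) : ℤ) = gsum u k - k + (u ^ k - 1) := by
      push_cast; ring
    rw [e2]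
    exact h

/-- For `p` odd and `u ≡ 1 (mod p)`, the sum of length `p^e` is `p^e` times a unit. -/
theorem gsum_prime_pow (hp2 : p ≠ 2) :
    ∀ (e : ℕ) {u : ℤ}, (p : ℤ) ∣ u - 1 →
      ∃ v : ℤ, ¬ (p : ℤ) ∣ v ∧ gsum u (p ^ e) = (p : ℤ) ^ e * v := by
  intro e
  induction e with
  | zero =>
    intro u _
    exact ⟨1, fun h => hp.out.one_lt.ne'
      (by exact_mod_cast Int.eq_one_of_dvd_one (Int.natCast_nonneg p) h), by simp [gsum_one]⟩
  | succ e ih =>
    intro u hu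
    obtain ⟨v, hv, hve⟩ := ih hu
    have hu' : (p : ℤ) ∣ u ^ p ^ e - 1 := dvd_pow_sub_one hu _
    obtain ⟨d, hd⟩ := geom_sum_prime_modEq (hp.out.odd_of_ne_two hp2) hu'
    refine ⟨v * (1 + p * d), ?_, ?_⟩
    · intro h
      rcases (Nat.prime_iff_prime_int.1 hp.out).dvd_or_dvd h with h | h
      · exact hv h
      · rw [dvd_add_left (dvd_mul_right _ _)] at h
        exact hp.out.one_lt.ne'
          (by exact_mod_cast Int.eq_one_of_dvd_one (Int.natCast_nonneg p) h)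
    · rw [pow_succ, gsum_mul, hve]
      have hd' : gsum (u ^ p ^ e) p = (p : ℤ) * (1 + p * d) := by
        simp only [gsum]
        linear_combination hd
      rw [hd']
      ring

/-- For `p` odd and `u ≡ 1 (mod p)`, `p^m ∣ x * (1 + ... + u^(k-1))` iff `p^m ∣ x * k`. -/
theorem dvd_mul_gsum_iff (hp2 : p ≠ 2) {u : ℤ} (hu : (p : ℤ) ∣ u - 1) (m : ℕ) (x : ℤ) (k : ℕ) :
    (p : ℤ) ^ m ∣ x * gsum u k ↔ (p : ℤ) ^ m ∣ x * k := by
  rcases Nat.eq_zero_or_pos k with rfl | hk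
  · simp [gsum]
  obtain ⟨e, k', hk', rfl⟩ :=
    Nat.exists_eq_pow_mul_and_not_dvd hk.ne' p hp.out.one_lt.ne'
  obtain ⟨v, hv, hve⟩ := gsum_prime_pow hp2 e hu
  have hp' : Prime (p : ℤ) := Nat.prime_iff_prime_int.1 hp.out
  have hw : ¬ (p : ℤ) ∣ v * gsum (u ^ p ^ e) k' := by
    intro h
    rcases hp'.dvd_or_dvd h with h | h
    · exact hv h
    · apply hk'
      have h2 := dvd_sub h (gsum_modEq (dvd_pow_sub_one hu (p ^ e)) k')
      rw [sub_sub_cancel] at h2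
      exact_mod_cast h2
  have e1 : x * gsum u (p ^ e * k') = (x * (p : ℤ) ^ e) * (v * gsum (u ^ p ^ e) k') := by
    rw [gsum_mul, hve]; ring
  have e2 : x * ((p ^ e * k' : ℕ) : ℤ) = (x * (p : ℤ) ^ e) * (k' : ℤ) := by push_cast; ring
  have hk'' : ¬ (p : ℤ) ∣ (k' : ℤ) := by exact_mod_cast hk'
  rw [e1, e2]
  exact ⟨fun h => ((hp'.coprime_iff_not_dvd.2 hw).pow_left (m := m)).dvd_of_dvd_mul_right h |>
      (dvd_mul_of_dvd_left · _),
    fun h => ((hp'.coprime_iff_not_dvd.2 hk'').pow_left (m := m)).dvd_of_dvd_mul_right h |>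
      (dvd_mul_of_dvd_left · _)⟩

end Cfsg.Agent.H85
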