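import Mathlib
import Cfsg.Prelude.Def_HallClasses

/-!
# Symmetric groups without Hall π-subgroups
-/

set_option autoImplicit false
set_option linter.unusedSectionVars false

open Equiv

namespace Cfsg.Agent.H85

theorem card_perm_fin (n : ℕ) : Nat.card (Perm (Fin n)) = n.factorial := by
  rw [Nat.card_perm, Nat.card_eq_fintype_card, Fintype.card_fin]

/-- A Hall π-subgroup of `Perm (Fin q)` is transitive on a prime number of points. -/
theorem hall_prime_degree_transitive {π : Set ℕ} {q : ℕ} (hq : q.Prime) (hqπ : q ∈ π)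
    {H : Subgroup (Perm (Fin q))} (hH : Cfsg.IsPiHall π H) :
    q ∣ Nat.card H ∧ MulAction.IsPretransitive H (Fin q) := by
  haveI : Fact q.Prime := ⟨hq⟩
  have hdvd : q ∣ Nat.card H := by
    have h1 : q ∣ Nat.card H * H.index := by
      rw [H.card_mul_index, card_perm_fin]
      exact Nat.dvd_factorial hq.pos le_rfl
    exact (hq.dvd_mul.1 h1).resolve_right (hH.2 q hq hqπ)
  refine ⟨hdvd, ?_⟩
  obtain ⟨σ, hσ⟩ := exists_prime_orderOf_dvd_card' q hdvd
  have hσ1 : orderOf (σ : Perm (Fin q)) = q := (Subgroup.orderOf_coe σ).trans hσ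
  have hσc : (σ : Perm (Fin q)).IsCycle :=
    Perm.isCycle_of_prime_order'' (by simpa using hq) (by simpa using hσ1)
  have hsupp : (σ : Perm (Fin q)).support = Finset.univ :=
    Finset.eq_univ_of_card _ (by rw [← hσc.orderOf, hσ1, Fintype.card_fin])
  refine ⟨fun x y => ?_⟩
  have hx : (σ : Perm (Fin q)) x ≠ x := Perm.mem_support.1 (hsupp ▸ Finset.mem_univ x)
  have hy : (σ : Perm (Fin q)) y ≠ y := Perm.mem_support.1 (hsupp ▸ Finset.mem_univ y)
  obtain ⟨i, hi⟩ := hσc.sameCycle hx hy
  exact ⟨σ ^ i, by simpa [Subgroup.smul_def] using hi⟩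

/-- A Hall π-subgroup contains a conjugate of every element of prime order in π. -/
theorem hall_exists_conj_mem {G : Type*} [Group G] [Finite G] {π : Set ℕ} {H : Subgroup G}
    (hH : Cfsg.IsPiHall π H) {p : ℕ} (hp : p.Prime) (hpπ : p ∈ π) {x : G} (hx : orderOf x = p) :
    ∃ g : G, g * x * g⁻¹ ∈ H := by
  haveI : Fact p.Prime := ⟨hp⟩
  obtain ⟨P⟩ := (inferInstance : Nonempty (Sylow p H))
  obtain ⟨Q, hQ⟩ := (P.isPGroup'.map H.subtype).exists_le_sylow
  have hle : (P : Subgroup H).map H.subtype ≤ H := Subgroup.map_subtype_le _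
  have heq : (P : Subgroup H).map H.subtype = (Q : Subgroup G) := by
    refine Subgroup.eq_of_le_of_card_ge hQ ?_
    rw [← Nat.card_congr (Subgroup.equivMapOfInjective _ _ H.subtype_injective).toEquiv,
      Sylow.card_eq_multiplicity P, Sylow.card_eq_multiplicity Q, ← H.card_mul_index,
      Nat.factorization_mul Nat.card_pos.ne' Subgroup.FiniteIndex.index_ne_zero, Finsupp.add_apply,
      Nat.factorization_eq_zero_of_not_dvd (hH.2 p hp hpπ), add_zero]
  have hxp : IsPGroup p (Subgroup.zpowers x) :=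
    IsPGroup.of_card (n := 1) (by rw [Nat.card_zpowers, hx, pow_one])
  obtain ⟨R, hR⟩ := hxp.exists_le_sylow
  obtain ⟨g, hg⟩ := MulAction.exists_smul_eq G R Q
  refine ⟨g, hle (heq ▸ ?_)⟩
  rw [← hg]
  exact ⟨x, hR (Subgroup.mem_zpowers x), rfl⟩

/-- Two odd primes in π and `2 ∉ π`: no Hall π-subgroup in the symmetric group of the larger. -/
theorem no_hall_of_two_not_mem {π : Set ℕ} (h2 : 2 ∉ π) {p q : ℕ} (hp : p.Prime) (hq : q.Prime)
    (hpπ : p ∈ π) (hqπ : q ∈ π) (hpq : p < q) (H : Subgroup (Perm (Fin q))) :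
    ¬ Cfsg.IsPiHall π H := by
  intro hH
  obtain ⟨-, htrans⟩ := hall_prime_degree_transitive hq hqπ hH
  haveI := htrans
  have hprim : MulAction.IsPreprimitive H (Fin q) :=
    MulAction.IsPreprimitive.of_prime_card (by simpa using hq)
  have hp2 : p ≠ 2 := fun h => h2 (h ▸ hpπ)
  have hq2 : q ≠ 2 := fun h => h2 (h ▸ hqπ)
  have hsucc : p + 2 ≤ q := by
    obtain ⟨a, ha⟩ := hp.odd_of_ne_two hp2
    obtain ⟨b, hb⟩ := hq.odd_of_ne_two hq2
    omega
  have hp3 : 3 ≤ p := by have := hp.two_le; omega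
  -- a p-cycle in H
  set l : List (Fin q) := (List.finRange q).take p with hl
  have hnd : l.Nodup := ((List.nodup_finRange q).sublist (List.take_sublist _ _))
  have hlen : l.length = p := by simp [hl]; omega
  have hcyc : l.formPerm.IsCycle := List.isCycle_formPerm hnd (by omega)
  have hcard : l.formPerm.support.card = p := by
    rw [List.support_formPerm_of_nodup _ hnd (fun x hx => by rw [hx] at hlen; simp at hlen; omega),
      List.toFinset_card_of_nodup hnd, hlen]
  obtain ⟨g, hg⟩ := hall_exists_conj_mem hH hp hpπ (x := l.formPerm) (by rw [hcyc.orderOf, hcard])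
  set c : Perm (Fin q) := g * l.formPerm * g⁻¹ with hc
  have hccyc : c.IsCycle := hcyc.conj
  have hccard : c.support.card = p := by rw [hc, Perm.card_support_conj, hcard]
  have h2p : MulAction.IsMultiplyPretransitive H (Fin q) 2 := by
    refine hprim.is_two_pretransitive (s := (c.support : Set (Fin q))ᶜ) (n := q - p - 1) ?_ ?_
      (Equiv.Perm.isPretransitive_of_isCycle_mem hccyc hg)
    · rw [Set.ncard_compl, Set.ncard_coe_finset, hccard, Nat.card_eq_fintype_card, Fintype.card_fin]
      omega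
    · rw [Nat.card_eq_fintype_card, Fintype.card_fin]
      omega
  rw [MulAction.is_two_pretransitive_iff] at h2p
  have h01 : (⟨0, by omega⟩ : Fin q) ≠ ⟨1, by omega⟩ := by simp
  obtain ⟨x, hx1, hx2⟩ := h2p h01 h01.symm
  refine h2 (hH.1 2 Nat.prime_two (dvd_trans ?_ (orderOf_dvd_natCard x)))
  by_contra hodd
  have h1 : ∀ k : ℕ, Odd k → x ^ k • (⟨0, by omega⟩ : Fin q) = ⟨1, by omega⟩ := by
    rintro k ⟨m, rfl⟩
    induction m with
    | zero => simpa using hx1
    | succ m ih =>
      rw [show 2 * (m + 1) + 1 = 1 + (1 + (2 * m + 1)) by ring, pow_add, pow_add, pow_one, mul_smul,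
        mul_smul, ih, hx2, hx1]
  have h3 := h1 _ (Nat.odd_iff.2 (Nat.two_dvd_ne_zero.1 hodd))
  rw [pow_orderOf_eq_one, one_smul] at h3
  exact h01 h3

/-- `2 ∈ π`, a prime `q ≥ 5` in π, `3 ∉ π`: no Hall π-subgroup in `Perm (Fin q)`. -/
theorem no_hall_of_three_not_mem {π : Set ℕ} (h2 : 2 ∈ π) (h3 : 3 ∉ π) {q : ℕ} (hq : q.Prime)
    (hqπ : q ∈ π) (hq2 : q ≠ 2) (H : Subgroup (Perm (Fin q))) : ¬ Cfsg.IsPiHall π H := by
  intro hH
  obtain ⟨hdvd, -⟩ := hall_prime_degree_transitive hq hqπ hH
  have hq3 : 3 ≤ q := by have := hq.two_le; omega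
  have h01 : (⟨0, by omega⟩ : Fin q) ≠ ⟨1, by omega⟩ := by simp
  obtain ⟨g, hg⟩ := hall_exists_conj_mem hH Nat.prime_two h2
    (x := Equiv.swap (⟨0, by omega⟩ : Fin q) ⟨1, by omega⟩)
    (orderOf_eq_prime (by rw [sq, Equiv.swap_mul_self]) (fun h => h01 (Equiv.swap_eq_one_iff.1 h)))
  rw [← Equiv.swap_apply_apply] at hg
  classical
  have htop : H = ⊤ := Equiv.Perm.subgroup_eq_top_of_swap_mem (by simpa using hq)
    (by rw [← Nat.card_eq_fintype_card, ← Nat.card_eq_fintype_card]; simpa using hdvd) hg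
    ⟨_, _, fun h => h01 (g.injective h), rfl⟩
  refine h3 (hH.1 3 Nat.prime_three ?_)
  rw [htop, Subgroup.card_top, card_perm_fin]
  exact Nat.dvd_factorial (by norm_num) hq3

/-- `2, 3 ∈ π` and some prime is missing: no Hall π-subgroup. -/
theorem no_hall_of_two_three_mem {π : Set ℕ} (h2 : 2 ∈ π) (h3 : 3 ∈ π)
    (hne : ∃ r, r.Prime ∧ r ∉ π) :
    ∃ n : ℕ, ∀ H : Subgroup (Perm (Fin n)), ¬ Cfsg.IsPiHall π H := by
  classical
  obtain ⟨hr, hrπ⟩ := Nat.find_spec hne
  set r := Nat.find hne with hrdef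
  have hr5 : 5 ≤ r := by
    have := hr.two_le
    rcases Nat.lt_or_ge r 5 with h | h
    · interval_cases r
      · exact absurd h2 hrπ
      · exact absurd h3 hrπ
      · exact absurd hr (by norm_num)
    · exact h
  refine ⟨r + 1, fun H hH => ?_⟩
  have hprimes : ∀ s, s.Prime → s ∣ H.index → s = r := by
    intro s hs hsd
    have h1 : s ∣ (r + 1).factorial := by
      rw [← card_perm_fin, ← H.card_mul_index]
      exact hsd.mul_left _
    have hsle := (Nat.Prime.dvd_factorial hs).1 h1
    have hsπ : s ∉ π := fun h => hH.2 s hs h hsd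
    have hrs : r ≤ s := Nat.find_min' hne ⟨hs, hsπ⟩
    rcases Nat.lt_or_ge r s with h | h
    · exfalso
      obtain ⟨a, ha⟩ := hr.odd_of_ne_two (by omega)
      have hse : s = r + 1 := by omega
      have := hs.eq_one_or_self_of_dvd 2 ⟨a + 1, by omega⟩
      omega
    · omega
  have hidx0 : H.index ≠ 0 := Subgroup.FiniteIndex.index_ne_zero
  have hpow := Nat.eq_prime_pow_of_unique_prime_dvd hidx0 (fun {s} hs hsd => hprimes s hs hsd)
  set k := H.index.primeFactorsList.length
  have hfac : (r + 1).factorial.factorization r = 1 := by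
    rw [Nat.factorial_succ, Nat.factorization_mul (by omega) (Nat.factorial_ne_zero r),
      Finsupp.add_apply, Nat.factorization_eq_zero_of_not_dvd, zero_add]
    · obtain ⟨m, hm⟩ : ∃ m, r = m + 1 := ⟨r - 1, by omega⟩
      conv_lhs => rw [hm, Nat.factorial_succ]
      rw [Nat.factorization_mul (by omega) (Nat.factorial_ne_zero m), Finsupp.add_apply, ← hm,
        hr.factorization_self, Nat.factorization_eq_zero_of_not_dvd]
      rw [hr.dvd_factorial]
      omega
    · intro h
      have := Nat.le_of_dvd one_pos ((Nat.dvd_add_right (dvd_refl r)).1 h)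
      omega
  have hk : k ≤ 1 := by
    have h1 : r ^ k ∣ (r + 1).factorial := by
      rw [← hpow, ← card_perm_fin, ← H.card_mul_index]
      exact dvd_mul_left _ _
    rw [hr.pow_dvd_iff_le_factorization (Nat.factorial_ne_zero _), hfac] at h1
    exact h1
  interval_cases hk' : k
  · -- `H` is everything
    refine hrπ (hH.1 r hr ?_)
    rw [pow_zero] at hpow
    rw [Subgroup.index_eq_one.1 hpow, Subgroup.card_top, card_perm_fin]
    exact Nat.dvd_factorial hr.pos (Nat.le_succ r)
  · -- `H` has index `r` and so is core-free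
    rw [pow_one] at hpow
    set K := H.normalCore with hK
    rcases eq_or_ne K ⊥ with hKb | hKb
    · have hinj : Function.Injective
          (MulAction.toPermHom (Perm (Fin (r + 1))) (Perm (Fin (r + 1)) ⧸ H)) := by
        rw [← MonoidHom.ker_eq_bot_iff, ← Subgroup.normalCore_eq_ker, ← hK, hKb]
      have := Nat.card_le_card_of_injective _ hinj
      rw [card_perm_fin, Nat.card_perm, ← Subgroup.index_eq_card, hpow] at this
      have : r.factorial < (r + 1).factorial := (Nat.factorial_lt hr.pos).2 (Nat.lt_succ_self r)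
      omega
    · haveI : Nontrivial K := K.nontrivial_iff_ne_bot.2 hKb
      have hA : alternatingGroup (Fin (r + 1)) ≤ H :=
        (Equiv.Perm.alternatingGroup_le_of_normal
          (by rw [Nat.card_eq_fintype_card, Fintype.card_fin]; omega) inferInstance).trans
          H.normalCore_le
      haveI : Nontrivial (Fin (r + 1)) := Fin.nontrivial_iff_two_le.2 (by omega)
      have h1 := Subgroup.index_dvd_of_le hA
      rw [alternatingGroup.index_eq_two, hpow] at h1
      have := Nat.le_of_dvd two_pos h1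
      omega

/-- A finite group satisfying `D_π` has a Hall π-subgroup. -/
theorem isEPiGroup_of_isDPiGroup {G : Type*} [Group G] [Finite G] {π : Set ℕ}
    (h : Cfsg.IsDPiGroup π G) : Cfsg.IsEPiGroup π G := by
  obtain ⟨H, -, hH⟩ := Finite.exists_le_maximal (p := Cfsg.IsPiSubgroup π) (a := (⊥ : Subgroup G))
    (fun p hp hd => absurd (Subgroup.card_bot (G := G) ▸ hd) hp.not_dvd_one)
  refine ⟨H, hH.1, fun p hp hpπ hdvd => ?_⟩
  haveI : Fact p.Prime := ⟨hp⟩
  obtain ⟨P⟩ := (inferInstance : Nonempty (Sylow p G))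
  obtain ⟨K, hPK, hK⟩ := Finite.exists_le_maximal (p := Cfsg.IsPiSubgroup π) (a := (P : Subgroup G))
    (fun q hq hd => by
      obtain ⟨k, hk⟩ := IsPGroup.iff_card.1 P.isPGroup'
      rw [hk] at hd
      rwa [(Nat.prime_dvd_prime_iff_eq hq hp).1 (hq.dvd_of_dvd_pow hd)])
  obtain ⟨g, hg⟩ := h H K hH hK
  have hidx : K.index = H.index := by rw [hg]; exact Subgroup.index_map_equiv _ (MulAut.conj g)
  exact P.not_dvd_index (dvd_trans (hidx ▸ hdvd) (Subgroup.index_dvd_of_le hPK))

end Cfsg.Agent.H85
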