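import Mathlib
import Cfsg.Agent.H28.BaerSuzuki
import Cfsg.Agent.H85.NilpotentCover

/-!
# The hypercentre as the set of elements forming nilpotent pairs with all elements
-/

set_option autoImplicit false
set_option linter.style.haveILetI false
set_option linter.unusedSectionVars false

namespace Cfsg.Agent.H85

variable {G : Type*} [Group G] [Finite G]

/-- A normal `p`-subgroup centralised by all elements of order prime to `p` is hypercentral. -/
theorem le_upperCentralSeries_of_centralized {p : ℕ} [hp : Fact p.Prime] (N : Subgroup G) [N.Normal]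
    (hN : IsPGroup p N) (hc : ∀ y : G, ¬ p ∣ orderOf y → ∀ n ∈ N, Commute y n) :
    ∃ k, N ≤ Subgroup.upperCentralSeries G k := by
  by_contra hall
  push Not at hall
  have key : ∀ k, N ⊓ Subgroup.upperCentralSeries G k < N ⊓ Subgroup.upperCentralSeries G (k + 1) := by
    intro k
    set Z := Subgroup.upperCentralSeries G k with hZ
    set π := QuotientGroup.mk' Z with hπ
    set N' := N.map π with hN'
    haveI : N'.Normal := Subgroup.Normal.map inferInstance π (QuotientGroup.mk'_surjective Z)
    have hN'p : IsPGroup p N' := hN.map π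
    haveI : Nontrivial N' := (Subgroup.nontrivial_iff_ne_bot _).2 fun h => hall k (by
      rw [hN', Subgroup.map_eq_bot_iff, hπ, QuotientGroup.ker_mk'] at h
      exact h)
    set φ : G →* MulAut N' := (MulAut.conjNormal (H := N')).comp π with hφ
    have hR : IsPGroup p φ.range := by
      rintro ⟨_, g, rfl⟩
      obtain ⟨a, m, hm, hom⟩ :=
        Nat.exists_eq_pow_mul_and_not_dvd (orderOf_pos g).ne' p hp.out.one_lt.ne'
      refine ⟨a, Subtype.ext ?_⟩
      show (φ g) ^ p ^ a = 1
      rw [← map_pow]
      have hnd : ¬ p ∣ orderOf (g ^ p ^ a) := by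
        rw [orderOf_pow_of_dvd (pow_ne_zero _ hp.out.ne_zero) (hom ▸ dvd_mul_right _ _), hom,
          Nat.mul_div_cancel_left _ (pow_pos hp.out.pos a)]
        exact hm
      refine MulEquiv.ext fun n => Subtype.ext ?_
      obtain ⟨n₀, hn₀, hn⟩ := n.2
      show π (g ^ p ^ a) * (n : G ⧸ Z) * (π (g ^ p ^ a))⁻¹ = n
      rw [← hn, ← map_inv, ← map_mul, ← map_mul, (hc _ hnd n₀ hn₀).eq, mul_inv_cancel_right]
    obtain ⟨l, hl, hcard⟩ := hN'p.nontrivial_iff_card.1 inferInstance
    obtain ⟨b, hb, hb1⟩ := hR.exists_fixed_point_of_prime_dvd_card_of_fixed_point (α := N')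
      (hcard ▸ dvd_pow_self p hl.ne') (a := (1 : N')) (fun r => smul_one r)
    obtain ⟨n, hn, hnb⟩ := b.2
    have hcent : (b : G ⧸ Z) ∈ Subgroup.center (G ⧸ Z) := by
      rw [Subgroup.mem_center_iff]
      intro y
      obtain ⟨g, rfl⟩ := QuotientGroup.mk'_surjective Z y
      have h1 := congrArg Subtype.val (hb ⟨φ g, g, rfl⟩)
      change π g * (b : G ⧸ Z) * (π g)⁻¹ = b at h1
      exact mul_inv_eq_iff_eq_mul.1 h1
    refine lt_of_le_of_ne (inf_le_inf_left _ (Subgroup.upperCentralSeries_mono G k.le_succ)) fun he => ?_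
    have h2 : n ∈ N ⊓ Z := by
      rw [hZ, he]
      refine Subgroup.mem_inf.2 ⟨hn, ?_⟩
      show n ∈ Subgroup.upperCentralSeriesStep Z
      rw [Subgroup.upperCentralSeriesStep_eq_comap_center, Subgroup.mem_comap]
      exact hnb ▸ hcent
    refine hb1 (Subtype.ext ?_)
    rw [OneMemClass.coe_one, ← hnb]
    exact ((QuotientGroup.eq_one_iff n).2 h2.2).symm
  have hstrict : StrictMono fun k => Nat.card ↥(N ⊓ Subgroup.upperCentralSeries G k) :=
    strictMono_nat_of_lt_succ fun k => Set.ncard_lt_ncard (SetLike.coe_ssubset_coe.2 (key k)) |> fun h => by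
      rwa [← Nat.card_coe_set_eq, ← Nat.card_coe_set_eq] at h
  have h3 := hstrict.id_le (Nat.card G + 1)
  have h4 := Subgroup.card_le_card_group (N ⊓ Subgroup.upperCentralSeries G (Nat.card G + 1))
  simp only [id] at h3
  omega

theorem isNilpotent_closure_pair_of_mem {g x : G} {n : ℕ}
    (hg : g ∈ Subgroup.upperCentralSeries G n) :
    Group.IsNilpotent (Subgroup.closure ({x, g} : Set G)) := by
  set H := Subgroup.closure ({x, g} : Set G) with hH
  have hle : ∀ k, (Subgroup.upperCentralSeries G k).subgroupOf H ≤ Subgroup.upperCentralSeries H k := by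
    intro k
    induction k with
    | zero => simp [Subgroup.upperCentralSeries_zero]
    | succ k ih =>
      intro a ha
      show a ∈ Subgroup.upperCentralSeriesStep (Subgroup.upperCentralSeries H k)
      rw [Subgroup.mem_upperCentralSeriesStep]
      intro y
      exact ih ((Subgroup.mem_upperCentralSeriesStep _ _).1
        (show (a : G) ∈ Subgroup.upperCentralSeriesStep (Subgroup.upperCentralSeries G k) from ha) (y : G))
  refine ⟨⟨n + 1, top_le_iff.1 fun a _ => ?_⟩⟩
  show a ∈ Subgroup.upperCentralSeriesStep (Subgroup.upperCentralSeries H n)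
  rw [Subgroup.upperCentralSeriesStep_eq_comap_center, Subgroup.mem_comap]
  set π := QuotientGroup.mk' (Subgroup.upperCentralSeries H n) with hπ
  have hx : x ∈ H := Subgroup.subset_closure (Or.inl rfl)
  have hgH : g ∈ H := Subgroup.subset_closure (Or.inr rfl)
  have hgen : ∀ b : H, π b ∈ Subgroup.zpowers (π ⟨x, hx⟩) := by
    rintro ⟨b, hb⟩
    induction hb using Subgroup.closure_induction with
    | mem b hb =>
      rcases hb with rfl | rfl
      · exact Subgroup.mem_zpowers _
      · have h1 : (⟨b, hgH⟩ : H) ∈ Subgroup.upperCentralSeries H n := hle n hg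
        rw [show π ⟨b, _⟩ = 1 from (QuotientGroup.eq_one_iff _).2 h1]
        exact one_mem _
    | one => rw [show π ⟨1, _⟩ = 1 from map_one π]; exact one_mem _
    | mul b c hb hc ihb ihc =>
      rw [show π ⟨b * c, _⟩ = π ⟨b, hb⟩ * π ⟨c, hc⟩ from map_mul π ⟨b, hb⟩ ⟨c, hc⟩]
      exact mul_mem ihb ihc
    | inv b hb ihb =>
      rw [show π ⟨b⁻¹, _⟩ = (π ⟨b, hb⟩)⁻¹ from map_inv π ⟨b, hb⟩]
      exact inv_mem ihb
  rw [Subgroup.mem_center_iff]
  intro y
  obtain ⟨b, rfl⟩ := QuotientGroup.mk'_surjective _ y
  obtain ⟨i, hi⟩ := hgen a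
  obtain ⟨j, hj⟩ := hgen b
  rw [← hi, ← hj]
  exact ((Commute.refl _).zpow_zpow j i).eq

theorem mem_hypercenter {g : G} (h : ∀ x : G, Group.IsNilpotent (Subgroup.closure ({x, g} : Set G))) :
    g ∈ ⨆ n : ℕ, Subgroup.upperCentralSeries G n := by
  induction hN : orderOf g using Nat.strong_induction_on generalizing g with
  | _ N ih =>
    subst hN
    by_cases h1 : orderOf g = 1
    · rw [orderOf_eq_one_iff.1 h1]; exact one_mem _
    obtain ⟨q, hq, hqd⟩ := Nat.exists_prime_and_dvd h1
    haveI := Fact.mk hq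
    obtain ⟨a, m, hm, hom⟩ :=
      Nat.exists_eq_pow_mul_and_not_dvd (orderOf_pos g).ne' q hq.one_lt.ne'
    have hcop : Nat.Coprime (q ^ a) m := (hq.coprime_iff_not_dvd.2 hm).pow_left a
    have ha : a ≠ 0 := fun h0 => hm (by rwa [hom, h0, pow_zero, one_mul] at hqd)
    have hpow : ∀ k x, Group.IsNilpotent (Subgroup.closure ({x, g ^ k} : Set G)) := fun k x => by
      haveI := h x
      refine Group.nilpotent_of_mulEquiv (Subgroup.subgroupOfEquivOfLe
        (H := Subgroup.closure ({x, g ^ k} : Set G)) (K := Subgroup.closure ({x, g} : Set G)) ?_)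
      rw [Subgroup.closure_le]
      rintro _ (rfl | rfl)
      · exact Subgroup.subset_closure (Or.inl rfl)
      · exact SetLike.mem_coe.2 (pow_mem (Subgroup.subset_closure
          (show g ∈ ({x, g} : Set G) from Or.inr rfl)) k)
    have hm0 : m ≠ 0 := fun h0 => hm (h0 ▸ dvd_zero q)
    have h2 : g ^ q ^ a ∈ ⨆ n : ℕ, Subgroup.upperCentralSeries G n := by
      refine ih (orderOf (g ^ q ^ a)) ?_ (hpow _) rfl
      rw [orderOf_pow_of_dvd (pow_ne_zero _ hq.ne_zero) (hom ▸ dvd_mul_right _ _)]
      exact Nat.div_lt_self (orderOf_pos g) (Nat.one_lt_pow ha hq.one_lt)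
    have h3 : g ^ m ∈ ⨆ n : ℕ, Subgroup.upperCentralSeries G n := by
      set u := g ^ m with hu
      have huo : orderOf u = q ^ a := by
        rw [hu, orderOf_pow_of_dvd hm0 (hom ▸ dvd_mul_left _ _), hom,
          Nat.mul_div_cancel _ (Nat.pos_of_ne_zero hm0)]
      have huc : ∀ y : G, ¬ q ∣ orderOf y → Commute y u := fun y hy =>
        commute_of_coprime_nilpotent (hpow m y) (Subgroup.subset_closure (Or.inl rfl))
          (Subgroup.subset_closure (Or.inr rfl))
          (huo ▸ ((hq.coprime_iff_not_dvd.2 hy).symm.pow_right a))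
      obtain ⟨K, hK, hKp, huK⟩ := Cfsg.Agent.H28.baer_suzuki_element (p := q) u fun y => by
        set L := Subgroup.closure ({y, u} : Set G) with hL
        have hnil : Group.IsNilpotent L := hpow m y
        set S := Subgroup.closure ({u, y * u * y⁻¹} : Set G) with hS
        have hSL : S ≤ L := by
          rw [hS, Subgroup.closure_le]
          rintro _ (rfl | rfl)
          · exact Subgroup.subset_closure (Or.inr rfl)
          · exact mul_mem (mul_mem (Subgroup.subset_closure (Or.inl rfl))
              (Subgroup.subset_closure (Or.inr rfl))) (inv_mem (Subgroup.subset_closure (Or.inl rfl)))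
        obtain ⟨Q⟩ := (inferInstance : Nonempty (Sylow q L))
        haveI : Fintype L := Fintype.ofFinite _
        have hQn : (Q : Subgroup L).Normal :=
          ((Group.isNilpotent_of_finite_tfae (G := L)).out 0 3 rfl rfl).1 hnil q ⟨hq⟩ Q
        haveI := Sylow.unique_of_normal Q hQn
        have hmemQ : ∀ z : L, (∃ i, orderOf z = q ^ i) → z ∈ (Q : Subgroup L) := fun z ⟨i, hi⟩ => by
          obtain ⟨R, hR⟩ := (IsPGroup.of_card (n := i)
            (by rw [Nat.card_zpowers, hi]) : IsPGroup q (Subgroup.zpowers z)).exists_le_sylow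
          rw [Subsingleton.elim Q R]
          exact hR (Subgroup.mem_zpowers z)
        refine (Q.2.map L.subtype).to_le ?_
        rw [hS, Subgroup.closure_le]
        rintro w (rfl | rfl)
        · exact ⟨⟨u, hSL (Subgroup.subset_closure (Or.inl rfl))⟩,
            hmemQ _ ⟨a, by rw [Subgroup.orderOf_mk, huo]⟩, rfl⟩
        · exact ⟨⟨y * u * y⁻¹, hSL (Subgroup.subset_closure (Or.inr rfl))⟩, hmemQ _ ⟨a, by
            rw [Subgroup.orderOf_mk, ← huo]
            exact (MulAut.conj y).orderOf_eq u⟩, rfl⟩
      set Nc := Subgroup.normalClosure ({u} : Set G) with hNc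
      obtain ⟨k, hk⟩ := le_upperCentralSeries_of_centralized (p := q) Nc
        (hKp.to_le (Subgroup.normalClosure_le_normal (by simpa using huK))) fun y hy n hn => by
          have hle : Nc ≤ Subgroup.centralizer ({z : G | ¬ q ∣ orderOf z}) := by
            haveI : (Subgroup.centralizer ({z : G | ¬ q ∣ orderOf z})).Normal :=
              ⟨fun c hc w => Subgroup.mem_centralizer_iff.2 fun z hz => by
                have h1 := Subgroup.mem_centralizer_iff.1 hc (w⁻¹ * z * w) (by
                  show ¬ q ∣ orderOf (w⁻¹ * z * w)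
                  have := (MulAut.conj w⁻¹).orderOf_eq z
                  simp only [MulAut.conj_apply, inv_inv] at this
                  rwa [this])
                calc z * (w * c * w⁻¹) = w * (w⁻¹ * z * w * c) * w⁻¹ := by group
                  _ = w * (c * (w⁻¹ * z * w)) * w⁻¹ := by rw [h1]
                  _ = w * c * w⁻¹ * z := by group⟩
            refine Subgroup.normalClosure_le_normal ?_
            rintro _ rfl
            exact Subgroup.mem_centralizer_iff.2 fun z hz => (huc z hz).eq
          exact Subgroup.mem_centralizer_iff.1 (hle hn) y hy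
      exact Subgroup.mem_iSup_of_mem k (hk (Subgroup.subset_normalClosure rfl))
    have hB : ((q ^ a : ℕ) : ℤ) * Nat.gcdA (q ^ a) m + (m : ℤ) * Nat.gcdB (q ^ a) m = 1 := by
      rw [← Nat.gcd_eq_gcd_ab, hcop]; rfl
    rw [← zpow_one g, ← hB, zpow_add, zpow_mul, zpow_mul, zpow_natCast, zpow_natCast]
    exact mul_mem (zpow_mem h2 _) (zpow_mem h3 _)

end Cfsg.Agent.H85
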