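import Cfsg.Agent.S2758
import Cfsg.Agent.H83.Involves
import Cfsg.Agent.H19.Cores

set_option autoImplicit false

/-! Two-elements inverting elements of odd prime power order: transfer lemmas. -/

namespace Cfsg.Agent.H85

open Subgroup

variable {G : Type*} [Group G] [Finite G] {q : ℕ} [Fact q.Prime]

omit [Fact q.Prime] in
/-- An odd power of an element has two-power order. -/
theorem exists_odd_two_part (g : G) : ∃ m : ℕ, Odd m ∧ ∃ k, orderOf (g ^ m) = 2 ^ k := by
  obtain ⟨a, m, hm, ha⟩ := Nat.exists_eq_pow_mul_and_not_dvd (orderOf_pos g).ne' 2 (by norm_num)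
  refine ⟨m, Nat.odd_iff.2 (Nat.two_dvd_ne_zero.1 hm), a, ?_⟩
  rw [orderOf_pow, ha, Nat.gcd_eq_right (dvd_mul_left m _),
    Nat.mul_div_cancel _ (Nat.pos_of_ne_zero fun h => hm (by rw [h]; exact dvd_zero 2))]

omit [Finite G] in
/-- An element of two-power and of `q`-power order is trivial. -/
theorem eq_one_of_two_power (hq : q ≠ 2) {x : G} (h2 : ∃ k, orderOf x = 2 ^ k)
    (h : ∃ k, x ^ q ^ k = 1) : x = 1 := by
  obtain ⟨k, hk⟩ := h2
  obtain ⟨l, hl⟩ := h
  have h1 := Nat.Coprime.pow k l ((Nat.coprime_primes Nat.prime_two (Fact.out : q.Prime)).2 hq.symm)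
  rw [← hk] at h1
  exact orderOf_eq_one_iff.1 (Nat.eq_one_of_dvd_coprimes h1 dvd_rfl (orderOf_dvd_of_pow_eq_one hl))

omit [Finite G] [Fact q.Prime] in
/-- The image of an element of two-power order has two-power order. -/
theorem two_power_map {Q : Type*} [Group Q] (f : G →* Q) {x : G} (h : ∃ k, orderOf x = 2 ^ k) :
    ∃ k, orderOf (f x) = 2 ^ k := by
  obtain ⟨k, hk⟩ := h
  obtain ⟨j, -, hj⟩ := (Nat.dvd_prime_pow Nat.prime_two).1 (hk ▸ orderOf_map_dvd f x)
  exact ⟨j, hj⟩

/-- A two-element normalising but not centralising a `q`-subgroup inside `M`. -/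
theorem involves_of_mem (hq : q ≠ 2) {M V : Subgroup G} {t : G} (htM : t ∈ M) (hVM : V ≤ M)
    (hV : IsPGroup q V) (ht : ∃ k, orderOf t = 2 ^ k) (hn : t ∈ normalizer (V : Set G))
    (hc : t ∉ centralizer (V : Set G)) : Cfsg.Involves (DihedralGroup q) M := by
  refine (Agent.S2758.result hq).1.2
    ⟨⟨t, htM⟩, V.subgroupOf M, ?_, hV.comap_of_injective M.subtype M.subtype_injective, ?_, ?_⟩
  · obtain ⟨k, hk⟩ := ht
    exact ⟨k, by rw [orderOf_mk, hk]⟩
  · exact mem_normalizer_iff.2 fun x => mem_normalizer_iff.1 hn (x : G)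
  · intro h
    refine hc (mem_centralizer_iff.2 fun v hv => ?_)
    exact congrArg Subtype.val (mem_centralizer_iff.1 h (⟨v, hVM hv⟩ : M) hv)

omit [Finite G] [Fact q.Prime] in
/-- Sections transfer along injective homomorphisms. -/
theorem involves_of_injective {A P : Type*} [Group A] [Group P] (f : A →* G)
    (hf : Function.Injective f) (h : Cfsg.Involves P A) : Cfsg.Involves P G :=
  H83.involves_of_subgroup (L := f.range)
    (H83.involves_of_surjective_hom (MonoidHom.ofInjective hf).symm.toMonoidHom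
      (MonoidHom.ofInjective hf).symm.surjective h)

omit [Finite G] [Fact q.Prime] in
/-- Sections transfer along an injective map of a subgroup into another one. -/
theorem involves_of_map_le {A P : Type*} [Group A] [Group P] (f : A →* G)
    (hf : Function.Injective f) {K : Subgroup A} {L : Subgroup G} (hKL : K.map f ≤ L)
    (h : Cfsg.Involves P K) : Cfsg.Involves P L :=
  involves_of_injective ((f.comp K.subtype).codRestrict L fun x => hKL ⟨x, x.2, rfl⟩)
    (fun x y hxy => Subtype.ext (hf (congrArg Subtype.val hxy))) h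

omit [Finite G] [Fact q.Prime] in
/-- Sections of a subgroup of an image lift to the preimage. -/
theorem involves_comap {Q P : Type*} [Group Q] [Group P] (f : G →* Q) (hf : Function.Surjective f)
    {N : Subgroup Q} (h : Cfsg.Involves P N) : Cfsg.Involves P (N.comap f) :=
  H83.involves_of_surjective_hom ((f.comp (N.comap f).subtype).codRestrict N fun x => x.2)
    (fun ⟨y, hy⟩ => by
      obtain ⟨x, rfl⟩ := hf y
      exact ⟨⟨x, hy⟩, rfl⟩) h

end Cfsg.Agent.H85
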