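import Cfsg.Agent.H85.QuadraticWeakClosure
import Cfsg.Agent.H35.ThompsonA
import Cfsg.Agent.H35.ZJ

set_option autoImplicit false

/-!
For `q` odd, a group with a two-element inverting a nontrivial `q`-element has one in the normaliser
of `Z(J(T))`, `T` a Sylow `q`-subgroup.
-/

namespace Cfsg.Agent.H85

open Subgroup
open scoped Pointwise

variable {G : Type*} [Group G] [Finite G] {q : ℕ} [Fact q.Prime]

/-- The conclusion does not depend on the Sylow subgroup. -/
theorem involves_normalizer_centerThompson_conj {P : Type*} [Group P] (S T : Sylow q G)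
    (h : Cfsg.Involves P ↥(normalizer (Cfsg.centerThompsonAOf (S : Subgroup G) : Set G))) :
    Cfsg.Involves P ↥(normalizer (Cfsg.centerThompsonAOf (T : Subgroup G) : Set G)) := by
  obtain ⟨c, hc⟩ := MulAction.exists_smul_eq G S T
  refine involves_of_map_le (MulAut.conj c).toMonoidHom (MulAut.conj c).injective ?_ h
  refine (le_normalizer_map _).trans (le_of_eq ?_)
  rw [H35.map_centerThompsonAOf _ _ (MulAut.conj c).injective.injOn, ← hc, Sylow.coe_subgroup_smul]
  rfl

/-- Descent to a subgroup containing a Sylow subgroup. -/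
theorem involves_of_sylow_le {P : Type*} [Group P] (M : Subgroup G) (T : Sylow q G)
    (hTM : (T : Subgroup G) ≤ M)
    (h : ∀ U : Sylow q M, Cfsg.Involves P ↥(normalizer (Cfsg.centerThompsonAOf (U : Subgroup M) : Set M))) :
    Cfsg.Involves P ↥(normalizer (Cfsg.centerThompsonAOf (T : Subgroup G) : Set G)) := by
  refine involves_of_map_le M.subtype M.subtype_injective ?_ (h (T.subtype hTM))
  refine (le_normalizer_map _).trans (le_of_eq ?_)
  rw [H35.map_centerThompsonAOf _ _ M.subtype_injective.injOn, Sylow.coe_subtype,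
    Subgroup.subgroupOf_map_subtype, inf_of_le_left hTM]

omit [Finite G] in
theorem involves_of_normalizer_eq_top {P : Type*} [Group P] {W : Subgroup G}
    (hW : normalizer (W : Set G) = ⊤) (h : Cfsg.Involves P G) :
    Cfsg.Involves P ↥(normalizer (W : Set G)) :=
  involves_of_injective ((MonoidHom.id G).codRestrict _ fun x => hW ▸ mem_top x)
    (fun _ _ hxy => congrArg Subtype.val hxy) h

universe u

/-- Main theorem: inverted elements persist in `N(Z(J(T)))`. -/
theorem involves_normalizer_centerThompson_aux (hq : q ≠ 2) :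
    ∀ (n : ℕ) (G : Type u) [Group G] [Finite G], Nat.card G = n →
      Cfsg.Involves (DihedralGroup q) G → ∀ T : Sylow q G,
      Cfsg.Involves (DihedralGroup q)
        ↥(normalizer (Cfsg.centerThompsonAOf (T : Subgroup G) : Set G)) := by
  intro n
  induction n using Nat.strong_induction_on with
  | _ n ih =>
  intro G _ _ hn hinv T
  subst hn
  have ihM : ∀ M : Subgroup G, M ≠ ⊤ → Cfsg.Involves (DihedralGroup q) M → ∀ U : Sylow q M,
      Cfsg.Involves (DihedralGroup q)
        ↥(normalizer (Cfsg.centerThompsonAOf (U : Subgroup M) : Set M)) := fun M hM h =>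
    ih _ (lt_of_le_of_ne (card_le_card_group M) fun he => hM (eq_top_of_card_eq M he)) M rfl h
  have tool : ∀ M : Subgroup G, M ≠ ⊤ → (T : Subgroup G) ≤ M → Cfsg.Involves (DihedralGroup q) M →
      Cfsg.Involves (DihedralGroup q)
        ↥(normalizer (Cfsg.centerThompsonAOf (T : Subgroup G) : Set G)) := fun M hM hTM h =>
    involves_of_sylow_le M T hTM (ihM M hM h)
  -- reduction to a nontrivial `q`-core
  obtain ⟨x, y, hx, ⟨ky, hky⟩, hy1, hxy⟩ := (Agent.S2758.result hq).2.1 hinv
  have hyx : x ∉ centralizer (zpowers y : Set G) := by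
    intro hc
    apply hy1
    have h := mem_centralizer_iff.1 hc y (mem_zpowers y)
    rw [← h, mul_inv_cancel_right, eq_inv_iff_mul_eq_one, ← sq] at hxy
    exact eq_one_of_two_power hq ((Nat.dvd_prime_pow Nat.prime_two).1
      (show orderOf y ∣ 2 ^ 1 by simpa using orderOf_dvd_of_pow_eq_one hxy) |>.imp fun _ h => h.2)
      ⟨ky, by rw [← hky, pow_orderOf_eq_one]⟩
  have hxn : x ∈ normalizer (zpowers y : Set G) := by
    rw [mem_normalizer_iff_map_conj_eq, MonoidHom.map_zpowers]
    show zpowers (x * y * x⁻¹) = _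
    rw [hxy, zpowers_inv]
  have hyp : IsPGroup q ↥(zpowers y) :=
    IsPGroup.of_card (n := ky) (by rw [Nat.card_zpowers, hky])
  obtain ⟨R₁, ⟨hR₁, hR₁ne, hR₁inv⟩, hmax⟩ := Set.Finite.exists_maximalFor
    (fun R : Subgroup G => (Nat.card ↥(normalizer (R : Set G))).factorization q)
    {R : Subgroup G | IsPGroup q R ∧ R ≠ ⊥ ∧ Cfsg.Involves (DihedralGroup q) ↥(normalizer (R : Set G))}
    (Set.toFinite _) ⟨zpowers y, hyp, fun h => hy1 (zpowers_eq_bot.1 h),
      involves_of_mem hq hxn le_normalizer hyp hx hxn hyx⟩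
  by_cases hR₁top : normalizer (R₁ : Set G) ≠ ⊤
  · obtain ⟨U⟩ : Nonempty (Sylow q ↥(normalizer (R₁ : Set G))) := inferInstance
    set U' := (U : Subgroup ↥(normalizer (R₁ : Set G))).map (normalizer (R₁ : Set G)).subtype with hU'
    have hU'p : IsPGroup q U' := U.isPGroup'.map _
    have hR₁U : R₁ ≤ U' := by
      have hn : (R₁.comap (normalizer (R₁ : Set G)).subtype).Normal := Subgroup.normal_in_normalizer
      have h1 := (hR₁.comap_of_injective _ (normalizer (R₁ : Set G)).subtype_injective).le_sylow_of_normal U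
      intro r hr
      exact ⟨⟨r, le_normalizer hr⟩, h1 (show (⟨r, le_normalizer hr⟩ : normalizer (R₁ : Set G)) ∈
        R₁.subgroupOf (normalizer (R₁ : Set G)) from hr), rfl⟩
    have hinv' : Cfsg.Involves (DihedralGroup q) ↥(normalizer (Cfsg.centerThompsonAOf U' : Set G)) := by
      refine involves_of_map_le (normalizer (R₁ : Set G)).subtype (subtype_injective _) ?_
        (ihM _ hR₁top hR₁inv U)
      refine (le_normalizer_map _).trans (le_of_eq ?_)
      rw [H35.map_centerThompsonAOf _ _ (subtype_injective _).injOn]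
    obtain ⟨S, hS⟩ := hU'p.exists_le_sylow
    by_cases hUS : U' = S
    · exact involves_normalizer_centerThompson_conj S T (hUS ▸ hinv')
    exfalso
    obtain ⟨g, hgS, hgU, hgN⟩ := H28.exists_mem_normalizer_not_mem S.isPGroup' hS hUS
    set V := (S : Subgroup G) ⊓ normalizer (U' : Set G) with hV
    have hUV : U' < V := lt_of_le_of_ne (le_inf hS le_normalizer)
      (fun h => hgU (h ▸ ⟨hgS, hgN⟩))
    have hZ : Cfsg.centerThompsonAOf U' ≠ ⊥ :=
      H35.centerThompsonAOf_ne_bot hU'p fun h => hR₁ne (le_bot_iff.1 (h ▸ hR₁U))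
    have hVN : V ≤ normalizer (Cfsg.centerThompsonAOf U' : Set G) :=
      inf_le_right.trans (H35.normalizer_le_normalizer_centerThompsonAOf U')
    obtain ⟨a, ha⟩ := IsPGroup.iff_card.1 (S.isPGroup'.to_le (inf_le_left : V ≤ S))
    have h1 : a ≤ (Nat.card ↥(normalizer (Cfsg.centerThompsonAOf U' : Set G))).factorization q :=
      ((Fact.out : q.Prime).pow_dvd_iff_le_factorization Nat.card_pos.ne').1
        (ha ▸ card_dvd_of_le hVN)
    have h2 : Nat.card U' = q ^ (Nat.card ↥(normalizer (R₁ : Set G))).factorization q := by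
      rw [hU', card_map_of_injective (subtype_injective _)]
      exact U.card_eq_multiplicity
    have h3 : Nat.card U' < Nat.card V := by
      by_contra h
      exact hUV.ne (eq_of_le_of_card_ge hUV.le (not_lt.1 h))
    rw [h2, ha] at h3
    have h4 := (Nat.pow_lt_pow_iff_right (Fact.out : q.Prime).one_lt).1 h3
    have h5 : (Nat.card ↥(normalizer (Cfsg.centerThompsonAOf U' : Set G))).factorization q ≤
        (Nat.card ↥(normalizer (R₁ : Set G))).factorization q := hmax ⟨hU'p.to_le (H35.centerThompsonAOf_le U'), hZ, hinv'⟩ (le_trans h4.le h1)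
    omega
  push Not at hR₁top
  set R := Cfsg.pCore q G with hR
  have hRn : R.Normal := H19.pCore_normal q G
  have hRp : IsPGroup q R := H19.pCore_isPGroup q
  have hR1 : R₁ ≤ R := H19.le_pCore (normalizer_eq_top_iff.1 hR₁top) hR₁
  have hRT : R ≤ (T : Subgroup G) := H19.pCore_le_sylow T
  -- the non-stable case
  by_cases hst : ∀ (V : Subgroup G) [V.Normal], IsPGroup q V → Cfsg.IsPStableOn q V
  swap
  · push Not at hst
    obtain ⟨V, hVn, hVp, hns⟩ := hst
    obtain ⟨M, hM, hTM, t, htM, ht, htC⟩ := exists_proper_of_not_stable hq V hVp hns T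
    exact tool M hM hTM (involves_of_mem hq htM ((hVp.le_sylow_of_normal T).trans hTM) hVp ht
      (by rw [normalizer_eq_top V]; exact mem_top t) htC)
  set W := Cfsg.centerThompsonAOf (T : Subgroup G) with hWdef
  by_cases hWn : W.Normal
  · exact involves_of_normalizer_eq_top (normalizer_eq_top W) hinv
  by_cases hquot : Cfsg.Involves (DihedralGroup q) (G ⧸ R)
  · set π := QuotientGroup.mk' R with hπ
    have hπs : Function.Surjective π := QuotientGroup.mk'_surjective R
    have hlt : Nat.card (G ⧸ R) < Nat.card G := by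
      rw [card_eq_card_quotient_mul_card_subgroup R]
      refine lt_mul_of_one_lt_right Nat.card_pos (one_lt_card_iff_ne_bot _ |>.2 fun h => hR₁ne ?_)
      exact le_bot_iff.1 (h ▸ hR1)
    have h := ih _ hlt (G ⧸ R) rfl hquot (T.mapSurjective hπs)
    refine tool _ ?_ ?_ (involves_comap π hπs h)
    · intro htop
      apply hWn
      set Z := Cfsg.centerThompsonAOf ((T.mapSurjective hπs : Sylow q (G ⧸ R)) : Subgroup (G ⧸ R))
      have hZn : Z.Normal := by
        rw [← normalizer_eq_top_iff, eq_top_iff, ← map_top_of_surjective π hπs, ← htop]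
        exact map_comap_le _ _
      have hZ : Z ≤ Cfsg.pCore q (G ⧸ R) :=
        H19.le_pCore hZn ((T.mapSurjective hπs).isPGroup'.to_le (H35.centerThompsonAOf_le _))
      rw [H19.pCore_quotient_pCore q, le_bot_iff] at hZ
      have hT1 : ((T.mapSurjective hπs : Sylow q (G ⧸ R)) : Subgroup (G ⧸ R)) = ⊥ := by
        by_contra hne
        exact H35.centerThompsonAOf_ne_bot (T.mapSurjective hπs).isPGroup' hne hZ
      rw [Sylow.coe_mapSurjective, Subgroup.map_eq_bot_iff, QuotientGroup.ker_mk'] at hT1
      have hTR : (T : Subgroup G) = R := le_antisymm hT1 hRT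
      rw [← normalizer_eq_top_iff, eq_top_iff]
      refine le_trans ?_ (H35.normalizer_le_normalizer_centerThompsonAOf _)
      rw [hTR, normalizer_eq_top R]
    · refine map_le_iff_le_comap.1 ?_
      refine le_trans ?_ (H35.normalizer_le_normalizer_centerThompsonAOf _)
      rw [Sylow.coe_mapSurjective]
      exact le_normalizer
  -- every inverted element lies in the core
  have hyR : y ∈ R := by
    by_contra hy
    apply hquot
    refine (Agent.S2758.result hq).2.2 ⟨QuotientGroup.mk' R x, QuotientGroup.mk' R y,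
      two_power_map _ hx, ?_, ?_, ?_⟩
    · obtain ⟨j, -, hj⟩ := (Nat.dvd_prime_pow (Fact.out : q.Prime)).1
        (hky ▸ orderOf_map_dvd (QuotientGroup.mk' R) y)
      exact ⟨j, hj⟩
    · exact fun h => hy ((QuotientGroup.eq_one_iff y).1 h)
    · rw [← map_inv, ← map_inv, ← map_mul, ← map_mul, hxy]
  have hxR : x ∉ centralizer (R : Set G) := fun h =>
    hyx (centralizer_le (zpowers_le.2 hyR) h)
  have hWT : W ≤ (T : Subgroup G) := H35.centerThompsonAOf_le _
  have hTW : (T : Subgroup G) ≤ normalizer (W : Set G) :=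
    le_normalizer.trans (H35.normalizer_le_normalizer_centerThompsonAOf _)
  obtain ⟨m, hne, heq⟩ := H35.exists_centerThompsonAOf_eq_sInf (T : Subgroup G)
  have hRW : (R ⊓ W).Normal := by
    rw [hWdef, heq]
    exact H35.inf_family_inf_normal hq T (fun A => IsMulCommutative A) (fun A h => h)
      (fun _ _ _ h _ _ => h) (fun g A hA => H35.isMulCommutative_map _ hA) m hne hst R hRp
  obtain ⟨a, haW, haR⟩ : ∃ a ∈ W, a ∉ R := by
    by_contra h
    push Not at h
    exact hWn ((inf_eq_right.2 (show W ≤ R from h)) ▸ hRW)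
  have hquad : ⁅⁅R, zpowers a⁆, zpowers a⁆ = ⊥ := by
    have h1 : ⁅R, zpowers a⁆ ≤ W := commutator_le.2 fun r hr w hw => by
      have hwW : w ∈ W := zpowers_le.2 haW hw
      exact mul_mem ((mem_normalizer_iff.1 (hTW (hRT hr)) w).1 hwW) (inv_mem hwW)
    refine le_bot_iff.1 ((commutator_mono h1 (zpowers_le.2 haW)).trans ?_)
    refine (commutator_eq_bot_iff_le_centralizer.2 ?_).le
    intro w hw
    refine mem_centralizer_iff.2 fun v hv => ?_
    have hw' : w ∈ centralizer (Cfsg.thompsonSubgroupAOf (T : Subgroup G) : Set G) := by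
      rw [hWdef, Cfsg.centerThompsonAOf] at hw; exact hw.2
    have hv' : v ∈ Cfsg.thompsonSubgroupAOf (T : Subgroup G) := by
      rw [hWdef, Cfsg.centerThompsonAOf] at hv; exact hv.1
    exact mem_centralizer_iff.1 hw' v hv'
  have hamem := hst R hRp a hquad
  set C := centralizer (R : Set G) with hC
  set K := (Cfsg.pCore q (G ⧸ C)).comap (QuotientGroup.mk' C) with hK
  have hKn : K.Normal := (H19.pCore_normal q _).comap _
  set D := (T : Subgroup G) ⊓ K with hD
  have hDR : normalizer (D : Set G) ≠ ⊤ := fun h =>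
    haR (H19.le_pCore (normalizer_eq_top_iff.1 h) (T.isPGroup'.to_le inf_le_left) ⟨hWT haW, hamem⟩)
  have hTD : (T : Subgroup G) ≤ normalizer (D : Set G) := by
    intro s hs
    exact mem_normalizer_iff.2 fun z => and_congr (mem_normalizer_iff.1 (le_normalizer hs) z)
      ⟨fun hz => hKn.conj_mem z hz s, fun hz => by simpa [mul_assoc] using hKn.conj_mem _ hz s⁻¹⟩
  have htop := H35.sup_normalizer_sylow_inf T K
  obtain ⟨k, hk, b, hb, hkb⟩ := mem_sup_of_normal_left.1 (htop.ge (mem_top x))
  obtain ⟨j, hjodd, hj⟩ := exists_odd_two_part b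
  refine tool _ hDR hTD (involves_of_mem hq (pow_mem hb j) (hRT.trans hTD) hRp hj
    (by rw [normalizer_eq_top R]; exact mem_top _) ?_)
  intro hbC
  apply hxR
  have hCK : C ≤ K := fun c hc => by
    rw [hK, mem_comap, QuotientGroup.mk'_apply, (QuotientGroup.eq_one_iff c).2 hc]
    exact one_mem _
  -- modulo `K` the elements `x` and `b` agree
  set π := QuotientGroup.mk' K with hπ
  have hxb : π x = π b := by
    rw [← hkb, map_mul, show π k = 1 from (QuotientGroup.eq_one_iff k).2 hk, one_mul]
  have hxK : x ∈ K := by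
    refine (QuotientGroup.eq_one_iff x).1 ?_
    obtain ⟨l, hl⟩ := two_power_map π hx
    refine orderOf_eq_one_iff.1 (Nat.eq_one_of_dvd_coprimes (a := 2 ^ l) (b := j)
      ((Nat.coprime_two_left.2 hjodd).pow_left l) (hl ▸ dvd_rfl) (orderOf_dvd_of_pow_eq_one ?_))
    show π x ^ j = 1
    rw [hxb, ← map_pow]
    exact (QuotientGroup.eq_one_iff _).2 (hCK hbC)
  obtain ⟨l, hl⟩ := H19.pCore_isPGroup q (G := G ⧸ C) ⟨QuotientGroup.mk' C x, hxK⟩
  exact (QuotientGroup.eq_one_iff x).1 (eq_one_of_two_power hq (two_power_map (QuotientGroup.mk' C) hx)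
    ⟨l, congrArg Subtype.val hl⟩)

/-- Main theorem: inverted elements persist in `N(Z(J(T)))`. -/
theorem involves_normalizer_centerThompson {G : Type u} [Group G] [Finite G] (hq : q ≠ 2)
    (h : Cfsg.Involves (DihedralGroup q) G) (T : Sylow q G) :
    Cfsg.Involves (DihedralGroup q)
      ↥(normalizer (Cfsg.centerThompsonAOf (T : Subgroup G) : Set G)) :=
  involves_normalizer_centerThompson_aux hq _ G rfl h T

end Cfsg.Agent.H85
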