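import Cfsg.Agent.H85.OddPeriods

/-!
Modifying one involution on small blocks so that both products have odd periods.
-/

namespace Cfsg.Agent.H85.InvGraph

open Equiv

variable {α : Type*} [DecidableEq α] [Finite α]

/-- A solution on a set: a conjugator supported on `B` such that both products have odd periods. -/
def Good (s t : Perm α) (B : Set α) : Prop :=
  ∃ c : Perm α, (∀ x, x ∉ B → c x = x) ∧
    ∀ x ∈ B, OddPer (s * (c * s * c⁻¹)) x ∧ OddPer (t * (c * s * c⁻¹)) x

variable {s t : Perm α}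

theorem good_of_oddPer (hs : ∀ x, s (s x) = x) (ht : ∀ x, t (t x) = x) {B : Set α}
    (h : ∀ x ∈ B, OddPer (s * t) x) : Good s t B := by
  refine ⟨1, fun x _ => rfl, fun x hx => ⟨oddPer_of_fixed (by simp [hs]), ?_⟩⟩
  obtain ⟨k, hk, hkx⟩ := h x hx
  refine ⟨k, hk, ?_⟩
  have e : t * (1 * s * 1⁻¹) = (s * t)⁻¹ := by
    rw [one_mul, inv_one, mul_one, mul_inv_rev, inv_apply_of_sq hs, inv_apply_of_sq ht]
  rw [e, inv_pow]
  exact Perm.inv_eq_iff_eq.mpr hkx.symm

/-- A path pair: `v` fixed by `t` and `w` fixed by `s`, both of even period. -/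
theorem good_pair (hs : ∀ x, s (s x) = x) (ht : ∀ x, t (t x) = x) (v w : α) (hv : t v = v)
    (hw : s w = w) (hv' : ¬ OddPer (s * t) v) (hw' : ¬ OddPer (s * t) w) :
    Good s t {x | ∃ i : ℤ, x = ((s * t) ^ i) v ∨ x = ((s * t) ^ i) w} := by
  classical
  obtain ⟨L, hL0, hLe, hL⟩ := exists_even_period hv'
  obtain ⟨M, hM0, hMe, hM⟩ := exists_even_period hw'
  set z := s * t with hz
  let V : ℤ → α := fun i => (z ^ i) v
  let W : ℤ → α := fun i => (z ^ i) w
  have hsv : s v = V 1 := by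
    show s v = (z ^ (1 : ℤ)) v
    rw [zpow_one, hz, Perm.mul_apply, hv]
  have sV : ∀ i, s (V i) = V (1 - i) := by
    intro i
    show s ((z ^ i) v) = (z ^ (1 - i)) v
    rw [invol_zpow hs ht, hsv, ← hz]
    show (z ^ (-i)) ((z ^ (1 : ℤ)) v) = _
    rw [← Perm.mul_apply, ← zpow_add]
    congr 2; ring
  have tV : ∀ i, t (V i) = V (-i) := by
    intro i
    show t ((z ^ i) v) = (z ^ (-i)) v
    rw [snd_invol_zpow hs ht, hsv, ← hz]
    show (z ^ (-(i + 1))) ((z ^ (1 : ℤ)) v) = _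
    rw [← Perm.mul_apply, ← zpow_add]
    congr 2; ring
  have sW : ∀ i, s (W i) = W (-i) := by
    intro i
    show s ((z ^ i) w) = _
    rw [invol_zpow hs ht, hw]
  have tW : ∀ i, t (W i) = W (-1 - i) := by
    intro i
    show t ((z ^ i) w) = _
    rw [snd_invol_zpow hs ht, hw, show -(i + 1) = -1 - i by ring]
  have hVW : ∀ i j, V i ≠ W j := by
    intro i j h
    have h2 : V (1 - (i - j)) = W 0 := by
      have e : V (i - j) = W 0 := by
        have := congrArg (z ^ (-j)) h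
        simp only [V, W, ← Perm.mul_apply, ← zpow_add] at this
        simpa [V, W, sub_eq_neg_add] using this
      rw [← sV, e, sW]; simp [W]
    have h3 : V (i - j) = W 0 := by
      have := congrArg (z ^ (-j)) h
      simp only [V, W, ← Perm.mul_apply, ← zpow_add] at this
      simpa [V, W, sub_eq_neg_add] using this
    obtain ⟨c, hc⟩ := (hL _ _).mp (h2.trans h3.symm)
    obtain ⟨e, he⟩ := hLe
    have hodd : (1 : ℤ) = 2 * ((e : ℤ) * c + (i - j)) := by
      rw [he] at hc; push_cast at hc; linarith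
    omega
  have hVne : ∀ i j : ℤ, i < j → j - i < L → V i ≠ V j := by
    intro i j h1 h2 h
    have := (hL _ _).mp h.symm
    have := Int.le_of_dvd (by omega) this
    omega
  have hWne : ∀ i j : ℤ, i < j → j - i < M → W i ≠ W j := by
    intro i j h1 h2 h
    have := (hM _ _).mp h.symm
    have := Int.le_of_dvd (by omega) this
    omega
  have hVL : ∀ i : ℤ, V (i + L) = V i := fun i => (hL _ _).mpr (by simp)
  have hWM : ∀ i : ℤ, W (i + M) = W i := fun i => (hM _ _).mpr (by simp)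
  have hL2 : 2 ≤ L := by obtain ⟨e, he⟩ := hLe; omega
  have hM2 : 2 ≤ M := by obtain ⟨e, he⟩ := hMe; omega
  set c : Perm α := Equiv.swap (V 0) (W 0) with hc
  set u := c * s * c⁻¹ with hu
  have hu' : ∀ x, u x = c (s (c x)) := by
    intro x; simp [hu, hc, Equiv.swap_inv]
  have u0 : u (V 0) = V 0 := by
    rw [hu', hc, Equiv.swap_apply_left, sW, neg_zero, Equiv.swap_apply_right]
  have u1 : u (V 1) = W 0 := by
    rw [hu', hc, Equiv.swap_apply_of_ne_of_ne (hVne 0 1 (by omega) (by omega)).symm (hVW 1 0),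
      sV, sub_self, Equiv.swap_apply_left]
  have u2 : u (W 0) = V 1 := by
    rw [hu', hc, Equiv.swap_apply_right, sV, sub_zero,
      Equiv.swap_apply_of_ne_of_ne (hVne 0 1 (by omega) (by omega)).symm (hVW 1 0)]
  have uV : ∀ i : ℤ, V i ≠ V 0 → V i ≠ V 1 → u (V i) = V (1 - i) := by
    intro i h0 h1
    rw [hu', hc, Equiv.swap_apply_of_ne_of_ne h0 (hVW i 0), sV,
      Equiv.swap_apply_of_ne_of_ne ?_ (hVW _ 0)]
    intro h
    apply h1
    have := congrArg s h
    rwa [sV, sV, sub_sub_cancel, sub_zero] at this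
  have uW : ∀ i : ℤ, W i ≠ W 0 → u (W i) = W (-i) := by
    intro i h0
    rw [hu', hc, Equiv.swap_apply_of_ne_of_ne (fun h => hVW 0 i h.symm) h0, sW,
      Equiv.swap_apply_of_ne_of_ne (fun h => hVW 0 _ h.symm) ?_]
    intro h
    apply h0
    have := congrArg s h
    rwa [sW, sW, neg_neg, neg_zero] at this
  refine ⟨c, fun x hx => ?_, ?_⟩
  · rw [hc]
    exact Equiv.swap_apply_of_ne_of_ne (fun h => hx ⟨0, Or.inl h⟩) (fun h => hx ⟨0, Or.inr h⟩)
  rw [← hu]
  set F := t * u with hF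
  set S := s * u with hS
  -- periods for `s * u`
  have hS3 : OddPer S (V 0) ∧ OddPer S (V 1) ∧ OddPer S (W 0) :=
    oddPer_of_three (by simp [hS, u0, sV]) (by simp [hS, u1, sW]) (by simp [hS, u2, sV])
  -- the long cycle of `t * u`
  let d : ℕ → α := fun j => V ((L : ℤ) - 1 - j)
  let e : ℕ → α := fun j => W ((M : ℤ) - 1 - j)
  have hd : ∀ j < L - 2, F (d j) = d (j + 1) := by
    intro j hj
    simp only [hF, Perm.mul_apply, d]
    rw [uV _ (hVne 0 _ (by omega) (by omega)).symm (hVne 1 _ (by omega) (by omega)).symm, tV]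
    congr 1; omega
  have he : ∀ j < M - 1, F (e j) = e (j + 1) := by
    intro j hj
    simp only [hF, Perm.mul_apply, e]
    rw [uW _ (hWne 0 _ (by omega) (by omega)).symm, tW]
    congr 1; omega
  have f0 : F (W 0) = d 0 := by
    simp only [hF, Perm.mul_apply, d, u2, tV]
    rw [← hVL (-1)]; congr 1; omega
  have f1 : F (V 1) = e 0 := by
    simp only [hF, Perm.mul_apply, e, u1, tW]
    rw [← hWM (-1 - 0)]; congr 1; omega
  have hcyc : (F ^ (L + M - 1)) (W 0) = W 0 := by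
    have h1 := pow_seg d _ hd
    have h2 := pow_seg e _ he
    have hd1 : d (L - 2) = V 1 := by simp only [d]; congr 1; omega
    have he1 : e (M - 1) = W 0 := by simp only [e]; congr 1; omega
    rw [show L + M - 1 = (M - 1) + (1 + ((L - 2) + 1)) by omega, pow_add, pow_add, pow_add,
      Perm.mul_apply, Perm.mul_apply, Perm.mul_apply, pow_one, f0, h1, hd1, f1, h2, he1]
  have hW0 : OddPer F (W 0) := by
    refine ⟨L + M - 1, ?_, hcyc⟩
    obtain ⟨a, ha⟩ := hLe
    obtain ⟨b, hb⟩ := hMe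
    exact ⟨a + b - 1, by omega⟩
  have hV1 : OddPer F (V 1) := by
    have h := oddPer_pow (f0 ▸ oddPer_apply hW0 : OddPer F (d 0)) (L - 2)
    rw [pow_seg d _ hd] at h
    simpa [d, show (L : ℤ) - 1 - ((L - 2 : ℕ) : ℤ) = 1 by omega] using h
  intro x hx
  obtain ⟨i, rfl | rfl⟩ := hx
  · -- a point of the first path
    obtain ⟨k, hk, hik⟩ : ∃ k : ℕ, k < L ∧ V i = V k := by
      refine ⟨(i % L).toNat, ?_, (hL _ _).mpr ?_⟩
      · have := Int.emod_lt_of_pos i (show (0 : ℤ) < L by omega)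
        omega
      · rw [Int.toNat_of_nonneg (Int.emod_nonneg _ (by omega))]
        exact ⟨i / L, by linarith [Int.emod_add_mul_ediv i L]⟩
    show OddPer S (V i) ∧ OddPer F (V i)
    rw [hik]
    rcases Nat.lt_or_ge k 2 with hk2 | hk2
    · interval_cases k
      · exact ⟨hS3.1, oddPer_of_fixed (by simp [hF, u0, tV])⟩
      · exact ⟨by simpa using hS3.2.1, by simpa using hV1⟩
    · refine ⟨oddPer_of_fixed ?_, ?_⟩
      · simp only [hS, Perm.mul_apply]
        rw [uV _ (hVne 0 _ (by omega) (by omega)).symm (hVne 1 _ (by omega) (by omega)).symm, sV]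
        congr 1; ring
      · have h := oddPer_pow (f0 ▸ oddPer_apply hW0 : OddPer F (d 0)) (L - 1 - k)
        rw [pow_seg d _ (fun j hj => hd j (by omega))] at h
        simpa [d, show (L : ℤ) - 1 - ((L - 1 - k : ℕ) : ℤ) = k by omega] using h
  · obtain ⟨k, hk, hik⟩ : ∃ k : ℕ, k < M ∧ W i = W k := by
      refine ⟨(i % M).toNat, ?_, (hM _ _).mpr ?_⟩
      · have := Int.emod_lt_of_pos i (show (0 : ℤ) < M by omega)
        omega
      · rw [Int.toNat_of_nonneg (Int.emod_nonneg _ (by omega))]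
        exact ⟨i / M, by linarith [Int.emod_add_mul_ediv i M]⟩
    show OddPer S (W i) ∧ OddPer F (W i)
    rw [hik]
    refine ⟨?_, ?_⟩
    · rcases Nat.eq_zero_or_pos k with rfl | hk0
      · exact hS3.2.2
      · refine oddPer_of_fixed ?_
        simp only [hS, Perm.mul_apply]
        rw [uW _ (hWne 0 _ (by omega) (by omega)).symm, sW, neg_neg]
    · have h := oddPer_pow (f1 ▸ oddPer_apply hV1 : OddPer F (e 0)) (M - 1 - k)
      rw [pow_seg e _ (fun j hj => he j (by omega))] at h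
      simpa [e, show (M : ℤ) - 1 - ((M - 1 - k : ℕ) : ℤ) = k by omega] using h

/-- A long swapped pair of even cycles. -/
theorem good_big_cycle (hs : ∀ x, s (s x) = x) (ht : ∀ x, t (t x) = x) (q : α)
    (hq : ¬ OddPer (s * t) q) (hdisj : ∀ i : ℤ, s q ≠ ((s * t) ^ i) q)
    (hbig : (s * t) ((s * t) q) ≠ q) :
    Good s t {x | ∃ i : ℤ, x = ((s * t) ^ i) q ∨ x = ((s * t) ^ i) (s q)} := by
  classical
  obtain ⟨L, hL0, hLe, hL⟩ := exists_even_period hq
  set z := s * t with hz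
  let Q : ℤ → α := fun i => (z ^ i) q
  let R : ℤ → α := fun i => (z ^ (-i)) (s q)
  have sQ : ∀ i, s (Q i) = R i := fun i => invol_zpow hs ht i q
  have sR : ∀ i, s (R i) = Q i := fun i => by rw [← sQ, hs]
  have tQ : ∀ i, t (Q i) = R (i + 1) := fun i => snd_invol_zpow hs ht i q
  have tR : ∀ i, t (R i) = Q (i - 1) := fun i => by
    rw [show R i = t (Q (i - 1)) by rw [tQ, sub_add_cancel], ht]
  have hQR : ∀ i j, Q i ≠ R j := by
    intro i j h
    apply hdisj (i + j)
    have := congrArg (z ^ j) h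
    simp only [Q, R, ← Perm.mul_apply, ← zpow_add, add_neg_cancel, zpow_zero, Perm.one_apply]
      at this
    rw [add_comm]
    simpa using this.symm
  have hL4 : 4 ≤ L := by
    obtain ⟨a, ha⟩ := hLe
    by_contra hlt
    apply hbig
    have h2 : (z ^ (2 : ℤ)) q = (z ^ (0 : ℤ)) q := (hL _ _).mpr (by
      rw [show L = 2 by omega]; norm_num)
    rw [show (2 : ℤ) = 1 + 1 from rfl, zpow_add] at h2
    simpa using h2
  have hQne : ∀ i j : ℤ, i < j → j - i < L → Q i ≠ Q j := by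
    intro i j h1 h2 h
    have := Int.le_of_dvd (by omega) ((hL _ _).mp h.symm)
    omega
  have hRne : ∀ i j : ℤ, i < j → j - i < L → R i ≠ R j := by
    intro i j h1 h2 h
    have := congrArg s h
    rw [sR, sR] at this
    exact hQne i j h1 h2 this
  have hQL : ∀ i : ℤ, Q (i + L) = Q i := fun i => (hL _ _).mpr (by simp)
  have hRL : ∀ i : ℤ, R (i + L) = R i := fun i => by rw [← sQ, hQL, sQ]
  set c : Perm α := Equiv.swap (R 0) (Q 2) * Equiv.swap (Q 2) (R 1) * Equiv.swap (R 1) (R 2)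
    with hc
  have n01 := hRne 0 1 (by omega) (by omega)
  have n02 := hRne 0 2 (by omega) (by omega)
  have n12 := hRne 1 2 (by omega) (by omega)
  have m0 := hQR 2 0
  have m1 := hQR 2 1
  have m2 := hQR 2 2
  have cR0 : c (R 0) = Q 2 := by
    simp [hc, Equiv.swap_apply_of_ne_of_ne n01 n02, Equiv.swap_apply_of_ne_of_ne m0.symm n01]
  have cQ2 : c (Q 2) = R 1 := by
    simp [hc, Equiv.swap_apply_of_ne_of_ne m1 m2,
      Equiv.swap_apply_of_ne_of_ne n01.symm m1.symm]
  have cR1 : c (R 1) = R 2 := by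
    simp [hc, Equiv.swap_apply_of_ne_of_ne m2.symm n12.symm,
      Equiv.swap_apply_of_ne_of_ne n02.symm m2.symm]
  have cR2 : c (R 2) = R 0 := by
    simp [hc]
  have cfix : ∀ x, x ≠ R 0 → x ≠ Q 2 → x ≠ R 1 → x ≠ R 2 → c x = x := by
    intro x a b d e
    simp [hc, Equiv.swap_apply_of_ne_of_ne d e, Equiv.swap_apply_of_ne_of_ne b d,
      Equiv.swap_apply_of_ne_of_ne a b]
  have cQ0 : c (Q 0) = Q 0 := cfix _ (hQR _ _) (hQne 0 2 (by omega) (by omega)) (hQR _ _) (hQR _ _)
  have cQ1 : c (Q 1) = Q 1 := cfix _ (hQR _ _) (hQne 1 2 (by omega) (by omega)) (hQR _ _) (hQR _ _)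
  set u := c * s * c⁻¹ with hu
  have hu' : ∀ x, u (c x) = c (s x) := by intro x; simp [hu]
  have uQ0 : u (Q 0) = Q 2 := by rw [← cQ0, hu', sQ, cR0]
  have uQ2 : u (Q 2) = Q 0 := by rw [← cR0, hu', sR, cQ0]
  have uR1 : u (R 1) = R 0 := by rw [← cQ2, hu', sQ, cR2]
  have uR0 : u (R 0) = R 1 := by rw [← cR2, hu', sR, cQ2]
  have uR2 : u (R 2) = Q 1 := by rw [← cR1, hu', sR, cQ1]
  have uQ1 : u (Q 1) = R 2 := by rw [← cQ1, hu', sQ, cR1]
  have uQ : ∀ i : ℤ, 3 ≤ i → i < L → u (Q i) = R i := by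
    intro i h1 h2
    have e1 : c (Q i) = Q i := cfix _ (hQR _ _) (hQne 2 i (by omega) (by omega)).symm
      (hQR _ _) (hQR _ _)
    have e2 : c (R i) = R i := cfix _ (hRne 0 i (by omega) (by omega)).symm (hQR _ _).symm
      (hRne 1 i (by omega) (by omega)).symm (hRne 2 i (by omega) (by omega)).symm
    conv_lhs => rw [← e1]
    rw [hu', sQ, e2]
  have uR : ∀ i : ℤ, 3 ≤ i → i < L → u (R i) = Q i := by
    intro i h1 h2
    have hh := hu' (R i)
    have e1 : c (Q i) = Q i := cfix _ (hQR _ _) (hQne 2 i (by omega) (by omega)).symm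
      (hQR _ _) (hQR _ _)
    have e2 : c (R i) = R i := cfix _ (hRne 0 i (by omega) (by omega)).symm (hQR _ _).symm
      (hRne 1 i (by omega) (by omega)).symm (hRne 2 i (by omega) (by omega)).symm
    rwa [e2, sR, e1] at hh
  refine ⟨c, fun x hx => ?_, ?_⟩
  · exact cfix x (fun h => hx ⟨-0, Or.inr h⟩) (fun h => hx ⟨2, Or.inl h⟩)
      (fun h => hx ⟨-1, Or.inr h⟩) (fun h => hx ⟨-2, Or.inr h⟩)
  rw [← hu]
  set F := t * u with hF
  set S := s * u with hS
  have hS1 : OddPer S (R 2) ∧ OddPer S (R 1) ∧ OddPer S (Q 0) ∧ OddPer S (R 0) ∧ OddPer S (Q 1)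
      ∧ OddPer S (Q 2) := by
    obtain ⟨a, b, d⟩ := oddPer_of_three (f := S) (a := R 2) (b := R 1) (c := Q 0)
      (by simp [hS, uR2, sQ]) (by simp [hS, uR1, sR]) (by simp [hS, uQ0, sQ])
    obtain ⟨a', b', d'⟩ := oddPer_of_three (f := S) (a := R 0) (b := Q 1) (c := Q 2)
      (by simp [hS, uR0, sR]) (by simp [hS, uQ1, sR]) (by simp [hS, uQ2, sQ])
    exact ⟨a, b, d, a', b', d'⟩
  let d : ℕ → α := fun j => R (3 + j)
  let e : ℕ → α := fun j => Q ((L : ℤ) - 1 - j)
  have hd : ∀ j < L - 3, F (d j) = d (j + 1) := by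
    intro j hj
    simp only [hF, Perm.mul_apply, d]
    rw [uR _ (by omega) (by omega), tQ]
    congr 1
  have he : ∀ j < L - 3, F (e j) = e (j + 1) := by
    intro j hj
    simp only [hF, Perm.mul_apply, e]
    rw [uQ _ (by omega) (by omega), tR]
    congr 1; push_cast; ring
  have g0 : F (R 0) = Q 0 := by simp [hF, uR0, tR]
  have g1 : F (Q 0) = d 0 := by simp [hF, uQ0, tQ, d]
  have g2 : F (Q 2) = R 1 := by simp [hF, uQ2, tQ]
  have g3 : F (R 1) = e 0 := by
    simp only [hF, Perm.mul_apply, e, uR1, tR]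
    rw [← hQL (0 - 1)]; congr 1; omega
  have hd1 : d (L - 3) = R 0 := by
    simp only [d]; rw [← hRL 0]; congr 1; omega
  have he1 : e (L - 3) = Q 2 := by simp only [e]; congr 1; omega
  have hA : OddPer F (R 0) := by
    refine ⟨L - 1, ?_, ?_⟩
    · obtain ⟨a, ha⟩ := hLe; exact ⟨a - 1, by omega⟩
    · rw [show L - 1 = (L - 3) + (1 + 1) by omega, pow_add, pow_add, Perm.mul_apply,
        Perm.mul_apply, pow_one, g0, g1, pow_seg d _ hd, hd1]
  have hB : OddPer F (Q 2) := by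
    refine ⟨L - 1, ?_, ?_⟩
    · obtain ⟨a, ha⟩ := hLe; exact ⟨a - 1, by omega⟩
    · rw [show L - 1 = (L - 3) + (1 + 1) by omega, pow_add, pow_add, Perm.mul_apply,
        Perm.mul_apply, pow_one, g2, g3, pow_seg e _ he, he1]
  intro x hx
  have hcase : ∃ k : ℕ, k < L ∧ (x = Q k ∨ x = R k) := by
    obtain ⟨i, rfl | rfl⟩ := hx
    · refine ⟨(i % L).toNat, ?_, Or.inl ((hL _ _).mpr ?_)⟩
      · have := Int.emod_lt_of_pos i (show (0 : ℤ) < L by omega)
        omega
      · rw [Int.toNat_of_nonneg (Int.emod_nonneg _ (by omega))]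
        exact ⟨i / L, by linarith [Int.emod_add_mul_ediv i L]⟩
    · refine ⟨((-i) % L).toNat, ?_, Or.inr ?_⟩
      · have := Int.emod_lt_of_pos (-i) (show (0 : ℤ) < L by omega)
        omega
      · have e0 : Q (-i) = Q (((-i) % L).toNat : ℤ) := by
          refine (hL _ _).mpr ?_
          rw [Int.toNat_of_nonneg (Int.emod_nonneg _ (by omega))]
          exact ⟨(-i) / L, by linarith [Int.emod_add_mul_ediv (-i) L]⟩
        rw [← sQ, ← e0, sQ]
        show _ = (z ^ (-(-i))) (s q)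
        rw [neg_neg]
  obtain ⟨k, hk, rfl | rfl⟩ := hcase
  · rcases Nat.lt_or_ge k 3 with hk3 | hk3
    · interval_cases k
      · exact ⟨hS1.2.2.1, g0 ▸ oddPer_apply hA⟩
      · exact ⟨hS1.2.2.2.2.1, oddPer_of_fixed (by simp [hF, uQ1, tR])⟩
      · exact ⟨hS1.2.2.2.2.2, hB⟩
    · refine ⟨oddPer_of_fixed ?_, ?_⟩
      · simp only [hS, Perm.mul_apply]; rw [uQ _ (by omega) (by omega), sR]
      · have h := oddPer_pow (g3 ▸ oddPer_apply (g2 ▸ oddPer_apply hB) : OddPer F (e 0))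
          (L - 1 - k)
        rw [pow_seg e _ (fun j hj => he j (by omega))] at h
        simpa [e, show (L : ℤ) - 1 - ((L - 1 - k : ℕ) : ℤ) = k by omega] using h
  · rcases Nat.lt_or_ge k 3 with hk3 | hk3
    · interval_cases k
      · exact ⟨hS1.2.2.2.1, hA⟩
      · exact ⟨hS1.2.1, g2 ▸ oddPer_apply hB⟩
      · exact ⟨hS1.1, oddPer_of_fixed (by simp [hF, uR2, tQ])⟩
    · refine ⟨oddPer_of_fixed ?_, ?_⟩
      · simp only [hS, Perm.mul_apply]; rw [uR _ (by omega) (by omega), sQ]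
      · have h := oddPer_pow (g1 ▸ oddPer_apply (g0 ▸ oddPer_apply hA) : OddPer F (d 0)) (k - 3)
        rw [pow_seg d _ (fun j hj => hd j (by omega))] at h
        simpa [d, show (3 : ℤ) + ((k - 3 : ℕ) : ℤ) = k by omega] using h

end Cfsg.Agent.H85.InvGraph
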