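import Cfsg.Agent.H85.InvolutionGraphInduction

/-!
The odd-product graph on a class of involutions of a symmetric group.
-/

namespace Cfsg.Agent.H85.InvGraph

open Equiv

/-- An involution has a distinct commuting conjugate (at least five points). -/
theorem exists_commuting_conj {n : ℕ} (hn : 5 ≤ n) (t : Perm (Fin n)) (ht : orderOf t = 2) :
    ∃ y : Perm (Fin n), IsConj t y ∧ y ≠ t ∧ Commute t y := by
  classical
  have htt : ∀ x, t (t x) = x := by
    intro x
    have h : t ^ 2 = 1 := by rw [← ht]; exact pow_orderOf_eq_one t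
    rw [← Perm.mul_apply, ← sq, h, Perm.one_apply]
  obtain ⟨a, ha⟩ : ∃ a, t a ≠ a := by
    by_contra h
    push Not at h
    have : t = 1 := Equiv.ext h
    rw [this, orderOf_one] at ht
    omega
  set b := t a with hb
  have tb : t b = a := htt a
  -- choose two further points
  obtain ⟨c, hca, hcb, hcase⟩ : ∃ c, c ≠ a ∧ c ≠ b ∧
      ((t c ≠ c) ∨ ((∀ z, z ≠ a → z ≠ b → t z = z))) := by
    by_cases h : ∃ c, c ≠ a ∧ c ≠ b ∧ t c ≠ c
    · obtain ⟨c, h1, h2, h3⟩ := h; exact ⟨c, h1, h2, Or.inl h3⟩
    · push Not at h
      obtain ⟨c, hc⟩ : ∃ c, c ∉ ({a, b} : Finset (Fin n)) := by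
        by_contra h'
        push Not at h'
        have := Finset.card_le_card (s := Finset.univ) (t := ({a, b} : Finset (Fin n)))
          (fun z _ => h' z)
        have h2 := Finset.card_le_two (a := a) (b := b)
        simp only [Finset.card_univ, Fintype.card_fin] at this
        omega
      simp only [Finset.mem_insert, Finset.mem_singleton, not_or] at hc
      exact ⟨c, hc.1, hc.2, Or.inr h⟩
  rcases hcase with htc | hrest
  · -- two transpositions `(a b)(c d)` go to `(a c)(b d)`
    set d := t c with hd
    have td : t d = c := htt c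
    have hda : d ≠ a := fun h => hcb (by rw [← td, h])
    have hdb : d ≠ b := fun h => hca (t.injective (by rw [← hd, ← hb, h]))
    have hcd : c ≠ d := Ne.symm htc
    set g := Equiv.swap b c with hg
    refine ⟨g * t * g⁻¹, isConj_iff.mpr ⟨g, rfl⟩, ?_, ?_⟩
    · intro h
      have := congrArg (fun f : Perm (Fin n) => f a) h
      simp only [Perm.mul_apply, hg, Equiv.swap_inv,
        Equiv.swap_apply_of_ne_of_ne (Ne.symm ha) (Ne.symm hca), ← hb,
        Equiv.swap_apply_left] at this
      exact hcb this
    · apply Equiv.ext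
      intro x
      simp only [Perm.mul_apply, hg, Equiv.swap_inv]
      have ea : Equiv.swap b c a = a := Equiv.swap_apply_of_ne_of_ne (Ne.symm ha) (Ne.symm hca)
      have ed : Equiv.swap b c d = d := Equiv.swap_apply_of_ne_of_ne hdb (Ne.symm hcd)
      by_cases h1 : x = a
      · subst h1; simp [ea, ← hb, ← hd, tb, ed]
      by_cases h2 : x = b
      · subst h2; simp [tb, ea, ← hd, td, ed, ← hb]
      by_cases h3 : x = c
      · subst h3; simp [tb, ea, ← hd, td, ed, ← hb]
      by_cases h4 : x = d
      · subst h4; simp [td, ea, ed, tb, ← hb]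
      have h5 : t x ≠ b := fun h => h1 (t.injective (by rw [h, hb]))
      have h6 : t x ≠ c := fun h => h4 (by rw [hd, ← h, htt])
      simp [Equiv.swap_apply_of_ne_of_ne h2 h3, Equiv.swap_apply_of_ne_of_ne h5 h6, htt]
  · -- a transposition `(a b)` and a disjoint one
    obtain ⟨d, hd⟩ : ∃ d, d ∉ ({a, b, c} : Finset (Fin n)) := by
      by_contra h'
      push Not at h'
      have := Finset.card_le_card (s := Finset.univ) (t := ({a, b, c} : Finset (Fin n)))
        (fun z _ => h' z)
      have h2 := Finset.card_le_three (a := a) (b := b) (c := c)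
      simp only [Finset.card_univ, Fintype.card_fin] at this
      omega
    simp only [Finset.mem_insert, Finset.mem_singleton, not_or] at hd
    obtain ⟨hda, hdb, hdc⟩ := hd
    have tc : t c = c := hrest c hca hcb
    have td : t d = d := hrest d hda hdb
    have hy : IsConj t (Equiv.swap c d) := by
      have e : t = Equiv.swap a b := by
        apply Equiv.ext
        intro x
        by_cases h1 : x = a
        · subst h1; simp [← hb]
        by_cases h2 : x = b
        · subst h2; simp [tb]
        simp [Equiv.swap_apply_of_ne_of_ne h1 h2, hrest x h1 h2]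
      rw [e]
      exact Equiv.Perm.isConj_swap (Ne.symm ha) (Ne.symm hdc)
    refine ⟨_, hy, ?_, ?_⟩
    · intro h
      have := congrArg (fun f : Perm (Fin n) => f a) h
      simp only [Equiv.swap_apply_of_ne_of_ne (Ne.symm hca) (Ne.symm hda), ← hb] at this
      exact ha this.symm
    · apply Equiv.ext
      intro x
      simp only [Perm.mul_apply]
      by_cases h1 : x = c
      · subst h1; simp [tc, td]
      by_cases h2 : x = d
      · subst h2; simp [tc, td]
      have h3 : t x ≠ c := fun h => h1 (t.injective (h.trans tc.symm))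
      have h4 : t x ≠ d := fun h => h2 (t.injective (h.trans td.symm))
      simp [Equiv.swap_apply_of_ne_of_ne h1 h2, Equiv.swap_apply_of_ne_of_ne h3 h4]

theorem graph_diam_eq_two {n : ℕ} (hn : 5 ≤ n) (t : Perm (Fin n)) (ht : orderOf t = 2) :
    (SimpleGraph.fromRel fun x y : {x : Perm (Fin n) // IsConj t x} =>
        Odd (orderOf (x.1 * y.1))).Connected ∧
      (SimpleGraph.fromRel fun x y : {x : Perm (Fin n) // IsConj t x} =>
        Odd (orderOf (x.1 * y.1))).diam = 2 := by
  classical
  set G := SimpleGraph.fromRel fun x y : {x : Perm (Fin n) // IsConj t x} =>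
    Odd (orderOf (x.1 * y.1)) with hG
  have hinv : ∀ x : {x : Perm (Fin n) // IsConj t x}, ∀ i, x.1 (x.1 i) = i := by
    intro x i
    obtain ⟨g, hg⟩ := isConj_iff.mp x.2
    have h : orderOf x.1 = 2 := by
      rw [← hg, ← ht]; exact (MulAut.conj g).orderOf_eq t
    have h2 : x.1 ^ 2 = 1 := by rw [← h]; exact pow_orderOf_eq_one _
    rw [← Perm.mul_apply, ← sq, h2, Perm.one_apply]
  have hle : G.ediam ≤ 2 := by
    refine SimpleGraph.ediam_le_iff.mpr fun x y => ?_
    obtain ⟨u, hu, h1, h2⟩ := exists_common_odd (by simpa using hn) (hinv x) (hinv y)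
      (x.2.symm.trans y.2)
    let w : {x : Perm (Fin n) // IsConj t x} := ⟨u, x.2.trans hu⟩
    have step : ∀ a b : {x : Perm (Fin n) // IsConj t x}, Odd (orderOf (a.1 * b.1)) →
        G.edist a b ≤ 1 := by
      intro a b h
      by_cases hab : a = b
      · rw [hab, SimpleGraph.edist_self]; exact zero_le
      · rw [SimpleGraph.edist_le_one_iff_adj_or_eq]
        left
        rw [hG, SimpleGraph.fromRel_adj]
        exact ⟨hab, Or.inl h⟩
    calc G.edist x y ≤ G.edist x w + G.edist w y := SimpleGraph.edist_triangle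
      _ ≤ 1 + 1 := add_le_add (step x w h1) (step w y h2)
      _ = 2 := by norm_num
  have : Nonempty {x : Perm (Fin n) // IsConj t x} := ⟨⟨t, IsConj.refl t⟩⟩
  refine ⟨SimpleGraph.connected_of_ediam_ne_top (ne_top_of_le_ne_top (by simp) hle), ?_⟩
  obtain ⟨y, hy, hyne, hcomm⟩ := exists_commuting_conj hn t ht
  let a : {x : Perm (Fin n) // IsConj t x} := ⟨t, IsConj.refl t⟩
  let b : {x : Perm (Fin n) // IsConj t x} := ⟨y, hy⟩
  have hab : a ≠ b := fun h => hyne (congrArg Subtype.val h).symm
  have hsq : t * t = 1 := by ext i; simp; exact congrArg Fin.val (hinv a i)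
  have hyy : y * y = 1 := by ext i; simp; exact congrArg Fin.val (hinv b i)
  have hprod : orderOf (t * y) = 2 := by
    refine orderOf_eq_prime ?_ ?_
    · rw [hcomm.mul_pow, sq, sq, hsq, hyy, one_mul]
    · intro h
      apply hyne
      calc y = t * t * y := by rw [hsq, one_mul]
        _ = t := by rw [mul_assoc, h, mul_one]
  have hnadj : ¬ G.Adj a b := by
    rw [hG, SimpleGraph.fromRel_adj]
    rintro ⟨-, h | h⟩
    · simp only [a, b] at h; rw [hprod] at h; exact absurd h (by decide)
    · simp only [a, b] at h; rw [← hcomm.eq, hprod] at h; exact absurd h (by decide)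
  have hge : 2 ≤ G.edist a b := by
    by_contra h
    push Not at h
    have h1 : G.edist a b ≤ 1 := by
      rcases ENat.ne_top_iff_exists.mp (ne_top_of_lt h) with ⟨k, hk⟩
      rw [← hk] at h ⊢
      norm_cast at h ⊢
      omega
    rcases SimpleGraph.edist_le_one_iff_adj_or_eq.mp h1 with h' | h'
    · exact hnadj h'
    · exact hab h'
  have he : G.ediam = 2 := le_antisymm hle (hge.trans SimpleGraph.edist_le_ediam)
  rw [SimpleGraph.diam, he]
  rfl

end Cfsg.Agent.H85.InvGraph
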