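import Cfsg.Agent.H85.InvolutionGraphBlocks

/-!
Absorbing a square (two double transpositions on four points).
-/

namespace Cfsg.Agent.H85.InvGraph

open Equiv

variable {α : Type*} [DecidableEq α] [Finite α] {s t : Perm α}

/-- The data of a square: `s = (12)(34)`, `t = (23)(41)`. -/
structure Square (s t : Perm α) (a1 a2 a3 a4 : α) : Prop where
  s1 : s a1 = a2
  s2 : s a2 = a1
  s3 : s a3 = a4
  s4 : s a4 = a3
  t1 : t a1 = a4
  t4 : t a4 = a1
  t2 : t a2 = a3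
  t3 : t a3 = a2
  n12 : a1 ≠ a2
  n13 : a1 ≠ a3
  n14 : a1 ≠ a4
  n23 : a2 ≠ a3
  n24 : a2 ≠ a4
  n34 : a3 ≠ a4

theorem Square.mem {a1 a2 a3 a4 x : α} (h : Square s t a1 a2 a3 a4)
    (hx : x = a1 ∨ x = a2 ∨ x = a3 ∨ x = a4) :
    (s x = a1 ∨ s x = a2 ∨ s x = a3 ∨ s x = a4) ∧ (t x = a1 ∨ t x = a2 ∨ t x = a3 ∨ t x = a4) := by
  rcases hx with rfl | rfl | rfl | rfl <;>
    simp [h.s1, h.s2, h.s3, h.s4, h.t1, h.t2, h.t3, h.t4]

/-- Insert a square next to a point of a solved set. -/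
theorem good_insert (hs : ∀ x, s (s x) = x) {a1 a2 a3 a4 : α}
    (h : Square s t a1 a2 a3 a4) (R : Set α) (hRs : ∀ z ∈ R, s z ∈ R) (hRt : ∀ z ∈ R, t z ∈ R)
    (hR1 : a1 ∉ R) (hR2 : a2 ∉ R) (hR3 : a3 ∉ R) (hR4 : a4 ∉ R) (hne : R.Nonempty)
    (hgood : Good s t R) :
    Good s t (R ∪ {a1, a2, a3, a4}) := by
  classical
  obtain ⟨x, hxR⟩ := hne
  obtain ⟨c0, hc0, hper⟩ := hgood
  have hc0R : ∀ z ∈ R, c0 z ∈ R := by
    intro z hz
    by_contra hn
    exact hn (by rwa [c0.injective (hc0 _ hn)])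
  have hc0i : ∀ z, z ∉ R → c0⁻¹ z = z := fun z hz => by
    conv_lhs => rw [← hc0 z hz]
    simp
  have hc0iR : ∀ z ∈ R, c0⁻¹ z ∈ R := by
    intro z hz
    by_contra hn
    have e := hc0 _ hn
    simp only [Perm.coe_inv, Equiv.apply_symm_apply] at e
    exact hn (by simpa [Perm.coe_inv, ← e] using hz)
  set u0 := c0 * s * c0⁻¹ with hu0
  have u0R : ∀ z ∈ R, u0 z ∈ R := fun z hz => by
    simp only [hu0, Perm.mul_apply]; exact hc0R _ (hRs _ (hc0iR z hz))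
  have u0out : ∀ z, z ∉ R → s z ∉ R → u0 z = s z := fun z hz hz' => by
    simp only [hu0, Perm.mul_apply, hc0i z hz, hc0 _ hz']
  have u0inv : ∀ z, u0 (u0 z) = z := by
    intro z; simp [hu0, hs]
  have v1 : u0 a1 = a2 := by rw [u0out _ hR1 (h.s1.symm ▸ hR2), h.s1]
  have v2 : u0 a2 = a1 := by rw [u0out _ hR2 (h.s2.symm ▸ hR1), h.s2]
  have v3 : u0 a3 = a4 := by rw [u0out _ hR3 (h.s3.symm ▸ hR4), h.s3]
  have v4 : u0 a4 = a3 := by rw [u0out _ hR4 (h.s4.symm ▸ hR3), h.s4]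
  have x1 : a1 ≠ x := fun e => hR1 (e ▸ hxR)
  have x2 : a2 ≠ x := fun e => hR2 (e ▸ hxR)
  have x3 : a3 ≠ x := fun e => hR3 (e ▸ hxR)
  have x4 : a4 ≠ x := fun e => hR4 (e ▸ hxR)
  set c1 : Perm α := Equiv.swap a1 a2 * Equiv.swap a2 a4 * Equiv.swap a4 x with hc1
  have c11 : c1 a1 = a2 := by
    simp [hc1, Equiv.swap_apply_of_ne_of_ne h.n14 x1, Equiv.swap_apply_of_ne_of_ne h.n12 h.n14]
  have c12 : c1 a2 = a4 := by
    simp [hc1, Equiv.swap_apply_of_ne_of_ne h.n24 x2,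
      Equiv.swap_apply_of_ne_of_ne h.n14.symm h.n24.symm]
  have c14 : c1 a4 = x := by
    simp [hc1, Equiv.swap_apply_of_ne_of_ne x2.symm x4.symm,
      Equiv.swap_apply_of_ne_of_ne x1.symm x2.symm]
  have c1x : c1 x = a1 := by simp [hc1]
  have c1z : ∀ z, z ≠ a1 → z ≠ a2 → z ≠ a4 → z ≠ x → c1 z = z := by
    intro z e1 e2 e4 ex
    simp [hc1, Equiv.swap_apply_of_ne_of_ne e4 ex, Equiv.swap_apply_of_ne_of_ne e2 e4,
      Equiv.swap_apply_of_ne_of_ne e1 e2]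
  have c13 : c1 a3 = a3 := c1z _ h.n13.symm h.n23.symm h.n34 x3
  have c1R : ∀ z ∈ R, z ≠ x → c1 z = z := fun z hz hzx =>
    c1z z (fun e => hR1 (e ▸ hz)) (fun e => hR2 (e ▸ hz)) (fun e => hR4 (e ▸ hz)) hzx
  set u := c1 * u0 * c1⁻¹ with hu
  have hu' : ∀ z, u (c1 z) = c1 (u0 z) := by intro z; simp [hu]
  set y := u0 x with hy
  have hyR : y ∈ R := u0R x hxR
  have U2 : u a2 = a4 := by rw [← c11, hu', v1, c12]
  have U4 : u a4 = a2 := by rw [← c12, hu', v2, c11]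
  have U3 : u a3 = x := by rw [← c13, hu', v3, c14]
  have Ux : u x = a3 := by rw [← c14, hu', v4, c13]
  have U1 : y ≠ x → u a1 = y := fun e => by rw [← c1x, hu', ← hy, c1R y hyR e]
  have Uy : y ≠ x → u y = a1 := fun e => by
    conv_lhs => rw [← c1R y hyR e]
    rw [hu', hy, u0inv, c1x]
  have U1' : y = x → u a1 = a1 := fun e => by rw [← c1x, hu', ← hy, e, c1x]
  have UR : ∀ z ∈ R, z ≠ x → z ≠ y → u z = u0 z := by
    intro z hz e1 e2
    conv_lhs => rw [← c1R z hz e1]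
    rw [hu', c1R _ (u0R z hz)]
    intro e
    apply e2
    rw [hy, ← e, u0inv]
  refine ⟨c1 * c0, fun z hz => ?_, ?_⟩
  · simp only [Set.mem_union, Set.mem_insert_iff, Set.mem_singleton_iff, not_or] at hz
    rw [Perm.mul_apply, hc0 z hz.1]
    exact c1z z hz.2.1 hz.2.2.1 hz.2.2.2.2 (fun e => hz.1 (e ▸ hxR))
  have eu : c1 * c0 * s * (c1 * c0)⁻¹ = u := by
    rw [hu, hu0]; group
  rw [eu]
  have hyy : u0 y = x := by rw [hy, u0inv]
  -- the costs
  let m : α → ℕ := fun z => if z = x then (if y = x then 5 else 3) else if z = y then 3 else 1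
  have hm : ∀ z ∈ R, Odd (m z) := by
    intro z _
    simp only [m]
    split_ifs <;> decide
  have hS : ∀ z ∈ R, ((s * u) ^ m z) z = (s * u0) z := by
    intro z hz
    simp only [m]
    split_ifs with e1 e2 e3
    · subst e1; simp [pow_succ, Ux, h.s3, U4, h.s2, U1' e2, h.s1, U2, h.s4, U3, ← hy, e2]
    · subst e1; simp [pow_succ, Ux, h.s3, U4, h.s2, U1 e2, ← hy]
    · subst e3
      have e2 : y ≠ x := e1
      simp [pow_succ, Uy e2, h.s1, U2, h.s4, U3, hyy]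
    · simp [UR z hz e1 e3]
  have hT : ∀ z ∈ R, ((t * u) ^ m z) z = (t * u0) z := by
    intro z hz
    simp only [m]
    split_ifs with e1 e2 e3
    · subst e1; simp [pow_succ, Ux, h.t3, U2, h.t4, U1' e2, h.t1, U4, h.t2, U3, ← hy, e2]
    · subst e1; simp [pow_succ, Ux, h.t3, U2, h.t4, U1 e2, ← hy]
    · subst e3
      have e2 : y ≠ x := e1
      simp [pow_succ, Uy e2, h.t1, U4, h.t2, U3, hyy]
    · simp [UR z hz e1 e3]
  have hSR : ∀ z ∈ R, OddPer (s * u) z := fun z hz =>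
    oddPer_of_insert R (fun w hw => by rw [Perm.mul_apply]; exact hRs _ (u0R w hw)) m hm hS hz (hper z hz).1
  have hTR : ∀ z ∈ R, OddPer (t * u) z := fun z hz =>
    oddPer_of_insert R (fun w hw => by rw [Perm.mul_apply]; exact hRt _ (u0R w hw)) m hm hT hz (hper z hz).2
  have sX := hSR x hxR
  have sY := hSR y hyR
  have tX := hTR x hxR
  have tY := hTR y hyR
  have s4' : OddPer (s * u) a4 := by
    have := oddPer_apply sX
    simpa [Ux, h.s3] using this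
  have s1' : OddPer (s * u) a1 := by
    have := oddPer_apply s4'
    simpa [U4, h.s2] using this
  have t2' : OddPer (t * u) a2 := by
    have := oddPer_apply tX
    simpa [Ux, h.t3] using this
  have t1' : OddPer (t * u) a1 := by
    have := oddPer_apply t2'
    simpa [U2, h.t4] using this
  have s2' : OddPer (s * u) a2 := by
    by_cases e : y = x
    · have := oddPer_apply s1'
      simpa [U1' e, h.s1] using this
    · have := oddPer_apply sY
      simpa [Uy e, h.s1] using this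
  have t4' : OddPer (t * u) a4 := by
    by_cases e : y = x
    · have := oddPer_apply t1'
      simpa [U1' e, h.t1] using this
    · have := oddPer_apply tY
      simpa [Uy e, h.t1] using this
  have s3' : OddPer (s * u) a3 := by
    have := oddPer_apply s2'
    simpa [U2, h.s4] using this
  have t3' : OddPer (t * u) a3 := by
    have := oddPer_apply t4'
    simpa [U4, h.t2] using this
  intro z hz
  rcases hz with hz | rfl | rfl | rfl | rfl
  · exact ⟨hSR z hz, hTR z hz⟩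
  · exact ⟨s1', t1'⟩
  · exact ⟨s2', t2'⟩
  · exact ⟨s3', t3'⟩
  · exact ⟨s4', t4'⟩

/-- Two squares. -/
theorem good_two_squares {a1 a2 a3 a4 b1 b2 b3 b4 : α} (h : Square s t a1 a2 a3 a4)
    (k : Square s t b1 b2 b3 b4) (hd : List.Nodup [a1, a2, a3, a4, b1, b2, b3, b4]) :
    Good s t {x | x = a1 ∨ x = a2 ∨ x = a3 ∨ x = a4 ∨ x = b1 ∨ x = b2 ∨ x = b3 ∨ x = b4} := by
  classical
  -- with the labels `1,...,8 = a1,a2,a3,a4,b1,b2,b4,b3`: `s = (12)(34)(56)(87)`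
  simp only [List.nodup_cons, List.mem_cons, List.not_mem_nil, or_false, not_or, List.nodup_nil,
    and_true, not_false_eq_true] at hd
  obtain ⟨⟨a12, a13, a14, ab11, ab12, ab13, ab14⟩, ⟨a23, a24, ab21, ab22, ab23, ab24⟩,
    ⟨a34, ab31, ab32, ab33, ab34⟩, ⟨ab41, ab42, ab43, ab44⟩, ⟨b12, b13, b14⟩, ⟨b23, b24⟩, b34⟩ := hd
  set c : Perm α := Equiv.swap a2 b2 * Equiv.swap b2 a4 with hc
  have c4 : c a4 = a2 := by simp [hc]
  have c6 : c b2 = a4 := by
    simp [hc, Equiv.swap_apply_of_ne_of_ne (Ne.symm a24) ab42]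
  have c2 : c a2 = b2 := by simp [hc, Equiv.swap_apply_of_ne_of_ne ab22 a24]
  have cz : ∀ z, z ≠ a2 → z ≠ b2 → z ≠ a4 → c z = z := by
    intro z e1 e2 e3
    simp [hc, Equiv.swap_apply_of_ne_of_ne e2 e3, Equiv.swap_apply_of_ne_of_ne e1 e2]
  have c1 : c a1 = a1 := cz _ a12 ab12 a14
  have c3 : c a3 = a3 := cz _ (Ne.symm a23) ab32 a34
  have c5 : c b1 = b1 := cz _ (Ne.symm ab21) b12 (Ne.symm ab41)
  have c7 : c b3 = b3 := cz _ (Ne.symm ab23) (Ne.symm b23) (Ne.symm ab43)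
  have c8 : c b4 = b4 := cz _ (Ne.symm ab24) (Ne.symm b24) (Ne.symm ab44)
  refine ⟨c, fun z hz => ?_, ?_⟩
  · simp only [Set.mem_ofPred_eq, not_or] at hz
    exact cz z hz.2.1 hz.2.2.2.2.2.1 hz.2.2.2.1
  set u := c * s * c⁻¹ with hu
  have hu' : ∀ z, u (c z) = c (s z) := by intro z; simp [hu]
  have U1 : u a1 = b2 := by rw [← c1, hu', h.s1, c2]
  have U6 : u b2 = a1 := by rw [← c2, hu', h.s2, c1]
  have U2 : u a2 = a3 := by rw [← c4, hu', h.s4, c3]
  have U3 : u a3 = a2 := by rw [← c3, hu', h.s3, c4]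
  have U4 : u a4 = b1 := by rw [← c6, hu', k.s2, c5]
  have U5 : u b1 = a4 := by rw [← c5, hu', k.s1, c6]
  have U7 : u b3 = b4 := by rw [← c7, hu', k.s3, c8]
  have U8 : u b4 = b3 := by rw [← c8, hu', k.s4, c7]
  obtain ⟨p1, p5, p3⟩ := oddPer_of_three (f := s * u) (a := a1) (b := b1) (c := a3)
    (by simp [U1, k.s2]) (by simp [U5, h.s4]) (by simp [U3, h.s2])
  obtain ⟨p6, p2, p4⟩ := oddPer_of_three (f := s * u) (a := b2) (b := a2) (c := a4)
    (by simp [U6, h.s1]) (by simp [U2, h.s3]) (by simp [U4, k.s1])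
  have p7 : OddPer (s * u) b3 := oddPer_of_fixed (by simp [U7, k.s4])
  have p8 : OddPer (s * u) b4 := oddPer_of_fixed (by simp [U8, k.s3])
  obtain ⟨q1, q3', q5⟩ := oddPer_of_three (f := t * u) (a := a1) (b := b3) (c := b1)
    (by simp [U1, k.t2]) (by simp [U7, k.t4]) (by simp [U5, h.t4])
  obtain ⟨q4, q8, q6⟩ := oddPer_of_three (f := t * u) (a := a4) (b := b4) (c := b2)
    (by simp [U4, k.t1]) (by simp [U8, k.t3]) (by simp [U6, h.t1])
  have q2 : OddPer (t * u) a2 := oddPer_of_fixed (by simp [U2, h.t3])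
  have q3 : OddPer (t * u) a3 := oddPer_of_fixed (by simp [U3, h.t2])
  intro z hz
  rcases hz with rfl | rfl | rfl | rfl | rfl | rfl | rfl | rfl
  · exact ⟨p1, q1⟩
  · exact ⟨p2, q2⟩
  · exact ⟨p3, q3⟩
  · exact ⟨p4, q4⟩
  · exact ⟨p5, q5⟩
  · exact ⟨p6, q6⟩
  · exact ⟨p7, q3'⟩
  · exact ⟨p8, q8⟩

end Cfsg.Agent.H85.InvGraph
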