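import Cfsg.Agent.H85.InvolutionGraphFour

/-!
For two conjugate involutions there is a third one with both products of odd order.
-/

namespace Cfsg.Agent.H85.InvGraph

open Equiv

variable {α : Type*} [DecidableEq α] [Finite α] {s t : Perm α}

theorem oddPer_congr {f g : Perm α} {B : Set α} (hB : ∀ z ∈ B, g z ∈ B)
    (hfg : ∀ z ∈ B, f z = g z) {z : α} (hz : z ∈ B) (h : OddPer g z) : OddPer f z := by
  obtain ⟨k, hk, hkz⟩ := h
  have : ∀ j : ℕ, (g ^ j) z ∈ B ∧ (f ^ j) z = (g ^ j) z := by
    intro j
    induction j with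
    | zero => exact ⟨by simpa using hz, by simp⟩
    | succ j ih =>
        simp only [pow_succ', Perm.mul_apply]
        exact ⟨hB _ ih.1, by rw [ih.2, hfg _ ih.1]⟩
  exact ⟨k, hk, (this k).2.trans hkz⟩

theorem Good.union {B R : Set α} (hd : Disjoint B R)
    (hBs : ∀ z ∈ B, s z ∈ B) (hBt : ∀ z ∈ B, t z ∈ B)
    (hRs : ∀ z ∈ R, s z ∈ R) (hRt : ∀ z ∈ R, t z ∈ R)
    (h1 : Good s t B) (h2 : Good s t R) : Good s t (B ∪ R) := by
  obtain ⟨c, hc, hper⟩ := h1
  obtain ⟨d, hd', hper'⟩ := h2
  have hmem : ∀ {S : Set α} {e : Perm α}, (∀ z, z ∉ S → e z = z) → ∀ z ∈ S, e z ∈ S ∧ e⁻¹ z ∈ S := by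
    intro S e he z hz
    constructor
    · by_contra hn
      exact hn (by rwa [e.injective (he _ hn)])
    · by_contra hn
      have h := he _ hn
      simp only [Perm.coe_inv, Equiv.apply_symm_apply] at h
      exact hn (by simpa [Perm.coe_inv, ← h] using hz)
  have hinv : ∀ {S : Set α} {e : Perm α}, (∀ z, z ∉ S → e z = z) → ∀ z, z ∉ S → e⁻¹ z = z :=
    fun {S e} he z hz => by conv_lhs => rw [← he z hz]
                            simp
  refine ⟨c * d, fun z hz => ?_, ?_⟩
  · simp only [Set.mem_union, not_or] at hz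
    rw [Perm.mul_apply, hd' z hz.2, hc z hz.1]
  set u := c * d * s * (c * d)⁻¹ with hu
  have hB : ∀ z ∈ B, u z = (c * s * c⁻¹) z ∧ (c * s * c⁻¹) z ∈ B := by
    intro z hz
    have e1 := (hmem hc z hz).2
    have e2 := hBs _ e1
    refine ⟨?_, by simp only [Perm.mul_apply]; exact (hmem hc _ e2).1⟩
    simp only [hu, mul_inv_rev, Perm.mul_apply]
    rw [hinv hd' _ (fun h => Set.disjoint_left.mp hd e1 h),
      hd' _ (fun h => Set.disjoint_left.mp hd e2 h)]
  have hR : ∀ z ∈ R, u z = (d * s * d⁻¹) z ∧ (d * s * d⁻¹) z ∈ R := by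
    intro z hz
    have e1 := hRs _ (hmem hd' z hz).2
    have e2 := (hmem hd' _ e1).1
    refine ⟨?_, by simp only [Perm.mul_apply]; exact e2⟩
    simp only [hu, mul_inv_rev, Perm.mul_apply]
    rw [hinv hc _ (fun h => Set.disjoint_left.mp hd h hz),
      hc _ (fun h => Set.disjoint_left.mp hd h e2)]
  rintro z (hz | hz)
  · exact ⟨oddPer_congr (fun w hw => by rw [Perm.mul_apply]; exact hBs _ (hB w hw).2)
        (fun w hw => by rw [Perm.mul_apply, Perm.mul_apply _ (c * s * c⁻¹), (hB w hw).1]) hz
        (hper z hz).1,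
      oddPer_congr (fun w hw => by rw [Perm.mul_apply]; exact hBt _ (hB w hw).2)
        (fun w hw => by rw [Perm.mul_apply, Perm.mul_apply _ (c * s * c⁻¹), (hB w hw).1]) hz
        (hper z hz).2⟩
  · exact ⟨oddPer_congr (fun w hw => by rw [Perm.mul_apply]; exact hRs _ (hR w hw).2)
        (fun w hw => by rw [Perm.mul_apply, Perm.mul_apply _ (d * s * d⁻¹), (hR w hw).1]) hz
        (hper' z hz).1,
      oddPer_congr (fun w hw => by rw [Perm.mul_apply]; exact hRt _ (hR w hw).2)
        (fun w hw => by rw [Perm.mul_apply, Perm.mul_apply _ (d * s * d⁻¹), (hR w hw).1]) hz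
        (hper' z hz).2⟩

/-- The two involutions fix equally many points of `A`. -/
def Bal (s t : Perm α) (A : Finset α) : Prop :=
  (A.filter fun x => s x = x).card = (A.filter fun x => t x = x).card

/-- The exceptional configuration. -/
def Exc (s t : Perm α) (A : Finset α) : Prop :=
  A.card = 4 ∧ (∀ x ∈ A, s x ≠ x ∧ t x ≠ x) ∧ ∃ x ∈ A, s x ≠ t x

theorem zpow_mem (hs : ∀ x, s (s x) = x) (ht : ∀ x, t (t x) = x) {A : Finset α}
    (hAs : ∀ x ∈ A, s x ∈ A) (hAt : ∀ x ∈ A, t x ∈ A) (i : ℤ) :
    ∀ x ∈ A, ((s * t) ^ i) x ∈ A := by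
  induction i using Int.induction_on with
  | zero => simp
  | succ j ih =>
      intro x hx
      rw [zpow_add, zpow_one, Perm.mul_apply]
      exact ih _ (hAs _ (hAt _ hx))
  | pred j ih =>
      intro x hx
      rw [zpow_sub, zpow_one, Perm.mul_apply, mul_inv_rev, inv_apply_of_sq hs,
        inv_apply_of_sq ht]
      exact ih _ (hAt _ (hAs _ hx))

omit [DecidableEq α] [Finite α] in
theorem orbit_invariant (hs : ∀ x, s (s x) = x) (ht : ∀ x, t (t x) = x) {p x : α}
    (hx : ∃ i : ℤ, x = ((s * t) ^ i) p ∨ x = ((s * t) ^ i) (s p)) :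
    (∃ i : ℤ, s x = ((s * t) ^ i) p ∨ s x = ((s * t) ^ i) (s p)) ∧
      ∃ i : ℤ, t x = ((s * t) ^ i) p ∨ t x = ((s * t) ^ i) (s p) := by
  obtain ⟨i, rfl | rfl⟩ := hx
  · exact ⟨⟨-i, Or.inr (invol_zpow hs ht i p)⟩, ⟨-(i + 1), Or.inr (snd_invol_zpow hs ht i p)⟩⟩
  · exact ⟨⟨-i, Or.inl (by rw [invol_zpow hs ht, hs])⟩,
      ⟨-(i + 1), Or.inl (by rw [snd_invol_zpow hs ht, hs])⟩⟩

/-- The number of fixed points on the points of even period agree. -/
theorem exists_even_fixed (hs : ∀ x, s (s x) = x) (ht : ∀ x, t (t x) = x) {A : Finset α}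
    (hAs : ∀ x ∈ A, s x ∈ A) (hAt : ∀ x ∈ A, t x ∈ A) (hbal : Bal s t A) :
    (∃ x ∈ A, s x = x ∧ ¬ OddPer (s * t) x) ↔ ∃ x ∈ A, t x = x ∧ ¬ OddPer (s * t) x := by
  classical
  set z := s * t with hz
  have hodd : (A.filter fun x => s x = x ∧ OddPer z x).card =
      (A.filter fun x => t x = x ∧ OddPer z x).card := by
    have : Fintype α := Fintype.ofFinite α
    -- an odd common period
    have key : ∀ x, ∃ k : ℕ, Odd k ∧ (OddPer z x → (z ^ k) x = x) := by
      intro x
      by_cases h : OddPer z x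
      · obtain ⟨k, hk, hkx⟩ := h
        exact ⟨k, hk, fun _ => hkx⟩
      · exact ⟨1, odd_one, fun h' => absurd h' h⟩
    choose k hk hkx using key
    obtain ⟨m, hm⟩ : Odd (∏ x, k x) :=
      Finset.prod_induction k Odd (fun _ _ ha hb => ha.mul hb) odd_one fun x _ => hk x
    have hN : ∀ x, OddPer z x → (z ^ (2 * m + 1)) x = x := by
      intro x hx
      obtain ⟨c, hc⟩ := Finset.dvd_prod_of_mem k (Finset.mem_univ x)
      rw [← hm, hc, pow_mul]
      exact Perm.pow_apply_eq_self_of_apply_eq_self (hkx x hx) c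
    have hper : ∀ (i : ℤ) x, OddPer z x → OddPer z ((z ^ i) x) := by
      rintro i x ⟨j, hj, hjx⟩
      refine ⟨j, hj, ?_⟩
      rw [← zpow_natCast, ← Perm.mul_apply, ← zpow_add, add_comm, zpow_add, Perm.mul_apply,
        zpow_natCast, hjx]
    have hcancel : ∀ x, OddPer z x → (z ^ (2 * (m : ℤ) + 1)) x = x := fun x hx => by
      have := hN x hx
      rwa [← zpow_natCast, show ((2 * m + 1 : ℕ) : ℤ) = 2 * m + 1 by push_cast; ring] at this
    refine Finset.card_bij (fun x _ => (z ^ (m : ℤ)) x) ?_ (fun a _ b _ h => (z ^ (m : ℤ)).injective h) ?_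
    · intro x hx
      simp only [Finset.mem_filter] at hx ⊢
      refine ⟨zpow_mem hs ht hAs hAt _ x hx.1, ?_, hper _ x hx.2.2⟩
      rw [snd_invol_zpow hs ht, hx.2.1, ← hz]
      calc (z ^ (-((m : ℤ) + 1))) x
          = (z ^ (-((m : ℤ) + 1))) ((z ^ (2 * (m : ℤ) + 1)) x) := by rw [hcancel x hx.2.2]
        _ = (z ^ (m : ℤ)) x := by rw [← Perm.mul_apply, ← zpow_add]; congr 2; ring
    · intro y hy
      simp only [Finset.mem_filter] at hy
      refine ⟨(z ^ (-(m : ℤ))) y, ?_, ?_⟩
      · simp only [Finset.mem_filter]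
        refine ⟨zpow_mem hs ht hAs hAt _ y hy.1, ?_, hper _ y hy.2.2⟩
        rw [invol_zpow hs ht, ← hz]
        have hsy : s y = z y := by rw [hz, Perm.mul_apply, hy.2.1]
        rw [hsy, ← zpow_one z, ← Perm.mul_apply, ← zpow_mul, ← zpow_mul, ← zpow_add]
        calc (z ^ (1 * -(-(m : ℤ)) + 1)) y
            = (z ^ (-(m : ℤ))) ((z ^ (2 * (m : ℤ) + 1)) y) := by
              rw [← Perm.mul_apply, ← zpow_add]; congr 2; ring
          _ = (z ^ (1 * -(m : ℤ))) y := by rw [hcancel y hy.2.2, one_mul]
      · rw [← Perm.mul_apply, ← zpow_add, add_neg_cancel, zpow_zero, Perm.one_apply]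
  have split : ∀ g : Perm α, (A.filter fun x => g x = x).card =
      (A.filter fun x => g x = x ∧ OddPer z x).card +
        (A.filter fun x => g x = x ∧ ¬ OddPer z x).card := by
    intro g
    rw [← Finset.card_filter_add_card_filter_not (s := A.filter fun x => g x = x)
      (fun x => OddPer z x), Finset.filter_filter, Finset.filter_filter]
  have heq : (A.filter fun x => s x = x ∧ ¬ OddPer z x).card =
      (A.filter fun x => t x = x ∧ ¬ OddPer z x).card := by
    have h1 := split s
    have h2 := split t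
    unfold Bal at hbal
    omega
  constructor
  · rintro ⟨x, hx, h⟩
    have : 0 < (A.filter fun x => t x = x ∧ ¬ OddPer z x).card := by
      rw [← heq]; exact Finset.card_pos.mpr ⟨x, Finset.mem_filter.mpr ⟨hx, h⟩⟩
    obtain ⟨y, hy⟩ := Finset.card_pos.mp this
    exact ⟨y, Finset.mem_filter.mp hy⟩
  · rintro ⟨x, hx, h⟩
    have : 0 < (A.filter fun x => s x = x ∧ ¬ OddPer z x).card := by
      rw [heq]; exact Finset.card_pos.mpr ⟨x, Finset.mem_filter.mpr ⟨hx, h⟩⟩
    obtain ⟨y, hy⟩ := Finset.card_pos.mp this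
    exact ⟨y, Finset.mem_filter.mp hy⟩

/-- The main induction. -/
theorem good_of_bal (hs : ∀ x, s (s x) = x) (ht : ∀ x, t (t x) = x) :
    ∀ A : Finset α, (∀ x ∈ A, s x ∈ A) → (∀ x ∈ A, t x ∈ A) → Bal s t A → ¬ Exc s t A →
      Good s t (A : Set α) := by
  classical
  intro A
  induction A using Finset.strongInduction with
  | H A ih =>
  intro hAs hAt hbal hexc
  set z := s * t with hz
  by_cases hall : ∀ x ∈ A, OddPer z x
  · exact good_of_oddPer hs ht fun x hx => hall x hx
  -- the recursive step for an invariant block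
  have step : ∀ B : Set α, B.Nonempty → B ⊆ (A : Set α) → (∀ x ∈ B, s x ∈ B) → (∀ x ∈ B, t x ∈ B) →
      Bal s t (A.filter fun x => x ∈ B) →
      ∀ R : Finset α, R = A.filter (fun x => x ∉ B) →
        R ⊂ A ∧ (∀ x ∈ R, s x ∈ R) ∧ (∀ x ∈ R, t x ∈ R) ∧ Bal s t R := by
    rintro B ⟨b, hb⟩ hBA hBs hBt hbalB R rfl
    refine ⟨Finset.filter_ssubset.mpr ⟨b, hBA hb, fun h => h hb⟩, ?_, ?_, ?_⟩
    · intro x hx
      simp only [Finset.mem_filter] at hx ⊢
      exact ⟨hAs x hx.1, fun h => hx.2 (by simpa [hs] using hBs _ h)⟩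
    · intro x hx
      simp only [Finset.mem_filter] at hx ⊢
      exact ⟨hAt x hx.1, fun h => hx.2 (by simpa [ht] using hBt _ h)⟩
    · unfold Bal at hbal hbalB ⊢
      have hsp : ∀ g : Perm α, (A.filter fun x => g x = x).card =
          ((A.filter fun x => x ∈ B).filter fun x => g x = x).card +
            ((A.filter fun x => x ∉ B).filter fun x => g x = x).card := by
        intro g
        rw [← Finset.card_filter_add_card_filter_not (s := A.filter fun x => g x = x)
          (fun x => x ∈ B), Finset.filter_comm, Finset.filter_comm (fun x => g x = x)]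
      have h1 := hsp s
      have h2 := hsp t
      omega
  by_cases hsq : ∃ a1 ∈ A, z a1 ≠ a1 ∧ z (z a1) = a1 ∧ s a1 ≠ a1 ∧ s a1 ≠ z a1
  · -- a square
    obtain ⟨a1, h1A, hz1, hz2, hs1, hs2⟩ := hsq
    set a2 := s a1 with ha2
    set a3 := z a1 with ha3
    set a4 := t a1 with ha4
    have hsq : Square s t a1 a2 a3 a4 := by
      have es3 : s a3 = a4 := by rw [ha3, hz, Perm.mul_apply, hs]
      have et2 : t a2 = a3 := by
        have : s (t (s (t a1))) = a1 := by simpa [hz, ha3] using hz2
        have h' := congrArg s this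
        rw [hs] at h'
        rw [ha2, ← h', ht, ha3, hz, Perm.mul_apply]
      have es4 : s a4 = a3 := by rw [← es3, hs]
      refine ⟨rfl, hs a1, es3, es4, rfl, ht a1, et2, by rw [← et2, ht], Ne.symm hs1,
        Ne.symm hz1, ?_, hs2, ?_, ?_⟩
      · intro h; exact hs2 (by rw [← es4, ← h])
      · intro h; exact hz1 (by rw [← es4, ← h, ha2, hs])
      · intro h; exact hs1 (by rw [ha2]; apply t.injective; rw [et2, h])
    set B : Set α := {a1, a2, a3, a4} with hB
    have hBA : B ⊆ (A : Set α) := by
      rintro x (rfl | rfl | rfl | rfl)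
      · exact h1A
      · exact hAs _ h1A
      · exact hAs _ (hAt _ h1A)
      · exact hAt _ h1A
    have hBinv := fun x (hx : x ∈ B) => hsq.mem (x := x) (by simpa [hB] using hx)
    have hBs : ∀ x ∈ B, s x ∈ B := fun x hx => by simpa [hB] using (hBinv x hx).1
    have hBt : ∀ x ∈ B, t x ∈ B := fun x hx => by simpa [hB] using (hBinv x hx).2
    have hfree : ∀ x ∈ B, s x ≠ x ∧ t x ≠ x := by
      rintro x (rfl | rfl | rfl | rfl) <;>
        simp [hsq.s1, hsq.s2, hsq.s3, hsq.s4, hsq.t1, hsq.t2, hsq.t3, hsq.t4, hsq.n12, hsq.n14,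
          hsq.n23, hsq.n34, Ne.symm hsq.n12, Ne.symm hsq.n14, Ne.symm hsq.n23, Ne.symm hsq.n34]
    have hbalB : Bal s t (A.filter fun x => x ∈ B) := by
      unfold Bal
      rw [Finset.filter_eq_empty_iff.mpr (fun x hx => (hfree x (Finset.mem_filter.mp hx).2).1),
        Finset.filter_eq_empty_iff.mpr (fun x hx => (hfree x (Finset.mem_filter.mp hx).2).2)]
    set R := A.filter (fun x => x ∉ B) with hR
    obtain ⟨hss, hRs, hRt, hRbal⟩ := step B ⟨a1, Or.inl rfl⟩ hBA hBs hBt
      (by convert hbalB) R (by rw [hR]; congr! 1)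
    have hAB : (A : Set α) = (R : Set α) ∪ B := by
      ext x
      simp only [hR, Finset.coe_filter, Set.mem_union, Set.mem_ofPred_eq, Finset.mem_coe]
      constructor
      · intro hx; by_cases h : x ∈ B
        · exact Or.inr h
        · exact Or.inl ⟨hx, h⟩
      · rintro (h | h)
        · exact h.1
        · exact hBA h
    have hnotR : ∀ x ∈ B, x ∉ R := fun x hx h => (Finset.mem_filter.mp h).2 hx
    by_cases hRexc : Exc s t R
    · -- two squares
      obtain ⟨hcard, hfpf, b1, hb1, hb⟩ := hRexc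
      set b2 := s b1 with hb2
      set b4 := t b1 with hb4
      set b3 := s b4 with hb3
      have mb2 : b2 ∈ R := hRs _ hb1
      have mb4 : b4 ∈ R := hRt _ hb1
      have mb3 : b3 ∈ R := hRs _ mb4
      have n12 : b1 ≠ b2 := Ne.symm (hfpf _ hb1).1
      have n14 : b1 ≠ b4 := Ne.symm (hfpf _ hb1).2
      have n24 : b2 ≠ b4 := hb
      have n34 : b3 ≠ b4 := (hfpf _ mb4).1
      have n13 : b1 ≠ b3 := fun h => n24 (by rw [hb2, h, hb3, hs])
      have n23 : b2 ≠ b3 := fun h => n14 (s.injective (by rw [← hb2, ← hb3, h]))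
      have hR4 : R = {b1, b2, b3, b4} := by
        symm
        refine Finset.eq_of_subset_of_card_le ?_ ?_
        · intro x hx
          simp only [Finset.mem_insert, Finset.mem_singleton] at hx
          rcases hx with rfl | rfl | rfl | rfl <;> assumption
        · rw [hcard, Finset.card_insert_of_notMem (by simp [n12, n13, n14]),
            Finset.card_insert_of_notMem (by simp [n23, n24]),
            Finset.card_insert_of_notMem (by simp [n34]), Finset.card_singleton]
      have t23 : t b2 = b3 := by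
        have hmem := hRt _ mb2
        rw [hR4] at hmem
        simp only [Finset.mem_insert, Finset.mem_singleton] at hmem
        rcases hmem with h | h | h | h
        · exact absurd (by rw [hb4, ← h, ht]) n24
        · exact absurd h (hfpf _ mb2).2
        · exact h
        · exact absurd (t.injective (h.trans hb4)).symm n12
      have hk : Square s t b1 b2 b3 b4 :=
        ⟨rfl, hs b1, by rw [hb3, hs], rfl, rfl, ht b1, t23, by rw [← t23, ht],
          n12, n13, n14, n23, n24, n34⟩
      have hne : ∀ x ∈ B, ∀ y ∈ R, x ≠ y := fun x hx y hy h => hnotR x hx (h ▸ hy)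
      have hd : List.Nodup [a1, a2, a3, a4, b1, b2, b3, b4] := by
        have m1 : a1 ∈ B := Or.inl rfl
        have m2 : a2 ∈ B := Or.inr (Or.inl rfl)
        have m3 : a3 ∈ B := Or.inr (Or.inr (Or.inl rfl))
        have m4 : a4 ∈ B := Or.inr (Or.inr (Or.inr rfl))
        simp [hsq.n12, hsq.n13, hsq.n14, hsq.n23, hsq.n24, hsq.n34, n12, n13, n14, n23, n24, n34,
          hne _ m1 _ hb1, hne _ m1 _ mb2, hne _ m1 _ mb3, hne _ m1 _ mb4,
          hne _ m2 _ hb1, hne _ m2 _ mb2, hne _ m2 _ mb3, hne _ m2 _ mb4,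
          hne _ m3 _ hb1, hne _ m3 _ mb2, hne _ m3 _ mb3, hne _ m3 _ mb4,
          hne _ m4 _ hb1, hne _ m4 _ mb2, hne _ m4 _ mb3, hne _ m4 _ mb4]
      have := good_two_squares hsq hk hd
      rw [hAB, hR4]
      convert this using 1
      ext x
      simp only [hB, Finset.coe_insert, Finset.coe_singleton, Set.mem_union, Set.mem_insert_iff,
        Set.mem_singleton_iff, Set.mem_ofPred_eq]
      tauto
    · have hne : (R : Set α).Nonempty := by
        rw [Finset.coe_nonempty]
        by_contra hemp
        rw [Finset.not_nonempty_iff_eq_empty] at hemp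
        apply hexc
        have hsub : ∀ x ∈ A, x ∈ B := fun x hx => by
          by_contra h
          have : x ∈ R := Finset.mem_filter.mpr ⟨hx, h⟩
          rw [hemp] at this
          simp at this
        have hA4 : A = {a1, a2, a3, a4} := by
          ext x
          simp only [Finset.mem_insert, Finset.mem_singleton]
          exact ⟨fun hx => by simpa [hB] using hsub x hx, fun hx => hBA (by simpa [hB] using hx)⟩
        refine ⟨?_, fun x hx => hfree x (hsub x hx), a1, h1A, hsq.n24⟩
        rw [hA4, Finset.card_insert_of_notMem (by simp [hsq.n12, hsq.n13, hsq.n14]),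
          Finset.card_insert_of_notMem (by simp [hsq.n23, hsq.n24]),
          Finset.card_insert_of_notMem (by simp [hsq.n34]), Finset.card_singleton]
      rw [hAB]
      exact good_insert hs hsq (R : Set α) hRs hRt (hnotR _ (Or.inl rfl))
        (hnotR _ (Or.inr (Or.inl rfl))) (hnotR _ (Or.inr (Or.inr (Or.inl rfl))))
        (hnotR _ (Or.inr (Or.inr (Or.inr rfl)))) hne (ih R hss hRs hRt hRbal hRexc)
  · -- no square, so no smaller exception either
    push Not at hsq
    have hnoexc : ∀ R : Finset α, R ⊆ A → (∀ x ∈ R, s x ∈ R) → (∀ x ∈ R, t x ∈ R) →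
        ¬ Exc s t R := by
      rintro R hRA hRs hRt ⟨hcard, hfpf, b1, hb1, hb⟩
      have n12 := (hfpf _ hb1).1
      have n14 := (hfpf _ hb1).2
      have e1 : z b1 ≠ b1 := fun h => hb (by rw [hz, Perm.mul_apply] at h; conv_lhs => rw [← h, hs])
      have e2 : s b1 ≠ z b1 := fun h => n14 (s.injective (by rw [hz, Perm.mul_apply] at h; exact h)).symm
      refine e2 (hsq b1 (hRA hb1) e1 ?_ n12)
      -- the four points
      have hset : ({b1, s b1, z b1, t b1} : Finset α) = R := by
        refine Finset.eq_of_subset_of_card_le ?_ ?_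
        · intro x hx
          simp only [Finset.mem_insert, Finset.mem_singleton] at hx
          rcases hx with rfl | rfl | rfl | rfl
          · exact hb1
          · exact hRs _ hb1
          · exact hRs _ (hRt _ hb1)
          · exact hRt _ hb1
        · rw [hcard, Finset.card_insert_of_notMem (by simp [Ne.symm n12, Ne.symm n14, Ne.symm e1]),
            Finset.card_insert_of_notMem (by simp [e2, hb]),
            Finset.card_insert_of_notMem (by
              simp only [Finset.mem_singleton]
              exact (hfpf _ (hRt _ hb1)).1), Finset.card_singleton]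
      have h1 := hRt _ (hRs _ hb1)
      rw [← hset] at h1
      simp only [Finset.mem_insert, Finset.mem_singleton] at h1
      rcases h1 with h | h | h | h
      · exact absurd (t.injective (h.trans (ht b1).symm)) hb
      · exact absurd h (hfpf _ (hRs _ hb1)).2
      · show z (z b1) = b1
        rw [← h, hz, Perm.mul_apply, ht, hs]
      · exact absurd (t.injective h) n12
    have finish : ∀ B : Set α, B.Nonempty → B ⊆ (A : Set α) → (∀ x ∈ B, s x ∈ B) →
        (∀ x ∈ B, t x ∈ B) → Bal s t (A.filter fun x => x ∈ B) → Good s t B →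
        Good s t (A : Set α) := by
      intro B hne hBA hBs hBt hbalB hgood
      obtain ⟨hss, hRs, hRt, hRbal⟩ := step B hne hBA hBs hBt hbalB _ rfl
      have hG := ih _ hss hRs hRt hRbal (hnoexc _ hss.subset hRs hRt)
      have hd : Disjoint B ((A.filter fun x => x ∉ B : Finset α) : Set α) :=
        Set.disjoint_left.mpr fun x hx h => (Finset.mem_filter.mp h).2 hx
      convert Good.union hd hBs hBt hRs hRt hgood hG using 1
      ext x
      simp only [Set.mem_union, Finset.coe_filter, Set.mem_ofPred_eq, Finset.mem_coe]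
      constructor
      · intro hx; by_cases h : x ∈ B
        · exact Or.inl h
        · exact Or.inr ⟨hx, h⟩
      · rintro (h | h)
        · exact hBA h
        · exact h.1
    by_cases hpath : ∃ x ∈ A, s x = x ∧ ¬ OddPer z x
    · -- a pair of paths
      obtain ⟨w, hwA, hw, hw'⟩ := hpath
      obtain ⟨v, hvA, hv, hv'⟩ := (exists_even_fixed hs ht hAs hAt hbal).mp ⟨w, hwA, hw, hw'⟩
      obtain ⟨L, hL0, hLe, hL⟩ := exists_even_period hv'
      obtain ⟨M, hM0, hMe, hM⟩ := exists_even_period hw'
      have hsv : s v = z v := by rw [hz, Perm.mul_apply, hv]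
      have sV : ∀ i : ℤ, s ((z ^ i) v) = (z ^ (1 - i)) v := fun i => by
        rw [invol_zpow hs ht, hsv, ← hz, sub_eq_neg_add, zpow_add, zpow_one]; rfl
      have tV : ∀ i : ℤ, t ((z ^ i) v) = (z ^ (-i)) v := fun i => by
        rw [snd_invol_zpow hs ht, hsv, ← hz, show (-i) = -(i + 1) + 1 by ring, zpow_add, zpow_one]
        rfl
      have sW : ∀ i : ℤ, s ((z ^ i) w) = (z ^ (-i)) w := fun i => by
        rw [invol_zpow hs ht, hw, ← hz]
      have tW : ∀ i : ℤ, t ((z ^ i) w) = (z ^ (-(i + 1))) w := fun i => by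
        rw [snd_invol_zpow hs ht, hw, ← hz]
      set B : Set α := {x | ∃ i : ℤ, x = (z ^ i) v ∨ x = (z ^ i) w} with hB
      have hBA : B ⊆ (A : Set α) := by
        rintro x ⟨i, rfl | rfl⟩ <;> exact zpow_mem hs ht hAs hAt _ _ ‹_›
      have hBs : ∀ x ∈ B, s x ∈ B := by
        rintro x ⟨i, rfl | rfl⟩
        · exact ⟨_, Or.inl (sV i)⟩
        · exact ⟨_, Or.inr (sW i)⟩
      have hBt : ∀ x ∈ B, t x ∈ B := by
        rintro x ⟨i, rfl | rfl⟩
        · exact ⟨_, Or.inl (tV i)⟩
        · exact ⟨_, Or.inr (tW i)⟩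
      obtain ⟨a, ha⟩ := hLe
      obtain ⟨b, hb⟩ := hMe
      have hs2 : (A.filter fun x => x ∈ B).filter (fun x => s x = x) =
          {w, (z ^ (b : ℤ)) w} := by
        ext x
        simp only [Finset.mem_filter, Finset.mem_insert, Finset.mem_singleton]
        constructor
        · rintro ⟨⟨-, i, rfl | rfl⟩, h⟩
          · rw [sV] at h
            obtain ⟨c, hc⟩ := (hL _ _).mp h
            rw [ha] at hc
            push_cast at hc
            have h2 : (1 : ℤ) = 2 * ((a : ℤ) * c + i) := by linarith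
            omega
          · rw [sW] at h
            obtain ⟨c, hc⟩ := (hM _ _).mp h
            rw [hb] at hc
            push_cast at hc
            have h2 : i = -((b : ℤ) * c) := by linarith
            rcases Int.even_or_odd c with ⟨d, hd⟩ | ⟨d, hd⟩
            · left
              rw [← Perm.one_apply w, ← zpow_zero z]
              exact (hM _ _).mpr ⟨-d, by rw [h2, hb, hd]; push_cast; ring⟩
            · right
              exact (hM _ _).mpr ⟨-d - 1, by rw [h2, hb, hd]; push_cast; ring⟩
        · rintro (rfl | rfl)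
          · exact ⟨⟨hwA, 0, Or.inr (by simp)⟩, hw⟩
          · refine ⟨⟨zpow_mem hs ht hAs hAt _ _ hwA, b, Or.inr rfl⟩, ?_⟩
            rw [sW]
            exact (hM _ _).mpr ⟨-1, by rw [hb]; push_cast; ring⟩
      have ht2 : (A.filter fun x => x ∈ B).filter (fun x => t x = x) =
          {v, (z ^ (a : ℤ)) v} := by
        ext x
        simp only [Finset.mem_filter, Finset.mem_insert, Finset.mem_singleton]
        constructor
        · rintro ⟨⟨-, i, rfl | rfl⟩, h⟩
          · rw [tV] at h
            obtain ⟨c, hc⟩ := (hL _ _).mp h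
            rw [ha] at hc
            push_cast at hc
            have h2 : i = -((a : ℤ) * c) := by linarith
            rcases Int.even_or_odd c with ⟨d, hd⟩ | ⟨d, hd⟩
            · left
              rw [← Perm.one_apply v, ← zpow_zero z]
              exact (hL _ _).mpr ⟨-d, by rw [h2, ha, hd]; push_cast; ring⟩
            · right
              exact (hL _ _).mpr ⟨-d - 1, by rw [h2, ha, hd]; push_cast; ring⟩
          · rw [tW] at h
            obtain ⟨c, hc⟩ := (hM _ _).mp h
            rw [hb] at hc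
            push_cast at hc
            have h2 : (1 : ℤ) = 2 * (-((b : ℤ) * c) - i) := by linarith
            omega
        · rintro (rfl | rfl)
          · exact ⟨⟨hvA, 0, Or.inl (by simp)⟩, hv⟩
          · refine ⟨⟨zpow_mem hs ht hAs hAt _ _ hvA, a, Or.inl rfl⟩, ?_⟩
            rw [tV]
            exact (hL _ _).mpr ⟨-1, by rw [ha]; push_cast; ring⟩
      have hbalB : Bal s t (A.filter fun x => x ∈ B) := by
        unfold Bal
        rw [hs2, ht2, Finset.card_pair, Finset.card_pair]
        · intro h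
          rw [← Perm.one_apply v, ← zpow_zero z, ← Perm.mul_apply, ← zpow_add] at h
          have := Int.le_of_dvd (by omega) ((hL _ _).mp h.symm)
          omega
        · intro h
          rw [← Perm.one_apply w, ← zpow_zero z, ← Perm.mul_apply, ← zpow_add] at h
          have := Int.le_of_dvd (by omega) ((hM _ _).mp h.symm)
          omega
      exact finish B ⟨v, 0, Or.inl (by simp)⟩ hBA hBs hBt hbalB
        (good_pair hs ht v w hv hw hv' hw')
    · -- only swapped pairs of cycles
      have hpath' : ¬ ∃ x ∈ A, t x = x ∧ ¬ OddPer z x :=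
        fun h => hpath ((exists_even_fixed hs ht hAs hAt hbal).mpr h)
      push Not at hall
      obtain ⟨p, hpA, hp⟩ := hall
      have hzper : ∀ (i : ℤ), ¬ OddPer z ((z ^ i) p) := by
        rintro i ⟨j, hj, hjx⟩
        refine hp ⟨j, hj, (z ^ i).injective ?_⟩
        rw [← Perm.mul_apply, ← zpow_natCast, ← zpow_add, add_comm, zpow_add, Perm.mul_apply,
          zpow_natCast, hjx]
      have hdisj : ∀ i : ℤ, s p ≠ (z ^ i) p := by
        intro i h
        rcases Int.even_or_odd i with ⟨d, hd⟩ | ⟨d, hd⟩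
        · refine hpath ⟨(z ^ d) p, zpow_mem hs ht hAs hAt _ _ hpA, ?_, hzper d⟩
          rw [invol_zpow hs ht, ← hz, h, ← Perm.mul_apply, ← zpow_add]
          congr 2; omega
        · refine hpath' ⟨(z ^ d) p, zpow_mem hs ht hAs hAt _ _ hpA, ?_, hzper d⟩
          rw [snd_invol_zpow hs ht, ← hz, h, ← Perm.mul_apply, ← zpow_add]
          congr 2; omega
      have hz1 : z p ≠ p := fun h => hp (oddPer_of_fixed h)
      have hbig : z (z p) ≠ p := fun h =>
        hdisj 1 (by rw [zpow_one]; exact hsq p hpA hz1 h (by simpa using hdisj 0))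
      set B : Set α := {x | ∃ i : ℤ, x = (z ^ i) p ∨ x = (z ^ i) (s p)} with hB
      have hBA : B ⊆ (A : Set α) := by
        rintro x ⟨i, rfl | rfl⟩
        · exact zpow_mem hs ht hAs hAt _ _ hpA
        · exact zpow_mem hs ht hAs hAt _ _ (hAs _ hpA)
      have hBs : ∀ x ∈ B, s x ∈ B := fun x hx => (orbit_invariant hs ht hx).1
      have hBt : ∀ x ∈ B, t x ∈ B := fun x hx => (orbit_invariant hs ht hx).2
      have hfree : ∀ x ∈ B, s x ≠ x ∧ t x ≠ x := by
        intro x hx
        have hxA := hBA hx
        have hxper : ¬ OddPer z x := by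
          obtain ⟨i, rfl | rfl⟩ := hx
          · exact hzper i
          · rintro ⟨j, hj, hjx⟩
            refine hp ⟨j, hj, ?_⟩
            have h' : (z ^ (j : ℤ)) (s p) = s p := by
              apply (z ^ i).injective
              rw [← Perm.mul_apply, ← zpow_add, add_comm, zpow_add, Perm.mul_apply, zpow_natCast]
              exact hjx
            have h2 := congrArg s h'
            rw [invol_zpow hs ht, hs, ← hz] at h2
            have h3 := congrArg (z ^ (j : ℤ)) h2
            rw [← Perm.mul_apply, ← zpow_add, add_neg_cancel, zpow_zero, Perm.one_apply] at h3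
            rw [← zpow_natCast]
            exact h3.symm
        exact ⟨fun h => hpath ⟨x, hxA, h, hxper⟩, fun h => hpath' ⟨x, hxA, h, hxper⟩⟩
      have hbalB : Bal s t (A.filter fun x => x ∈ B) := by
        unfold Bal
        rw [Finset.filter_eq_empty_iff.mpr (fun x hx => (hfree x (Finset.mem_filter.mp hx).2).1),
          Finset.filter_eq_empty_iff.mpr (fun x hx => (hfree x (Finset.mem_filter.mp hx).2).2)]
      exact finish B ⟨p, 0, Or.inl (by simp)⟩ hBA hBs hBt hbalB
        (good_big_cycle hs ht p hp hdisj hbig)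

/-- Any two conjugate involutions are at distance at most two. -/
theorem exists_common_odd [Fintype α] (hn : 5 ≤ Fintype.card α) (hs : ∀ x, s (s x) = x)
    (ht : ∀ x, t (t x) = x) (hconj : IsConj s t) :
    ∃ u : Perm α, IsConj s u ∧ Odd (orderOf (s * u)) ∧ Odd (orderOf (u * t)) := by
  classical
  have hbal : Bal s t Finset.univ := by
    obtain ⟨g, hg⟩ := isConj_iff.mp hconj
    unfold Bal
    refine Finset.card_bij (fun x _ => g x) ?_ (fun a _ b _ h => g.injective h) ?_
    · intro x hx
      simp only [Finset.mem_filter, Finset.mem_univ, true_and] at hx ⊢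
      simp [← hg, hx]
    · intro y hy
      simp only [Finset.mem_filter, Finset.mem_univ, true_and] at hy
      refine ⟨g⁻¹ y, ?_, by simp⟩
      simp only [Finset.mem_filter, Finset.mem_univ, true_and]
      rw [← hg] at hy
      simp only [Perm.mul_apply] at hy
      apply g.injective
      rw [hy]
      simp
  obtain ⟨c, -, hc⟩ := good_of_bal hs ht Finset.univ (fun _ _ => Finset.mem_univ _)
    (fun _ _ => Finset.mem_univ _) hbal (fun h => by
      have := h.1; rw [Finset.card_univ] at this; omega)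
  refine ⟨c * s * c⁻¹, isConj_iff.mpr ⟨c, rfl⟩,
    odd_orderOf_of_oddPer fun x => (hc x (by simp)).1, ?_⟩
  have hu : ∀ x, (c * s * c⁻¹) ((c * s * c⁻¹) x) = x := by intro x; simp [hs]
  rw [← orderOf_inv, mul_inv_rev, inv_apply_of_sq ht, inv_apply_of_sq hu]
  exact odd_orderOf_of_oddPer fun x => (hc x (by simp)).2

end Cfsg.Agent.H85.InvGraph
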