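import Mathlib
import Cfsg.Prelude.Def_LocalStructure

/-!
# Groups in which the centralisers of non-central elements are maximal
-/

set_option autoImplicit false
set_option linter.style.haveILetI false
set_option linter.unusedSectionVars false

namespace Cfsg.Agent.H85

variable {G : Type*} [Group G] [Finite G]

/-- The centraliser of every non-central element is maximal. -/
def MaxCent (G : Type*) [Group G] : Prop :=
  ∀ x : G, x ∉ Subgroup.center G → IsCoatom (Subgroup.centralizer ({x} : Set G))

theorem mem_centralizer_singleton' {x g : G} :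
    g ∈ Subgroup.centralizer ({x} : Set G) ↔ Commute x g :=
  Subgroup.mem_centralizer_singleton_iff.trans ⟨fun h => h.symm, fun h => h.symm⟩

theorem centralizer_eq_top_of_center {x : G} (hx : x ∈ Subgroup.center G) :
    Subgroup.centralizer ({x} : Set G) = ⊤ :=
  top_le_iff.1 fun g _ => mem_centralizer_singleton'.2 (Subgroup.mem_center_iff.1 hx g).symm

theorem center_le_centralizer' (x : G) :
    Subgroup.center G ≤ Subgroup.centralizer ({x} : Set G) :=
  fun z hz => mem_centralizer_singleton'.2 (Subgroup.mem_center_iff.1 hz x)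

theorem MaxCent.le_imp_eq (h : MaxCent G) {x y : G} (hx : x ∉ Subgroup.center G)
    (hy : y ∉ Subgroup.center G)
    (hle : Subgroup.centralizer ({x} : Set G) ≤ Subgroup.centralizer {y}) :
    Subgroup.centralizer ({x} : Set G) = Subgroup.centralizer {y} :=
  (((h x hx).le_iff).1 hle).resolve_left (h y hy).1 |>.symm

/-- If `y` centralises `C(x)` and is not central, its centraliser is `C(x)`. -/
theorem MaxCent.eq_of_commute_all (h : MaxCent G) {x y : G} (hx : x ∉ Subgroup.center G)
    (hy : y ∉ Subgroup.center G)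
    (hc : ∀ m ∈ Subgroup.centralizer ({x} : Set G), Commute y m) :
    Subgroup.centralizer ({x} : Set G) = Subgroup.centralizer {y} :=
  h.le_imp_eq hx hy fun m hm => mem_centralizer_singleton'.2 (hc m hm)

theorem MaxCent.eq_of_coprime (h : MaxCent G) {x y : G} (hx : x ∉ Subgroup.center G)
    (hy : y ∉ Subgroup.center G) (hxy : Commute x y) (hco : (orderOf x).Coprime (orderOf y)) :
    Subgroup.centralizer ({x} : Set G) = Subgroup.centralizer {y} := by
  obtain ⟨t, ht⟩ := exists_pow_eq_self_of_coprime (x := x) hco.symm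
  obtain ⟨s, hs⟩ := exists_pow_eq_self_of_coprime (x := y) hco
  have hxe : ((x * y) ^ orderOf y) ^ t = x := by
    rw [hxy.mul_pow, pow_orderOf_eq_one, mul_one, ht]
  have hye : ((x * y) ^ orderOf x) ^ s = y := by
    rw [hxy.mul_pow, pow_orderOf_eq_one, one_mul, hs]
  have hxy' : x * y ∉ Subgroup.center G := fun hc => hx (hxe ▸ pow_mem (pow_mem hc _) _)
  have h1 : Subgroup.centralizer ({x * y} : Set G) ≤ Subgroup.centralizer {x} := fun g hg =>
    mem_centralizer_singleton'.2 (hxe ▸ ((mem_centralizer_singleton'.1 hg).pow_left _).pow_left _)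
  have h2 : Subgroup.centralizer ({x * y} : Set G) ≤ Subgroup.centralizer {y} := fun g hg =>
    mem_centralizer_singleton'.2 (hye ▸ ((mem_centralizer_singleton'.1 hg).pow_left _).pow_left _)
  rw [← h.le_imp_eq hxy' hx h1, h.le_imp_eq hxy' hy h2]

/-- A centraliser of a non-central element is nilpotent. -/
theorem MaxCent.nilpotent (h : MaxCent G) {x : G} (hx : x ∉ Subgroup.center G) :
    Group.IsNilpotent (Subgroup.centralizer ({x} : Set G)) := by
  have h1 : orderOf (x : G ⧸ Subgroup.center G) ≠ 1 := fun h1 =>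
    hx ((QuotientGroup.eq_one_iff x).1 (orderOf_eq_one_iff.1 h1))
  obtain ⟨p, hp, hpd⟩ := Nat.exists_prime_and_dvd h1
  haveI : Fact p.Prime := ⟨hp⟩
  set x' := x ^ (orderOf x / p ^ (orderOf x).factorization p) with hx'
  have hx'c : x' ∉ Subgroup.center G := fun hc => by
    have h2 : ((x : G ⧸ Subgroup.center G)) ^ (orderOf x / p ^ (orderOf x).factorization p) = 1 := by
      rw [← QuotientGroup.mk_pow, QuotientGroup.eq_one_iff]; exact hc
    exact Nat.not_dvd_ordCompl hp (orderOf_pos x).ne' (hpd.trans (orderOf_dvd_of_pow_eq_one h2))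
  have hM : Subgroup.centralizer ({x} : Set G) = Subgroup.centralizer {x'} :=
    h.le_imp_eq hx hx'c fun g hg =>
      mem_centralizer_singleton'.2 ((mem_centralizer_singleton'.1 hg).pow_left _)
  rw [hM]
  have hx'o : orderOf x' ∣ p ^ (orderOf x).factorization p :=
    orderOf_dvd_of_pow_eq_one (by
      rw [hx', ← pow_mul, Nat.div_mul_cancel (Nat.ordProj_dvd _ _), pow_orderOf_eq_one])
  have hq : IsPGroup p ((Subgroup.centralizer ({x'} : Set G)) ⧸
      Subgroup.center (Subgroup.centralizer ({x'} : Set G))) := by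
    intro g
    obtain ⟨⟨y, hy⟩, rfl⟩ := QuotientGroup.mk_surjective g
    refine ⟨(orderOf y).factorization p, ?_⟩
    rw [← QuotientGroup.mk_pow, QuotientGroup.eq_one_iff, Subgroup.mem_center_iff]
    intro m
    refine Subtype.ext ?_
    show (m : G) * y ^ p ^ (orderOf y).factorization p = y ^ p ^ (orderOf y).factorization p * m
    by_cases hc : y ^ p ^ (orderOf y).factorization p ∈ Subgroup.center G
    · exact Subgroup.mem_center_iff.1 hc m
    have ho : (orderOf x').Coprime (orderOf (y ^ p ^ (orderOf y).factorization p)) := by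
      refine Nat.Coprime.coprime_dvd_left hx'o (Nat.Coprime.pow_left _ ?_)
      rw [orderOf_pow_of_dvd (pow_ne_zero _ hp.ne_zero) (Nat.ordProj_dvd _ _)]
      exact Nat.coprime_ordCompl hp (orderOf_pos y).ne'
    have h4 := h.eq_of_coprime hx'c hc ((mem_centralizer_singleton'.1 hy).pow_right _) ho
    have h5 : (m : G) ∈ Subgroup.centralizer ({y ^ p ^ (orderOf y).factorization p} : Set G) :=
      h4 ▸ m.2
    exact (mem_centralizer_singleton'.1 h5).eq.symm
  exact Group.of_quotient_center_nilpotent hq.isNilpotent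

/-- A non-normal centraliser of a non-central element is abelian. -/
theorem MaxCent.commutative_of_not_normal (h : MaxCent G) {x : G} (hx : x ∉ Subgroup.center G)
    (hn : ¬ (Subgroup.centralizer ({x} : Set G)).Normal) {a b : G}
    (ha : a ∈ Subgroup.centralizer ({x} : Set G)) (hb : b ∈ Subgroup.centralizer ({x} : Set G)) :
    Commute a b := by
  by_contra hab
  set M := Subgroup.centralizer ({x} : Set G) with hM
  haveI := h.nilpotent hx
  -- an element of the second centre of `M`
  obtain ⟨e, he2, he1⟩ : ∃ e : M, (∀ m : M, e * m * e⁻¹ * m⁻¹ ∈ Subgroup.center M) ∧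
      e ∉ Subgroup.center M := by
    by_contra hall
    push Not at hall
    haveI : Nontrivial (M ⧸ Subgroup.center M) := by
      refine ⟨⟨QuotientGroup.mk ⟨a, ha⟩, 1, fun h1 => hab ?_⟩⟩
      exact (congrArg Subtype.val
        (Subgroup.mem_center_iff.1 ((QuotientGroup.eq_one_iff _).1 h1) ⟨b, hb⟩)).symm
    haveI : Nontrivial (Subgroup.center (M ⧸ Subgroup.center M)) :=
      (Subgroup.nontrivial_iff_ne_bot _).2 (Group.IsNilpotent.center_ne_bot _)
    obtain ⟨⟨c, hc⟩, hc1⟩ := exists_ne (1 : Subgroup.center (M ⧸ Subgroup.center M))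
    obtain ⟨e, rfl⟩ := QuotientGroup.mk_surjective c
    refine hc1 (Subtype.ext ((QuotientGroup.eq_one_iff _).2 (hall e fun m => ?_)))
    rw [← QuotientGroup.eq_one_iff, QuotientGroup.mk_mul, QuotientGroup.mk_mul, QuotientGroup.mk_mul,
      QuotientGroup.mk_inv, QuotientGroup.mk_inv, (Subgroup.mem_center_iff.1 hc _).symm,
      mul_inv_cancel_right, mul_inv_cancel]
  have hec : (e : G) ∉ Subgroup.center G := fun hc =>
    he1 (Subgroup.mem_center_iff.2 fun m => Subtype.ext (Subgroup.mem_center_iff.1 hc m))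
  set M' := Subgroup.centralizer ({(e : G)} : Set G) with hM'
  haveI := h.nilpotent hec
  set T := M ⊓ M' with hT
  have hMM' : M ≠ M' := fun heq => he1 (Subgroup.mem_center_iff.2 fun m => Subtype.ext
    (mem_centralizer_singleton'.1 (show (m : G) ∈ M' from heq ▸ m.2)).eq.symm)
  have hTnM : M ≤ Subgroup.normalizer (T : Set G) := by
    intro g hg
    rw [Subgroup.mem_normalizer_iff]
    have key : ∀ g ∈ M, ∀ t ∈ T, g * t * g⁻¹ ∈ T := by
      rintro g hg t htT
      have ht : t ∈ M := htT.1
      have ht' : t ∈ M' := htT.2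
      refine Subgroup.mem_inf.2 ⟨mul_mem (mul_mem hg ht) (inv_mem hg), mem_centralizer_singleton'.2 ?_⟩
      set c := (⟨g, hg⟩ : M)⁻¹ * e * ⟨g, hg⟩ * e⁻¹ with hc
      have hcz : c ∈ Subgroup.center M := by
        have h1 := (inferInstance : (Subgroup.center M).Normal).conj_mem _
          (he2 ⟨g, hg⟩) (⟨g, hg⟩ : M)⁻¹
        rw [inv_inv] at h1
        rw [hc, show (⟨g, hg⟩ : M)⁻¹ * e * ⟨g, hg⟩ * e⁻¹ =
          (⟨g, hg⟩ : M)⁻¹ * (e * ⟨g, hg⟩ * e⁻¹ * (⟨g, hg⟩ : M)⁻¹) * ⟨g, hg⟩ by group]
        exact h1
      have h2 : Commute (g⁻¹ * (e : G) * g) t := by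
        have h3 : g⁻¹ * (e : G) * g = (c : G) * e := by simp [hc]
        rw [h3]
        have h5 : Commute (c : G) t :=
          (congrArg Subtype.val (Subgroup.mem_center_iff.1 hcz ⟨t, ht⟩)).symm
        exact h5.mul_left (mem_centralizer_singleton'.1 ht')
      have h4 := (Commute.conj_iff g).2 h2
      simpa [mul_assoc] using h4
    intro t
    refine ⟨key g hg t, fun ht => ?_⟩
    have h5 := key g⁻¹ (inv_mem hg) _ ht
    simpa [mul_assoc] using h5
  have hTlt : T < M' := by
    refine lt_of_le_of_ne inf_le_right fun heq => hMM' ?_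
    exact ((((h (e : G) hec)).le_iff).1 (heq.ge.trans inf_le_left)).resolve_left (h x hx).1
  have hTn : T.Normal := by
    have h1 : T.subgroupOf M' < ⊤ :=
      lt_top_iff_ne_top.2 fun ht => hTlt.not_ge (Subgroup.subgroupOf_eq_top.1 ht)
    have h2 := Group.normalizerCondition_of_isNilpotent _ h1
    obtain ⟨g, hg, hgT⟩ := SetLike.exists_of_lt h2
    rw [← Subgroup.normalizer_eq_top_iff]
    refine ((h x hx).2 _ (lt_of_le_of_ne hTnM fun heq => hgT ?_))
    rw [Subgroup.mem_subgroupOf]
    refine ⟨?_, g.2⟩
    show (g : G) ∈ Subgroup.centralizer ({x} : Set G)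
    rw [heq, Subgroup.mem_normalizer_iff]
    intro t
    rw [Subgroup.mem_normalizer_iff] at hg
    constructor
    · intro ht
      exact (hg ⟨t, ht.2⟩).1 ht
    · intro ht
      have htM : t ∈ M' := by
        have := mul_mem (mul_mem (inv_mem g.2) ht.2) g.2
        simpa [mul_assoc] using this
      exact (hg ⟨t, htM⟩).2 ht
  -- the quotient by `T` is nilpotent
  obtain ⟨w, hw⟩ : ∃ w, w ∉ M := by
    by_contra hall
    push Not at hall
    exact (h x hx).1 (top_le_iff.1 fun g _ => hall g)
  have hwc : w ∉ Subgroup.center G := fun hc => hw (center_le_centralizer' x hc)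
  haveI := h.nilpotent hwc
  haveI := hTn
  have hxT : x ∈ T := ⟨mem_centralizer_singleton'.2 (Commute.refl x),
    mem_centralizer_singleton'.2 (mem_centralizer_singleton'.1 e.2).symm⟩
  have htop : Subgroup.centralizer ({w} : Set G) ⊔ T = ⊤ :=
    (h w hwc).2 _ (lt_of_le_of_ne le_sup_left fun heq => hw (mem_centralizer_singleton'.2
      (mem_centralizer_singleton'.1 (heq ▸ Subgroup.mem_sup_right hxT :
        x ∈ Subgroup.centralizer ({w} : Set G))).symm))
  let f := (QuotientGroup.mk' T).comp (Subgroup.centralizer ({w} : Set G)).subtype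
  have hf : Function.Surjective f := by
    rw [← MonoidHom.range_eq_top, MonoidHom.range_comp, Subgroup.range_subtype]
    have := congrArg (Subgroup.map (QuotientGroup.mk' T)) htop
    rw [Subgroup.map_sup, (Subgroup.map_eq_bot_iff T).2 (by rw [QuotientGroup.ker_mk']), sup_bot_eq,
      Subgroup.map_top_of_surjective _ (QuotientGroup.mk'_surjective T)] at this
    exact this
  haveI := Group.nilpotent_of_surjective f hf
  have hco : IsCoatom (M.map (QuotientGroup.mk' T)) := by
    refine ⟨fun htop' => (h x hx).1 ?_, fun K hK => ?_⟩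
    · have := congrArg (Subgroup.comap (QuotientGroup.mk' T)) htop'
      rwa [Subgroup.comap_map_eq_self (by rw [QuotientGroup.ker_mk']; exact inf_le_left),
        Subgroup.comap_top] at this
    · refine Subgroup.comap_injective (QuotientGroup.mk'_surjective T) ?_
      rw [Subgroup.comap_top]
      refine (h x hx).2 _ ?_
      show M < _
      rw [← Subgroup.comap_map_eq_self (f := QuotientGroup.mk' T) (H := M)
        (by rw [QuotientGroup.ker_mk']; exact inf_le_left)]
      exact (Subgroup.comap_lt_comap_of_surjective (QuotientGroup.mk'_surjective T)).2 hK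
  refine hn ?_
  have := (Subgroup.NormalizerCondition.normal_of_coatom _ Group.normalizerCondition_of_isNilpotent hco).comap
    (QuotientGroup.mk' T)
  rwa [Subgroup.comap_map_eq_self (by rw [QuotientGroup.ker_mk']; exact inf_le_left)] at this

/-- Two centralisers, the first not normal, share only central elements. -/
theorem MaxCent.eq_of_mem_inter (h : MaxCent G) {x y u : G} (hx : x ∉ Subgroup.center G)
    (hn : ¬ (Subgroup.centralizer ({x} : Set G)).Normal) (hy : y ∉ Subgroup.center G)
    (hu : u ∉ Subgroup.center G) (hux : u ∈ Subgroup.centralizer ({x} : Set G))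
    (huy : u ∈ Subgroup.centralizer ({y} : Set G)) :
    Subgroup.centralizer ({x} : Set G) = Subgroup.centralizer {y} := by
  have h1 := h.eq_of_commute_all hx hu fun m hm => h.commutative_of_not_normal hx hn hux hm
  have h2 : y ∈ Subgroup.centralizer ({x} : Set G) := by
    rw [h1]; exact mem_centralizer_singleton'.2 (mem_centralizer_singleton'.1 huy).symm
  exact h.eq_of_commute_all hx hy fun m hm => h.commutative_of_not_normal hx hn h2 hm

theorem MaxCent.card_class (h : MaxCent G) {x : G} (hx : x ∉ Subgroup.center G)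
    (hn : ¬ (Subgroup.centralizer ({x} : Set G)).Normal) :
    Nat.card {g : G // g ∉ Subgroup.center G ∧
        ∃ c : G, c⁻¹ * g * c ∈ Subgroup.centralizer ({x} : Set G)} +
      Nat.card (Subgroup.center G) * (Subgroup.centralizer ({x} : Set G)).index = Nat.card G := by
  classical
  set M := Subgroup.centralizer ({x} : Set G) with hM
  set Z := Subgroup.center G with hZ
  have hsum : Nat.card {g : G // g ∈ M ∧ g ∉ Z} + Nat.card Z = Nat.card M := by
    have h1 := Nat.card_congr (Equiv.sumCompl (fun m : M => (m : G) ∈ Z))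
    rw [Nat.card_sum] at h1
    have e1 : {m : M // (m : G) ∈ Z} ≃ Z :=
      { toFun := fun m => ⟨m.1.1, m.2⟩
        invFun := fun z => ⟨⟨z, center_le_centralizer' x z.2⟩, z.2⟩
        left_inv := fun m => rfl
        right_inv := fun z => rfl }
    have e2 : {m : M // ¬ (m : G) ∈ Z} ≃ {g : G // g ∈ M ∧ g ∉ Z} :=
      { toFun := fun m => ⟨m.1.1, m.1.2, m.2⟩
        invFun := fun g => ⟨⟨g, g.2.1⟩, g.2.2⟩
        left_inv := fun m => rfl
        right_inv := fun g => rfl }
    rw [Nat.card_congr e1, Nat.card_congr e2] at h1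
    omega
  have hconjZ : ∀ c g : G, c * g * c⁻¹ ∈ Z ↔ g ∈ Z := fun c g =>
    ⟨fun hg => by
      have := (inferInstance : (Subgroup.center G).Normal).conj_mem _ hg c⁻¹
      simpa [mul_assoc] using this,
     fun hg => (inferInstance : (Subgroup.center G).Normal).conj_mem _ hg c⟩
  let f : (G ⧸ M) × {g : G // g ∈ M ∧ g ∉ Z} →
      {g : G // g ∉ Z ∧ ∃ c : G, c⁻¹ * g * c ∈ M} := fun z =>
    ⟨z.1.out * z.2.1 * z.1.out⁻¹, fun hc => z.2.2.2 ((hconjZ _ _).1 hc), z.1.out,
      by simpa [mul_assoc] using z.2.2.1⟩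
  have hcoatom := h x hx
  have hf : Function.Bijective f := by
    constructor
    · rintro ⟨c, g, hg, hgZ⟩ ⟨d, k, hk, hkZ⟩ heq
      have heq' : c.out * g * c.out⁻¹ = d.out * k * d.out⁻¹ := congrArg Subtype.val heq
      set s := d.out⁻¹ * c.out with hs
      have hks : k = s * g * s⁻¹ := by
        have := congrArg (fun t => d.out⁻¹ * t * d.out) heq'
        simpa [hs, mul_assoc] using this.symm
      have hsx : s * x * s⁻¹ ∉ Z := fun hc => hx ((hconjZ _ _).1 hc)
      have h1 := h.eq_of_mem_inter hx hn hsx hkZ hk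
        (mem_centralizer_singleton'.2 (hks ▸ (Commute.conj_iff s).2 (mem_centralizer_singleton'.1 hg)))
      have hsN : s ∈ Subgroup.normalizer (M : Set G) := by
        rw [Subgroup.mem_normalizer_iff]
        intro t
        conv_rhs => rw [show M = Subgroup.centralizer ({s * x * s⁻¹} : Set G) from h1]
        conv_lhs => rw [hM]
        rw [mem_centralizer_singleton', mem_centralizer_singleton', Commute.conj_iff]
      have hNM : Subgroup.normalizer (M : Set G) = M := by
        rcases (hcoatom.le_iff).1 (Subgroup.le_normalizer (H := M)) with h2 | h2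
        · exact absurd (Subgroup.normalizer_eq_top_iff.1 h2) hn
        · exact h2
      rw [hNM] at hsN
      obtain rfl : d = c := by
        rw [← QuotientGroup.out_eq' c, ← QuotientGroup.out_eq' d, QuotientGroup.eq]; exact hsN
      have hgk : g = k := by simpa using heq'
      subst hgk
      rfl
    · rintro ⟨g, hgZ, c, hc⟩
      set d : G ⧸ M := QuotientGroup.mk c with hd
      have hm : d.out⁻¹ * c ∈ M := by rw [← QuotientGroup.eq, QuotientGroup.out_eq']
      refine ⟨⟨d, ⟨d.out⁻¹ * g * d.out, ?_, fun hc' => hgZ ?_⟩⟩, ?_⟩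
      · have := mul_mem (mul_mem hm hc) (inv_mem hm)
        simpa [mul_assoc] using this
      · have := (hconjZ d.out _).2 hc'
        simpa [mul_assoc] using this
      · exact Subtype.ext (by simp [f, mul_assoc])
  rw [← Nat.card_eq_of_bijective f hf, Nat.card_prod, ← Subgroup.index_eq_card,
    mul_comm (Nat.card Z), ← Nat.mul_add, hsum, mul_comm, Subgroup.card_mul_index]

theorem center_mul_two_le (x : G) (hx : x ∉ Subgroup.center G) :
    2 * Nat.card (Subgroup.center G) ≤ Nat.card (Subgroup.centralizer ({x} : Set G)) := by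
  have hle := center_le_centralizer' x
  have h1 := Subgroup.card_mul_index ((Subgroup.center G).subgroupOf (Subgroup.centralizer ({x} : Set G)))
  rw [Nat.card_congr (Subgroup.subgroupOfEquivOfLe hle).toEquiv] at h1
  have h2 : ((Subgroup.center G).subgroupOf (Subgroup.centralizer ({x} : Set G))).index ≠ 1 := by
    rw [Ne, Subgroup.index_eq_one, Subgroup.subgroupOf_eq_top]
    exact fun h => hx (h (mem_centralizer_singleton'.2 (Commute.refl x)))
  have h3 : ((Subgroup.center G).subgroupOf (Subgroup.centralizer ({x} : Set G))).index ≠ 0 :=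
    Subgroup.FiniteIndex.index_ne_zero
  rw [← h1, mul_comm 2]
  exact Nat.mul_le_mul_left _ (by omega)

/-- A non-normal centraliser forces a normal one. -/
theorem MaxCent.exists_normal (h : MaxCent G) {x : G} (hx : x ∉ Subgroup.center G)
    (hn : ¬ (Subgroup.centralizer ({x} : Set G)).Normal) :
    ∃ y, y ∉ Subgroup.center G ∧ (Subgroup.centralizer ({y} : Set G)).Normal := by
  classical
  by_contra hall
  push Not at hall
  set Z := Subgroup.center G with hZ
  have h2 : ∀ x, x ∉ Z → Nat.card G ≤
      2 * Nat.card {g : G // g ∉ Z ∧ ∃ c : G, c⁻¹ * g * c ∈ Subgroup.centralizer ({x} : Set G)} := by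
    intro x hx
    have h3 := h.card_class hx (hall x hx)
    have h4 := Nat.mul_le_mul_right (Subgroup.centralizer ({x} : Set G)).index (center_mul_two_le x hx)
    rw [Subgroup.card_mul_index, mul_assoc] at h4
    simp only [← hZ] at h3 h4
    omega
  have hcardc : Nat.card {g : G // g ∉ Z} + Nat.card Z = Nat.card G := by
    have h1 := Nat.card_congr (Equiv.sumCompl (fun g : G => g ∈ Z))
    rw [Nat.card_sum, add_comm] at h1
    exact h1
  by_cases hone : ∀ g, g ∉ Z → ∃ c : G, c⁻¹ * g * c ∈ Subgroup.centralizer ({x} : Set G)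
  · have h3 := h.card_class hx hn
    rw [Nat.card_congr (Equiv.subtypeEquivRight fun g => ⟨fun hg => hg.1, fun hg => ⟨hg, hone g hg⟩⟩ :
      {g : G // g ∉ Z ∧ ∃ c : G, c⁻¹ * g * c ∈ Subgroup.centralizer ({x} : Set G)} ≃ {g : G // g ∉ Z})] at h3
    have h4 : 1 < (Subgroup.centralizer ({x} : Set G)).index := by
      have := Subgroup.FiniteIndex.index_ne_zero (H := Subgroup.centralizer ({x} : Set G))
      have h5 : (Subgroup.centralizer ({x} : Set G)).index ≠ 1 := by
        rw [Ne, Subgroup.index_eq_one]; exact (h x hx).1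
      omega
    have h6 : 0 < Nat.card Z := Nat.card_pos
    simp only [← hZ] at h3
    nlinarith
  · push Not at hone
    obtain ⟨y, hyZ, hy⟩ := hone
    have hdis : Nat.card {g : G // g ∉ Z ∧ ∃ c : G, c⁻¹ * g * c ∈ Subgroup.centralizer ({x} : Set G)} +
        Nat.card {g : G // g ∉ Z ∧ ∃ c : G, c⁻¹ * g * c ∈ Subgroup.centralizer ({y} : Set G)} ≤
        Nat.card {g : G // g ∉ Z} := by
      rw [← Nat.card_sum]
      refine Nat.card_le_card_of_injective (Sum.elim (fun g => ⟨g.1, g.2.1⟩) (fun g => ⟨g.1, g.2.1⟩)) ?_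
      have hne : ∀ g : G, g ∉ Z → ∀ c d : G,
          c⁻¹ * g * c ∈ Subgroup.centralizer ({x} : Set G) →
          d⁻¹ * g * d ∈ Subgroup.centralizer ({y} : Set G) → False := by
        intro g hg c d hc hd
        have hcy : (c⁻¹ * d) * y * (c⁻¹ * d)⁻¹ ∉ Z := fun hc' => hyZ (by
          have := (inferInstance : (Subgroup.center G).Normal).conj_mem _ hc' (c⁻¹ * d)⁻¹
          simpa [mul_assoc] using this)
        have hcg : c⁻¹ * g * c ∉ Z := fun hc' => hg (by
          have := (inferInstance : (Subgroup.center G).Normal).conj_mem _ hc' c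
          simpa [mul_assoc] using this)
        have h1 := h.eq_of_mem_inter hx hn hcy hcg hc (mem_centralizer_singleton'.2 (by
          have := (Commute.conj_iff (c⁻¹ * d)).2 (mem_centralizer_singleton'.1 hd)
          simpa [mul_assoc] using this))
        apply hy (d⁻¹ * c)
        rw [h1, mem_centralizer_singleton', show (d⁻¹ * c)⁻¹ * y * (d⁻¹ * c) =
          (c⁻¹ * d) * y * (c⁻¹ * d)⁻¹ by group]
      rintro (⟨a, haZ, c, hc⟩ | ⟨a, haZ, c, hc⟩) (⟨b, hbZ, d, hd⟩ | ⟨b, hbZ, d, hd⟩) heq <;>
        simp only [Sum.elim_inl, Sum.elim_inr, Subtype.mk.injEq] at heq <;> subst heq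
      · rfl
      · exact (hne a haZ c d hc hd).elim
      · exact (hne a haZ d c hd hc).elim
      · rfl
    have h5 := h2 x hx
    have h6 := h2 y hyZ
    have h7 : 0 < Nat.card Z := Nat.card_pos
    omega

theorem MaxCent.commutator_mem_center (h : MaxCent G)
    (hall : ∀ x, x ∉ Subgroup.center G → (Subgroup.centralizer ({x} : Set G)).Normal) (a b : G) :
    a * b * a⁻¹ * b⁻¹ ∈ Subgroup.center G := by
  refine Subgroup.mem_center_iff.2 fun x => ?_
  by_cases hx : x ∈ Subgroup.center G
  · exact (Subgroup.mem_center_iff.1 hx _).symm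
  haveI := hall x hx
  suffices hC : a * b * a⁻¹ * b⁻¹ ∈ Subgroup.centralizer ({x} : Set G) from
    (mem_centralizer_singleton'.1 hC).eq
  obtain ⟨w, hw⟩ : ∃ w, w ∉ Subgroup.centralizer ({x} : Set G) := by
    by_contra hall'
    push Not at hall'
    exact (h x hx).1 (top_le_iff.1 fun g _ => hall' g)
  set C := Subgroup.centralizer ({x} : Set G) with hC
  have hsimp : ∀ K : Subgroup (G ⧸ C), K = ⊥ ∨ K = ⊤ := fun K => by
    rcases ((h x hx).le_iff).1 (by
      intro g hg
      rw [Subgroup.mem_comap, show QuotientGroup.mk' C g = 1 from (QuotientGroup.eq_one_iff g).2 hg]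
      exact one_mem K : C ≤ K.comap (QuotientGroup.mk' C)) with h1 | h1
    · right
      refine Subgroup.comap_injective (QuotientGroup.mk'_surjective C) ?_
      rw [h1, Subgroup.comap_top]
    · left
      refine Subgroup.comap_injective (QuotientGroup.mk'_surjective C) ?_
      rw [h1, MonoidHom.comap_bot, QuotientGroup.ker_mk']
  have hw1 : Subgroup.zpowers (w : G ⧸ C) = ⊤ := (hsimp _).resolve_left fun h1 =>
    hw ((QuotientGroup.eq_one_iff w).1 (Subgroup.zpowers_eq_bot.1 h1))
  obtain ⟨i, hi⟩ := Subgroup.mem_zpowers_iff.1 (hw1 ▸ Subgroup.mem_top (a : G ⧸ C))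
  obtain ⟨j, hj⟩ := Subgroup.mem_zpowers_iff.1 (hw1 ▸ Subgroup.mem_top (b : G ⧸ C))
  rw [← QuotientGroup.eq_one_iff, QuotientGroup.mk_mul, QuotientGroup.mk_mul, QuotientGroup.mk_mul,
    QuotientGroup.mk_inv, QuotientGroup.mk_inv, ← hi, ← hj,
    ((Commute.refl (w : G ⧸ C)).zpow_zpow i j).eq, mul_inv_cancel_right, mul_inv_cancel]

/-- All centralisers normal: the central quotient is elementary abelian. -/
theorem MaxCent.elementary_of_all_normal (h : MaxCent G) (hna : ¬ IsMulCommutative G)
    (hall : ∀ x, x ∉ Subgroup.center G → (Subgroup.centralizer ({x} : Set G)).Normal) :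
    ∃ p : ℕ, p.Prime ∧ Cfsg.IsElementaryAbelian p (⊤ : Subgroup (G ⧸ Subgroup.center G)) := by
  have hcomm : ∀ a b : G ⧸ Subgroup.center G, a * b = b * a := by
    intro a b
    obtain ⟨a, rfl⟩ := QuotientGroup.mk_surjective a
    obtain ⟨b, rfl⟩ := QuotientGroup.mk_surjective b
    have h1 := (QuotientGroup.eq_one_iff _).2 (h.commutator_mem_center hall a b)
    rw [QuotientGroup.mk_mul, QuotientGroup.mk_mul, QuotientGroup.mk_mul, QuotientGroup.mk_inv,
      QuotientGroup.mk_inv, mul_inv_eq_one, mul_inv_eq_iff_eq_mul] at h1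
    exact h1
  -- a non-central element has prime order modulo the centre
  have hprime : ∀ x : G, x ∉ Subgroup.center G → (orderOf (x : G ⧸ Subgroup.center G)).Prime := by
    intro x hx
    haveI := hall x hx
    haveI : Nontrivial (G ⧸ Subgroup.centralizer ({x} : Set G)) := by
      rw [← Finite.one_lt_card_iff_nontrivial, ← Subgroup.index_eq_card]
      have h2 : (Subgroup.centralizer ({x} : Set G)).index ≠ 1 := by
        rw [Ne, Subgroup.index_eq_one]; exact (h x hx).1
      have := Subgroup.FiniteIndex.index_ne_zero (H := Subgroup.centralizer ({x} : Set G))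
      omega
    set C := Subgroup.centralizer ({x} : Set G) with hC
    have hs : IsSimpleGroup (G ⧸ C) := ⟨fun K _ => by
      rcases ((h x hx).le_iff).1 (by
        intro g hg
        rw [Subgroup.mem_comap, show QuotientGroup.mk' C g = 1 from (QuotientGroup.eq_one_iff g).2 hg]
        exact one_mem K : C ≤ K.comap (QuotientGroup.mk' C)) with h1 | h1
      · right
        refine Subgroup.comap_injective (QuotientGroup.mk'_surjective C) ?_
        rw [h1, Subgroup.comap_top]
      · left
        refine Subgroup.comap_injective (QuotientGroup.mk'_surjective C) ?_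
        rw [h1, MonoidHom.comap_bot, QuotientGroup.ker_mk']⟩
    letI : CommGroup (G ⧸ C) := { (inferInstance : Group (G ⧸ C)) with
      mul_comm := fun a b => by
        obtain ⟨a, rfl⟩ := QuotientGroup.mk_surjective a
        obtain ⟨b, rfl⟩ := QuotientGroup.mk_surjective b
        rw [← mul_inv_eq_iff_eq_mul, ← mul_inv_eq_one, ← QuotientGroup.mk_inv,
          ← QuotientGroup.mk_inv, ← QuotientGroup.mk_mul, ← QuotientGroup.mk_mul,
          ← QuotientGroup.mk_mul, QuotientGroup.eq_one_iff]
        exact center_le_centralizer' x (h.commutator_mem_center hall a b) }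
    have hpr : (Nat.card (G ⧸ C)).Prime := by
      haveI := hs
      exact IsSimpleGroup.prime_card
    set r := Nat.card (G ⧸ C) with hr
    have hpow : x ^ r ∈ Subgroup.center G := by
      refine Subgroup.mem_center_iff.2 fun g => ?_
      have hgr : g ^ r ∈ C := by
        rw [← QuotientGroup.eq_one_iff, QuotientGroup.mk_pow, hr, pow_card_eq_one']
      set c := g * x * g⁻¹ * x⁻¹ with hc
      have hcz := h.commutator_mem_center hall g x
      have hi : ∀ i : ℕ, g ^ i * x * (g ^ i)⁻¹ = c ^ i * x := by
        intro i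
        induction i with
        | zero => simp
        | succ i ih =>
          calc g ^ (i + 1) * x * (g ^ (i + 1))⁻¹ = g * (g ^ i * x * (g ^ i)⁻¹) * g⁻¹ := by
                rw [pow_succ', mul_inv_rev]; simp only [mul_assoc]
            _ = g * c ^ i * x * g⁻¹ := by rw [ih]; simp only [mul_assoc]
            _ = c ^ i * (g * x * g⁻¹) := by
                rw [Subgroup.mem_center_iff.1 (pow_mem hcz i) g]; simp only [mul_assoc, hc]
            _ = c ^ (i + 1) * x := by rw [pow_succ, mul_assoc (c ^ i), hc, inv_mul_cancel_right]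
      have hcr : c ^ r = 1 := by
        have := hi r
        rw [(mem_centralizer_singleton'.1 hgr).symm.eq, mul_inv_cancel_right] at this
        exact right_eq_mul.1 this
      have hcx : Commute c x := ((Subgroup.mem_center_iff.1 hcz) x).symm
      have hgx : g * x * g⁻¹ = c * x := by rw [hc]; group
      have := congrArg (· ^ r) hgx
      simp only [conj_pow, hcx.mul_pow, hcr, one_mul] at this
      exact mul_inv_eq_iff_eq_mul.1 this
    have h1 : orderOf (x : G ⧸ Subgroup.center G) = r :=
      ((Nat.dvd_prime hpr).1 (orderOf_dvd_of_pow_eq_one (by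
        rw [← QuotientGroup.mk_pow, QuotientGroup.eq_one_iff]; exact hpow))).resolve_left fun h1 =>
          hx ((QuotientGroup.eq_one_iff x).1 (orderOf_eq_one_iff.1 h1))
    rw [h1]
    exact hpr
  obtain ⟨x₀, hx₀⟩ : ∃ x : G, x ∉ Subgroup.center G := by
    by_contra hc
    push Not at hc
    exact hna ⟨⟨fun a b => Subgroup.mem_center_iff.1 (hc b) a⟩⟩
  refine ⟨_, hprime x₀ hx₀, ⟨⟨fun a b => Subtype.ext (hcomm a b)⟩⟩, ?_⟩
  rintro y -
  show y ^ _ = 1
  obtain ⟨y, rfl⟩ := QuotientGroup.mk_surjective y
  by_cases hy : y ∈ Subgroup.center G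
  · rw [(QuotientGroup.eq_one_iff y).2 hy, one_pow]
  have hp := hprime x₀ hx₀
  have hq := hprime y hy
  by_contra hne
  have hne' : orderOf (y : G ⧸ Subgroup.center G) ≠ orderOf (x₀ : G ⧸ Subgroup.center G) :=
    fun heq => hne (heq ▸ pow_orderOf_eq_one _)
  have hcm : Commute (x₀ : G ⧸ Subgroup.center G) (y : G ⧸ Subgroup.center G) := hcomm _ _
  have ho := hcm.orderOf_mul_eq_mul_orderOf_of_coprime ((Nat.coprime_primes hp hq).2 hne'.symm)
  rw [← QuotientGroup.mk_mul] at ho
  by_cases hxy : x₀ * y ∈ Subgroup.center G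
  · rw [(QuotientGroup.eq_one_iff _).2 hxy, orderOf_one] at ho
    exact hp.ne_one (Nat.eq_one_of_mul_eq_one_right ho.symm)
  · exact Nat.not_prime_mul hp.ne_one hq.ne_one (ho ▸ hprime _ hxy)

/-- One centraliser not normal: the central quotient is minimal non-abelian. -/
theorem MaxCent.minimal_of_not_normal (h : MaxCent G) {x : G} (hx : x ∉ Subgroup.center G)
    (hn : ¬ (Subgroup.centralizer ({x} : Set G)).Normal) :
    ¬ IsMulCommutative (G ⧸ Subgroup.center G) ∧
      (∀ H : Subgroup (G ⧸ Subgroup.center G), H ≠ ⊤ → IsMulCommutative H) ∧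
      ∃ p q a : ℕ, p.Prime ∧ q.Prime ∧ p ≠ q ∧ Nat.card (G ⧸ Subgroup.center G) = p ^ a * q ∧
        ∀ P : Subgroup (G ⧸ Subgroup.center G), Nat.card P = p ^ a → P.Normal := by
  obtain ⟨v, hv, hvn⟩ := h.exists_normal hx hn
  set Z := Subgroup.center G with hZ
  set π := QuotientGroup.mk' Z with hπ
  set N := Subgroup.centralizer ({v} : Set G) with hN
  haveI := hvn
  have hker : ∀ y : G, Subgroup.comap π ((Subgroup.centralizer ({y} : Set G)).map π) =
      Subgroup.centralizer ({y} : Set G) := fun y =>
    Subgroup.comap_map_eq_self (by rw [hπ, QuotientGroup.ker_mk']; exact center_le_centralizer' y)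
  have hinter : ∀ y, y ∉ Z → ¬ (Subgroup.centralizer ({y} : Set G)).Normal →
      N ⊓ Subgroup.centralizer ({y} : Set G) = Z := by
    intro y hy hyn
    refine le_antisymm (fun u hu => ?_) (le_inf (center_le_centralizer' v) (center_le_centralizer' y))
    by_contra hu'
    exact hyn (by rw [h.eq_of_mem_inter hy hyn hv hu' hu.2 hu.1]; exact hvn)
  -- the quotient is not abelian
  have hQna : ¬ IsMulCommutative (G ⧸ Z) := fun hc => hn (by
    have h1 : ((Subgroup.centralizer ({x} : Set G)).map π).Normal :=
      ⟨fun a ha g => by rwa [hc.is_comm.comm g a, mul_inv_cancel_right]⟩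
    rw [← hker x]
    exact h1.comap π)
  -- `N` is abelian
  have hvZN : ∀ m ∈ N, Commute v m := fun m hm => mem_centralizer_singleton'.1 hm
  have hvx : v ∉ Subgroup.centralizer ({x} : Set G) := fun hvx => by
    have h1 : v ∈ N ⊓ Subgroup.centralizer ({x} : Set G) :=
      ⟨mem_centralizer_singleton'.2 (Commute.refl v), hvx⟩
    rw [hinter x hx hn] at h1
    exact hv h1
  -- a subgroup between `Z` and `N`, normalised by `G`
  have hminN : ∀ L : Subgroup G, L.Normal → Z ≤ L → L ≤ N → L = Z ∨ L = N := by
    intro L hL hZL hLN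
    rcases ((h x hx).le_iff).1 (le_sup_left : _ ≤ Subgroup.centralizer ({x} : Set G) ⊔ L) with h1 | h1
    · right
      refine le_antisymm hLN fun n hn' => ?_
      have h2 : n ∈ Subgroup.centralizer ({x} : Set G) ⊔ L := h1 ▸ Subgroup.mem_top n
      haveI := hL
      rw [← SetLike.mem_coe, Subgroup.mul_normal] at h2
      obtain ⟨m, hm, l, hl, hml⟩ := h2
      have hmN : m ∈ N := by
        rw [show m = n * l⁻¹ by rw [← hml]; group]
        exact mul_mem hn' (inv_mem (hLN hl))
      have hmZ : m ∈ N ⊓ Subgroup.centralizer ({x} : Set G) := ⟨hmN, hm⟩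
      rw [hinter x hx hn] at hmZ
      rw [← hml]
      exact mul_mem (hZL hmZ) hl
    · left
      refine le_antisymm ?_ hZL
      rw [← hinter x hx hn]
      exact le_inf hLN (le_sup_right.trans h1.le)
  have hNab : ∀ a ∈ N, ∀ b ∈ N, Commute a b := by
    set C := N ⊓ Subgroup.centralizer (N : Set G) with hC
    haveI : C.Normal := inferInstance
    rcases hminN C inferInstance (le_inf (center_le_centralizer' v) fun z hz =>
      Subgroup.mem_centralizer_iff.2 fun n _ => Subgroup.mem_center_iff.1 hz n) inf_le_left with h1 | h1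
    · exfalso
      apply hv
      rw [← h1]
      exact ⟨mem_centralizer_singleton'.2 (Commute.refl v),
        Subgroup.mem_centralizer_iff.2 fun n hn' => (hvZN n hn').eq.symm⟩
    · intro a ha b hb
      have hbC : b ∈ C := h1 ▸ hb
      exact Subgroup.mem_centralizer_iff.1 hbC.2 a ha
  -- orders
  have hsimpN : IsCoatom N := h v hv
  have hGN : ∀ y, y ∉ N → Subgroup.closure ((N : Set G) ∪ {y}) = ⊤ := fun y hy => by
    refine hsimpN.2 _ (lt_of_le_of_ne (fun n hn' => Subgroup.subset_closure (Or.inl hn')) fun heq => ?_)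
    exact hy (heq ▸ Subgroup.subset_closure (Or.inr rfl))
  have hidx : N.index.Prime := by
    haveI : Nontrivial (G ⧸ N) := by
      rw [← Finite.one_lt_card_iff_nontrivial, ← Subgroup.index_eq_card]
      have h2 : N.index ≠ 1 := by
        rw [Ne, Subgroup.index_eq_one]; exact hsimpN.1
      have := Subgroup.FiniteIndex.index_ne_zero (H := N)
      omega
    obtain ⟨y, hy⟩ : ∃ y, y ∉ N := by
      by_contra hall'
      push Not at hall'
      exact hsimpN.1 (top_le_iff.1 fun g _ => hall' g)
    have hcyc : ∀ z : G ⧸ N, z ≠ 1 → Subgroup.zpowers z = ⊤ := by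
      intro z hz
      obtain ⟨y, rfl⟩ := QuotientGroup.mk_surjective z
      have h3 := congrArg (Subgroup.map (QuotientGroup.mk' N))
        (hGN y fun h4 => hz ((QuotientGroup.eq_one_iff y).2 h4))
      rw [Subgroup.map_top_of_surjective _ (QuotientGroup.mk'_surjective N), MonoidHom.map_closure] at h3
      rw [eq_top_iff, ← h3, Subgroup.closure_le]
      rintro _ ⟨a, (ha | ha), rfl⟩
      · rw [show QuotientGroup.mk' N a = 1 from (QuotientGroup.eq_one_iff a).2 ha]
        exact one_mem _
      · rw [ha]; exact Subgroup.mem_zpowers _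
    rw [Subgroup.index_eq_card]
    obtain ⟨r, hr, hrd⟩ := Nat.exists_prime_and_dvd (Finite.one_lt_card (α := G ⧸ N)).ne'
    haveI : Fact r.Prime := ⟨hr⟩
    obtain ⟨z, hz⟩ := exists_prime_orderOf_dvd_card' r hrd
    have h4 := hcyc z fun h1 => by rw [h1, orderOf_one] at hz; exact hr.one_lt.ne hz
    rw [← Subgroup.card_top, ← h4, Nat.card_zpowers, hz]
    exact hr
  have hidxN : (N.map π).index = N.index := by
    rw [← Subgroup.index_comap_of_surjective (N.map π) (QuotientGroup.mk'_surjective Z), hker v]
  -- the image of `N` is elementary abelian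
  have hNne : N.map π ≠ ⊥ := fun h1 => hv (by
    have h2 : π v ∈ N.map π := ⟨v, mem_centralizer_singleton'.2 (Commute.refl v), rfl⟩
    rw [h1, Subgroup.mem_bot] at h2
    exact (QuotientGroup.eq_one_iff v).1 h2)
  obtain ⟨p, hp, hpd⟩ := Nat.exists_prime_and_dvd
    (show Nat.card (N.map π) ≠ 1 from fun h1 => hNne (Subgroup.card_eq_one.1 h1))
  haveI : Fact p.Prime := ⟨hp⟩
  let L : Subgroup G :=
    { carrier := {g | g ∈ N ∧ g ^ p ∈ Z}
      one_mem' := ⟨one_mem N, by rw [one_pow]; exact one_mem Z⟩
      mul_mem' := fun {a b} ha hb => ⟨mul_mem ha.1 hb.1, by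
        rw [(hNab a ha.1 b hb.1).mul_pow]; exact mul_mem ha.2 hb.2⟩
      inv_mem' := fun {a} ha => ⟨inv_mem ha.1, by rw [inv_pow]; exact inv_mem ha.2⟩ }
  haveI : L.Normal := ⟨fun a ha g => ⟨hvn.conj_mem a ha.1 g, by
    rw [conj_pow]; exact (inferInstance : (Subgroup.center G).Normal).conj_mem _ ha.2 g⟩⟩
  have hLN : L = N := by
    refine (hminN L inferInstance (fun z hz => ⟨center_le_centralizer' v hz, pow_mem hz p⟩)
      fun g hg => hg.1).resolve_left fun h1 => ?_
    obtain ⟨⟨_, n, hn', rfl⟩, ho⟩ := exists_prime_orderOf_dvd_card' (G := N.map π) p hpd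
    rw [← Subgroup.orderOf_coe] at ho
    change orderOf (π n) = p at ho
    have h2 : n ∈ L := ⟨hn', by
      rw [← QuotientGroup.eq_one_iff, QuotientGroup.mk_pow]
      exact orderOf_dvd_iff_pow_eq_one.1 (dvd_of_eq ho)⟩
    rw [h1] at h2
    rw [show π n = 1 from (QuotientGroup.eq_one_iff n).2 h2, orderOf_one] at ho
    exact hp.one_lt.ne ho
  have hNp : IsPGroup p (N.map π) := by
    rintro ⟨_, n, hn', rfl⟩
    refine ⟨1, Subtype.ext ?_⟩
    rw [Subgroup.coe_pow, pow_one, ← map_pow]
    exact (QuotientGroup.eq_one_iff _).2 ((hLN ▸ hn' : n ∈ L)).2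
  obtain ⟨a, ha⟩ := IsPGroup.iff_card.1 hNp
  have hcard : Nat.card (G ⧸ Z) = p ^ a * N.index := by
    rw [← ha, ← hidxN, Subgroup.card_mul_index]
  have hne : p ≠ N.index := by
    intro heq
    have hG : IsPGroup p (G ⧸ Z) := IsPGroup.of_card (n := a + 1) (by rw [hcard, pow_succ, heq])
    haveI := hG.isNilpotent
    haveI : Group.IsNilpotent G := Group.of_quotient_center_nilpotent this
    exact hn (Subgroup.NormalizerCondition.normal_of_coatom _
      Group.normalizerCondition_of_isNilpotent (h x hx))
  refine ⟨hQna, fun H hH => ?_, p, N.index, a, hp, hidx, hne, hcard, fun P hP => ?_⟩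
  · by_cases hHN : H ≤ N.map π
    · refine ⟨⟨fun a b => Subtype.ext ?_⟩⟩
      obtain ⟨c, hc, hca⟩ := hHN a.2
      obtain ⟨d, hd, hdb⟩ := hHN b.2
      show (a : G ⧸ Z) * b = b * a
      rw [← hca, ← hdb, ← map_mul, ← map_mul, (hNab c hc d hd).eq]
    · obtain ⟨g, hg, hgN⟩ := SetLike.not_le_iff_exists.1 hHN
      obtain ⟨y, rfl⟩ := QuotientGroup.mk_surjective g
      have hy : y ∉ Z := fun hy => hgN (by
        rw [(QuotientGroup.eq_one_iff y).2 hy]; exact one_mem _)
      have hyN : y ∉ N := fun hy' => hgN ⟨y, hy', rfl⟩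
      have hyn : ¬ (Subgroup.centralizer ({y} : Set G)).Normal := by
        intro hn'
        -- two normal centralisers coincide
        have heq : Subgroup.centralizer ({y} : Set G) = N := by
          by_contra hne'
          set W := N ⊓ Subgroup.centralizer ({y} : Set G) with hW
          haveI : W.Normal := inferInstance
          rcases hminN W inferInstance (le_inf (center_le_centralizer' v) (center_le_centralizer' y))
              inf_le_left with h1 | h1
          · -- the quotient is then abelian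
            apply hQna
            set C := Subgroup.centralizer ({y} : Set G) with hC
            have hcm : ∀ a ∈ N, ∀ b ∈ C, a * b * a⁻¹ * b⁻¹ ∈ Z := fun a ha b hb => by
              rw [← h1]
              refine Subgroup.mem_inf.2 ⟨?_, mul_mem (hn'.conj_mem b hb a) (inv_mem hb)⟩
              rw [show a * b * a⁻¹ * b⁻¹ = a * (b * a⁻¹ * b⁻¹) by group]
              exact mul_mem ha (hvn.conj_mem _ (inv_mem ha) b)
            have hCab : ∀ a ∈ C, ∀ b ∈ C, π a * π b = π b * π a := by
              intro a ha b hb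
              obtain ⟨m, hm⟩ : ∃ m, m ∈ C ∧ m ∉ N := ⟨y, mem_centralizer_singleton'.2 (Commute.refl y), hyN⟩
              have hC' : C ≤ Subgroup.closure (((Z : Subgroup G) : Set G) ∪ {m}) := by
                intro c hc
                haveI : Fact N.index.Prime := ⟨hidx⟩
                have hm1 : (m : G ⧸ N) ≠ 1 := fun h => hm.2 ((QuotientGroup.eq_one_iff m).1 h)
                obtain ⟨i, hi⟩ := Subgroup.mem_zpowers_iff.1 (mem_zpowers_of_prime_card
                  (g := (m : G ⧸ N)) (g' := (c : G ⧸ N)) (Subgroup.index_eq_card N).symm hm1)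
                have hcN : c * (m ^ i)⁻¹ ∈ N := by
                  rw [← QuotientGroup.eq_one_iff, QuotientGroup.mk_mul, QuotientGroup.mk_inv,
                    QuotientGroup.mk_zpow, hi, mul_inv_cancel]
                have hcZ : c * (m ^ i)⁻¹ ∈ Z := by
                  rw [← h1]; exact Subgroup.mem_inf.2 ⟨hcN, mul_mem hc (inv_mem (zpow_mem hm.1 i))⟩
                rw [show c = c * (m ^ i)⁻¹ * m ^ i by group]
                refine mul_mem ?_ (zpow_mem ?_ i)
                · exact Subgroup.subset_closure (Or.inl hcZ)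
                · exact Subgroup.subset_closure (Or.inr rfl)
              have hmap : C.map π ≤ Subgroup.zpowers (π m) := by
                refine (Subgroup.map_mono hC').trans ?_
                rw [MonoidHom.map_closure, Subgroup.closure_le]
                rintro _ ⟨c, (hc | hc), rfl⟩
                · rw [show π c = 1 from (QuotientGroup.eq_one_iff c).2 hc]; exact one_mem _
                · rw [hc]; exact Subgroup.mem_zpowers _
              obtain ⟨i, hi⟩ := hmap ⟨a, ha, rfl⟩
              obtain ⟨j, hj⟩ := hmap ⟨b, hb, rfl⟩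
              rw [← hi, ← hj]
              exact ((Commute.refl (π m)).zpow_zpow i j).eq
            have hsup : N ⊔ C = ⊤ := hsimpN.2 _ (lt_of_le_of_ne le_sup_left fun heq =>
              hyN (heq ▸ Subgroup.mem_sup_right (mem_centralizer_singleton'.2 (Commute.refl y))))
            have hgen : Subgroup.closure (((N.map π : Subgroup _) : Set (G ⧸ Z)) ∪ C.map π) = ⊤ := by
              rw [Subgroup.closure_union, Subgroup.closure_eq, Subgroup.closure_eq, ← Subgroup.map_sup,
                hsup, Subgroup.map_top_of_surjective _ (QuotientGroup.mk'_surjective Z)]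
            have hab := Subgroup.isMulCommutative_closure (k := ((N.map π : Subgroup _) : Set (G ⧸ Z)) ∪ C.map π) ?_
            · rw [hgen] at hab
              exact ⟨⟨fun a b => congrArg Subtype.val
                (hab.is_comm.comm ⟨a, Subgroup.mem_top a⟩ ⟨b, Subgroup.mem_top b⟩)⟩⟩
            · have hxc : ∀ a ∈ N, ∀ b ∈ C, π a * π b = π b * π a := fun a ha b hb => by
                have h5 : π (a * b * a⁻¹ * b⁻¹) = 1 := (QuotientGroup.eq_one_iff _).2 (hcm a ha b hb)
                rw [map_mul, map_mul, map_mul, map_inv, map_inv, mul_inv_eq_one,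
                  mul_inv_eq_iff_eq_mul] at h5
                exact h5
              rintro _ (⟨a, ha, rfl⟩ | ⟨a, ha, rfl⟩) _ (⟨b, hb, rfl⟩ | ⟨b, hb, rfl⟩)
              · rw [← map_mul, ← map_mul, (hNab a ha b hb).eq]
              · exact hxc a ha b hb
              · exact (hxc b hb a ha).symm
              · exact hCab a ha b hb
          · exact hne' ((hsimpN.le_iff.1 (h1.ge.trans inf_le_right)).resolve_left (h y hy).1)
        exact hyN (heq ▸ mem_centralizer_singleton'.2 (Commute.refl y))
      set C := Subgroup.centralizer ({y} : Set G) with hC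
      have hCH : C.map π ≤ H := by
        rintro _ ⟨c, hc, rfl⟩
        haveI : Fact N.index.Prime := ⟨hidx⟩
        have hm1 : (y : G ⧸ N) ≠ 1 := fun h => hyN ((QuotientGroup.eq_one_iff y).1 h)
        obtain ⟨i, hi⟩ := Subgroup.mem_zpowers_iff.1 (mem_zpowers_of_prime_card
          (g := (y : G ⧸ N)) (g' := (c : G ⧸ N)) (Subgroup.index_eq_card N).symm hm1)
        have hcN : c * (y ^ i)⁻¹ ∈ N := by
          rw [← QuotientGroup.eq_one_iff, QuotientGroup.mk_mul, QuotientGroup.mk_inv,
            QuotientGroup.mk_zpow, hi, mul_inv_cancel]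
        have hcZ : c * (y ^ i)⁻¹ ∈ Z := by
          rw [← hinter y hy hyn]
          exact Subgroup.mem_inf.2 ⟨hcN, mul_mem hc (inv_mem (zpow_mem (mem_centralizer_singleton'.2 (Commute.refl y)) i))⟩
        rw [show c = c * (y ^ i)⁻¹ * y ^ i by group, map_mul,
          show π (c * (y ^ i)⁻¹) = 1 from (QuotientGroup.eq_one_iff _).2 hcZ, one_mul, map_zpow]
        exact zpow_mem hg i
      have hCH' : C ≤ H.comap π := fun c hc => hCH ⟨c, hc, rfl⟩
      rcases ((h y hy).le_iff).1 hCH' with h1 | h1
      · exact absurd (Subgroup.comap_injective (QuotientGroup.mk'_surjective Z)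
          (h1.trans (Subgroup.comap_top π).symm)) hH
      · refine ⟨⟨fun a b => Subtype.ext ?_⟩⟩
        obtain ⟨c, hc⟩ := QuotientGroup.mk_surjective (a : G ⧸ Z)
        obtain ⟨d, hd⟩ := QuotientGroup.mk_surjective (b : G ⧸ Z)
        have hc' : c ∈ C := h1.le (show π c ∈ H by rw [show π c = (a : G ⧸ Z) from hc]; exact a.2)
        have hd' : d ∈ C := h1.le (show π d ∈ H by rw [show π d = (b : G ⧸ Z) from hd]; exact b.2)
        show (a : G ⧸ Z) * b = b * a
        rw [← hc, ← hd, ← QuotientGroup.mk_mul, ← QuotientGroup.mk_mul,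
          (h.commutative_of_not_normal hy hyn hc' hd').eq]
  · have h1 : P = N.map π := by
      haveI : (N.map π).Normal := hvn.map π (QuotientGroup.mk'_surjective Z)
      refine Subgroup.eq_of_le_of_card_ge (fun g hg => ?_) (by rw [ha, hP])
      rw [← QuotientGroup.eq_one_iff, ← orderOf_eq_one_iff]
      have hgP : orderOf g ∣ p ^ a := by
        rw [← hP, ← Subgroup.orderOf_mk g hg]; exact orderOf_dvd_natCard _
      refine Nat.eq_one_of_dvd_coprimes ?_ ((orderOf_map_dvd (QuotientGroup.mk' (N.map π)) g).trans hgP)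
        (orderOf_dvd_natCard _)
      rw [← Subgroup.index_eq_card, hidxN]
      exact Nat.Coprime.pow_left a ((Nat.coprime_primes hp hidx).2 hne)
    rw [h1]
    exact hvn.map π (QuotientGroup.mk'_surjective Z)

end Cfsg.Agent.H85
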