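import Mathlib
import Cfsg.Prelude.Def_LocalStructure
import Cfsg.Agent.H85.MaxCentralizers

/-!
# Normal subgroups whose non-central elements have maximal centralisers
-/

set_option autoImplicit false
set_option linter.style.haveILetI false
set_option linter.unusedSectionVars false

namespace Cfsg.Agent.H85

variable {G : Type*} [Group G] [Finite G]

/-- An element outside a proper subgroup of a nilpotent subgroup which normalises it. -/
theorem exists_normalizing_of_nilpotent {U T : Subgroup G} (hU : Group.IsNilpotent U) (hlt : T < U) :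
    ∃ g ∈ U, g ∉ T ∧ g ∈ Subgroup.normalizer (T : Set G) := by
  haveI := hU
  have h1 : T.subgroupOf U < ⊤ :=
    lt_top_iff_ne_top.2 fun ht => hlt.not_ge (Subgroup.subgroupOf_eq_top.1 ht)
  obtain ⟨g, hg, hgT⟩ := SetLike.exists_of_lt (Group.normalizerCondition_of_isNilpotent _ h1)
  refine ⟨g, g.2, hgT, ?_⟩
  rw [Subgroup.mem_normalizer_iff]
  rw [Subgroup.mem_normalizer_iff] at hg
  intro t
  constructor
  · intro ht
    exact (hg ⟨t, hlt.le ht⟩).1 ht
  · intro ht
    have htU : t ∈ U := by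
      have := mul_mem (mul_mem (inv_mem g.2) (hlt.le ht)) g.2
      simpa [mul_assoc] using this
    exact (hg ⟨t, htU⟩).2 ht

/-- The centraliser of every element of `N` outside the centre of `N` is maximal in the whole group. -/
def MaxCentIn (N : Subgroup G) : Prop :=
  ∀ x : G, x ∈ N → x ∉ Subgroup.centralizer (N : Set G) → IsCoatom (Subgroup.centralizer ({x} : Set G))

namespace MaxCentIn

variable {N : Subgroup G}

theorem le_imp_eq (h : MaxCentIn N) {x y : G} (hx : x ∈ N) (hx' : x ∉ Subgroup.centralizer (N : Set G))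
    (hy : y ∈ N) (hy' : y ∉ Subgroup.centralizer (N : Set G))
    (hle : Subgroup.centralizer ({x} : Set G) ≤ Subgroup.centralizer {y}) :
    Subgroup.centralizer ({x} : Set G) = Subgroup.centralizer {y} :=
  (((h x hx hx').le_iff).1 hle).resolve_left (h y hy hy').1 |>.symm

theorem eq_of_coprime (h : MaxCentIn N) {x y : G} (hx : x ∈ N) (hx' : x ∉ Subgroup.centralizer (N : Set G))
    (hy : y ∈ N) (hy' : y ∉ Subgroup.centralizer (N : Set G)) (hxy : Commute x y)
    (hco : (orderOf x).Coprime (orderOf y)) :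
    Subgroup.centralizer ({x} : Set G) = Subgroup.centralizer {y} := by
  obtain ⟨t, ht⟩ := exists_pow_eq_self_of_coprime (x := x) hco.symm
  obtain ⟨s, hs⟩ := exists_pow_eq_self_of_coprime (x := y) hco
  have hxe : ((x * y) ^ orderOf y) ^ t = x := by
    rw [hxy.mul_pow, pow_orderOf_eq_one, mul_one, ht]
  have hye : ((x * y) ^ orderOf x) ^ s = y := by
    rw [hxy.mul_pow, pow_orderOf_eq_one, one_mul, hs]
  have hxy' : x * y ∉ Subgroup.centralizer (N : Set G) := fun hc =>
    hx' (hxe ▸ pow_mem (pow_mem hc _) _)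
  have h1 : Subgroup.centralizer ({x * y} : Set G) ≤ Subgroup.centralizer {x} := fun g hg =>
    mem_centralizer_singleton'.2 (hxe ▸ ((mem_centralizer_singleton'.1 hg).pow_left _).pow_left _)
  have h2 : Subgroup.centralizer ({x * y} : Set G) ≤ Subgroup.centralizer {y} := fun g hg =>
    mem_centralizer_singleton'.2 (hye ▸ ((mem_centralizer_singleton'.1 hg).pow_left _).pow_left _)
  rw [← h.le_imp_eq (mul_mem hx hy) hxy' hx hx' h1, h.le_imp_eq (mul_mem hx hy) hxy' hy hy' h2]

theorem conj_mem_self {x : G} : x ∈ Subgroup.centralizer ({x} : Set G) :=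
  mem_centralizer_singleton'.2 (Commute.refl x)

variable [hN : N.Normal]

theorem sup_eq_top (h : MaxCentIn N) {x : G} (hx : x ∈ N) (hx' : x ∉ Subgroup.centralizer (N : Set G)) :
    Subgroup.centralizer ({x} : Set G) ⊔ N = ⊤ :=
  (h x hx hx').2 _ (lt_of_le_of_ne le_sup_left fun heq => hx' (Subgroup.mem_centralizer_iff.2
    fun n hn => ((mem_centralizer_singleton'.1 (heq ▸ Subgroup.mem_sup_right hn :
      n ∈ Subgroup.centralizer ({x} : Set G)))).eq.symm))

/-- The classes of these elements in `N` are classes of `G`. -/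
theorem exists_conj_eq (h : MaxCentIn N) {x : G} (hx : x ∈ N) (hx' : x ∉ Subgroup.centralizer (N : Set G))
    (g : G) : ∃ n ∈ N, n * x * n⁻¹ = g * x * g⁻¹ := by
  have hg : g ∈ N ⊔ Subgroup.centralizer ({x} : Set G) := by
    rw [sup_comm, h.sup_eq_top hx hx']; exact Subgroup.mem_top g
  rw [← SetLike.mem_coe, Subgroup.normal_mul] at hg
  obtain ⟨n, hn, c, hc, rfl⟩ := hg
  refine ⟨n, hn, ?_⟩
  rw [mul_inv_rev, show n * c * x * (c⁻¹ * n⁻¹) = n * (c * x * c⁻¹) * n⁻¹ by group,
    ← (mem_centralizer_singleton'.1 hc).eq, mul_inv_cancel_right]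

theorem normal_of_le_normalizer (h : MaxCentIn N) {L : Subgroup G} (hL : L ≤ N)
    (hZ : N ⊓ Subgroup.centralizer (N : Set G) ≤ L) (hn : N ≤ Subgroup.normalizer (L : Set G)) :
    L.Normal := by
  refine ⟨fun l hl g => ?_⟩
  by_cases hl' : l ∈ Subgroup.centralizer (N : Set G)
  · exact hZ ⟨hN.conj_mem l (hL hl) g,
      (inferInstance : (Subgroup.centralizer (N : Set G)).Normal).conj_mem l hl' g⟩
  · obtain ⟨n, hn', he⟩ := h.exists_conj_eq (hL hl) hl' g
    rw [← he]
    exact (Subgroup.mem_normalizer_iff.1 (hn hn') l).1 hl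

theorem centralizer_le_normalizer_inf (x : G) :
    Subgroup.centralizer ({x} : Set G) ≤
      Subgroup.normalizer ((N ⊓ Subgroup.centralizer ({x} : Set G) : Subgroup G) : Set G) := by
  intro c hc
  rw [Subgroup.mem_normalizer_iff]
  intro t
  constructor
  · rintro ⟨ht1, ht2⟩
    exact Subgroup.mem_inf.2 ⟨hN.conj_mem t ht1 c, mul_mem (mul_mem hc ht2) (inv_mem hc)⟩
  · rintro ⟨ht1, ht2⟩
    have h1 := hN.conj_mem _ ht1 c⁻¹
    have h2 := mul_mem (mul_mem (inv_mem hc) ht2) hc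
    simp [mul_assoc] at h1 h2
    exact Subgroup.mem_inf.2 ⟨h1, h2⟩

theorem exists_prime_part (h : MaxCentIn N) {x : G} (hx : x ∈ N)
    (hx' : x ∉ Subgroup.centralizer (N : Set G)) :
    ∃ (p : ℕ) (x' : G), p.Prime ∧ x' ∈ N ∧ x' ∉ Subgroup.centralizer (N : Set G) ∧
      Subgroup.centralizer ({x} : Set G) = Subgroup.centralizer {x'} ∧ ∃ k, orderOf x' ∣ p ^ k := by
  set C := Subgroup.centralizer (N : Set G) with hC
  have h1 : orderOf (x : G ⧸ C) ≠ 1 := fun h1 =>
    hx' ((QuotientGroup.eq_one_iff x).1 (orderOf_eq_one_iff.1 h1))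
  obtain ⟨p, hp, hpd⟩ := Nat.exists_prime_and_dvd h1
  set x' := x ^ (orderOf x / p ^ (orderOf x).factorization p) with hx''
  have hx'c : x' ∉ C := fun hc => by
    have h2 : (x : G ⧸ C) ^ (orderOf x / p ^ (orderOf x).factorization p) = 1 := by
      rw [← QuotientGroup.mk_pow, QuotientGroup.eq_one_iff]; exact hc
    exact Nat.not_dvd_ordCompl hp (orderOf_pos x).ne' (hpd.trans (orderOf_dvd_of_pow_eq_one h2))
  refine ⟨p, x', hp, pow_mem hx _, hx'c, h.le_imp_eq hx hx' (pow_mem hx _) hx'c fun g hg =>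
    mem_centralizer_singleton'.2 ((mem_centralizer_singleton'.1 hg).pow_left _),
    (orderOf x).factorization p, orderOf_dvd_of_pow_eq_one ?_⟩
  rw [hx'', ← pow_mul, Nat.div_mul_cancel (Nat.ordProj_dvd _ _), pow_orderOf_eq_one]

/-- The centraliser in `N` modulo its centre is a `p`-group. -/
theorem exists_pow_commute (h : MaxCentIn N) {x : G} (hx : x ∈ N)
    (hx' : x ∉ Subgroup.centralizer (N : Set G)) :
    ∃ p : ℕ, p.Prime ∧ ∀ y ∈ N ⊓ Subgroup.centralizer ({x} : Set G),
      ∀ m ∈ N ⊓ Subgroup.centralizer ({x} : Set G), Commute (y ^ p ^ (orderOf y).factorization p) m := by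
  obtain ⟨p, x', hp, hxN, hxc, hC, k, hk⟩ := h.exists_prime_part hx hx'
  refine ⟨p, hp, fun y hy m hm => ?_⟩
  rw [hC] at hy hm
  by_cases hc : y ^ p ^ (orderOf y).factorization p ∈ Subgroup.centralizer (N : Set G)
  · exact (Subgroup.mem_centralizer_iff.1 hc m hm.1).symm
  have ho : (orderOf x').Coprime (orderOf (y ^ p ^ (orderOf y).factorization p)) := by
    refine Nat.Coprime.coprime_dvd_left hk (Nat.Coprime.pow_left _ ?_)
    rw [orderOf_pow_of_dvd (pow_ne_zero _ hp.ne_zero) (Nat.ordProj_dvd _ _)]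
    exact Nat.coprime_ordCompl hp (orderOf_pos y).ne'
  have h4 := h.eq_of_coprime hxN hxc (pow_mem hy.1 _) hc ((mem_centralizer_singleton'.1 hy.2).pow_right _) ho
  exact mem_centralizer_singleton'.1 (h4 ▸ hm.2)

theorem nilpotent (h : MaxCentIn N) {x : G} (hx : x ∈ N) (hx' : x ∉ Subgroup.centralizer (N : Set G)) :
    Group.IsNilpotent (N ⊓ Subgroup.centralizer ({x} : Set G) : Subgroup G) := by
  obtain ⟨p, hp, hc⟩ := h.exists_pow_commute hx hx'
  haveI : Fact p.Prime := ⟨hp⟩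
  have hq : IsPGroup p ((N ⊓ Subgroup.centralizer ({x} : Set G) : Subgroup G) ⧸
      Subgroup.center (N ⊓ Subgroup.centralizer ({x} : Set G) : Subgroup G)) := by
    intro g
    obtain ⟨⟨y, hy⟩, rfl⟩ := QuotientGroup.mk_surjective g
    refine ⟨(orderOf y).factorization p, ?_⟩
    rw [← QuotientGroup.mk_pow, QuotientGroup.eq_one_iff, Subgroup.mem_center_iff]
    exact fun m => Subtype.ext (hc y hy m m.2).eq.symm
  exact Group.of_quotient_center_nilpotent hq.isNilpotent

/-- A non-abelian centraliser in `N` is a `p`-group modulo the centre of `N`. -/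
theorem exists_pow_central (h : MaxCentIn N) {x : G} (hx : x ∈ N)
    (hx' : x ∉ Subgroup.centralizer (N : Set G)) {a b : G}
    (ha : a ∈ N ⊓ Subgroup.centralizer ({x} : Set G)) (hb : b ∈ N ⊓ Subgroup.centralizer ({x} : Set G))
    (hab : ¬ Commute a b) :
    ∃ p : ℕ, p.Prime ∧ ∀ y ∈ N ⊓ Subgroup.centralizer ({x} : Set G),
      y ^ p ^ (orderOf y).factorization p ∈ Subgroup.centralizer (N : Set G) := by
  obtain ⟨p, x', hp, hxN, hxc, hC, k, hk⟩ := h.exists_prime_part hx hx'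
  refine ⟨p, hp, fun y hy => ?_⟩
  by_contra hcon
  set w := y ^ p ^ (orderOf y).factorization p with hw
  have hwo : ¬ p ∣ orderOf w := by
    rw [hw, orderOf_pow_of_dvd (pow_ne_zero _ hp.ne_zero) (Nat.ordProj_dvd _ _)]
    exact Nat.not_dvd_ordCompl hp (orderOf_pos y).ne'
  rw [hC] at ha hb hy
  have hwC : Subgroup.centralizer ({x'} : Set G) = Subgroup.centralizer {w} :=
    h.eq_of_coprime hxN hxc (pow_mem hy.1 _) hcon ((mem_centralizer_singleton'.1 hy.2).pow_right _)
      (Nat.Coprime.coprime_dvd_left hk (Nat.Coprime.pow_left _ (hp.coprime_iff_not_dvd.2 hwo)))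
  -- every element is central
  apply hab
  have key : ∀ m ∈ N ⊓ Subgroup.centralizer ({x'} : Set G), Commute a m := by
    intro m hm
    set u := a ^ (orderOf a / p ^ (orderOf a).factorization p) with hu
    set v := a ^ p ^ (orderOf a).factorization p with hv
    have huo : orderOf u ∣ p ^ (orderOf a).factorization p := orderOf_dvd_of_pow_eq_one (by
      rw [hu, ← pow_mul, Nat.div_mul_cancel (Nat.ordProj_dvd _ _), pow_orderOf_eq_one])
    have huc : Commute u m := by
      by_cases huc : u ∈ Subgroup.centralizer (N : Set G)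
      · exact (Subgroup.mem_centralizer_iff.1 huc m hm.1).symm
      have hwu : Commute u w :=
        (mem_centralizer_singleton'.1 (hwC ▸ ha.2 : a ∈ Subgroup.centralizer ({w} : Set G))).symm.pow_left _
      have h4 := h.eq_of_coprime (pow_mem ha.1 _) huc (pow_mem hy.1 _) hcon hwu
        (Nat.Coprime.coprime_dvd_left huo (Nat.Coprime.pow_left _ (hp.coprime_iff_not_dvd.2 hwo)))
      rw [← hwC] at h4
      exact mem_centralizer_singleton'.1 (h4 ▸ hm.2)
    have hvc : Commute v m := by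
      by_cases hvc : v ∈ Subgroup.centralizer (N : Set G)
      · exact (Subgroup.mem_centralizer_iff.1 hvc m hm.1).symm
      have h4 := h.eq_of_coprime hxN hxc (pow_mem ha.1 _) hvc
        ((mem_centralizer_singleton'.1 ha.2).pow_right _)
        (Nat.Coprime.coprime_dvd_left hk (Nat.Coprime.pow_left _ (hp.coprime_iff_not_dvd.2 (by
          rw [orderOf_pow_of_dvd (pow_ne_zero _ hp.ne_zero) (Nat.ordProj_dvd _ _)]
          exact Nat.not_dvd_ordCompl hp (orderOf_pos a).ne'))))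
      exact mem_centralizer_singleton'.1 (h4 ▸ hm.2)
    have hco : Int.gcd ((orderOf a / p ^ (orderOf a).factorization p : ℕ) : ℤ)
        ((p ^ (orderOf a).factorization p : ℕ) : ℤ) = 1 := by
      rw [Int.gcd_natCast_natCast]
      exact ((Nat.coprime_ordCompl hp (orderOf_pos a).ne').pow_left _).symm
    have hbez := Int.gcd_eq_gcd_ab ((orderOf a / p ^ (orderOf a).factorization p : ℕ) : ℤ)
      ((p ^ (orderOf a).factorization p : ℕ) : ℤ)
    rw [hco, Nat.cast_one] at hbez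
    rw [← zpow_one a, hbez, zpow_add, zpow_mul, zpow_mul, zpow_natCast, zpow_natCast]
    exact (huc.zpow_left _).mul_left (hvc.zpow_left _)
  exact key b hb

/-- No normal subgroup lies between `x` and a non-normal `C_N(x)`. -/
theorem no_normal (h : MaxCentIn N) {x : G} (hx : x ∈ N) (hx' : x ∉ Subgroup.centralizer (N : Set G))
    (hM : ¬ (N ⊓ Subgroup.centralizer ({x} : Set G)).Normal) {T : Subgroup G} (hT : T.Normal)
    (hxT : x ∈ T) (hTM : T ≤ N ⊓ Subgroup.centralizer ({x} : Set G)) : False := by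
  set M := N ⊓ Subgroup.centralizer ({x} : Set G) with hMdef
  obtain ⟨w, hwN, hw⟩ : ∃ w ∈ N, w ∉ Subgroup.centralizer ({x} : Set G) := by
    by_contra hall
    push Not at hall
    exact hx' (Subgroup.mem_centralizer_iff.2 fun n hn =>
      (mem_centralizer_singleton'.1 (hall n hn)).eq.symm)
  have hwc : w ∉ Subgroup.centralizer (N : Set G) := fun hc => hw (mem_centralizer_singleton'.2
    (Subgroup.mem_centralizer_iff.1 hc x hx))
  have htop : Subgroup.centralizer ({w} : Set G) ⊔ T = ⊤ :=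
    (h w hwN hwc).2 _ (lt_of_le_of_ne le_sup_left fun heq => hw (mem_centralizer_singleton'.2
      (mem_centralizer_singleton'.1 (heq ▸ Subgroup.mem_sup_right hxT :
        x ∈ Subgroup.centralizer ({w} : Set G))).symm))
  haveI := hT
  set π := QuotientGroup.mk' T with hπ
  haveI := h.nilpotent hwN hwc
  let f : (N ⊓ Subgroup.centralizer ({w} : Set G) : Subgroup G) →* N.map π :=
    (π.comp (Subgroup.subtype _)).codRestrict (N.map π) fun g => ⟨g, g.2.1, rfl⟩
  have hf : Function.Surjective f := by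
    rintro ⟨_, n, hn, rfl⟩
    have h1 : n ∈ Subgroup.centralizer ({w} : Set G) ⊔ T := by rw [htop]; exact Subgroup.mem_top n
    rw [← SetLike.mem_coe, Subgroup.mul_normal] at h1
    obtain ⟨c, hc, t, ht, rfl⟩ := h1
    have hcN : c ∈ N := by
      rw [show c = c * t * t⁻¹ by group]
      exact mul_mem hn (inv_mem (hTM ht).1)
    refine ⟨⟨c, hcN, hc⟩, Subtype.ext ?_⟩
    show π c = π (c * t)
    rw [map_mul, show π t = 1 from (QuotientGroup.eq_one_iff t).2 ht, mul_one]
  have hnil : Group.IsNilpotent (N.map π) := Group.nilpotent_of_surjective f hf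
  have hker : (M.map π).comap π = M :=
    Subgroup.comap_map_eq_self (by rw [hπ, QuotientGroup.ker_mk']; exact hTM)
  have hlt : M.map π < N.map π := by
    refine lt_of_le_of_ne (Subgroup.map_mono inf_le_left) fun heq => hw ?_
    have h1 : w ∈ (M.map π).comap π := by rw [Subgroup.mem_comap, heq]; exact ⟨w, hwN, rfl⟩
    rw [hker] at h1
    exact h1.2
  obtain ⟨_, ⟨g, hgN, rfl⟩, hgM, hgn⟩ := exists_normalizing_of_nilpotent hnil hlt
  have hgnorm : g ∈ Subgroup.normalizer (M : Set G) := by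
    rw [Subgroup.mem_normalizer_iff] at hgn ⊢
    intro t
    have := hgn (π t)
    rw [← map_inv, ← map_mul, ← map_mul, ← Subgroup.mem_comap, ← Subgroup.mem_comap, hker] at this
    exact this
  rcases ((h x hx hx').le_iff).1 (centralizer_le_normalizer_inf (N := N) x) with h1 | h1
  · exact hM (Subgroup.normalizer_eq_top_iff.1 h1)
  · rw [← hMdef] at h1
    exact hgM ⟨g, ⟨hgN, h1 ▸ hgnorm⟩, rfl⟩

/-- Elements of a non-normal `C_N(x)` have non-normal centralisers in `N`. -/
theorem not_normal_of_mem (h : MaxCentIn N) {x : G} (hx : x ∈ N)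
    (hx' : x ∉ Subgroup.centralizer (N : Set G))
    (hM : ¬ (N ⊓ Subgroup.centralizer ({x} : Set G)).Normal) {y : G}
    (hy : y ∈ N ⊓ Subgroup.centralizer ({x} : Set G)) (hy' : y ∉ Subgroup.centralizer (N : Set G)) :
    ¬ (N ⊓ Subgroup.centralizer ({y} : Set G)).Normal := by
  intro hU
  set U := N ⊓ Subgroup.centralizer ({y} : Set G) with hUdef
  set T := U ⊓ Subgroup.centralizer ({x} : Set G) with hT
  have hxU : x ∈ U := ⟨hx, mem_centralizer_singleton'.2 (mem_centralizer_singleton'.1 hy.2).symm⟩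
  have hxT : x ∈ T := ⟨hxU, conj_mem_self⟩
  have hTM : T ≤ N ⊓ Subgroup.centralizer ({x} : Set G) := fun t ht => ⟨ht.1.1, ht.2⟩
  rcases eq_or_lt_of_le (inf_le_left : T ≤ U) with heq | hlt
  · exact h.no_normal hx hx' hM hU hxU (heq ▸ hTM)
  obtain ⟨g, hgU, hgT, hgn⟩ := exists_normalizing_of_nilpotent (h.nilpotent hy.1 hy') hlt
  have hle : Subgroup.centralizer ({x} : Set G) ≤ Subgroup.normalizer (T : Set G) := by
    intro c hc
    rw [Subgroup.mem_normalizer_iff]
    intro t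
    constructor
    · rintro ⟨ht1, ht2⟩
      exact Subgroup.mem_inf.2 ⟨hU.conj_mem t ht1 c, mul_mem (mul_mem hc ht2) (inv_mem hc)⟩
    · rintro ⟨ht1, ht2⟩
      have h1 := hU.conj_mem _ ht1 c⁻¹
      have h2 := mul_mem (mul_mem (inv_mem hc) ht2) hc
      simp [mul_assoc] at h1 h2
      exact Subgroup.mem_inf.2 ⟨h1, h2⟩
  rcases ((h x hx hx').le_iff).1 hle with h1 | h1
  · exact h.no_normal hx hx' hM (Subgroup.normalizer_eq_top_iff.1 h1) hxT hTM
  · exact hgT ⟨hgU, h1 ▸ hgn⟩

/-- The second centre supplies the first member of the family used below. -/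
theorem exists_start (h : MaxCentIn N) {x : G} (hx : x ∈ N) (hx' : x ∉ Subgroup.centralizer (N : Set G))
    (hM : ¬ (N ⊓ Subgroup.centralizer ({x} : Set G)).Normal) {a b : G}
    (ha : a ∈ N ⊓ Subgroup.centralizer ({x} : Set G)) (hb : b ∈ N ⊓ Subgroup.centralizer ({x} : Set G))
    (hab : ¬ Commute a b) :
    ∃ T : Subgroup G, T ≤ N ⊓ Subgroup.centralizer ({x} : Set G) ∧
      (∀ t ∈ N ⊓ Subgroup.centralizer (N : Set G), t ∈ T) ∧ x ∈ T ∧
      (∀ m ∈ N ⊓ Subgroup.centralizer ({x} : Set G), ∀ m' ∈ N ⊓ Subgroup.centralizer ({x} : Set G),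
        m * m' * m⁻¹ * m'⁻¹ ∈ T) ∧
      (∃ g ∈ N, g ∉ Subgroup.centralizer ({x} : Set G) ∧ g ∈ Subgroup.normalizer (T : Set G)) ∧
      (∃ c ∈ T, (∀ t ∈ T, Commute c t) ∧
        ∃ m ∈ N ⊓ Subgroup.centralizer ({x} : Set G), ¬ Commute c m) := by
  set M := N ⊓ Subgroup.centralizer ({x} : Set G) with hMdef
  haveI := h.nilpotent hx hx'
  obtain ⟨e, he2, he1⟩ : ∃ e : M, (∀ m : M, e * m * e⁻¹ * m⁻¹ ∈ Subgroup.center M) ∧
      e ∉ Subgroup.center M := by
    by_contra hall
    push Not at hall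
    haveI : Nontrivial (M ⧸ Subgroup.center M) := by
      refine ⟨⟨QuotientGroup.mk ⟨a, ha⟩, 1, fun h1 => hab ?_⟩⟩
      exact (congrArg Subtype.val
        (Subgroup.mem_center_iff.1 ((QuotientGroup.eq_one_iff _).1 h1) ⟨b, hb⟩)).symm
    haveI : Nontrivial (Subgroup.center (M ⧸ Subgroup.center M)) :=
      (Subgroup.nontrivial_iff_ne_bot _).2 (Group.IsNilpotent.center_ne_bot _)
    obtain ⟨⟨c, hc⟩, hc1⟩ := exists_ne (1 : Subgroup.center (M ⧸ Subgroup.center M))
    obtain ⟨e, rfl⟩ := QuotientGroup.mk_surjective c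
    refine hc1 (Subtype.ext ((QuotientGroup.eq_one_iff _).2 (hall e fun m => ?_)))
    rw [← QuotientGroup.eq_one_iff, QuotientGroup.mk_mul, QuotientGroup.mk_mul, QuotientGroup.mk_mul,
      QuotientGroup.mk_inv, QuotientGroup.mk_inv, (Subgroup.mem_center_iff.1 hc _).symm,
      mul_inv_cancel_right, mul_inv_cancel]
  obtain ⟨⟨m₀, hm₀⟩, hm₀'⟩ : ∃ m : M, ¬ Commute (e : G) m := by
    by_contra hall
    push Not at hall
    exact he1 (Subgroup.mem_center_iff.2 fun m => Subtype.ext (hall m).eq.symm)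
  have hec : (e : G) ∉ Subgroup.centralizer (N : Set G) := fun hc =>
    hm₀' (Subgroup.mem_centralizer_iff.1 hc m₀ hm₀.1).symm
  set T := M ⊓ Subgroup.centralizer ({(e : G)} : Set G) with hT
  -- conjugation by `M` multiplies `e` by a central element of `M`
  have hTn : M ≤ Subgroup.normalizer (T : Set G) := by
    have key : ∀ g ∈ M, ∀ t ∈ T, g * t * g⁻¹ ∈ T := by
      intro g hg t htT
      have ht : t ∈ M := htT.1
      refine Subgroup.mem_inf.2 ⟨mul_mem (mul_mem hg ht) (inv_mem hg), mem_centralizer_singleton'.2 ?_⟩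
      set c := (⟨g, hg⟩ : M)⁻¹ * e * ⟨g, hg⟩ * e⁻¹ with hc
      have hcz : c ∈ Subgroup.center M := by
        have h1 := (inferInstance : (Subgroup.center M).Normal).conj_mem _ (he2 ⟨g, hg⟩) (⟨g, hg⟩ : M)⁻¹
        rw [inv_inv] at h1
        rw [hc, show (⟨g, hg⟩ : M)⁻¹ * e * ⟨g, hg⟩ * e⁻¹ =
          (⟨g, hg⟩ : M)⁻¹ * (e * ⟨g, hg⟩ * e⁻¹ * (⟨g, hg⟩ : M)⁻¹) * ⟨g, hg⟩ by group]
        exact h1
      have h2 : Commute (g⁻¹ * (e : G) * g) t := by
        have h3 : g⁻¹ * (e : G) * g = (c : G) * e := by simp [hc]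
        rw [h3]
        have h5 : Commute (c : G) t :=
          (congrArg Subtype.val (Subgroup.mem_center_iff.1 hcz ⟨t, ht⟩)).symm
        exact h5.mul_left (mem_centralizer_singleton'.1 htT.2)
      have h4 := (Commute.conj_iff g).2 h2
      simpa [mul_assoc] using h4
    intro g hg
    rw [Subgroup.mem_normalizer_iff]
    intro t
    refine ⟨key g hg t, fun ht => ?_⟩
    have h5 := key g⁻¹ (inv_mem hg) _ ht
    simpa [mul_assoc] using h5
  have hxT : x ∈ T := ⟨⟨hx, conj_mem_self⟩,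
    mem_centralizer_singleton'.2 (mem_centralizer_singleton'.1 e.2.2).symm⟩
  refine ⟨T, inf_le_left, ?_, hxT, ?_, ?_, (e : G), ⟨e.2, conj_mem_self⟩,
    fun t ht => mem_centralizer_singleton'.1 ht.2, m₀, hm₀, hm₀'⟩
  · intro t ht
    exact ⟨⟨ht.1, mem_centralizer_singleton'.2 (Subgroup.mem_centralizer_iff.1 ht.2 x hx)⟩,
      mem_centralizer_singleton'.2 (Subgroup.mem_centralizer_iff.1 ht.2 e e.2.1)⟩
  · intro m hm m' hm'
    refine Subgroup.mem_inf.2 ⟨mul_mem (mul_mem (mul_mem hm hm') (inv_mem hm)) (inv_mem hm'),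
      mem_centralizer_singleton'.2 ?_⟩
    have hz : ∀ g : M, ∃ z : G, (∀ n ∈ M, Commute z n) ∧ (g : G) * e * (g : G)⁻¹ = z * e := by
      intro g
      refine ⟨((e : G) * g * (e : G)⁻¹ * (g : G)⁻¹)⁻¹, fun n hn => ?_, by group⟩
      have h1 : Commute ((e * g * e⁻¹ * g⁻¹ : M) : G) n :=
        (congrArg Subtype.val (Subgroup.mem_center_iff.1 (he2 g) ⟨n, hn⟩)).symm
      exact h1.inv_left
    obtain ⟨z', hzc', hz'⟩ := hz ⟨m', hm'⟩
    obtain ⟨z, hzc, hz⟩ := hz ⟨m, hm⟩
    simp only at hz hz'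
    have e1 : m * e = z * e * m := by rw [← hz]; group
    have e2 : m' * e = z' * e * m' := by rw [← hz']; group
    have e3 : m⁻¹ * e = z⁻¹ * e * m⁻¹ := by
      calc m⁻¹ * e = m⁻¹ * (z⁻¹ * (z * e * m)) * m⁻¹ := by group
        _ = m⁻¹ * (z⁻¹ * (m * e)) * m⁻¹ := by rw [e1]
        _ = z⁻¹ * e * m⁻¹ := by
          rw [← mul_assoc z⁻¹, (hzc m hm).inv_left.eq, ← mul_assoc, inv_mul_cancel_left]
    have e4 : m'⁻¹ * e = z'⁻¹ * e * m'⁻¹ := by
      calc m'⁻¹ * e = m'⁻¹ * (z'⁻¹ * (z' * e * m')) * m'⁻¹ := by group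
        _ = m'⁻¹ * (z'⁻¹ * (m' * e)) * m'⁻¹ := by rw [e2]
        _ = z'⁻¹ * e * m'⁻¹ := by
          rw [← mul_assoc z'⁻¹, (hzc' m' hm').inv_left.eq, ← mul_assoc, inv_mul_cancel_left]
    show (e : G) * (m * m' * m⁻¹ * m'⁻¹) = m * m' * m⁻¹ * m'⁻¹ * e
    symm
    calc m * m' * m⁻¹ * m'⁻¹ * e = m * m' * m⁻¹ * (z'⁻¹ * e * m'⁻¹) := by rw [← e4]; group
      _ = z'⁻¹ * (m * m' * (m⁻¹ * e) * m'⁻¹) := by
          have := (hzc' (m * m' * m⁻¹) (mul_mem (mul_mem hm hm') (inv_mem hm))).inv_left.eq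
          rw [← mul_assoc, ← mul_assoc, ← this]
          group
      _ = z'⁻¹ * z⁻¹ * (m * (m' * e) * m⁻¹ * m'⁻¹) := by
          have := (hzc (m * m') (mul_mem hm hm')).inv_left.eq
          rw [e3, ← mul_assoc (m * m'), ← mul_assoc (m * m'), ← this]
          group
      _ = z'⁻¹ * z⁻¹ * z' * ((m * e) * m' * m⁻¹ * m'⁻¹) := by
          have := (hzc' m hm).eq
          rw [e2, ← mul_assoc m, ← mul_assoc m, ← this]
          group
      _ = z'⁻¹ * z⁻¹ * z' * z * ((e : G) * (m * m' * m⁻¹ * m'⁻¹)) := by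
          rw [e1]
          group
      _ = (e : G) * (m * m' * m⁻¹ * m'⁻¹) := by
          have h5 : Commute z⁻¹ z' := by
            have hz'M : z' ∈ M := by
              rw [show z' = m' * e * m'⁻¹ * (e : G)⁻¹ by rw [hz']; group]
              exact mul_mem (mul_mem (mul_mem hm' e.2) (inv_mem hm')) (inv_mem e.2)
            exact (hzc z' hz'M).inv_left
          rw [mul_assoc z'⁻¹, h5.eq, inv_mul_cancel_left, inv_mul_cancel, one_mul]
  · -- the centraliser of `e` moves `T` out of `M`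
    have hTlt : T ≤ N ⊓ Subgroup.centralizer ({(e : G)} : Set G) := fun t ht => ⟨ht.1.1, ht.2⟩
    rcases eq_or_lt_of_le hTlt with heq | hlt
    · exfalso
      have hle : Subgroup.centralizer ({(e : G)} : Set G) ≤ Subgroup.normalizer (T : Set G) := by
        rw [heq]; exact centralizer_le_normalizer_inf _
      rcases ((h (e : G) e.2.1 hec).le_iff).1 hle with h1 | h1
      · exact h.no_normal hx hx' hM (Subgroup.normalizer_eq_top_iff.1 h1) hxT inf_le_left
      · exact hm₀' (mem_centralizer_singleton'.1 (h1 ▸ hTn hm₀))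
    · obtain ⟨g, hg, hgT, hgn⟩ := exists_normalizing_of_nilpotent (h.nilpotent e.2.1 hec) hlt
      exact ⟨g, hg.1, fun hgx => hgT ⟨⟨hg.1, hgx⟩, hg.2⟩, hgn⟩

/-- A non-normal `C_N(x)` is abelian. -/
theorem commute_of_not_normal (h : MaxCentIn N) {x : G} (hx : x ∈ N)
    (hx' : x ∉ Subgroup.centralizer (N : Set G))
    (hM : ¬ (N ⊓ Subgroup.centralizer ({x} : Set G)).Normal) {a b : G}
    (ha : a ∈ N ⊓ Subgroup.centralizer ({x} : Set G))
    (hb : b ∈ N ⊓ Subgroup.centralizer ({x} : Set G)) : Commute a b := by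
  classical
  by_contra hab
  set M := N ⊓ Subgroup.centralizer ({x} : Set G) with hMdef
  obtain ⟨p, hp, hpM⟩ := h.exists_pow_central hx hx' ha hb hab
  haveI : Fact p.Prime := ⟨hp⟩
  have hNM : Subgroup.normalizer (M : Set G) = Subgroup.centralizer ({x} : Set G) :=
    (((h x hx hx').le_iff).1 (centralizer_le_normalizer_inf (N := N) x)).resolve_left
      fun h1 => hM (Subgroup.normalizer_eq_top_iff.1 h1)
  -- a largest member of the family
  let Fam : Subgroup G → Prop := fun T => T ≤ M ∧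
      (∀ t ∈ N ⊓ Subgroup.centralizer (N : Set G), t ∈ T) ∧ x ∈ T ∧
      (∀ m ∈ M, ∀ m' ∈ M, m * m' * m⁻¹ * m'⁻¹ ∈ T) ∧
      (∃ g ∈ N, g ∉ Subgroup.centralizer ({x} : Set G) ∧ g ∈ Subgroup.normalizer (T : Set G)) ∧
      (∃ c ∈ T, (∀ t ∈ T, Commute c t) ∧ ∃ m ∈ M, ¬ Commute c m)
  obtain ⟨T, hT, hTmax⟩ := (Set.toFinite {T : Subgroup G | Fam T}).exists_maximal
    (h.exists_start hx hx' hM ha hb hab)
  obtain ⟨hTM, hZT, hxT, hder, ⟨g₀, hg₀N, hg₀x, hg₀n⟩, c₀, hc₀T, hc₀, m₀, hm₀, hc₀m⟩ := hT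
  have hTnM : M ≤ Subgroup.normalizer (T : Set G) := by
    have key : ∀ g ∈ M, ∀ t ∈ T, g * t * g⁻¹ ∈ T := fun g hg t ht => by
      have h1 := mul_mem (hder g hg t (hTM ht)) ht
      rwa [inv_mul_cancel_right] at h1
    intro g hg
    rw [Subgroup.mem_normalizer_iff]
    intro t
    refine ⟨key g hg t, fun ht => ?_⟩
    have h5 := key g⁻¹ (inv_mem hg) _ ht
    simpa [mul_assoc] using h5
  set H := N ⊓ Subgroup.normalizer (T : Set G) with hH
  have hMH : M ≤ H := fun g hg => ⟨hg.1, hTnM hg⟩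
  have hTH : T ≤ H := hTM.trans hMH
  -- members above `T`
  have hbig : ∀ L : Subgroup G, T ≤ L → Fam L → L = T := fun L hL hF => le_antisymm (hTmax hF hL) hL
  haveI hTnormal : (T.subgroupOf H).Normal :=
    (Subgroup.normal_subgroupOf_iff_le_normalizer hTH).2 inf_le_right
  set π := QuotientGroup.mk' (T.subgroupOf H) with hπ
  set P₀ := (M.subgroupOf H).map π with hP₀
  have hπ1 : ∀ (y : H), π y = 1 ↔ (y : G) ∈ T := fun y =>
    (QuotientGroup.eq_one_iff y).trans Subgroup.mem_subgroupOf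
  have hP₀mem : ∀ y : H, π y ∈ P₀ ↔ (y : G) ∈ M := by
    intro y
    constructor
    · rintro ⟨z, hz, hzy⟩
      have h1 : ((z⁻¹ * y : H) : G) ∈ T := (hπ1 _).1 (by rw [map_mul, map_inv, hzy, inv_mul_cancel])
      have h2 := mul_mem (show (z : G) ∈ M from hz) (hTM h1)
      simpa using h2
    · exact fun hy => ⟨y, hy, rfl⟩
  have hP₀p : IsPGroup p P₀ := by
    rintro ⟨_, y, hy, rfl⟩
    refine ⟨(orderOf (y : G)).factorization p, Subtype.ext ?_⟩
    rw [Subgroup.coe_pow, ← map_pow, Subgroup.coe_one, hπ1, Subgroup.coe_pow]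
    exact hZT _ ⟨pow_mem y.2.1 _, hpM y hy⟩
  have hP₀ab : ∀ u ∈ P₀, ∀ v ∈ P₀, u * v = v * u := by
    rintro _ ⟨u, hu, rfl⟩ _ ⟨v, hv, rfl⟩
    rw [← mul_inv_eq_iff_eq_mul, ← mul_inv_eq_one, ← map_inv, ← map_inv, ← map_mul, ← map_mul, ← map_mul,
      hπ1]
    exact hder u hu v hv
  have hP₀n : Subgroup.normalizer (P₀ : Set (H ⧸ T.subgroupOf H)) ≤ P₀ := by
    intro u hu
    obtain ⟨y, rfl⟩ := QuotientGroup.mk_surjective u
    refine (hP₀mem y).2 (Subgroup.mem_inf.2 ⟨y.2.1, ?_⟩)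
    rw [← hNM, Subgroup.mem_normalizer_iff]
    rw [Subgroup.mem_normalizer_iff] at hu
    intro m
    constructor
    · intro hm
      have := (hu (π ⟨m, hMH hm⟩)).1 ((hP₀mem _).2 hm)
      rw [show (y : H ⧸ T.subgroupOf H) = π y from rfl, ← map_inv, ← map_mul, ← map_mul, hP₀mem] at this
      simpa using this
    · intro hm
      have hmH : m ∈ H := by
        have := mul_mem (mul_mem (inv_mem y.2) (hMH hm)) y.2
        simpa [mul_assoc] using this
      have := (hu (π ⟨m, hmH⟩)).2 (by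
        rw [show (y : H ⧸ T.subgroupOf H) = π y from rfl, ← map_inv, ← map_mul, ← map_mul, hP₀mem]
        simpa using hm)
      exact (hP₀mem _).1 this
  obtain ⟨P, hP⟩ := hP₀p.exists_le_sylow
  have hPeq : (P : Subgroup (H ⧸ T.subgroupOf H)) = P₀ := by
    by_contra hne
    obtain ⟨u, -, huP, hu⟩ :=
      exists_normalizing_of_nilpotent P.2.isNilpotent (lt_of_le_of_ne hP (Ne.symm hne))
    exact huP (hP₀n hu)
  have hcent : Subgroup.normalizer ((P : Subgroup (H ⧸ T.subgroupOf H)) : Set (H ⧸ T.subgroupOf H)) ≤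
      Subgroup.centralizer ((P : Subgroup (H ⧸ T.subgroupOf H)) : Set (H ⧸ T.subgroupOf H)) := by
    rw [hPeq]
    exact fun u hu => Subgroup.mem_centralizer_iff.2 fun v hv => hP₀ab v hv u (hP₀n hu)
  set K := (MonoidHom.transferSylow P hcent).ker with hK
  have hKc : K.IsComplement' (P : Subgroup (H ⧸ T.subgroupOf H)) :=
    MonoidHom.ker_transferSylow_isComplement' P hcent
  have hKp : ¬ p ∣ Nat.card K := MonoidHom.not_dvd_card_ker_transferSylow P hcent
  have hKne : ∃ k ∈ K, k ≠ 1 := by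
    by_contra hall
    push Not at hall
    have hKbot : K = ⊥ := (Subgroup.eq_bot_iff_forall _).2 hall
    have hPtop := hKc.sup_eq_top
    rw [hKbot, bot_sup_eq, hPeq] at hPtop
    exact hg₀x ((hP₀mem ⟨g₀, hg₀N, hg₀n⟩).1 (hPtop ▸ Subgroup.mem_top _)).2
  have hKP : ∀ k ∈ K, k ∈ P₀ → k = 1 := fun k hk hk' =>
    Subgroup.disjoint_def.1 hKc.disjoint hk (hPeq ▸ hk')
  -- a fixed element of `A` outside the centre forces membership in `M`
  have hfix : ∀ (k : H) (c : G), π k ∈ K → c ∈ T → c ∉ Subgroup.centralizer (N : Set G) →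
      Commute (k : G) c → π k = 1 := by
    intro k c hk hcT hcc hkc
    refine hKP _ hk ?_
    set s := p ^ (orderOf (k : G)).factorization p with hs
    have hgen : π k ∈ Subgroup.zpowers ((π k) ^ s) := by
      obtain ⟨t, ht⟩ := exists_pow_eq_self_of_coprime (x := π k) (n := s) (Nat.Coprime.pow_left _
        (hp.coprime_iff_not_dvd.2 fun hd => hKp (hd.trans
          ((Subgroup.orderOf_mk _ hk) ▸ orderOf_dvd_natCard _))))
      have h7 := pow_mem (Subgroup.mem_zpowers ((π k) ^ s)) t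
      rwa [ht] at h7
    refine Subgroup.zpowers_le.2 ?_ hgen
    rw [← map_pow, hP₀mem, Subgroup.coe_pow]
    refine ⟨pow_mem k.2.1 _, ?_⟩
    set c' := c ^ (orderOf c / p ^ (orderOf c).factorization p) with hc'
    have hcM : c ∈ M := hTM hcT
    have hc'c : c' ∉ Subgroup.centralizer (N : Set G) := by
      intro hc2
      apply hcc
      have hco : Int.gcd ((orderOf c / p ^ (orderOf c).factorization p : ℕ) : ℤ)
          ((p ^ (orderOf c).factorization p : ℕ) : ℤ) = 1 := by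
        rw [Int.gcd_natCast_natCast]
        exact ((Nat.coprime_ordCompl hp (orderOf_pos c).ne').pow_left _).symm
      have hbez := Int.gcd_eq_gcd_ab ((orderOf c / p ^ (orderOf c).factorization p : ℕ) : ℤ)
        ((p ^ (orderOf c).factorization p : ℕ) : ℤ)
      rw [hco, Nat.cast_one] at hbez
      rw [← zpow_one c, hbez, zpow_add, zpow_mul, zpow_mul, zpow_natCast, zpow_natCast]
      exact mul_mem (zpow_mem hc2 _) (zpow_mem (hpM c hcM) _)
    by_cases hkcen : (k : G) ^ s ∈ Subgroup.centralizer (N : Set G)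
    · exact mem_centralizer_singleton'.2 (Subgroup.mem_centralizer_iff.1 hkcen x hx)
    have h4 := h.eq_of_coprime (pow_mem hcM.1 _) hc'c (pow_mem k.2.1 _) hkcen
      ((hkc.pow_pow _ _).symm : Commute c' ((k : G) ^ s)) (by
        refine Nat.Coprime.coprime_dvd_left (orderOf_dvd_of_pow_eq_one (by
          rw [← pow_mul, Nat.div_mul_cancel (Nat.ordProj_dvd _ _), pow_orderOf_eq_one])) ?_
        refine Nat.Coprime.pow_left _ ?_
        rw [hs, orderOf_pow_of_dvd (pow_ne_zero _ hp.ne_zero) (Nat.ordProj_dvd _ _)]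
        exact Nat.coprime_ordCompl hp (orderOf_pos _).ne')
    have hxc : x ∈ Subgroup.centralizer ({c'} : Set G) :=
      mem_centralizer_singleton'.2 ((mem_centralizer_singleton'.1 hcM.2).pow_right _).symm
    rw [h4] at hxc
    exact mem_centralizer_singleton'.2 (mem_centralizer_singleton'.1 hxc).symm
  -- `K` meets no centraliser of an element of `M` outside `T`
  have hfree : ∀ (y k : H), (y : G) ∈ M → (y : G) ∉ T → π k ∈ K → Commute (π y) (π k) → π k = 1 := by
    intro y k hyM hyT hk hyk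
    by_contra hk1
    have hkM : (k : G) ∉ M := fun hkM => hk1 (hKP _ hk ((hP₀mem k).2 hkM))
    set L := Subgroup.closure (insert (y : G) (T : Set G)) with hL
    have hTL : T ≤ L := fun t ht => Subgroup.subset_closure (Set.mem_insert_of_mem _ ht)
    have hyL : (y : G) ∈ L := Subgroup.subset_closure (Set.mem_insert _ _)
    have hLM : L ≤ M := by
      rw [hL, Subgroup.closure_le, Set.insert_subset_iff]; exact ⟨hyM, hTM⟩
    have hkn : ∀ k : G, k ∈ Subgroup.normalizer (T : Set G) → k * y * k⁻¹ * (y : G)⁻¹ ∈ T →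
        ∀ l ∈ L, k * l * k⁻¹ ∈ L := by
      intro k hk hky l hl
      suffices h2 : L ≤ L.comap (MulAut.conj k).toMonoidHom from h2 hl
      conv_lhs => rw [hL]
      rw [Subgroup.closure_le]
      rintro l (rfl | hl)
      · show k * (y : G) * k⁻¹ ∈ L
        rw [show k * (y : G) * k⁻¹ = k * (y : G) * k⁻¹ * (y : G)⁻¹ * y by group]
        exact mul_mem (hTL hky) hyL
      · exact hTL ((Subgroup.mem_normalizer_iff.1 hk l).1 hl)
    have hky : (k : G) * y * (k : G)⁻¹ * (y : G)⁻¹ ∈ T := by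
      have h1 := (hπ1 (k * y * k⁻¹ * y⁻¹)).1 (by
        rw [map_mul, map_mul, map_mul, map_inv, map_inv, hyk.symm.eq, mul_inv_cancel_right, mul_inv_cancel])
      exact h1
    have hkn' : (k : G) ∈ Subgroup.normalizer (L : Set G) :=
      Subgroup.mem_normalizer_fintype (hkn k k.2.2 hky)
    -- some central element of `L` is moved by `M`
    by_cases hex : ∃ c ∈ T, (∀ l ∈ L, Commute c l) ∧ ∃ m ∈ M, ¬ Commute c m
    · obtain ⟨c, hcT, hcL, hcm⟩ := hex
      have hF : Fam L := ⟨hLM, fun t ht => hTL (hZT t ht), hTL hxT,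
        fun m hm m' hm' => hTL (hder m hm m' hm'),
        ⟨k, k.2.1, fun hkx => hkM ⟨k.2.1, hkx⟩, hkn'⟩, c, hTL hcT, hcL, hcm⟩
      exact hyT (hbig L hTL hF ▸ hyL)
    · push Not at hex
      apply hkM
      set x₁ := (k : G) * x * (k : G)⁻¹ with hx₁
      have hx₁T : x₁ ∈ T := (Subgroup.mem_normalizer_iff.1 k.2.2 x).1 hxT
      have hx₁L : ∀ l ∈ L, Commute x₁ l := by
        intro l hl
        have h1 : (k : G)⁻¹ * l * k ∈ L := by
          have := (Subgroup.mem_normalizer_iff.1 hkn' ((k : G)⁻¹ * l * k)).2 (by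
            simpa [mul_assoc] using hl)
          exact this
        have h2 := (Commute.conj_iff (k : G)).2 (mem_centralizer_singleton'.1 (hLM h1).2)
        simpa [mul_assoc, hx₁] using h2
      have h3 := hex x₁ hx₁T hx₁L
      -- `x₁` has the centraliser of `x` in `N`
      have hx₁c : x₁ ∉ Subgroup.centralizer (N : Set G) := fun hc => hx' (by
        have := (inferInstance : (Subgroup.centralizer (N : Set G)).Normal).conj_mem _ hc (k : G)⁻¹
        simpa [mul_assoc, hx₁] using this)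
      set M₁ := N ⊓ Subgroup.centralizer ({x₁} : Set G) with hM₁
      have hle : M ≤ M₁ := fun m hm => ⟨hm.1, mem_centralizer_singleton'.2 (h3 m hm)⟩
      have heq : M = M₁ := by
        by_contra hne
        obtain ⟨g, hg, hgM, hgn⟩ := exists_normalizing_of_nilpotent (h.nilpotent (hTM hx₁T).1 hx₁c)
          (lt_of_le_of_ne hle hne)
        rw [hNM] at hgn
        exact hgM ⟨hg.1, hgn⟩
      refine ⟨k.2.1, ?_⟩
      rw [← hNM]
      refine Subgroup.mem_normalizer_fintype fun m hm => ?_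
      have hm' : (k : G) * m * (k : G)⁻¹ ∈ M₁ := by
        refine Subgroup.mem_inf.2 ⟨hN.conj_mem m hm.1 k, mem_centralizer_singleton'.2 ?_⟩
        exact (Commute.conj_iff (k : G)).2 (mem_centralizer_singleton'.1 hm.2)
      exact heq ▸ hm'
  -- an element of `M` of order `p` modulo `T`
  obtain ⟨y, hyM, hyT, hyp⟩ : ∃ y : H, (y : G) ∈ M ∧ (y : G) ∉ T ∧ (y : G) ^ p ∈ T := by
    have hm₀T : m₀ ∉ T := fun hT' => hc₀m (hc₀ m₀ hT')
    have h1 : π ⟨m₀, hMH hm₀⟩ ∈ P₀ := (hP₀mem _).2 hm₀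
    have h2 : π ⟨m₀, hMH hm₀⟩ ≠ 1 := fun h2 => hm₀T ((hπ1 _).1 h2)
    haveI : Nontrivial P₀ := ⟨⟨⟨_, h1⟩, 1, fun h3 => h2 (congrArg Subtype.val h3)⟩⟩
    obtain ⟨n, hn0, hn⟩ := IsPGroup.nontrivial_iff_card hP₀p |>.1 inferInstance
    obtain ⟨⟨u, hu⟩, huo⟩ := exists_prime_orderOf_dvd_card' (G := P₀) p
      (hn ▸ dvd_pow_self p hn0.ne')
    rw [Subgroup.orderOf_mk] at huo
    obtain ⟨y, rfl⟩ := QuotientGroup.mk_surjective u
    refine ⟨y, (hP₀mem y).1 hu, fun hyT => ?_, ?_⟩
    · rw [(hπ1 y).2 hyT |> fun h => (h : (y : H ⧸ T.subgroupOf H) = 1), orderOf_one] at huo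
      exact hp.one_lt.ne huo
    · have h3 := pow_orderOf_eq_one (y : H ⧸ T.subgroupOf H)
      rw [huo, ← QuotientGroup.mk_pow] at h3
      exact (hπ1 _).1 h3
  -- some element of the centre of `T` is moved by `y`
  set A := T ⊓ Subgroup.centralizer (T : Set G) with hA
  have hAT : ∀ u ∈ A, ∀ t ∈ T, Commute u t := fun u hu t ht =>
    (Subgroup.mem_centralizer_iff.1 hu.2 t ht).symm
  have hxA : x ∈ A := ⟨hxT, Subgroup.mem_centralizer_iff.2 fun t ht =>
    (mem_centralizer_singleton'.1 (hTM ht).2).eq.symm⟩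
  have hconjA : ∀ (k : H) (u : G), u ∈ A → (k : G) * u * (k : G)⁻¹ ∈ A := by
    intro k u hu
    refine Subgroup.mem_inf.2 ⟨(Subgroup.mem_normalizer_iff.1 k.2.2 u).1 hu.1,
      Subgroup.mem_centralizer_iff.2 fun t ht => ?_⟩
    have h1 : (k : G)⁻¹ * t * k ∈ T := (Subgroup.mem_normalizer_iff.1 k.2.2 _).2 (by
      simpa [mul_assoc] using ht)
    have h2 := (Commute.conj_iff (k : G)).2 (hAT u hu _ h1)
    simpa [mul_assoc] using h2.eq.symm
  obtain ⟨a₀, ha₀, ha₀y⟩ : ∃ a₀ ∈ A, ¬ Commute a₀ (y : G) := by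
    by_contra hall
    push Not at hall
    set L := H ⊓ Subgroup.centralizer (A : Set G) with hL
    have hTL : T ≤ L := fun t ht => ⟨hTH ht, Subgroup.mem_centralizer_iff.2 fun u hu => hAT u hu t ht⟩
    have hLM : L ≤ M := fun l hl => ⟨hl.1.1, mem_centralizer_singleton'.2
      (Subgroup.mem_centralizer_iff.1 hl.2 x hxA)⟩
    have hc₀A : c₀ ∈ A := ⟨hc₀T, Subgroup.mem_centralizer_iff.2 fun t ht => (hc₀ t ht).eq.symm⟩
    have hkn : (⟨g₀, hg₀N, hg₀n⟩ : H).1 ∈ Subgroup.normalizer (L : Set G) := by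
      refine Subgroup.mem_normalizer_fintype fun l hl => ?_
      refine Subgroup.mem_inf.2 ⟨mul_mem (mul_mem ⟨hg₀N, hg₀n⟩ hl.1) (inv_mem ⟨hg₀N, hg₀n⟩),
        Subgroup.mem_centralizer_iff.2 fun u hu => ?_⟩
      have h1 : g₀⁻¹ * u * g₀ ∈ A := by
        have := hconjA (⟨g₀, hg₀N, hg₀n⟩ : H)⁻¹ u hu
        simpa using this
      have h2 := (Commute.conj_iff g₀).2 (Subgroup.mem_centralizer_iff.1 hl.2 _ h1)
      simpa [mul_assoc] using h2.eq
    have hF : Fam L := ⟨hLM, fun t ht => hTL (hZT t ht), hTL hxT,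
      fun m hm m' hm' => hTL (hder m hm m' hm'), ⟨g₀, hg₀N, hg₀x, hkn⟩, c₀, hTL hc₀T,
      fun l hl => Subgroup.mem_centralizer_iff.1 hl.2 c₀ hc₀A, m₀, hm₀, hc₀m⟩
    refine hyT (hbig L hTL hF ▸ ?_ : (y : G) ∈ T)
    exact ⟨y.2, Subgroup.mem_centralizer_iff.2 fun u hu => hall u hu⟩
  -- the action of `H / T` on `A`
  letI : CommGroup A := { (inferInstance : Group A) with
    mul_comm := fun u v => Subtype.ext (hAT u u.2 v v.2.1).eq }
  let ψ : H →* MulAut A := MonoidHom.mk'
    (fun k =>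
      { toFun := fun u => ⟨(k : G) * u * (k : G)⁻¹, hconjA k u u.2⟩
        invFun := fun u => ⟨((k⁻¹ : H) : G) * u * ((k⁻¹ : H) : G)⁻¹, hconjA k⁻¹ u u.2⟩
        left_inv := fun u => Subtype.ext (by simp [mul_assoc])
        right_inv := fun u => Subtype.ext (by simp [mul_assoc])
        map_mul' := fun u v => Subtype.ext (by simp [mul_assoc]) })
    fun k l => MulEquiv.ext fun u => Subtype.ext (by simp [mul_assoc])
  let φ : H ⧸ T.subgroupOf H →* MulAut A := QuotientGroup.lift _ ψ fun t ht =>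
    MonoidHom.mem_ker.2 (MulEquiv.ext fun u => Subtype.ext (by
      show (t : G) * u * (t : G)⁻¹ = u
      rw [(hAT u u.2 t ht).eq.symm, mul_inv_cancel_right]))
  have hφ : ∀ (k : H) (u : A), (φ (π k) u : G) = (k : G) * u * (k : G)⁻¹ := fun k u => rfl
  set B := (Subgroup.centralizer (N : Set G)).subgroupOf A with hB
  have hBinv : ∀ (q : H ⧸ T.subgroupOf H) (u : A), u ∈ B → φ q u ∈ B := by
    intro q u hu
    obtain ⟨k, rfl⟩ := QuotientGroup.mk_surjective q
    rw [hB, Subgroup.mem_subgroupOf, show (k : H ⧸ T.subgroupOf H) = π k from rfl, hφ]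
    exact (inferInstance : (Subgroup.centralizer (N : Set G)).Normal).conj_mem _ hu k
  set Y := π y with hY
  -- the norm
  have hnorm : ∀ (u : A) (n : ℕ), ((u : G) * y) ^ n =
      ((∏ i ∈ Finset.range n, φ (Y ^ i) u : A) : G) * (y : G) ^ n := by
    intro u n
    induction n with
    | zero => simp
    | succ n ih =>
      rw [pow_succ, ih, Finset.prod_range_succ, Subgroup.coe_mul, hY, ← map_pow, hφ, pow_succ,
        Subgroup.coe_pow]
      group
  have hzmem : ∀ u : A, ((u : G) * y) ^ p ∈ T := by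
    intro u
    rw [hnorm]
    exact mul_mem (Subtype.prop (∏ i ∈ Finset.range p, φ (Y ^ i) u)).1 hyp
  have hcen : ∀ (u : A), ¬ Commute (u : G) (y : G) → ((u : G) * y) ^ p ∈ Subgroup.centralizer (N : Set G) := by
    intro u huy
    by_contra hz
    have huN : (u : G) * y ∈ N := mul_mem (hTM u.2.1).1 hyM.1
    have huc : (u : G) * y ∉ Subgroup.centralizer (N : Set G) := fun hc => hz (pow_mem hc p)
    have h1 := h.le_imp_eq huN huc (pow_mem huN p) hz fun g hg =>
      mem_centralizer_singleton'.2 ((mem_centralizer_singleton'.1 hg).pow_left p)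
    have h2 : (u : G) ∈ Subgroup.centralizer ({((u : G) * y) ^ p} : Set G) :=
      mem_centralizer_singleton'.2 (hAT u u.2 _ (hzmem u)).symm
    rw [← h1] at h2
    apply huy
    have h3 := (mem_centralizer_singleton'.1 h2).eq
    rw [mul_assoc] at h3
    exact (mul_left_cancel h3).symm
  have hyc : (y : G) ^ p ∈ Subgroup.centralizer (N : Set G) := by
    by_contra hz
    have hyc' : (y : G) ∉ Subgroup.centralizer (N : Set G) := fun hc => hz (pow_mem hc p)
    have h1 := h.le_imp_eq hyM.1 hyc' (pow_mem hyM.1 p) hz fun g hg =>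
      mem_centralizer_singleton'.2 ((mem_centralizer_singleton'.1 hg).pow_left p)
    have h2 : a₀ ∈ Subgroup.centralizer ({(y : G) ^ p} : Set G) :=
      mem_centralizer_singleton'.2 (hAT a₀ ha₀ _ hyp).symm
    rw [← h1] at h2
    exact ha₀y (mem_centralizer_singleton'.1 h2).symm
  let Nm : A →* A :=
    { toFun := fun u => ∏ i ∈ Finset.range p, φ (Y ^ i) u
      map_one' := by simp
      map_mul' := fun u v => by simp [Finset.prod_mul_distrib] }
  have hNm0 : ∀ u : A, ¬ Commute (u : G) (y : G) → Nm u ∈ B := by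
    intro u huy
    have h1 := hcen u huy
    rw [hnorm] at h1
    exact (Subgroup.mul_mem_cancel_right _ hyc).1 h1
  have hNm : ∀ u : A, Nm u ∈ B := by
    intro u
    by_cases huy : Commute (u : G) (y : G)
    · have h1 : ¬ Commute ((u * ⟨a₀, ha₀⟩ : A) : G) (y : G) := by
        intro hc
        apply ha₀y
        have := huy.inv_left.mul_left hc
        simpa using this
      have h2 := mul_mem (hNm0 _ h1) (inv_mem (hNm0 ⟨a₀, ha₀⟩ ha₀y))
      rw [← map_inv, ← map_mul, mul_inv_cancel_right] at h2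
      exact h2
    · exact hNm0 u huy
  -- the kernel acts without fixed points
  obtain ⟨k₁, hk₁, hk₁1⟩ := hKne
  haveI : Fintype K := Fintype.ofFinite K
  have hsum : ∀ v : A, (∏ k : K, φ (k : H ⧸ T.subgroupOf H) v) ∈ B := by
    intro v
    by_contra hv
    set b := ∏ k : K, φ (k : H ⧸ T.subgroupOf H) v with hb
    have hfixb : φ k₁ b = b := by
      rw [hb, map_prod]
      refine Fintype.prod_equiv (Equiv.mulLeft (⟨k₁, hk₁⟩ : K)) _ _ fun k => ?_
      simp [map_mul]
    obtain ⟨k, rfl⟩ := QuotientGroup.mk_surjective k₁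
    refine hk₁1 (hfix k b hk₁ b.2.1 hv ?_)
    have h1 := congrArg Subtype.val hfixb
    rw [show (k : H ⧸ T.subgroupOf H) = π k from rfl, hφ, mul_inv_eq_iff_eq_mul] at h1
    exact h1
  have hYi : ∀ i ∈ Finset.Ico 1 p, ((y ^ i : H) : G) ∉ T := by
    intro i hi hiT
    rw [Finset.mem_Ico] at hi
    apply hyT
    have hco : Nat.Coprime i (orderOf Y) := by
      have hYo : orderOf Y = p := orderOf_eq_prime
        (by rw [hY, ← map_pow, hπ1, Subgroup.coe_pow]; exact hyp) (fun h1 => hyT ((hπ1 y).1 h1))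
      rw [hYo, Nat.coprime_comm, hp.coprime_iff_not_dvd]
      exact fun hd => absurd (Nat.le_of_dvd (by omega) hd) (by omega)
    obtain ⟨t, ht⟩ := exists_pow_eq_self_of_coprime hco
    rw [hY, ← map_pow, (hπ1 _).2 hiT, one_pow] at ht
    exact (hπ1 y).1 ht.symm
  have hperm : ∀ i ∈ Finset.Ico 1 p, ∀ v : A,
      (∏ k : K, φ ((k : H ⧸ T.subgroupOf H) * Y ^ i * (k : H ⧸ T.subgroupOf H)⁻¹) v) =
        ∏ k : K, φ (k : H ⧸ T.subgroupOf H) (φ (Y ^ i) v) := by
    intro i hi v
    haveI : K.Normal := inferInstance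
    let f : K → K := fun k => ⟨(k : H ⧸ T.subgroupOf H) * Y ^ i * (k : H ⧸ T.subgroupOf H)⁻¹ * (Y ^ i)⁻¹, by
      rw [show (k : H ⧸ T.subgroupOf H) * Y ^ i * (k : H ⧸ T.subgroupOf H)⁻¹ * (Y ^ i)⁻¹ =
        (k : H ⧸ T.subgroupOf H) * (Y ^ i * (k : H ⧸ T.subgroupOf H)⁻¹ * (Y ^ i)⁻¹) by group]
      exact mul_mem k.2 ((inferInstance : K.Normal).conj_mem _ (inv_mem k.2) _)⟩
    have hf : Function.Bijective f := by
      refine Finite.injective_iff_bijective.1 fun k l hkl => ?_
      have h1 := congrArg Subtype.val hkl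
      simp only [f, mul_left_inj] at h1
      obtain ⟨k', hk'⟩ := QuotientGroup.mk_surjective ((l⁻¹ * k : K) : H ⧸ T.subgroupOf H)
      have hk'' : π k' = (l : H ⧸ T.subgroupOf H)⁻¹ * (k : H ⧸ T.subgroupOf H) := hk'
      have h2 : Commute (π (y ^ i)) (π k') := by
        rw [hk'', map_pow, ← hY]
        show _ = _
        have h3 := congrArg (fun t : H ⧸ T.subgroupOf H => (l : H ⧸ T.subgroupOf H)⁻¹ * t * (k : H ⧸ T.subgroupOf H)) h1
        simp only [mul_assoc, inv_mul_cancel, mul_one, inv_mul_cancel_left] at h3 ⊢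
        exact h3.symm
      have h4 := hfree (y ^ i) k' (pow_mem hyM i) (hYi i hi) (by
        rw [hk'']; exact mul_mem (inv_mem l.2) k.2) h2
      rw [hk'', inv_mul_eq_one] at h4
      exact Subtype.ext h4.symm
    refine Fintype.prod_equiv (Equiv.ofBijective f hf) _ _ fun k => ?_
    show _ = φ ((f k : K) : H ⧸ T.subgroupOf H) (φ (Y ^ i) v)
    rw [← MulAut.mul_apply, ← map_mul]
    simp only [f, inv_mul_cancel_right]
  -- so `A` is central in `N`
  have hfinal : ∀ u : A, u ^ Fintype.card K ∈ B := by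
    intro u
    have h1 : (∏ k : K, φ (k : H ⧸ T.subgroupOf H) (Nm (φ (k : H ⧸ T.subgroupOf H)⁻¹ u))) ∈ B :=
      prod_mem fun k _ => hBinv _ _ (hNm _)
    have h2 : ∀ k : K, φ (k : H ⧸ T.subgroupOf H) (Nm (φ (k : H ⧸ T.subgroupOf H)⁻¹ u)) =
        ∏ i ∈ Finset.range p, φ ((k : H ⧸ T.subgroupOf H) * Y ^ i * (k : H ⧸ T.subgroupOf H)⁻¹) u := by
      intro k
      simp [Nm, map_prod, map_mul]
    simp only [h2] at h1
    rw [Finset.prod_comm, Finset.range_eq_Ico, Finset.prod_eq_prod_Ico_succ_bot hp.pos] at h1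
    have h3 : (∏ i ∈ Finset.Ico (0 + 1) p, ∏ k : K,
        φ ((k : H ⧸ T.subgroupOf H) * Y ^ i * (k : H ⧸ T.subgroupOf H)⁻¹) u) ∈ B :=
      prod_mem fun i hi => by
        rw [hperm i (by simpa using hi)]
        exact hsum _
    have h4 := (Subgroup.mul_mem_cancel_right _ h3).1 h1
    have h5 : (∏ k : K, φ ((k : H ⧸ T.subgroupOf H) * Y ^ 0 * (k : H ⧸ T.subgroupOf H)⁻¹) u) =
        u ^ Fintype.card K := by
      simp only [pow_zero, mul_one, mul_inv_cancel, map_one, MulAut.one_apply, Finset.prod_const,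
        Finset.card_univ]
    rwa [h5] at h4
  -- in particular `x` is
  apply hx'
  have h5 := hfinal ⟨x, hxA⟩
  rw [hB, Subgroup.mem_subgroupOf, Subgroup.coe_pow] at h5
  have h6 := hpM x ⟨hx, conj_mem_self⟩
  have hco : Int.gcd ((Fintype.card K : ℕ) : ℤ) ((p ^ (orderOf x).factorization p : ℕ) : ℤ) = 1 := by
    rw [Int.gcd_natCast_natCast, ← Nat.card_eq_fintype_card]
    exact ((hp.coprime_iff_not_dvd.2 hKp).pow_left _).symm
  have hbez := Int.gcd_eq_gcd_ab ((Fintype.card K : ℕ) : ℤ) ((p ^ (orderOf x).factorization p : ℕ) : ℤ)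
  rw [hco, Nat.cast_one] at hbez
  rw [← zpow_one x, hbez, zpow_add, zpow_mul, zpow_mul, zpow_natCast, zpow_natCast]
  exact mul_mem (zpow_mem h5 _) (zpow_mem h6 _)

end MaxCentIn

end Cfsg.Agent.H85
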