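import Mathlib
import Cfsg.Prelude.Def_LocalStructure
import Cfsg.Prelude.Def_Solvable
import Cfsg.Agent.H85.MaxCentralizers
import Cfsg.Agent.H85.MaxCentralizersNormal

/-!
# The central quotient of a normal subgroup with maximal centralisers
-/

set_option autoImplicit false
set_option linter.style.haveILetI false
set_option linter.unusedSectionVars false

namespace Cfsg.Agent.H85

open scoped Pointwise

variable {X : Type*} [Group X] [Finite X]

/-- The facts about centralisers used for the structure of the central quotient. -/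
structure CentFacts (X : Type*) [Group X] : Prop where
  key : ∀ L : Subgroup X, L.Normal → Subgroup.center X ≤ L → ∀ x : X, x ∉ Subgroup.center X →
    L ≤ Subgroup.centralizer ({x} : Set X) ∨ Subgroup.centralizer ({x} : Set X) ⊔ L = ⊤
  nil : ∀ x : X, x ∉ Subgroup.center X → Group.IsNilpotent (Subgroup.centralizer ({x} : Set X))
  ab : ∀ x : X, x ∉ Subgroup.center X → ¬ (Subgroup.centralizer ({x} : Set X)).Normal →
    ∀ a ∈ Subgroup.centralizer ({x} : Set X), ∀ b ∈ Subgroup.centralizer ({x} : Set X), Commute a b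
  self : ∀ x : X, x ∉ Subgroup.center X → ¬ (Subgroup.centralizer ({x} : Set X)).Normal →
    Subgroup.normalizer ((Subgroup.centralizer ({x} : Set X) : Subgroup X) : Set X) ≤
      Subgroup.centralizer ({x} : Set X)

theorem mul_mem_of_sup {A L : Subgroup X} [L.Normal] (h : A ⊔ L = ⊤) (g : X) :
    ∃ a ∈ A, ∃ l ∈ L, a * l = g := by
  have h1 : g ∈ A ⊔ L := h ▸ Subgroup.mem_top g
  rw [← SetLike.mem_coe, Subgroup.mul_normal] at h1
  exact h1

theorem center_lt_or {x : X} (hx : x ∉ Subgroup.center X) :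
    Subgroup.centralizer ({x} : Set X) ≠ ⊤ := fun h =>
  hx (Subgroup.mem_center_iff.2 fun g =>
    (mem_centralizer_singleton'.1 (h ▸ Subgroup.mem_top g : g ∈ Subgroup.centralizer ({x} : Set X))).eq.symm)

/-- All centralisers normal. -/
theorem CentFacts.elementary (h : CentFacts X)
    (hall : ∀ x, x ∉ Subgroup.center X → (Subgroup.centralizer ({x} : Set X)).Normal) :
    ∃ p : ℕ, p.Prime ∧ Cfsg.IsElementaryAbelian p (⊤ : Subgroup (X ⧸ Subgroup.center X)) := by
  by_cases hcomm : IsMulCommutative X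
  · refine ⟨2, Nat.prime_two, ?_⟩
    have h1 : ∀ u : X ⧸ Subgroup.center X, u = 1 := fun u => by
      obtain ⟨a, rfl⟩ := QuotientGroup.mk_surjective u
      exact (QuotientGroup.eq_one_iff a).2
        (Subgroup.mem_center_iff.2 fun b => hcomm.is_comm.comm b a)
    exact ⟨⟨⟨fun a b => Subtype.ext (by rw [h1 (a * b : _), h1 (b * a : _)])⟩⟩,
      fun a _ => by rw [h1 a, one_pow]⟩
  refine MaxCent.elementary_of_all_normal (fun x hx => ?_) hcomm hall
  haveI := hall x hx
  set C := Subgroup.centralizer ({x} : Set X) with hC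
  refine ⟨center_lt_or hx, fun H hH => ?_⟩
  obtain ⟨z, hzH, hz⟩ := SetLike.exists_of_lt hH
  have hzc : z ∉ Subgroup.center X := fun hc => hz (center_le_centralizer' x hc)
  haveI := hall z hzc
  -- the quotient is nilpotent
  have htop : Subgroup.centralizer ({z} : Set X) ⊔ C = ⊤ :=
    (h.key C inferInstance (center_le_centralizer' x) z hzc).resolve_left fun hle => by
      rcases h.key (Subgroup.centralizer ({z} : Set X)) inferInstance (center_le_centralizer' z) x hx
        with h1 | h1
      · exact hz (h1 (mem_centralizer_singleton'.2 (Commute.refl z)))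
      · rw [← hC, sup_of_le_right hle] at h1
        exact center_lt_or hzc h1
  haveI := h.nil z hzc
  let f := (QuotientGroup.mk' C).comp (Subgroup.centralizer ({z} : Set X)).subtype
  have hf : Function.Surjective f := by
    intro u
    obtain ⟨g, rfl⟩ := QuotientGroup.mk_surjective u
    obtain ⟨a, ha, c, hc, rfl⟩ := mul_mem_of_sup htop g
    exact ⟨⟨a, ha⟩, by simp [f, (QuotientGroup.eq_one_iff c).2 hc]⟩
  haveI := Group.nilpotent_of_surjective f hf
  haveI : Nontrivial (X ⧸ C) := ⟨⟨z, 1, fun h1 => hz ((QuotientGroup.eq_one_iff z).1 h1)⟩⟩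
  have hsimp : ∀ K : Subgroup (X ⧸ C), K.Normal → K = ⊥ ∨ K = ⊤ := by
    intro K hK
    have hle : C ≤ K.comap (QuotientGroup.mk' C) := fun g hg => by
      rw [Subgroup.mem_comap, show QuotientGroup.mk' C g = 1 from (QuotientGroup.eq_one_iff g).2 hg]
      exact one_mem K
    rcases h.key _ (hK.comap _) ((center_le_centralizer' x).trans hle) x hx with h1 | h1
    · left
      refine Subgroup.comap_injective (QuotientGroup.mk'_surjective C) ?_
      rw [MonoidHom.comap_bot, QuotientGroup.ker_mk']
      exact le_antisymm h1 hle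
    · right
      refine Subgroup.comap_injective (QuotientGroup.mk'_surjective C) ?_
      rw [Subgroup.comap_top, ← h1]
      exact (sup_of_le_right hle).symm
  have hcen : Subgroup.center (X ⧸ C) = ⊤ :=
    (hsimp _ inferInstance).resolve_left (Group.IsNilpotent.center_ne_bot _)
  have hHn : (H.map (QuotientGroup.mk' C)).Normal := ⟨fun a ha g => by
    have : a ∈ Subgroup.center (X ⧸ C) := hcen ▸ Subgroup.mem_top a
    rwa [Subgroup.mem_center_iff.1 this g, mul_inv_cancel_right]⟩
  rcases hsimp _ hHn with h1 | h1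
  · refine absurd ?_ hz
    have h2 : QuotientGroup.mk' C z ∈ H.map (QuotientGroup.mk' C) := ⟨z, hzH, rfl⟩
    rw [h1, Subgroup.mem_bot] at h2
    exact (QuotientGroup.eq_one_iff z).1 h2
  · have h2 := congrArg (Subgroup.comap (QuotientGroup.mk' C)) h1
    rwa [Subgroup.comap_map_eq_self (by rw [QuotientGroup.ker_mk']; exact hH.le), Subgroup.comap_top] at h2

theorem CentFacts.centralizer_eq (h : CentFacts X) {x y : X} (hx : x ∉ Subgroup.center X)
    (hn : ¬ (Subgroup.centralizer ({x} : Set X)).Normal) (hy : y ∉ Subgroup.center X)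
    (hyx : y ∈ Subgroup.centralizer ({x} : Set X)) :
    Subgroup.centralizer ({y} : Set X) = Subgroup.centralizer {x} := by
  have hle : Subgroup.centralizer ({x} : Set X) ≤ Subgroup.centralizer {y} := fun m hm =>
    mem_centralizer_singleton'.2 (h.ab x hx hn y hyx m hm)
  by_contra hne
  obtain ⟨g, -, hg, hgn⟩ := exists_normalizing_of_nilpotent (h.nil y hy) (lt_of_le_of_ne hle (Ne.symm hne))
  exact hg (h.self x hx hn hgn)

theorem centralizer_conj_mem {c x g : X} :
    g ∈ Subgroup.centralizer ({c * x * c⁻¹} : Set X) ↔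
      c⁻¹ * g * c ∈ Subgroup.centralizer ({x} : Set X) := by
  rw [mem_centralizer_singleton', mem_centralizer_singleton']
  conv_lhs => rw [show g = c * (c⁻¹ * g * c) * c⁻¹ by group]
  exact Commute.conj_iff c

theorem CentFacts.conj_not_normal {x : X} (c : X)
    (hn : ¬ (Subgroup.centralizer ({x} : Set X)).Normal) :
    ¬ (Subgroup.centralizer ({c * x * c⁻¹} : Set X)).Normal := by
  intro hN
  refine hn ⟨fun m hm g => ?_⟩
  have h1 : c * m * c⁻¹ ∈ Subgroup.centralizer ({c * x * c⁻¹} : Set X) := by
    rw [centralizer_conj_mem]; simpa [mul_assoc] using hm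
  have h2 := centralizer_conj_mem.1 (hN.conj_mem _ h1 (c * g * c⁻¹))
  simpa [mul_assoc] using h2

theorem conj_not_mem_center {x : X} (hx : x ∉ Subgroup.center X) (c : X) :
    c * x * c⁻¹ ∉ Subgroup.center X := fun hc => hx (by
  have := (inferInstance : (Subgroup.center X).Normal).conj_mem _ hc c⁻¹
  simpa [mul_assoc] using this)

theorem CentFacts.card_class (h : CentFacts X) {x : X} (hx : x ∉ Subgroup.center X)
    (hn : ¬ (Subgroup.centralizer ({x} : Set X)).Normal) :
    Nat.card {g : X // g ∉ Subgroup.center X ∧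
        ∃ c : X, c⁻¹ * g * c ∈ Subgroup.centralizer ({x} : Set X)} +
      Nat.card (Subgroup.center X) * (Subgroup.centralizer ({x} : Set X)).index = Nat.card X := by
  classical
  set M := Subgroup.centralizer ({x} : Set X) with hM
  set Z := Subgroup.center X with hZ
  have hsum : Nat.card {g : X // g ∈ M ∧ g ∉ Z} + Nat.card Z = Nat.card M := by
    have h1 := Nat.card_congr (Equiv.sumCompl (fun m : M => (m : X) ∈ Z))
    rw [Nat.card_sum] at h1
    have e1 : {m : M // (m : X) ∈ Z} ≃ Z :=
      { toFun := fun m => ⟨m.1.1, m.2⟩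
        invFun := fun z => ⟨⟨z, center_le_centralizer' x z.2⟩, z.2⟩
        left_inv := fun m => rfl
        right_inv := fun z => rfl }
    have e2 : {m : M // ¬ (m : X) ∈ Z} ≃ {g : X // g ∈ M ∧ g ∉ Z} :=
      { toFun := fun m => ⟨m.1.1, m.1.2, m.2⟩
        invFun := fun g => ⟨⟨g, g.2.1⟩, g.2.2⟩
        left_inv := fun m => rfl
        right_inv := fun g => rfl }
    rw [Nat.card_congr e1, Nat.card_congr e2] at h1
    omega
  let f : (X ⧸ M) × {g : X // g ∈ M ∧ g ∉ Z} →
      {g : X // g ∉ Z ∧ ∃ c : X, c⁻¹ * g * c ∈ M} := fun z =>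
    ⟨z.1.out * z.2.1 * z.1.out⁻¹, conj_not_mem_center z.2.2.2 _, z.1.out,
      by simpa [mul_assoc] using z.2.2.1⟩
  have hf : Function.Bijective f := by
    constructor
    · rintro ⟨c, g, hg, hgZ⟩ ⟨d, k, hk, hkZ⟩ heq
      have heq' : c.out * g * c.out⁻¹ = d.out * k * d.out⁻¹ := congrArg Subtype.val heq
      set s := d.out⁻¹ * c.out with hs
      have hks : k = s * g * s⁻¹ := by
        have := congrArg (fun t => d.out⁻¹ * t * d.out) heq'
        simpa [hs, mul_assoc] using this.symm
      have h1 : Subgroup.centralizer ({k} : Set X) = M := h.centralizer_eq hx hn hkZ hk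
      have h2 : k ∈ Subgroup.centralizer ({s * x * s⁻¹} : Set X) := by
        rw [centralizer_conj_mem, hks]; simpa [mul_assoc] using hg
      have h3 := h.centralizer_eq (conj_not_mem_center hx s) (CentFacts.conj_not_normal s hn) hkZ h2
      have hsN : s ∈ M := by
        refine h.self x hx hn (Subgroup.mem_normalizer_fintype fun m hm => ?_)
        rw [SetLike.mem_coe, ← hM, ← h1, h3, centralizer_conj_mem]
        simpa [mul_assoc] using hm
      obtain rfl : d = c := by
        rw [← QuotientGroup.out_eq' c, ← QuotientGroup.out_eq' d, QuotientGroup.eq]; exact hsN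
      have hgk : g = k := by simpa using heq'
      subst hgk
      rfl
    · rintro ⟨g, hgZ, c, hc⟩
      set d : X ⧸ M := QuotientGroup.mk c with hd
      have hm : d.out⁻¹ * c ∈ M := by rw [← QuotientGroup.eq, QuotientGroup.out_eq']
      refine ⟨⟨d, ⟨d.out⁻¹ * g * d.out, ?_, fun hc' => hgZ ?_⟩⟩, ?_⟩
      · have := mul_mem (mul_mem hm hc) (inv_mem hm)
        simpa [mul_assoc] using this
      · have := (inferInstance : (Subgroup.center X).Normal).conj_mem _ hc' d.out
        simpa [mul_assoc] using this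
      · exact Subtype.ext (by simp [f, mul_assoc])
  rw [← Nat.card_eq_of_bijective f hf, Nat.card_prod, ← Subgroup.index_eq_card,
    mul_comm (Nat.card Z), ← Nat.mul_add, hsum, mul_comm, Subgroup.card_mul_index]

theorem CentFacts.exists_normal (h : CentFacts X) {x : X} (hx : x ∉ Subgroup.center X)
    (hn : ¬ (Subgroup.centralizer ({x} : Set X)).Normal) :
    ∃ y, y ∉ Subgroup.center X ∧ (Subgroup.centralizer ({y} : Set X)).Normal := by
  classical
  by_contra hall
  push Not at hall
  set Z := Subgroup.center X with hZ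
  have h2 : ∀ x, x ∉ Z → Nat.card X ≤
      2 * Nat.card {g : X // g ∉ Z ∧ ∃ c : X, c⁻¹ * g * c ∈ Subgroup.centralizer ({x} : Set X)} := by
    intro x hx
    have h3 := h.card_class hx (hall x hx)
    have h4 := Nat.mul_le_mul_right (Subgroup.centralizer ({x} : Set X)).index (center_mul_two_le x hx)
    rw [Subgroup.card_mul_index, mul_assoc] at h4
    simp only [← hZ] at h3 h4
    omega
  have hcardc : Nat.card {g : X // g ∉ Z} + Nat.card Z = Nat.card X := by
    have h1 := Nat.card_congr (Equiv.sumCompl (fun g : X => g ∈ Z))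
    rw [Nat.card_sum, add_comm] at h1
    exact h1
  by_cases hone : ∀ g, g ∉ Z → ∃ c : X, c⁻¹ * g * c ∈ Subgroup.centralizer ({x} : Set X)
  · have h3 := h.card_class hx hn
    rw [Nat.card_congr (Equiv.subtypeEquivRight fun g => ⟨fun hg => hg.1, fun hg => ⟨hg, hone g hg⟩⟩ :
      {g : X // g ∉ Z ∧ ∃ c : X, c⁻¹ * g * c ∈ Subgroup.centralizer ({x} : Set X)} ≃ {g : X // g ∉ Z})] at h3
    have h4 : 1 < (Subgroup.centralizer ({x} : Set X)).index := by
      have := Subgroup.FiniteIndex.index_ne_zero (H := Subgroup.centralizer ({x} : Set X))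
      have h5 : (Subgroup.centralizer ({x} : Set X)).index ≠ 1 := by
        rw [Ne, Subgroup.index_eq_one]; exact center_lt_or hx
      omega
    have h6 : 0 < Nat.card Z := Nat.card_pos
    simp only [← hZ] at h3
    nlinarith
  · push Not at hone
    obtain ⟨y, hyZ, hy⟩ := hone
    have hne : ∀ g : X, g ∉ Z → ∀ c d : X,
        c⁻¹ * g * c ∈ Subgroup.centralizer ({x} : Set X) →
        d⁻¹ * g * d ∈ Subgroup.centralizer ({y} : Set X) → False := by
      intro g hg c d hc hd
      have h1 := h.centralizer_eq (conj_not_mem_center hx c) (CentFacts.conj_not_normal c hn) hg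
        (centralizer_conj_mem.2 hc)
      have h2 := h.centralizer_eq (conj_not_mem_center hyZ d) (hall _ (conj_not_mem_center hyZ d)) hg
        (centralizer_conj_mem.2 hd)
      have h5 : d * y * d⁻¹ ∈ Subgroup.centralizer ({c * x * c⁻¹} : Set X) := by
        rw [← h1, h2]; exact mem_centralizer_singleton'.2 (Commute.refl _)
      apply hy (d⁻¹ * c)
      have h6 := centralizer_conj_mem.1 h5
      simpa [mul_assoc] using h6
    have hdis : Nat.card {g : X // g ∉ Z ∧ ∃ c : X, c⁻¹ * g * c ∈ Subgroup.centralizer ({x} : Set X)} +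
        Nat.card {g : X // g ∉ Z ∧ ∃ c : X, c⁻¹ * g * c ∈ Subgroup.centralizer ({y} : Set X)} ≤
        Nat.card {g : X // g ∉ Z} := by
      rw [← Nat.card_sum]
      refine Nat.card_le_card_of_injective (Sum.elim (fun g => ⟨g.1, g.2.1⟩) (fun g => ⟨g.1, g.2.1⟩)) ?_
      rintro (⟨a, haZ, c, hc⟩ | ⟨a, haZ, c, hc⟩) (⟨b, hbZ, d, hd⟩ | ⟨b, hbZ, d, hd⟩) heq <;>
        simp only [Sum.elim_inl, Sum.elim_inr, Subtype.mk.injEq] at heq <;> subst heq
      · rfl
      · exact (hne a haZ c d hc hd).elim
      · exact (hne a haZ d c hd hc).elim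
      · rfl
    have h5 := h2 x hx
    have h6 := h2 y hyZ
    have h7 : 0 < Nat.card Z := Nat.card_pos
    omega

/-- One centraliser not normal: a Frobenius group with elementary kernel and prime complement. -/
theorem CentFacts.frobenius (h : CentFacts X) {x : X} (hx : x ∉ Subgroup.center X)
    (hn : ¬ (Subgroup.centralizer ({x} : Set X)).Normal) :
    ∃ (Q K : Subgroup (X ⧸ Subgroup.center X)) (p : ℕ), p.Prime ∧ Cfsg.IsFrobeniusComplement Q ∧
      (Nat.card Q).Prime ∧ K.Normal ∧
      (K : Set (X ⧸ Subgroup.center X)) = Cfsg.frobeniusKernel Q ∧ Cfsg.IsElementaryAbelian p K := by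
  obtain ⟨v, hv, hvn⟩ := h.exists_normal hx hn
  set Z := Subgroup.center X with hZ
  set π := QuotientGroup.mk' Z with hπ
  set U := Subgroup.centralizer ({v} : Set X) with hU
  haveI := hvn
  have hvU : v ∈ U := mem_centralizer_singleton'.2 (Commute.refl v)
  have hker : ∀ L : Subgroup X, Z ≤ L → (L.map π).comap π = L := fun L hL =>
    Subgroup.comap_map_eq_self (by rw [hπ, QuotientGroup.ker_mk']; exact hL)
  have hmem : ∀ L : Subgroup X, Z ≤ L → ∀ g, π g ∈ L.map π ↔ g ∈ L := fun L hL g => by
    rw [← Subgroup.mem_comap, hker L hL]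
  -- `U` meets the other centralisers in the centre
  have hinter : ∀ y, y ∉ Z → ¬ (Subgroup.centralizer ({y} : Set X)).Normal →
      ∀ u ∈ U, u ∈ Subgroup.centralizer ({y} : Set X) → u ∈ Z := by
    intro y hy hyn u huU huy
    by_contra huZ
    have h1 := h.centralizer_eq hy hyn huZ huy
    have h2 : v ∈ Subgroup.centralizer ({y} : Set X) := by
      rw [← h1]; exact mem_centralizer_singleton'.2 (mem_centralizer_singleton'.1 huU).symm
    exact hyn (h.centralizer_eq hy hyn hv h2 ▸ hvn)
  have hminU : ∀ L : Subgroup X, L.Normal → Z ≤ L → L ≤ U → L = Z ∨ L = U := by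
    intro L hL hZL hLU
    haveI := hL
    rcases h.key L hL hZL x hx with h1 | h1
    · exact Or.inl (le_antisymm (fun l hl => hinter x hx hn l (hLU hl) (h1 hl)) hZL)
    · refine Or.inr (le_antisymm hLU fun u hu => ?_)
      obtain ⟨a, ha, l, hl, rfl⟩ := mul_mem_of_sup h1 u
      have haU : a ∈ U := by
        rw [show a = a * l * l⁻¹ by group]; exact mul_mem hu (inv_mem (hLU hl))
      exact mul_mem (hZL (hinter x hx hn a haU ha)) hl
  -- complements
  have hsup : ∀ y, y ∉ Z → ¬ (Subgroup.centralizer ({y} : Set X)).Normal →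
      Subgroup.centralizer ({y} : Set X) ⊔ U = ⊤ := fun y hy hyn =>
    (h.key U hvn (center_le_centralizer' v) y hy).resolve_left fun hle =>
      hv (hinter y hy hyn v hvU (hle hvU))
  have hUab : ∀ a ∈ U, ∀ b ∈ U, Commute a b := by
    set C := U ⊓ Subgroup.centralizer (U : Set X) with hC
    haveI : C.Normal := inferInstance
    rcases hminU C inferInstance (le_inf (center_le_centralizer' v) fun z hz =>
      Subgroup.mem_centralizer_iff.2 fun n _ => Subgroup.mem_center_iff.1 hz n) inf_le_left with h1 | h1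
    · exfalso
      apply hv
      rw [← h1]
      exact ⟨hvU, Subgroup.mem_centralizer_iff.2 fun n hn' => (mem_centralizer_singleton'.1 hn').eq.symm⟩
    · intro a ha b hb
      exact Subgroup.mem_centralizer_iff.1 (h1.ge hb).2 a ha
  -- the other centralisers are exactly those of the elements outside `U`
  have houtside : ∀ y, y ∉ U → ¬ (Subgroup.centralizer ({y} : Set X)).Normal := by
    intro y hy hyn
    have hyc : y ∉ Z := fun hc => hy (center_le_centralizer' v hc)
    set W := Subgroup.centralizer ({y} : Set X) with hW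
    rcases hminU (W ⊓ U) inferInstance
        (le_inf (center_le_centralizer' y) (center_le_centralizer' v)) inf_le_right with h1 | h1
    · -- then everything commutes modulo the centre
      have hcm : ∀ a ∈ W, ∀ b ∈ U, a * b * a⁻¹ * b⁻¹ ∈ Z := fun a ha b hb => by
        rw [← h1]
        refine Subgroup.mem_inf.2 ⟨?_, mul_mem (hvn.conj_mem b hb a) (inv_mem hb)⟩
        rw [show a * b * a⁻¹ * b⁻¹ = a * (b * a⁻¹ * b⁻¹) by group]
        exact mul_mem ha (hyn.conj_mem _ (inv_mem ha) b)
      rcases h.key W hyn (center_le_centralizer' y) x hx with h2 | h2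
      · -- `y` lies in the non-normal centraliser of `x`
        have h3 := h.centralizer_eq hx hn hyc (h2 (mem_centralizer_singleton'.2 (Commute.refl y)))
        exact hn (h3 ▸ hyn)
      · obtain ⟨a, ha, w, hw, hg⟩ := mul_mem_of_sup h2 v
        -- conjugation by `U` fixes `a`'s class modulo the centre
        obtain ⟨m, hm, hmW, hmZ⟩ : ∃ m, m ∈ Subgroup.centralizer ({x} : Set X) ∧ m ∈ W ⊔ U ∧ m ∉ Z := by
          refine ⟨a, ha, ?_, fun haZ => ?_⟩
          · rw [show a = v * w⁻¹ by rw [← hg]; group]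
            exact mul_mem (Subgroup.mem_sup_right hvU) (inv_mem (Subgroup.mem_sup_left hw))
          · have hvW : v ∈ W := hg ▸ mul_mem (center_le_centralizer' y haZ) hw
            exact hv (h1.le ⟨hvW, hvU⟩)
        rw [← SetLike.mem_coe, Subgroup.mul_normal] at hmW
        obtain ⟨w', hw', u', hu', hwu⟩ := hmW
        have hmU : ∀ u ∈ U, u * m * u⁻¹ * m⁻¹ ∈ Z := by
          intro u hu
          have e : u * m * u⁻¹ * m⁻¹ = u * w' * u⁻¹ * w'⁻¹ := by
            rw [← hwu]
            simp only [mul_inv_rev]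
            rw [show u * (w' * u') * u⁻¹ * (u'⁻¹ * w'⁻¹) =
              u * w' * (u' * u⁻¹) * (u'⁻¹ * w'⁻¹) by group, ((hUab u' hu' u hu).inv_right).eq]
            group
          rw [e]
          have h4 := inv_mem (hcm w' hw' u hu)
          simpa [mul_assoc] using h4
        -- so `U` normalises the centraliser of `x`
        have h5 := h.centralizer_eq hx hn hmZ hm
        have hUn : ∀ u ∈ U, u ∈ Subgroup.centralizer ({x} : Set X) := by
          intro u hu
          refine h.self x hx hn (Subgroup.mem_normalizer_fintype fun t ht => ?_)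
          rw [SetLike.mem_coe, ← h5] at ht ⊢
          rw [mem_centralizer_singleton'] at ht ⊢
          have h6 := (Commute.conj_iff u).2 ht
          have hz := hmU u hu
          have hz' : Commute (u * m * u⁻¹ * m⁻¹) (u * t * u⁻¹) :=
            ((Subgroup.mem_center_iff.1 hz) _).symm
          have e7 : m = (u * m * u⁻¹ * m⁻¹)⁻¹ * (u * m * u⁻¹) := by group
          rw [e7]
          exact hz'.inv_left.mul_left h6
        exact hv (hinter x hx hn v hvU (hUn v hvU))
    · have h2 : U ≤ W := h1.ge.trans inf_le_left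
      have h3 : y ∈ U := mem_centralizer_singleton'.2
        (mem_centralizer_singleton'.1 (h2 hvU)).symm
      exact hy h3
  -- images of the other centralisers have prime order, the index of the image of `U`
  have hUne : U.map π ≠ ⊥ := fun h1 => hv (by
    have h2 : π v ∈ U.map π := ⟨v, hvU, rfl⟩
    rw [h1, Subgroup.mem_bot] at h2
    exact (QuotientGroup.eq_one_iff v).1 h2)
  haveI hKn : (U.map π).Normal := hvn.map π (QuotientGroup.mk'_surjective Z)
  have hcompl : ∀ y, y ∉ Z → ¬ (Subgroup.centralizer ({y} : Set X)).Normal →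
      (U.map π).IsComplement' ((Subgroup.centralizer ({y} : Set X)).map π) := by
    intro y hy hyn
    refine Subgroup.isComplement'_of_disjoint_and_mul_eq_univ ?_ ?_
    · rw [Subgroup.disjoint_def]
      rintro _ ⟨u, hu, rfl⟩ h2
      rw [hmem _ (center_le_centralizer' y)] at h2
      exact (QuotientGroup.eq_one_iff u).2 (hinter y hy hyn u hu h2)
    · rw [← Subgroup.normal_mul, ← Subgroup.map_sup, sup_comm, hsup y hy hyn,
        Subgroup.map_top_of_surjective _ (QuotientGroup.mk'_surjective Z), Subgroup.coe_top]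
  have hprime : ∀ y, y ∉ Z → ¬ (Subgroup.centralizer ({y} : Set X)).Normal →
      (Nat.card ((Subgroup.centralizer ({y} : Set X)).map π)).Prime := by
    intro y hy hyn
    set C := Subgroup.centralizer ({y} : Set X) with hC
    have hne : C.map π ≠ ⊥ := fun h1 => hy (by
      have h2 : π y ∈ C.map π := ⟨y, mem_centralizer_singleton'.2 (Commute.refl y), rfl⟩
      rw [h1, Subgroup.mem_bot] at h2
      exact (QuotientGroup.eq_one_iff y).1 h2)
    obtain ⟨r, hr, hrd⟩ := Nat.exists_prime_and_dvd (fun h1 => hne (Subgroup.card_eq_one.1 h1))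
    haveI : Fact r.Prime := ⟨hr⟩
    obtain ⟨⟨_, c, hc, rfl⟩, hco⟩ := exists_prime_orderOf_dvd_card' (G := C.map π) r hrd
    rw [← Subgroup.orderOf_coe] at hco
    change orderOf (π c) = r at hco
    have hcZ : c ∉ Z := fun hcz => by
      rw [show π c = 1 from (QuotientGroup.eq_one_iff c).2 hcz, orderOf_one] at hco
      exact hr.one_lt.ne hco
    have hcU : c ∉ U := fun hcU => hcZ (hinter y hy hyn c hcU hc)
    set W := (Subgroup.zpowers (π c) ⊔ U.map π).comap π with hW
    have hUW : U ≤ W := fun u hu => Subgroup.mem_sup_right ⟨u, hu, rfl⟩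
    have hWn : W.Normal := by
      refine Subgroup.Normal.comap ⟨fun a ha g => ?_⟩ π
      rw [← SetLike.mem_coe, Subgroup.mul_normal] at ha ⊢
      obtain ⟨k, hk, w, hw, rfl⟩ := ha
      obtain ⟨i, rfl⟩ := hk
      obtain ⟨n, hn'⟩ := (Subgroup.isComplement'_def.1 (hcompl y hy hyn)).2 g
      obtain ⟨⟨n1, hn1⟩, ⟨n2, hn2⟩⟩ := n
      simp only at hn'
      obtain ⟨d, hd, rfl⟩ := hn2
      have hcd : Commute (π d) ((π c) ^ i) := ((h.ab y hy hyn d hd c hc).map π).zpow_right i
      refine ⟨(π c) ^ i, ⟨i, rfl⟩, ((π c) ^ i)⁻¹ * (g * ((π c) ^ i * w) * g⁻¹), ?_, by simp only; group⟩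
      have e : ((π c) ^ i)⁻¹ * (g * ((π c) ^ i * w) * g⁻¹) =
          (((π c) ^ i)⁻¹ * n1 * (π c) ^ i) * ((π d * w * (π d)⁻¹) * n1⁻¹) := by
        rw [← hn', show n1 * π d * ((π c) ^ i * w) * (n1 * π d)⁻¹ =
          n1 * (π d * (π c) ^ i) * w * (π d)⁻¹ * n1⁻¹ by group, hcd.eq]
        group
      rw [e]
      refine mul_mem ?_ (mul_mem (hKn.conj_mem _ hw _) (inv_mem hn1))
      have := hKn.conj_mem _ hn1 (((π c) ^ i)⁻¹)
      rwa [inv_inv] at this
    have hWtop : W = ⊤ := by
      rcases h.key W hWn ((center_le_centralizer' v).trans hUW) v hv with h1 | h1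
      · exact absurd (h1 (Subgroup.mem_sup_left (Subgroup.mem_zpowers _) : c ∈ W)) hcU
      · rwa [sup_of_le_right hUW] at h1
    have heq : C.map π = Subgroup.zpowers (π c) := by
      refine le_antisymm ?_ (Subgroup.zpowers_le.2 ⟨c, hc, rfl⟩)
      rintro _ ⟨d, hd, rfl⟩
      have h2 : π d ∈ Subgroup.zpowers (π c) ⊔ U.map π :=
        (hWtop.ge (Subgroup.mem_top d) : d ∈ W)
      rw [← SetLike.mem_coe, Subgroup.mul_normal] at h2
      obtain ⟨a, ha, w, hw, hd'⟩ := h2
      have hwC : w ∈ C.map π := by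
        rw [show w = a⁻¹ * π d by rw [← hd']; group]
        exact mul_mem (inv_mem (Subgroup.zpowers_le.2 (⟨c, hc, rfl⟩ : π c ∈ C.map π) ha)) ⟨d, hd, rfl⟩
      rw [← hd', Subgroup.disjoint_def.1 (hcompl y hy hyn).disjoint hw hwC]
      simpa using ha
    rw [heq, Nat.card_zpowers, hco]
    exact hr
  set Q := (Subgroup.centralizer ({x} : Set X)).map π with hQ
  have hQp := hprime x hx hn
  have hQidx : ∀ y, y ∉ Z → ¬ (Subgroup.centralizer ({y} : Set X)).Normal →
      Nat.card ((Subgroup.centralizer ({y} : Set X)).map π) = (U.map π).index := fun y hy hyn =>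
    (hcompl y hy hyn).symm.index_eq_card.symm
  -- the image of `U` is elementary abelian
  obtain ⟨p, hp, hpd⟩ := Nat.exists_prime_and_dvd
    (show Nat.card (U.map π) ≠ 1 from fun h1 => hUne (Subgroup.card_eq_one.1 h1))
  haveI : Fact p.Prime := ⟨hp⟩
  let L : Subgroup X :=
    { carrier := {g | g ∈ U ∧ g ^ p ∈ Z}
      one_mem' := ⟨one_mem U, by rw [one_pow]; exact one_mem Z⟩
      mul_mem' := fun {a b} ha hb => ⟨mul_mem ha.1 hb.1, by
        rw [(hUab a ha.1 b hb.1).mul_pow]; exact mul_mem ha.2 hb.2⟩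
      inv_mem' := fun {a} ha => ⟨inv_mem ha.1, by rw [inv_pow]; exact inv_mem ha.2⟩ }
  haveI : L.Normal := ⟨fun a ha g => ⟨hvn.conj_mem a ha.1 g, by
    rw [conj_pow]; exact (inferInstance : (Subgroup.center X).Normal).conj_mem _ ha.2 g⟩⟩
  have hLU : L = U := by
    refine (hminU L inferInstance (fun z hz => ⟨center_le_centralizer' v hz, pow_mem hz p⟩)
      fun g hg => hg.1).resolve_left fun h1 => ?_
    obtain ⟨⟨_, n, hn', rfl⟩, ho⟩ := exists_prime_orderOf_dvd_card' (G := U.map π) p hpd
    rw [← Subgroup.orderOf_coe] at ho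
    change orderOf (π n) = p at ho
    have h2 : n ∈ L := ⟨hn', by
      rw [← QuotientGroup.eq_one_iff, QuotientGroup.mk_pow]
      exact orderOf_dvd_iff_pow_eq_one.1 (dvd_of_eq ho)⟩
    rw [h1] at h2
    rw [show π n = 1 from (QuotientGroup.eq_one_iff n).2 h2, orderOf_one] at ho
    exact hp.one_lt.ne ho
  have hexp : ∀ u ∈ U.map π, u ^ p = 1 := by
    rintro _ ⟨n, hn', rfl⟩
    rw [← map_pow]
    exact (QuotientGroup.eq_one_iff _).2 (hLU.ge hn').2
  have hKp : IsPGroup p (U.map π) := fun u => ⟨1, Subtype.ext (by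
    rw [Subgroup.coe_pow, pow_one]; exact hexp u u.2)⟩
  set r := Nat.card Q with hr
  haveI : Fact r.Prime := ⟨hQp⟩
  have hrp : r ≠ p := by
    intro heq
    obtain ⟨a, ha⟩ := IsPGroup.iff_card.1 hKp
    have hP : IsPGroup p (X ⧸ Z) := IsPGroup.of_card (n := a + 1) (by
      rw [← Subgroup.card_mul_index (U.map π), ← hQidx x hx hn, ← hQ, ← hr, ha, heq, pow_succ])
    haveI := hP.isNilpotent
    haveI : Group.IsNilpotent X := Group.of_quotient_center_nilpotent this
    obtain ⟨g, -, hg, hgn⟩ := exists_normalizing_of_nilpotent (U := (⊤ : Subgroup X))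
      (Subgroup.isNilpotent _) (lt_top_iff_ne_top.2 (center_lt_or hx))
    exact hg (h.self x hx hn hgn)
  have hrK : ¬ r ∣ Nat.card (U.map π) := fun hd => by
    obtain ⟨a, ha⟩ := IsPGroup.iff_card.1 hKp
    rw [ha] at hd
    exact hrp ((Nat.prime_dvd_prime_iff_eq hQp hp).1 (hQp.dvd_of_dvd_pow hd))
  have hinj : ∀ g, MulAut.conj g • Q = Q → g ∈ Q := by
    intro g hg
    obtain ⟨y, rfl⟩ := QuotientGroup.mk_surjective g
    refine ⟨y, h.self x hx hn (Subgroup.mem_normalizer_fintype fun t ht => ?_), rfl⟩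
    rw [SetLike.mem_coe, ← hmem _ (center_le_centralizer' x), ← hQ, ← hg]
    refine ⟨π t, ⟨t, ht, rfl⟩, ?_⟩
    simp [hπ]
  refine ⟨Q, U.map π, p, hp, ⟨?_, ?_, ?_⟩, hQp, hKn, ?_, ⟨?_, hexp⟩⟩
  · intro h1
    rw [hr, h1, Subgroup.card_bot] at hQp
    exact Nat.not_prime_one hQp
  · intro h1
    apply hUne
    rw [← disjoint_top, ← h1]
    exact (hcompl x hx hn).disjoint
  · intro g hg
    rw [← Subgroup.card_eq_one]
    rcases (Nat.dvd_prime hQp).1 (Subgroup.card_dvd_of_le (inf_le_left : Q ⊓ MulAut.conj g • Q ≤ Q))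
      with h1 | h1
    · exact h1
    · exfalso
      have hle : Q ≤ MulAut.conj g • Q := by
        have h2 : Q ⊓ MulAut.conj g • Q = Q := Subgroup.eq_of_le_of_card_ge inf_le_left h1.ge
        exact h2.ge.trans inf_le_right
      exact hg (hinj g (Subgroup.eq_of_le_of_card_ge hle
        (Nat.card_congr (Subgroup.equivSMul (MulAut.conj g) Q).toEquiv).ge).symm)
  · ext u
    constructor
    · intro hu
      by_cases hu1 : u = 1
      · exact Or.inl hu1
      refine Or.inr fun g hg => hu1 ?_
      obtain ⟨q, hq, hqu⟩ := hg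
      have hq' : q ∈ U.map π := by
        have : q = g⁻¹ * u * g := by rw [← hqu]; simp [mul_assoc]
        rw [this]
        have := hKn.conj_mem u hu g⁻¹
        rwa [inv_inv] at this
      rw [Subgroup.disjoint_def.1 (hcompl x hx hn).disjoint hq' hq] at hqu
      rw [← hqu]
      simp
    · intro hu
      by_contra huK
      rcases hu with rfl | hu
      · exact huK (one_mem _)
      obtain ⟨y, rfl⟩ := QuotientGroup.mk_surjective u
      have hyU : y ∉ U := fun hy => huK ⟨y, hy, rfl⟩
      have hyZ : y ∉ Z := fun hc => hyU (center_le_centralizer' v hc)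
      have hyn := houtside y hyU
      set Q' := (Subgroup.centralizer ({y} : Set X)).map π with hQ'
      have hQ'c : Nat.card Q' = r := by rw [hr, hQ, hQidx y hyZ hyn, hQidx x hx hn]
      have hQc : Nat.card Q = r := rfl
      have hsyl : r ^ (Nat.card (X ⧸ Z)).factorization r = r := by
        rw [← Subgroup.card_mul_index (U.map π), ← hQidx x hx hn, ← hQ, hQc,
          Nat.factorization_mul Nat.card_pos.ne' hQp.ne_zero, Finsupp.add_apply,
          Nat.factorization_eq_zero_of_not_dvd hrK, hQp.factorization_self, zero_add, pow_one]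
      let S := Sylow.ofCard Q (hQc.trans hsyl.symm)
      let S' := Sylow.ofCard Q' (hQ'c.trans hsyl.symm)
      obtain ⟨g, hg⟩ := MulAction.exists_smul_eq (X ⧸ Z) S S'
      refine hu g ?_
      have h1 : (π y) ∈ ((g • S : Sylow r (X ⧸ Z)) : Subgroup (X ⧸ Z)) := by
        rw [hg]; exact ⟨y, mem_centralizer_singleton'.2 (Commute.refl y), rfl⟩
      exact h1
  · refine ⟨⟨fun a b => Subtype.ext ?_⟩⟩
    obtain ⟨c, hc, hca⟩ := a.2
    obtain ⟨d, hd, hdb⟩ := b.2
    show (a : X ⧸ Z) * b = b * a
    rw [← hca, ← hdb, ← map_mul, ← map_mul, (hUab c hc d hd).eq]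

namespace MaxCentIn

variable {G : Type*} [Group G] [Finite G] {N : Subgroup G} [hN : N.Normal]

theorem not_mem_centralizer {x : N} (hx : x ∉ Subgroup.center N) :
    (x : G) ∉ Subgroup.centralizer (N : Set G) := fun hc =>
  hx (Subgroup.mem_center_iff.2 fun n => Subtype.ext (Subgroup.mem_centralizer_iff.1 hc n n.2))

theorem centralizer_subgroupOf (x : N) :
    Subgroup.centralizer ({x} : Set N) =
      (N ⊓ Subgroup.centralizer ({(x : G)} : Set G)).subgroupOf N := by
  ext n
  rw [Subgroup.mem_subgroupOf, Subgroup.mem_inf, mem_centralizer_singleton', mem_centralizer_singleton']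
  exact ⟨fun h => ⟨n.2, congrArg Subtype.val h⟩, fun h => Subtype.ext h.2.eq⟩

theorem facts (h : MaxCentIn N) : CentFacts N := by
  have hnn : ∀ x : N, ¬ (Subgroup.centralizer ({x} : Set N)).Normal →
      ¬ (N ⊓ Subgroup.centralizer ({(x : G)} : Set G)).Normal := by
    intro x hn hN'
    apply hn
    rw [centralizer_subgroupOf]
    exact Subgroup.normal_subgroupOf
  refine ⟨fun L hL hZL x hx => ?_, fun x hx => ?_, fun x hx hn a ha b hb => ?_, fun x hx hn g hg => ?_⟩
  · set L' := L.map N.subtype with hL'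
    have hL'n : L'.Normal := by
      refine h.normal_of_le_normalizer (Subgroup.map_subtype_le L) ?_ ?_
      · rintro z ⟨hzN, hzc⟩
        refine ⟨⟨z, hzN⟩, hZL (Subgroup.mem_center_iff.2 fun n => Subtype.ext ?_), rfl⟩
        exact Subgroup.mem_centralizer_iff.1 hzc n n.2
      · rw [← Subgroup.normal_subgroupOf_iff_le_normalizer (Subgroup.map_subtype_le L), Subgroup.subgroupOf,
          Subgroup.comap_map_eq_self_of_injective N.subtype_injective]
        exact hL
    rcases ((h (x : G) x.2 (not_mem_centralizer hx)).le_iff).1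
      (le_sup_left : _ ≤ Subgroup.centralizer ({(x : G)} : Set G) ⊔ L') with h1 | h1
    · right
      refine top_le_iff.1 fun n _ => ?_
      haveI := hL'n
      have h2 : (n : G) ∈ Subgroup.centralizer ({(x : G)} : Set G) ⊔ L' := by
        rw [h1]; exact Subgroup.mem_top _
      rw [← SetLike.mem_coe, Subgroup.mul_normal] at h2
      obtain ⟨c, hc, _, ⟨l, hl, rfl⟩, hcl⟩ := h2
      have hcl' : c * (l : G) = (n : G) := hcl
      have hcN : c ∈ N := by
        rw [show c = (n : G) * (l : G)⁻¹ by rw [← hcl']; group]; exact mul_mem n.2 (inv_mem l.2)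
      rw [show n = (⟨c, hcN⟩ : N) * l from Subtype.ext hcl'.symm]
      refine mul_mem (Subgroup.mem_sup_left (mem_centralizer_singleton'.2 ?_)) (Subgroup.mem_sup_right hl)
      exact Subtype.ext (mem_centralizer_singleton'.1 hc).eq
    · left
      intro l hl
      have h3 : (l : G) ∈ Subgroup.centralizer ({(x : G)} : Set G) :=
        h1.le (Subgroup.mem_sup_right ⟨l, hl, rfl⟩)
      exact mem_centralizer_singleton'.2 (Subtype.ext (mem_centralizer_singleton'.1 h3).eq)
  · haveI := h.nilpotent x.2 (not_mem_centralizer hx)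
    rw [centralizer_subgroupOf]
    exact Group.nilpotent_of_mulEquiv (Subgroup.subgroupOfEquivOfLe inf_le_left).symm
  · rw [centralizer_subgroupOf] at ha hb
    exact Subtype.ext (h.commute_of_not_normal x.2 (not_mem_centralizer hx) (hnn x hn) ha hb).eq
  · have h1 := ((h (x : G) x.2 (not_mem_centralizer hx)).le_iff).1
      (centralizer_le_normalizer_inf (N := N) (x : G))
    have h2 : Subgroup.normalizer ((N ⊓ Subgroup.centralizer ({(x : G)} : Set G) : Subgroup G) : Set G) =
        Subgroup.centralizer ({(x : G)} : Set G) :=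
      h1.resolve_left fun h' => hnn x hn (Subgroup.normalizer_eq_top_iff.1 h')
    rw [centralizer_subgroupOf] at hg ⊢
    refine Subgroup.mem_subgroupOf.2 (Subgroup.mem_inf.2 ⟨g.2, ?_⟩)
    rw [← h2]
    rw [Subgroup.mem_normalizer_iff] at hg ⊢
    intro t
    constructor
    · intro ht
      exact (hg ⟨t, ht.1⟩).1 ht
    · intro ht
      have htN : t ∈ N := by
        have := mul_mem (mul_mem (inv_mem g.2) ht.1) g.2
        simpa [mul_assoc] using this
      exact (hg ⟨t, htN⟩).2 ht

end MaxCentIn

end Cfsg.Agent.H85
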