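import Mathlib
import Cfsg.Agent.H85.PrimePowerCoset

/-!
# Prime power orders and maximal centralisers outside a normal subgroup
-/

set_option autoImplicit false
set_option linter.unusedSectionVars false
set_option linter.style.haveILetI false

namespace Cfsg.Agent.H85

variable {G : Type*} [Group G] [Finite G]

/-- If `|G : N|` is prime and every element outside `N` has prime power order and maximal
centraliser, then `G` is solvable. -/
theorem isSolvable_of_prime_index (N : Subgroup G) [N.Normal] {s : ℕ} [hs : Fact s.Prime]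
    (hidx : N.index = s)
    (h : ∀ x : G, x ∉ N → IsPrimePow (orderOf x) ∧
      IsCoatom (Subgroup.centralizer ({x} : Set G))) :
    Group.IsSolvable G := by
  classical
  have h0 : ∀ x : G, x ∉ N → IsPrimePow (orderOf x) := fun x hx => (h x hx).1
  by_cases hG : IsPGroup s G
  · haveI := hG.isNilpotent
    infer_instance
  -- elements of order prime to `s` lie in `N`
  have hmem : ∀ w : G, ¬ s ∣ orderOf w → w ∈ N := by
    intro w hw
    rw [← QuotientGroup.eq_one_iff, ← orderOf_eq_one_iff]
    have h2 : orderOf (w : G ⧸ N) ∣ s := by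
      rw [← hidx, Subgroup.index_eq_card]; exact orderOf_dvd_natCard _
    refine Nat.eq_one_of_dvd_coprimes (hs.out.coprime_iff_not_dvd.2 hw) h2 ?_
    exact orderOf_map_dvd (QuotientGroup.mk' N) w
  have hord : ∀ x : G, x ∉ N → ∃ k, orderOf x = s ^ k := by
    intro x hx
    obtain ⟨r, k, hr, -, hk⟩ := (isPrimePow_nat_iff _).1 (h0 x hx)
    refine ⟨k, ?_⟩
    by_cases hrs : r = s
    · rw [← hk, hrs]
    · exact absurd (hmem x (fun hd => hrs (((Nat.prime_dvd_prime_iff_eq hs.out hr).1
        (hs.out.dvd_of_dvd_pow (hk ▸ hd))).symm))) hx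
  -- centralisers of outside elements are Sylow subgroups
  have hC : ∀ x : G, x ∉ N → ∃ T : Sylow s G,
      (T : Subgroup G) = Subgroup.centralizer ({x} : Set G) := by
    intro x hx
    have hCp : IsPGroup s (Subgroup.centralizer ({x} : Set G)) := by
      rintro ⟨y, hy⟩
      obtain ⟨u, v, huv, hcuv, ⟨k, hk⟩, hv, hvy⟩ := exists_prime_part hs.out y
      obtain ⟨b, n, hn, hon⟩ :=
        Nat.exists_eq_pow_mul_and_not_dvd (orderOf_pos y).ne' s hs.out.one_lt.ne'
      refine ⟨b, Subtype.ext ?_⟩
      show y ^ s ^ b = 1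
      have hxy : Commute x y := (Subgroup.mem_centralizer_singleton_iff.1 hy).symm
      have hyo : orderOf (y ^ s ^ b) ∣ n :=
        orderOf_dvd_of_pow_eq_one (by rw [← pow_mul, ← hon, pow_orderOf_eq_one])
      refine eq_one_of_commute_of_outside h0 hx (hmem _ fun hd => hn (hd.trans hyo))
        (hxy.pow_right _) ?_
      obtain ⟨i, hi⟩ := hord x hx
      rw [hi]
      exact Nat.Coprime.coprime_dvd_right hyo ((hs.out.coprime_iff_not_dvd.2 hn).pow_left i)
    obtain ⟨T, hT⟩ := hCp.exists_le_sylow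
    refine ⟨T, ((h x hx).2.le_iff_eq ?_).1 hT⟩
    intro htop
    exact hG ((IsPGroup.iff_orderOf).2 fun g => by
      obtain ⟨k, hk⟩ := IsPGroup.iff_orderOf.1 T.isPGroup' ⟨g, htop.symm ▸ Subgroup.mem_top g⟩
      exact ⟨k, by rwa [Subgroup.orderOf_mk] at hk⟩)
  -- normalisers of `s`-subgroups outside `N` are `s`-groups
  have hND : ∀ D : Subgroup G, IsPGroup s D → ¬ D ≤ N →
      IsPGroup s (Subgroup.normalizer (D : Set G)) := by
    intro D hD hDN
    by_contra hn
    rw [IsPGroup.iff_card] at hn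
    obtain ⟨r, hr, hrs, hrd⟩ : ∃ r, r.Prime ∧ r ≠ s ∧
        r ∣ Nat.card (Subgroup.normalizer (D : Set G)) := by
      by_contra hno
      push Not at hno
      exact hn ⟨_, Nat.eq_prime_pow_of_unique_prime_dvd Nat.card_pos.ne'
        (fun {d} hd hdd => by
          by_contra hne
          exact hno d hd hne hdd)⟩
    haveI : Fact r.Prime := ⟨hr⟩
    obtain ⟨⟨w, hw⟩, hwo⟩ := exists_prime_orderOf_dvd_card' r hrd
    rw [Subgroup.orderOf_mk] at hwo
    have hwN : w ∈ N := hmem w (by
      rw [hwo]; exact fun hd => hrs ((Nat.prime_dvd_prime_iff_eq hs.out hr).1 hd).symm)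
    obtain ⟨d, hd, hdN⟩ := SetLike.not_le_iff_exists.1 hDN
    -- the coset `d (D ∩ N)` is invariant under conjugation by `w`
    have hwD : ∀ g ∈ Subgroup.zpowers w, ∀ y ∈ D, g * y * g⁻¹ ∈ D := fun g hg y hy =>
      (Subgroup.mem_normalizer_iff.1 (Subgroup.zpowers_le.2 hw hg) y).1 hy
    have hwN' : ∀ g ∈ Subgroup.zpowers w, g ∈ N := fun g hg => Subgroup.zpowers_le.2 hwN hg
    let X := {y : G // y ∈ D ∧ d⁻¹ * y ∈ N}
    letI : MulAction (Subgroup.zpowers w) X :=
      { smul := fun g y => ⟨(g : G) * y.1 * (g : G)⁻¹, hwD g g.2 y.1 y.2.1, by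
          have h1 : d⁻¹ * (g : G) * d ∈ N := by
            simpa using (inferInstance : N.Normal).conj_mem _ (hwN' g g.2) d⁻¹
          have h2 := N.mul_mem (N.mul_mem h1 y.2.2) (N.inv_mem (hwN' g g.2))
          simpa [mul_assoc] using h2⟩
        one_smul := fun y => Subtype.ext (by show ((1 : Subgroup.zpowers w) : G) * y.1 * _ = _; simp)
        mul_smul := fun a b y => Subtype.ext (by
          show ((a * b : Subgroup.zpowers w) : G) * y.1 * _ = (a : G) * ((b : G) * y.1 * _) * _
          simp [mul_assoc]) }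
    have hXcard : Nat.card X = Nat.card ↥(D ⊓ N) := by
      refine Nat.card_congr ⟨fun y => ⟨d⁻¹ * y.1, D.mul_mem (D.inv_mem hd) y.2.1, y.2.2⟩,
        fun z => ⟨d * z.1, D.mul_mem hd z.2.1, by simpa using z.2.2⟩, fun y => by simp,
        fun z => by simp⟩
    have hrp : IsPGroup r (Subgroup.zpowers w) :=
      IsPGroup.of_card (n := 1) (by rw [Nat.card_zpowers, hwo, pow_one])
    have hfix := hrp.card_modEq_card_fixedPoints X
    have hne : Nonempty (MulAction.fixedPoints (Subgroup.zpowers w) X) := by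
      by_contra hem
      rw [not_nonempty_iff] at hem
      rw [Nat.card_of_isEmpty (α := MulAction.fixedPoints (Subgroup.zpowers w) X),
        Nat.modEq_zero_iff_dvd, hXcard] at hfix
      obtain ⟨k, hk⟩ := IsPGroup.iff_card.1 (hD.to_le (inf_le_left : D ⊓ N ≤ D))
      rw [hk] at hfix
      exact hrs ((Nat.prime_dvd_prime_iff_eq hr hs.out).1 (hr.dvd_of_dvd_pow hfix))
    obtain ⟨⟨y, hyD, hyN⟩, hy⟩ := hne
    have hyout : y ∉ N := fun hh => hdN (by
      have := N.mul_mem hh (N.inv_mem hyN)
      simpa using this)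
    have hyw : Commute y w := by
      have := congrArg Subtype.val (hy ⟨w, Subgroup.mem_zpowers w⟩)
      have h1 : w * y * w⁻¹ = y := this
      exact (mul_inv_eq_iff_eq_mul.1 h1).symm
    have := eq_one_of_commute_of_outside h0 hyout hwN hyw (by
      obtain ⟨i, hi⟩ := hord y hyout
      rw [hi, hwo]
      exact ((Nat.coprime_primes hs.out hr).2 (Ne.symm hrs)).pow_left i)
    rw [this, orderOf_one] at hwo
    exact hr.one_lt.ne hwo
  -- two Sylow subgroups meet inside `N`
  have hTI : ∀ S T : Sylow s G, ¬ (S : Subgroup G) ⊓ (T : Subgroup G) ≤ N → S = T := by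
    by_contra hex
    push Not at hex
    obtain ⟨⟨S, T⟩, hmem', hmax⟩ := Set.exists_max_image
      {ST : Sylow s G × Sylow s G | ¬ (ST.1 : Subgroup G) ⊓ (ST.2 : Subgroup G) ≤ N ∧ ST.1 ≠ ST.2}
      (fun ST => Nat.card ↥((ST.1 : Subgroup G) ⊓ (ST.2 : Subgroup G))) (Set.toFinite _)
      (by obtain ⟨S, T, h1, h2⟩ := hex; exact ⟨(S, T), h1, h2⟩)
    obtain ⟨hDN, hne⟩ := hmem'
    set D := (S : Subgroup G) ⊓ (T : Subgroup G) with hD
    obtain ⟨U, hU⟩ := (hND D (S.isPGroup'.to_le inf_le_left) hDN).exists_le_sylow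
    have step : ∀ V : Sylow s G, D ≤ (V : Subgroup G) → D ≠ (V : Subgroup G) → U = V := by
      intro V hDV hDV'
      haveI := V.isPGroup'.isNilpotent
      have hlt : D.subgroupOf (V : Subgroup G) < ⊤ := lt_top_iff_ne_top.2 fun he =>
        hDV' (le_antisymm hDV (Subgroup.subgroupOf_eq_top.1 he))
      have := Group.normalizerCondition_of_isNilpotent (G := (V : Subgroup G)) _ hlt
      obtain ⟨z, hz, hzD⟩ := SetLike.exists_of_lt this
      have hzn : (z : G) ∈ Subgroup.normalizer (D : Set G) := by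
        rw [Subgroup.mem_normalizer_iff]
        intro y
        constructor
        · intro hy
          exact (Subgroup.mem_normalizer_iff.1 hz ⟨y, hDV hy⟩).1 hy
        · intro hy
          have hyV : y ∈ (V : Subgroup G) := by
            have := (V : Subgroup G).mul_mem ((V : Subgroup G).mul_mem
              ((V : Subgroup G).inv_mem z.2) (hDV hy)) z.2
            simpa [mul_assoc] using this
          exact (Subgroup.mem_normalizer_iff.1 hz ⟨y, hyV⟩).2 hy
      by_contra hUV
      have hle : D ≤ (U : Subgroup G) ⊓ (V : Subgroup G) :=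
        le_inf (Subgroup.le_normalizer.trans hU) hDV
      have hlt' : D < (U : Subgroup G) ⊓ (V : Subgroup G) :=
        lt_of_le_of_ne hle fun he => hzD (he.symm ▸ ⟨hU hzn, z.2⟩ : (z : G) ∈ D)
      have := hmax (U, V) ⟨fun hn => hDN (hle.trans hn), hUV⟩
      have h2 : Nat.card ↥D < Nat.card ↥((U : Subgroup G) ⊓ (V : Subgroup G)) := by
        refine lt_of_le_of_ne (Nat.le_of_dvd Nat.card_pos (Subgroup.card_dvd_of_le hle)) fun he => ?_
        exact hlt'.ne (Subgroup.eq_of_le_of_card_ge hle he.ge)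
      exact absurd this (not_le.2 h2)
    apply hne
    have hS : D ≠ (S : Subgroup G) := fun he => hne (Sylow.ext
      (S.is_maximal' T.isPGroup' (he ▸ inf_le_right)).symm)
    have hT : D ≠ (T : Subgroup G) := fun he => hne (Sylow.ext
      (T.is_maximal' S.isPGroup' (he ▸ inf_le_left)))
    rw [← step S inf_le_left hS, ← step T inf_le_right hT]
  obtain ⟨S⟩ := (inferInstance : Nonempty (Sylow s G))
  have hSN : ¬ (S : Subgroup G) ≤ N := by
    intro hle
    apply S.not_dvd_index
    rw [← Subgroup.relIndex_mul_index hle, hidx]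
    exact dvd_mul_left _ _
  -- `S` is abelian
  have hcen : ∀ x ∈ (S : Subgroup G), x ∉ N →
      (S : Subgroup G) = Subgroup.centralizer ({x} : Set G) := by
    intro x hx hxN
    obtain ⟨T, hT⟩ := hC x hxN
    rw [← hT, hTI S T fun hle => hxN (hle ⟨hx, hT.symm ▸ Subgroup.mem_centralizer_singleton_iff.2 rfl⟩)]
  obtain ⟨x₀, hx₀, hx₀N⟩ := SetLike.not_le_iff_exists.1 hSN
  have hcomm : ∀ a ∈ (S : Subgroup G), ∀ b ∈ (S : Subgroup G), b * a = a * b := by
    have hcase : ∀ a ∈ (S : Subgroup G), a ∉ N → ∀ b ∈ (S : Subgroup G), b * a = a * b := by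
      intro a ha haN b hb
      rw [hcen a ha haN] at hb
      exact Subgroup.mem_centralizer_singleton_iff.1 hb
    intro a ha b hb
    by_cases haN : a ∈ N
    · have h1 : x₀ * a ∉ N := fun hh => hx₀N (by simpa using N.mul_mem hh (N.inv_mem haN))
      have h2 := hcase _ ((S : Subgroup G).mul_mem hx₀ ha) h1 b hb
      have h3 := hcase _ hx₀ hx₀N b hb
      apply mul_left_cancel (a := x₀)
      rw [← mul_assoc, ← h3, mul_assoc, h2, mul_assoc]
    · exact hcase a ha haN b hb
  have hco : IsCoatom (S : Subgroup G) := hcen x₀ hx₀ hx₀N ▸ (h x₀ hx₀N).2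
  by_cases hnor : (S : Subgroup G).Normal
  · haveI := hnor
    haveI := S.isPGroup'.isNilpotent
    refine (Group.isSolvable_iff_subgroup_quotient (S : Subgroup G)).2 ⟨inferInstance, ?_⟩
    -- a quotient by a maximal subgroup has no proper nontrivial subgroups
    haveI : IsCyclic (G ⧸ (S : Subgroup G)) := by
      obtain ⟨z, hz⟩ : ∃ z, z ∉ (S : Subgroup G) :=
        SetLike.exists_not_mem_of_ne_top _ hco.1
      refine ⟨⟨(z : G ⧸ (S : Subgroup G)), fun y => ?_⟩⟩
      have htop : (Subgroup.zpowers (z : G ⧸ (S : Subgroup G))).comap (QuotientGroup.mk' _) = ⊤ := by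
        refine hco.2 _ (lt_of_le_of_ne (fun v hv => ?_) fun he => hz ?_)
        · show (v : G ⧸ (S : Subgroup G)) ∈ Subgroup.zpowers _
          rw [(QuotientGroup.eq_one_iff v).2 hv]; exact Subgroup.one_mem _
        · rw [he]; exact Subgroup.mem_zpowers _
      obtain ⟨v, rfl⟩ := QuotientGroup.mk_surjective y
      exact (htop.symm ▸ Subgroup.mem_top v : v ∈ (Subgroup.zpowers _).comap _)
    exact Group.isSolvable_of_comm fun a b => (IsCyclic.commGroup.mul_comm a b)
  have hNS : Subgroup.normalizer ((S : Subgroup G) : Set G) = (S : Subgroup G) := by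
    rcases hco.le_iff.1 (Subgroup.le_normalizer (H := (S : Subgroup G))) with h1 | h1
    · exact absurd (Subgroup.normalizer_eq_top_iff.1 h1) hnor
    · exact h1
  have hle : Subgroup.normalizer ((S : Subgroup G) : Set G) ≤
      Subgroup.centralizer ((S : Subgroup G) : Set G) := by
    rw [hNS]; exact fun a ha b hb => hcomm a ha b hb
  set K := (MonoidHom.transferSylow S hle).ker with hK
  have hKc : Subgroup.IsComplement' K (S : Subgroup G) :=
    MonoidHom.ker_transferSylow_isComplement' S hle
  suffices hKn : Group.IsNilpotent K by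
    haveI := hKn
    haveI := S.isPGroup'.isNilpotent
    refine (Group.isSolvable_iff_subgroup_quotient K).2 ⟨inferInstance, ?_⟩
    exact Group.isSolvable_of_surjective (f := (QuotientGroup.mk' K).comp (S : Subgroup G).subtype)
      fun z => by
        obtain ⟨g, rfl⟩ := QuotientGroup.mk_surjective z
        obtain ⟨⟨k, v⟩, hkv⟩ := hKc.2 g
        refine ⟨v, QuotientGroup.eq.2 ?_⟩
        rw [← hkv]
        simpa [mul_assoc] using (inferInstance : K.Normal).conj_mem _ k.2 ((v : G)⁻¹)
  -- all Sylow subgroups of `K` are normal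
  refine ((Group.isNilpotent_of_finite_tfae (G := K)).out 0 3 rfl rfl).2 ?_
  intro q hq Q
  haveI := hq
  haveI : Fact q.Prime := hq
  set Q' : Subgroup G := (Q : Subgroup K).map K.subtype with hQ'
  suffices hQn : Q'.Normal by
    refine ⟨fun y hy g => ?_⟩
    obtain ⟨y', hy', he⟩ := hQn.conj_mem _ ⟨y, hy, rfl⟩ (g : G)
    have : y' = g * y * g⁻¹ := Subtype.ext he
    rwa [this] at hy'
  by_cases hQb : Q' = ⊥
  · rw [hQb]; infer_instance
  rw [← Subgroup.normalizer_eq_top_iff]
  have hfr : Subgroup.normalizer (Q' : Set G) ⊔ K = ⊤ := Sylow.normalizer_sup_eq_top Q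
  obtain ⟨T⟩ := (inferInstance : Nonempty (Sylow s ↥(Subgroup.normalizer (Q' : Set G))))
  set T' := (T : Subgroup ↥(Subgroup.normalizer (Q' : Set G))).map (Subgroup.subtype _) with hT'
  obtain ⟨U, hU⟩ := (T.isPGroup'.map (Subgroup.subtype _) : IsPGroup s T').exists_le_sylow
  have hKidx : K.index = Nat.card (S : Subgroup G) := hKc.symm.index_eq_card
  have hUeq : T' = (U : Subgroup G) := by
    refine Subgroup.eq_of_le_of_card_ge hU ?_
    have h1 : Nat.card T' = Nat.card (T : Subgroup ↥(Subgroup.normalizer (Q' : Set G))) :=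
      (Nat.card_congr (Subgroup.equivMapOfInjective _ _ (Subgroup.subtype_injective _)).toEquiv).symm
    rw [h1, Sylow.card_eq_multiplicity T, Sylow.card_eq_multiplicity U]
    refine Nat.pow_le_pow_right hs.out.pos ?_
    rw [← hs.out.pow_dvd_iff_le_factorization Nat.card_pos.ne']
    calc s ^ (Nat.card G).factorization s = Nat.card (S : Subgroup G) :=
          (Sylow.card_eq_multiplicity S).symm
      _ = K.index := hKidx.symm
      _ = K.relIndex (Subgroup.normalizer (Q' : Set G)) := by
          rw [← Subgroup.relIndex_sup_left, sup_comm, hfr, Subgroup.relIndex_top_right]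
      _ ∣ Nat.card ↥(Subgroup.normalizer (Q' : Set G)) :=
          Subgroup.relIndex_dvd_card _ _
  obtain ⟨g, hg⟩ := MulAction.exists_smul_eq G S U
  have hUco : IsCoatom (U : Subgroup G) := by
    rw [← hg]
    exact (OrderIso.isCoatom_iff (MulEquiv.mapSubgroup (MulAut.conj g)) (S : Subgroup G)).2 hco
  rcases hUco.le_iff.1 (hUeq ▸ Subgroup.map_subtype_le _ :
      (U : Subgroup G) ≤ Subgroup.normalizer (Q' : Set G)) with h1 | h1
  · exact h1
  · exfalso
    apply hQb
    have hQU : Q' ≤ (U : Subgroup G) := h1 ▸ Subgroup.le_normalizer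
    have hKU : K ⊓ (U : Subgroup G) = ⊥ := by
      rw [← disjoint_iff]
      apply Subgroup.disjoint_of_coprime_natCard
      rw [Sylow.card_eq_multiplicity U, ← hKc.index_eq_card]
      exact ((hs.out.coprime_iff_not_dvd.2 S.not_dvd_index).symm).pow_right _
    rw [← le_bot_iff, ← hKU]
    exact le_inf (Subgroup.map_subtype_le _) hQU

end Cfsg.Agent.H85
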