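import Mathlib
import Cfsg.Prelude.Def_OddOrderLocal
import Cfsg.Agent.H85.GeomSum

/-!
# Finite metacyclic p-groups, p odd, in coordinates
-/

set_option autoImplicit false
set_option linter.unusedSectionVars false
set_option linter.style.haveILetI false

namespace Cfsg.Agent.H85

/-- Coordinates for a metacyclic `p`-group (`p` odd): `⟨a⟩` normal of order `p^r` with cyclic
quotient of order `p^t` generated by `b`, `b a b⁻¹ = a^u`, derived subgroup of order `p^n`. -/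
structure MetaData (G : Type*) [Group G] (p r t n : ℕ) where
  /-- generator of the normal cyclic subgroup -/
  a : G
  /-- lift of a generator of the quotient -/
  b : G
  /-- exponent of the action -/
  u : ℤ
  /-- exponent with `b^(p^t) = a^c` -/
  c : ℤ
  hp2 : p ≠ 2
  conj : b * a * b⁻¹ = a ^ u
  ha : ∀ i : ℤ, a ^ i = 1 ↔ (p : ℤ) ^ r ∣ i
  hu : (p : ℤ) ∣ u - 1
  key : ∀ x : ℤ, (p : ℤ) ^ r ∣ x * (u - 1) ↔ (p : ℤ) ^ n ∣ x
  nr : n ≤ r
  hb : ∀ j : ℕ, (∃ i : ℤ, b ^ j = a ^ i) ↔ p ^ t ∣ j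
  hbc : b ^ p ^ t = a ^ c
  repr : ∀ g : G, ∃ (i : ℤ) (j : ℕ), a ^ i * b ^ j = g

/-- A property of natural numbers closed under sums and differences is divisibility by a fixed
power of `p`, as soon as it holds of some power of `p`. -/
theorem exists_pow_of_closed {p : ℕ} (hp : p.Prime) {t : ℕ} (P : ℕ → Prop) (h0 : P 0)
    (ht : P (p ^ t)) (hadd : ∀ j l, P j → P l → P (j + l))
    (hsub : ∀ j l, P (j + l) → P l → P j) : ∃ β ≤ t, ∀ j, P j ↔ p ^ β ∣ j := by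
  classical
  have hex : ∃ m, 0 < m ∧ P m := ⟨p ^ t, pow_pos hp.pos t, ht⟩
  obtain ⟨hmpos, hmP⟩ := Nat.find_spec hex
  have hmul : ∀ q, P (Nat.find hex * q) := by
    intro q
    induction q with
    | zero => simpa using h0
    | succ q ih => rw [Nat.mul_succ]; exact hadd _ _ ih hmP
  have hiff : ∀ j, P j ↔ Nat.find hex ∣ j := by
    refine fun j => ⟨fun hj => ?_, fun ⟨q, hq⟩ => hq ▸ hmul q⟩
    rw [Nat.dvd_iff_mod_eq_zero]
    by_contra hne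
    refine Nat.find_min hex (Nat.mod_lt j hmpos) ⟨Nat.pos_of_ne_zero hne, ?_⟩
    exact hsub _ _ (by rwa [Nat.mod_add_div]) (hmul _)
  obtain ⟨β, hβ, he⟩ := (Nat.dvd_prime_pow hp).1 ((hiff _).1 ht)
  exact ⟨β, hβ, fun j => by rw [hiff j, he]⟩

namespace MetaData

variable {G : Type*} [Group G] {p r t n : ℕ} (d : MetaData G p r t n) [hp : Fact p.Prime]
include d

theorem b_pow_conj (j : ℕ) : d.b ^ j * d.a * (d.b ^ j)⁻¹ = d.a ^ (d.u ^ j) := pow_conj_of d.conj j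

theorem move (j : ℕ) (i : ℤ) : d.b ^ j * d.a ^ i = d.a ^ (d.u ^ j * i) * d.b ^ j := by
  have := conj_zpow_of (d.b_pow_conj j) i
  rw [← this]
  group

theorem mul_rule (i k : ℤ) (j l : ℕ) :
    d.a ^ i * d.b ^ j * (d.a ^ k * d.b ^ l) = d.a ^ (i + d.u ^ j * k) * d.b ^ (j + l) := by
  rw [mul_assoc, ← mul_assoc (d.b ^ j), d.move, pow_add, zpow_add]
  group

theorem eq_iff (i k : ℤ) : d.a ^ i = d.a ^ k ↔ (p : ℤ) ^ r ∣ i - k := by
  rw [← d.ha, zpow_sub, mul_inv_eq_one]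

theorem key_gsum (x : ℤ) (k : ℕ) :
    (p : ℤ) ^ r ∣ x * (d.u ^ k - 1) ↔ (p : ℤ) ^ n ∣ x * k := by
  rw [pow_sub_one_eq, show x * ((d.u - 1) * gsum d.u k) = x * gsum d.u k * (d.u - 1) by ring,
    d.key, dvd_mul_gsum_iff d.hp2 d.hu]

theorem commute_iff (i k : ℤ) (j l : ℕ) :
    Commute (d.a ^ i * d.b ^ j) (d.a ^ k * d.b ^ l) ↔
      (p : ℤ) ^ n ∣ i * gsum d.u l - k * gsum d.u j := by
  unfold Commute SemiconjBy
  rw [d.mul_rule, d.mul_rule, add_comm l j, mul_left_inj, d.eq_iff, ← d.key,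
    ← dvd_neg (b := (i * gsum d.u l - k * gsum d.u j) * (d.u - 1))]
  congr! 1
  linear_combination k * pow_sub_one_eq d.u j - i * pow_sub_one_eq d.u l

theorem commute_a_iff (k : ℤ) (l : ℕ) (x : ℤ) :
    Commute (d.a ^ x) (d.a ^ k * d.b ^ l) ↔ (p : ℤ) ^ n ∣ x * l := by
  have h := d.commute_iff x k 0 l
  rw [pow_zero, mul_one] at h
  rw [h, gsum_zero, mul_zero, sub_zero, dvd_mul_gsum_iff d.hp2 d.hu]

theorem pn_dvd_pt : (p : ℤ) ^ n ∣ (p : ℤ) ^ t := by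
  have h : Commute (d.a ^ (1 : ℤ)) (d.a ^ (0 : ℤ) * d.b ^ p ^ t) := by
    rw [zpow_zero, one_mul, d.hbc]; exact Commute.zpow_zpow_self d.a _ _
  rw [d.commute_a_iff] at h
  simpa using h

theorem nt : n ≤ t := by
  have h : p ^ n ∣ p ^ t := by exact_mod_cast d.pn_dvd_pt
  exact (Nat.pow_dvd_pow_iff_le_right hp.out.one_lt).1 h

theorem pn_dvd_c : (p : ℤ) ^ n ∣ d.c := by
  have h : Commute (d.a ^ d.c) (d.a ^ (0 : ℤ) * d.b ^ 1) := by
    rw [zpow_zero, one_mul, ← d.hbc, pow_one]; exact Commute.pow_self d.b _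
  rw [d.commute_a_iff] at h
  simpa using h

theorem pow_dvd_pow_n {s : ℕ} (hs : s ≤ n) : (p : ℤ) ^ s ∣ (p : ℤ) ^ n := pow_dvd_pow _ hs

/-- The coordinates of a subgroup: `α` and `β`. -/
def Params (L : Subgroup G) (α β : ℕ) : Prop :=
  (∀ i : ℤ, d.a ^ i ∈ L ↔ (p : ℤ) ^ α ∣ i) ∧ (∀ j : ℕ, (∃ i : ℤ, d.a ^ i * d.b ^ j ∈ L) ↔ p ^ β ∣ j)
    ∧ α ≤ r ∧ β ≤ t

theorem exists_params (L : Subgroup G) : ∃ α β, d.Params L α β := by
  have hnat : ∃ α ≤ r, ∀ j : ℕ, d.a ^ (j : ℤ) ∈ L ↔ p ^ α ∣ j := by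
    refine exists_pow_of_closed hp.out (fun j : ℕ => d.a ^ (j : ℤ) ∈ L) ?_ ?_ ?_ ?_
    · simp
    · rw [(d.ha _).2 (by simp)]; exact L.one_mem
    · intro j l hj hl; rw [Nat.cast_add, zpow_add]; exact L.mul_mem hj hl
    · intro j l hj hl
      rw [Nat.cast_add, zpow_add] at hj
      simpa using L.mul_mem hj (L.inv_mem hl)
  obtain ⟨α, hα, hαi⟩ := hnat
  have hB : ∃ β ≤ t, ∀ j : ℕ, (∃ i : ℤ, d.a ^ i * d.b ^ j ∈ L) ↔ p ^ β ∣ j := by
    refine exists_pow_of_closed hp.out (fun j : ℕ => ∃ i : ℤ, d.a ^ i * d.b ^ j ∈ L) ?_ ?_ ?_ ?_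
    · exact ⟨0, by simp⟩
    · exact ⟨-d.c, by rw [d.hbc, ← zpow_add, neg_add_cancel, zpow_zero]; exact L.one_mem⟩
    · rintro j l ⟨i, hi⟩ ⟨k, hk⟩
      exact ⟨_, d.mul_rule i k j l ▸ L.mul_mem hi hk⟩
    · rintro j l ⟨i, hi⟩ ⟨k, hk⟩
      refine ⟨i - d.u ^ j * k, ?_⟩
      have h := L.mul_mem hi (L.inv_mem hk)
      have e : d.a ^ i * d.b ^ (j + l) * (d.a ^ k * d.b ^ l)⁻¹
          = d.a ^ (i - d.u ^ j * k) * d.b ^ j := by
        rw [mul_inv_eq_iff_eq_mul, d.mul_rule, sub_add_cancel]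
      rwa [e] at h
  obtain ⟨β, hβ, hβj⟩ := hB
  refine ⟨α, β, fun i => ?_, hβj, hα, hβ⟩
  rcases Int.natAbs_eq i with h | h
  · rw [h, hαi]
    norm_cast
  · rw [h, zpow_neg, inv_mem_iff, hαi, Int.dvd_neg]
    norm_cast

theorem params_top : d.Params ⊤ 0 0 :=
  ⟨fun i => by simp, fun j => by simp, Nat.zero_le _, Nat.zero_le _⟩

/-- The `(k, l)` element of a subgroup with parameters `(α, β)`. -/
theorem params_elts {L : Subgroup G} {α β : ℕ} (hL : d.Params L α β) :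
    ∃ x : ℤ, d.a ^ x * d.b ^ p ^ β ∈ L ∧
      ∀ g ∈ L, ∃! kl : Fin (p ^ (r - α)) × Fin (p ^ (t - β)),
        d.a ^ ((p : ℤ) ^ α * (kl.1 : ℕ)) * (d.a ^ x * d.b ^ p ^ β) ^ (kl.2 : ℕ) = g := by
  obtain ⟨hα, hβ, hαr, hβt⟩ := hL
  obtain ⟨x, hx⟩ := (hβ (p ^ β)).2 dvd_rfl
  refine ⟨x, hx, ?_⟩
  set h := d.a ^ x * d.b ^ p ^ β with hh
  have hpow : ∀ l : ℕ, ∃ y : ℤ, h ^ l = d.a ^ y * d.b ^ (p ^ β * l) := fun l =>
    ⟨x * ∑ i ∈ Finset.range l, (d.u ^ p ^ β) ^ i, by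
      rw [hh, zpow_mul_pow (d.b_pow_conj (p ^ β)) x l, pow_mul]⟩
  have hbmod : ∀ (i k : ℤ) (j l : ℕ), j ≤ l → d.a ^ i * d.b ^ j = d.a ^ k * d.b ^ l →
      p ^ t ∣ l - j := by
    intro i k j l hjl he
    rw [← Nat.sub_add_cancel hjl, pow_add, ← mul_assoc, mul_left_inj] at he
    exact (d.hb _).1 ⟨-k + i, by rw [zpow_add, he, zpow_neg]; group⟩
  have hpa : (0 : ℤ) < (p : ℤ) ^ (r - α) := pow_pos (by exact_mod_cast hp.out.pos) _
  intro g hg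
  obtain ⟨i, j, rfl⟩ := d.repr g
  obtain ⟨l₀, rfl⟩ := (hβ j).1 ⟨i, hg⟩
  set l := l₀ % p ^ (t - β) with hl
  have hlt : l < p ^ (t - β) := Nat.mod_lt _ (pow_pos hp.out.pos _)
  have hA : ∃ z : ℤ, d.a ^ i * d.b ^ (p ^ β * l₀) * (h ^ l)⁻¹ = d.a ^ z := by
    obtain ⟨y, hy⟩ := hpow l
    refine ⟨i + d.c * ↑(l₀ / p ^ (t - β)) - y, ?_⟩
    have e : p ^ β * l₀ = p ^ t * (l₀ / p ^ (t - β)) + p ^ β * l := by
      conv_lhs => rw [← Nat.mod_add_div l₀ (p ^ (t - β)), ← hl, Nat.mul_add, ← mul_assoc, ← pow_add,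
        Nat.add_sub_cancel' hβt]
      ring
    rw [hy, e, pow_add, pow_mul, d.hbc, ← zpow_natCast, ← zpow_mul]
    group
  obtain ⟨z, hz⟩ := hA
  obtain ⟨k₀, hk₀⟩ := (hα z).1 (hz ▸ L.mul_mem hg (L.inv_mem (L.pow_mem hx l)))
  have hk : (k₀ % (p : ℤ) ^ (r - α)).toNat < p ^ (r - α) := by
    rw [Int.toNat_lt (Int.emod_nonneg _ hpa.ne')]
    push_cast
    exact Int.emod_lt_of_pos _ hpa
  have hpr : (p : ℤ) ^ r = (p : ℤ) ^ α * (p : ℤ) ^ (r - α) := by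
    rw [← pow_add, Nat.add_sub_cancel' hαr]
  refine ⟨⟨⟨_, hk⟩, ⟨l, hlt⟩⟩, ?_, ?_⟩
  · show d.a ^ ((p : ℤ) ^ α * ((k₀ % (p : ℤ) ^ (r - α)).toNat : ℤ)) * h ^ l = _
    rw [← eq_mul_inv_iff_mul_eq, hz, d.eq_iff, Int.toNat_of_nonneg (Int.emod_nonneg _ hpa.ne'),
      hk₀, ← mul_sub, hpr]
    exact mul_dvd_mul_left _ (Int.dvd_sub_self_of_emod_eq (by rfl))
  · rintro ⟨⟨k', hk'⟩, ⟨l', hl'⟩⟩ he
    obtain ⟨y', hy'⟩ := hpow l'
    change d.a ^ ((p : ℤ) ^ α * (k' : ℤ)) * h ^ l' = _ at he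
    have he' := he
    rw [hy', ← mul_assoc, ← zpow_add] at he'
    have hmod : l' % p ^ (t - β) = l₀ % p ^ (t - β) := by
      have hdiv : ∀ A B : ℕ, A ≤ B → p ^ t ∣ p ^ β * B - p ^ β * A →
          A % p ^ (t - β) = B % p ^ (t - β) := by
        intro A B hAB hd
        rw [← Nat.mul_sub, ← Nat.add_sub_cancel' hβt, pow_add,
          Nat.mul_dvd_mul_iff_left (pow_pos hp.out.pos β)] at hd
        exact (Nat.modEq_iff_dvd' hAB).2 hd
      rcases le_total l' l₀ with hle | hle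
      · exact hdiv _ _ hle (hbmod _ _ _ _ (Nat.mul_le_mul_left _ hle) he')
      · exact (hdiv _ _ hle (hbmod _ _ _ _ (Nat.mul_le_mul_left _ hle) he'.symm)).symm
    have hll : l' = l := by rw [hl, ← hmod, Nat.mod_eq_of_lt hl']
    subst hll
    rw [← eq_mul_inv_iff_mul_eq, hz, d.eq_iff, hk₀, ← mul_sub, hpr] at he
    have h1 := Int.dvd_of_mul_dvd_mul_left (pow_ne_zero _ (by exact_mod_cast hp.out.pos.ne')) he
    have h2 : k' = (k₀ % (p : ℤ) ^ (r - α)).toNat := by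
      have h3 : ((k' : ℤ)) % (p : ℤ) ^ (r - α) = k₀ % (p : ℤ) ^ (r - α) :=
        Int.emod_eq_emod_iff_emod_sub_eq_zero.2 (Int.emod_eq_zero_of_dvd h1)
      rw [Int.emod_eq_of_lt (Int.natCast_nonneg _) (by exact_mod_cast hk')] at h3
      rw [← h3, Int.toNat_natCast]
    subst h2
    rfl

theorem mem_of_elts {L : Subgroup G} {α β : ℕ} (hL : d.Params L α β) {x : ℤ}
    (hx : d.a ^ x * d.b ^ p ^ β ∈ L) (k : ℤ) (l : ℕ) :
    d.a ^ ((p : ℤ) ^ α * k) * (d.a ^ x * d.b ^ p ^ β) ^ l ∈ L :=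
  L.mul_mem ((hL.1 _).2 (dvd_mul_right _ _)) (L.pow_mem hx l)

theorem card_eq {L : Subgroup G} {α β : ℕ} (hL : d.Params L α β) :
    Nat.card L = p ^ ((r - α) + (t - β)) := by
  obtain ⟨x, hx, hu⟩ := d.params_elts hL
  rw [pow_add, ← Nat.card_fin (p ^ (r - α)), ← Nat.card_fin (p ^ (t - β)), ← Nat.card_prod]
  refine (Nat.card_eq_of_bijective (fun kl => (⟨_, d.mem_of_elts hL hx (kl.1 : ℕ) kl.2⟩ : L))
    ⟨fun kl kl' he => ?_, fun g => ?_⟩).symm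
  · obtain ⟨w, -, huniq⟩ := hu _ (d.mem_of_elts hL hx (kl'.1 : ℕ) kl'.2)
    rw [huniq kl (congrArg Subtype.val he), huniq kl' rfl]
  · obtain ⟨kl, hkl, -⟩ := hu g g.2
    exact ⟨kl, Subtype.ext hkl⟩

theorem card_G : Nat.card G = p ^ (r + t) := by
  rw [← Subgroup.card_top (G := G), d.card_eq d.params_top]
  simp

theorem finite (L : Subgroup G) : Finite L := by
  obtain ⟨α, β, hL⟩ := d.exists_params L
  exact Nat.finite_of_card_ne_zero (by rw [d.card_eq hL]; exact pow_ne_zero _ hp.out.pos.ne')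

/-- Commutation with the second generator of a subgroup. -/
theorem commute_gen {α β : ℕ} {L : Subgroup G} (hL : d.Params L α β) :
    IsMulCommutative L ↔ n ≤ α + β := by
  obtain ⟨x, hx, hu⟩ := d.params_elts hL
  have ha : d.a ^ ((p : ℤ) ^ α) ∈ L := (hL.1 _).2 dvd_rfl
  have hc : Commute (d.a ^ ((p : ℤ) ^ α)) (d.a ^ x * d.b ^ p ^ β) ↔ n ≤ α + β := by
    rw [d.commute_a_iff]
    push_cast
    rw [← pow_add, ← Int.natCast_pow, ← Int.natCast_pow, Int.natCast_dvd_natCast,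
      Nat.pow_dvd_pow_iff_le_right hp.out.one_lt]
  constructor
  · intro hab
    exact hc.1 (congrArg Subtype.val (hab.is_comm.comm ⟨_, ha⟩ ⟨_, hx⟩))
  · intro hn
    have hcm := hc.2 hn
    refine ⟨⟨fun g g' => Subtype.ext ?_⟩⟩
    obtain ⟨kl, hkl, -⟩ := hu g g.2
    obtain ⟨kl', hkl', -⟩ := hu g' g'.2
    show (g : G) * g' = g' * g
    rw [← hkl, ← hkl', zpow_mul, zpow_mul]
    have c1 := (hcm.zpow_left ((kl.1 : ℕ) : ℤ)).pow_right (kl'.2 : ℕ)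
    have c2 := ((hcm.zpow_left ((kl'.1 : ℕ) : ℤ)).pow_right (kl.2 : ℕ)).symm
    exact (((Commute.refl _).zpow_zpow _ _).mul_left c2).mul_right
      (c1.mul_left (Commute.pow_pow_self _ _ _)) |>.eq

theorem mem_center_iff (i : ℤ) (j : ℕ) :
    d.a ^ i * d.b ^ j ∈ Subgroup.center G ↔ (p : ℤ) ^ n ∣ i ∧ p ^ n ∣ j := by
  constructor
  · intro h
    rw [Subgroup.mem_center_iff] at h
    have h1 : Commute (d.a ^ (1 : ℤ)) (d.a ^ i * d.b ^ j) := h _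
    have h2 : Commute (d.a ^ (0 : ℤ) * d.b ^ 1) (d.a ^ i * d.b ^ j) := h _
    rw [d.commute_a_iff, one_mul] at h1
    rw [d.commute_iff, zero_mul, zero_sub, dvd_neg, gsum_one, mul_one] at h2
    exact ⟨h2, by exact_mod_cast h1⟩
  · rintro ⟨hi, hj⟩
    rw [Subgroup.mem_center_iff]
    intro g
    obtain ⟨k, l, rfl⟩ := d.repr g
    refine ((d.commute_iff k i l j).2 (dvd_sub ?_ (dvd_mul_of_dvd_left hi _))).eq
    rw [dvd_mul_gsum_iff d.hp2 d.hu]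
    exact dvd_mul_of_dvd_right (by exact_mod_cast hj) _

theorem params_center : d.Params (Subgroup.center G) n n := by
  refine ⟨fun i => ?_, fun j => ⟨fun ⟨i, hi⟩ => ((d.mem_center_iff i j).1 hi).2, fun hj =>
    ⟨0, (d.mem_center_iff 0 j).2 ⟨dvd_zero _, hj⟩⟩⟩, d.nr, d.nt⟩
  have := d.mem_center_iff i 0
  rw [pow_zero, mul_one] at this
  simpa using this

theorem commutator_eq : commutator G = Subgroup.zpowers (d.a ^ (d.u - 1)) := by
  refine le_antisymm ?_ (Subgroup.zpowers_le.2 ?_)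
  · rw [commutator_def, Subgroup.commutator_le]
    intro g _ g' _
    obtain ⟨i, j, rfl⟩ := d.repr g
    obtain ⟨k, l, rfl⟩ := d.repr g'
    rw [commutatorElement_def]
    have e : d.a ^ i * d.b ^ j * (d.a ^ k * d.b ^ l) * (d.a ^ i * d.b ^ j)⁻¹ * (d.a ^ k * d.b ^ l)⁻¹
        = d.a ^ (i + d.u ^ j * k) * (d.a ^ (k + d.u ^ l * i))⁻¹ := by
      rw [show ∀ x y : G, x * y * x⁻¹ * y⁻¹ = x * y * (y * x)⁻¹ from fun x y => by group,
        d.mul_rule, d.mul_rule, add_comm l j]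
      group
    rw [e, ← zpow_sub]
    refine Subgroup.mem_zpowers_iff.2 ⟨k * gsum d.u j - i * gsum d.u l, ?_⟩
    rw [← zpow_mul]
    congr 1
    linear_combination -k * pow_sub_one_eq d.u j + i * pow_sub_one_eq d.u l
  · rw [zpow_sub, zpow_one, ← d.conj]
    exact Subgroup.commutator_mem_commutator (Subgroup.mem_top d.b) (Subgroup.mem_top d.a)

theorem card_commutator : Nat.card (commutator G) = p ^ n := by
  rw [d.commutator_eq, Nat.card_zpowers]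
  refine Nat.dvd_antisymm (orderOf_dvd_of_pow_eq_one ?_) ?_
  · rw [← zpow_natCast, ← zpow_mul, d.ha, mul_comm, d.key]
    simp
  · have h := pow_orderOf_eq_one (d.a ^ (d.u - 1))
    rw [← zpow_natCast, ← zpow_mul, d.ha, mul_comm, d.key] at h
    exact_mod_cast h

theorem index_eq {L : Subgroup G} {α β : ℕ} (hL : d.Params L α β) : L.index = p ^ (α + β) := by
  have h := L.card_mul_index
  rw [d.card_G, d.card_eq hL] at h
  refine Nat.eq_of_mul_eq_mul_left (pow_pos hp.out.pos _) (h.trans ?_)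
  rw [← pow_add]
  congr 1
  have := hL.2.2.1
  have := hL.2.2.2
  omega

theorem index_commutator : (commutator G).index = p ^ (r + t - n) := by
  have h := (commutator G).card_mul_index
  rw [d.card_G, d.card_commutator] at h
  refine Nat.eq_of_mul_eq_mul_left (pow_pos hp.out.pos n) (h.trans ?_)
  rw [← pow_add]
  congr 1
  have := d.nr
  omega

end MetaData

/-- Every metacyclic `p`-group, `p` odd, has coordinates. -/
theorem exists_metaData {G : Type*} [Group G] [Finite G] {p : ℕ} [hp : Fact p.Prime] (hp2 : p ≠ 2)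
    (hG : IsPGroup p G) (hmc : Cfsg.IsMetacyclic G) : ∃ r t n, Nonempty (MetaData G p r t n) := by
  obtain ⟨N, hN, hNc, hQc⟩ := hmc
  obtain ⟨⟨a, haN⟩, hgen⟩ := hNc.exists_generator
  obtain ⟨z, hz⟩ := hQc.exists_generator
  obtain ⟨b, rfl⟩ := QuotientGroup.mk_surjective z
  obtain ⟨r, hr⟩ := IsPGroup.iff_orderOf.1 hG a
  obtain ⟨t, ht⟩ := IsPGroup.iff_orderOf.1 (hG.to_quotient N) (b : G ⧸ N)
  have hNz : ∀ x ∈ N, ∃ k : ℤ, a ^ k = x := fun x hx => by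
    obtain ⟨k, hk⟩ := hgen ⟨x, hx⟩
    exact ⟨k, by simpa using congrArg Subtype.val hk⟩
  have hA : ∀ i : ℤ, a ^ i ∈ N := fun i => N.zpow_mem haN i
  obtain ⟨u₀, hu₀⟩ := hNz _ (hN.conj_mem a haN b)
  have ha : ∀ i : ℤ, a ^ i = 1 ↔ (p : ℤ) ^ r ∣ i := fun i => by
    rw [← orderOf_dvd_iff_zpow_eq_one, hr]; push_cast; rfl
  have hb : ∀ j : ℕ, (∃ i : ℤ, b ^ j = a ^ i) ↔ p ^ t ∣ j := by
    intro j
    rw [← ht, orderOf_dvd_iff_pow_eq_one, ← QuotientGroup.mk_pow, QuotientGroup.eq_one_iff]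
    exact ⟨fun ⟨i, hi⟩ => hi ▸ hA i, fun h => (hNz _ h).imp fun i hi => hi.symm⟩
  obtain ⟨c, hc⟩ := (hb (p ^ t)).2 dvd_rfl
  have hrepr : ∀ g : G, ∃ (i : ℤ) (j : ℕ), a ^ i * b ^ j = g := by
    intro g
    obtain ⟨j, hj⟩ := ((isOfFinOrder_of_finite _).mem_powers_iff_mem_zpowers).2 (hz (g : G ⧸ N))
    have hj' : ((b : G ⧸ N)) ^ j = (g : G ⧸ N) := hj
    have : g * (b ^ j)⁻¹ ∈ N := by
      rw [← QuotientGroup.eq_one_iff, QuotientGroup.mk_mul, QuotientGroup.mk_inv,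
        QuotientGroup.mk_pow, hj', mul_inv_cancel]
    obtain ⟨i, hi⟩ := hNz _ this
    exact ⟨i, j, by rw [hi]; group⟩
  obtain ⟨e, he⟩ := IsPGroup.iff_orderOf.1 hG b
  by_cases h1 : (p : ℤ) ^ r ∣ u₀ - 1
  · -- the abelian case: take `u = 1 + p^(r+1)`
    refine ⟨r, t, 0, ⟨⟨a, b, 1 + (p : ℤ) ^ (r + 1), c, hp2, ?_, ha, ?_, ?_, Nat.zero_le _, hb, hc,
      hrepr⟩⟩⟩
    · rw [← hu₀, ← mul_inv_eq_one, ← zpow_sub, ha]
      have : u₀ - (1 + (p : ℤ) ^ (r + 1)) = (u₀ - 1) - (p : ℤ) ^ r * p := by ring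
      rw [this]
      exact dvd_sub h1 (dvd_mul_right _ _)
    · rw [add_sub_cancel_left]; exact dvd_pow_self _ r.succ_ne_zero
    · intro x
      simp only [add_sub_cancel_left, pow_zero, one_dvd, iff_true]
      exact dvd_mul_of_dvd_right (pow_dvd_pow _ r.le_succ) _
  · have hr0 : r ≠ 0 := by rintro rfl; simp at h1
    have hu : (p : ℤ) ∣ u₀ - 1 := by
      have h2 : a ^ (u₀ ^ p ^ e) = a := by
        rw [← pow_conj_of hu₀.symm (p ^ e), ← he, pow_orderOf_eq_one]; group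
      have h3 : (p : ℤ) ^ r ∣ u₀ ^ p ^ e - 1 := by
        rw [← ha, zpow_sub, h2, zpow_one, mul_inv_cancel]
      rw [← ZMod.intCast_zmod_eq_zero_iff_dvd]
      have h4 : ((u₀ ^ p ^ e - 1 : ℤ) : ZMod p) = 0 :=
        (ZMod.intCast_zmod_eq_zero_iff_dvd _ _).2 ((dvd_pow_self _ hr0).trans h3)
      push_cast at h4 ⊢
      rwa [ZMod.pow_card_pow] at h4
    have hp' : Prime (p : ℤ) := Nat.prime_iff_prime_int.1 hp.out
    have hne : u₀ - 1 ≠ 0 := fun h0 => h1 (h0 ▸ dvd_zero _)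
    obtain ⟨k, w, hw, hkw⟩ := WfDvdMonoid.max_power_factor hne hp'.irreducible
    have hkr : k < r := by
      by_contra hh
      push Not at hh
      exact h1 (hkw ▸ dvd_mul_of_dvd_left (pow_dvd_pow _ hh) _)
    refine ⟨r, t, r - k, ⟨⟨a, b, u₀, c, hp2, hu₀.symm, ha, hu, ?_, Nat.sub_le _ _, hb, hc, hrepr⟩⟩⟩
    intro x
    rw [hkw, show x * ((p : ℤ) ^ k * w) = (p : ℤ) ^ k * (w * x) by ring]
    conv_lhs => rw [← Nat.add_sub_cancel' hkr.le, pow_add]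
    rw [mul_dvd_mul_iff_left (pow_ne_zero _ hp'.ne_zero)]
    exact ⟨fun h => ((hp'.coprime_iff_not_dvd.2 hw).pow_left (m := r - k)).dvd_of_dvd_mul_left h,
      fun h => dvd_mul_of_dvd_right h _⟩

end Cfsg.Agent.H85
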