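import Mathlib
import Cfsg.Agent.H85.Metacyclic

/-!
# Class sizes, centralisers and power subgroups of metacyclic p-groups, p odd
-/

set_option autoImplicit false
set_option linter.unusedSectionVars false
set_option linter.style.haveILetI false

namespace Cfsg.Agent.H85.MetaData

variable {G : Type*} [Group G] {p r t n : ℕ} (d : MetaData G p r t n) [hp : Fact p.Prime]
include d

theorem finiteGroup : Finite G :=
  Nat.finite_of_card_ne_zero (by rw [d.card_G]; exact pow_ne_zero _ hp.out.pos.ne')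

theorem card_center : Nat.card (Subgroup.center G) = p ^ ((r - n) + (t - n)) :=
  d.card_eq d.params_center

/-- The sums `1 + u + ... + u^(l-1)` take all values modulo `p^n`. -/
theorem exists_gsum_eq (z : ℤ) : ∃ l : ℕ, (p : ℤ) ^ n ∣ gsum d.u l - z := by
  haveI : NeZero (p ^ n) := ⟨pow_ne_zero _ hp.out.pos.ne'⟩
  have hinj : Function.Injective
      (fun l : Fin (p ^ n) => ((gsum d.u l : ℤ) : ZMod (p ^ n))) := by
    have hone : ∀ a b : ℕ, a ≤ b → b < p ^ n →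
        ((gsum d.u a : ℤ) : ZMod (p ^ n)) = ((gsum d.u b : ℤ) : ZMod (p ^ n)) → a = b := by
      intro a b hab hb he
      obtain ⟨k, rfl⟩ := Nat.exists_eq_add_of_le hab
      rw [gsum_add, Int.cast_add, left_eq_add, ZMod.intCast_zmod_eq_zero_iff_dvd,
        Int.natCast_pow] at he
      have hco : IsCoprime ((p : ℤ) ^ n) (d.u ^ a) := by
        refine IsCoprime.pow_left (((Nat.prime_iff_prime_int.1 hp.out).coprime_iff_not_dvd).2 ?_)
        intro h
        have h2 := dvd_sub h (dvd_pow_sub_one d.hu a)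
        rw [sub_sub_cancel] at h2
        exact hp.out.one_lt.ne' (by exact_mod_cast Int.eq_one_of_dvd_one (Int.natCast_nonneg p) h2)
      have h3 := hco.dvd_of_dvd_mul_left he
      rw [← one_mul (gsum d.u k), dvd_mul_gsum_iff d.hp2 d.hu, one_mul] at h3
      have h4 : p ^ n ∣ k := by exact_mod_cast h3
      rcases Nat.eq_zero_or_pos k with rfl | hk
      · rfl
      · have := Nat.le_of_dvd hk h4
        omega
    intro a b he
    rcases le_total (a : ℕ) (b : ℕ) with h | h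
    · exact Fin.ext (hone _ _ h b.2 he)
    · exact (Fin.ext (hone _ _ h a.2 he.symm)).symm
  obtain ⟨l, hl⟩ := ((Fintype.bijective_iff_injective_and_card _).2
    ⟨hinj, by simp⟩).2 ((z : ZMod (p ^ n)))
  refine ⟨l, ?_⟩
  rw [← Int.natCast_pow, ← ZMod.intCast_zmod_eq_zero_iff_dvd, Int.cast_sub]
  exact sub_eq_zero.2 hl

theorem conj_eq (k i : ℤ) (l j : ℕ) :
    d.a ^ k * d.b ^ l * (d.a ^ i * d.b ^ j) * (d.a ^ k * d.b ^ l)⁻¹
      = (d.a ^ (d.u - 1)) ^ (i * gsum d.u l - k * gsum d.u j) * (d.a ^ i * d.b ^ j) := by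
  rw [mul_inv_eq_iff_eq_mul, d.mul_rule, mul_assoc, d.mul_rule, add_comm l j, ← mul_assoc,
    ← zpow_mul, ← zpow_add]
  congr 2
  linear_combination i * pow_sub_one_eq d.u l - k * pow_sub_one_eq d.u j

theorem cpow_eq_one (x : ℤ) : (d.a ^ (d.u - 1)) ^ x = 1 ↔ (p : ℤ) ^ n ∣ x := by
  rw [← zpow_mul, d.ha, mul_comm, d.key]

theorem orderOf_cpow {e : ℕ} (he : e ≤ n) :
    orderOf ((d.a ^ (d.u - 1)) ^ ((p : ℤ) ^ e)) = p ^ (n - e) := by
  refine Nat.dvd_antisymm (orderOf_dvd_of_pow_eq_one ?_) ?_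
  · rw [← zpow_natCast, ← zpow_mul, d.cpow_eq_one, Int.natCast_pow, ← pow_add,
      Nat.add_sub_cancel' he]
  · have h := pow_orderOf_eq_one ((d.a ^ (d.u - 1)) ^ ((p : ℤ) ^ e))
    rw [← zpow_natCast, ← zpow_mul, d.cpow_eq_one] at h
    conv at h => lhs; rw [← Nat.add_sub_cancel' he, pow_add]
    have h2 := Int.dvd_of_mul_dvd_mul_left
      (pow_ne_zero _ (by exact_mod_cast hp.out.pos.ne')) h
    exact_mod_cast h2

theorem exists_level (i : ℤ) (j : ℕ) :
    ∃ e ≤ n, (p : ℤ) ^ e ∣ i ∧ p ^ e ∣ j ∧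
      (e = n ∨ ¬ ((p : ℤ) ^ (e + 1) ∣ i ∧ p ^ (e + 1) ∣ j)) := by
  classical
  set P : ℕ → Prop := fun e => (p : ℤ) ^ e ∣ i ∧ p ^ e ∣ j with hP
  have hspec : P (Nat.findGreatest P n) :=
    Nat.findGreatest_spec (P := P) (Nat.zero_le n) (by simp [hP])
  refine ⟨Nat.findGreatest P n, Nat.findGreatest_le _, hspec.1, hspec.2, ?_⟩
  by_cases h : Nat.findGreatest P n = n
  · exact Or.inl h
  · refine Or.inr fun h2 => ?_
    exact absurd (Nat.le_findGreatest (P := P)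
      (show Nat.findGreatest P n + 1 ≤ n from lt_of_le_of_ne (Nat.findGreatest_le _) h) h2)
      (by omega)

theorem classSize {i : ℤ} {j e : ℕ} (he : e ≤ n) (hi : (p : ℤ) ^ e ∣ i) (hj : p ^ e ∣ j)
    (hmax : e = n ∨ ¬ ((p : ℤ) ^ (e + 1) ∣ i ∧ p ^ (e + 1) ∣ j)) :
    (Subgroup.centralizer ({d.a ^ i * d.b ^ j} : Set G)).index = p ^ (n - e) := by
  haveI := d.finiteGroup
  have hp' : Prime (p : ℤ) := Nat.prime_iff_prime_int.1 hp.out
  set g := d.a ^ i * d.b ^ j with hg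
  set c := (d.a ^ (d.u - 1)) ^ ((p : ℤ) ^ e) with hc
  have hsolve : ∀ X : ℤ, ((p : ℤ) ^ e ∣ X) → (e = n ∨ ¬ (p : ℤ) ^ (e + 1) ∣ X) → ∀ w : ℤ,
      ∃ s : ℤ, (p : ℤ) ^ n ∣ X * s - (p : ℤ) ^ e * w := by
    rintro X ⟨X₁, rfl⟩ hX w
    rcases hX with rfl | hX
    · exact ⟨0, dvd_sub (dvd_mul_of_dvd_left (dvd_mul_right _ _) _) (dvd_mul_right _ _)⟩
    · obtain ⟨s, hs⟩ := exists_solve hp.out
        (fun h => hX (by rw [pow_succ]; exact mul_dvd_mul_left _ h)) (n - e) (-w)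
      refine ⟨s, ?_⟩
      rw [← Nat.add_sub_cancel' he, pow_add, mul_assoc, ← mul_sub]
      exact mul_dvd_mul_left _ (by simpa [sub_eq_add_neg, mul_comm] using hs)
  have horb : MulAction.orbit (ConjAct G) g = (fun z => z * g) '' (Subgroup.zpowers c : Set G) := by
    ext y
    constructor
    · rintro ⟨h, rfl⟩
      obtain ⟨k, l, hkl⟩ := d.repr (ConjAct.ofConjAct h)
      have h2 : h • g = ConjAct.ofConjAct h * g * (ConjAct.ofConjAct h)⁻¹ := rfl
      obtain ⟨w, hw⟩ : (p : ℤ) ^ e ∣ i * gsum d.u l - k * gsum d.u j := by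
        refine dvd_sub (dvd_mul_of_dvd_left hi _) ?_
        rw [dvd_mul_gsum_iff d.hp2 d.hu]
        exact dvd_mul_of_dvd_right (by exact_mod_cast hj) _
      refine ⟨c ^ w, Subgroup.zpow_mem _ (Subgroup.mem_zpowers c) w, ?_⟩
      show c ^ w * g = h • g
      rw [h2, ← hkl, hg, d.conj_eq, hw, hc, zpow_mul (d.a ^ (d.u - 1)) ((p : ℤ) ^ e) w]
    · rintro ⟨z, hz, rfl⟩
      obtain ⟨w, rfl⟩ := Subgroup.mem_zpowers_iff.1 hz
      obtain ⟨k, l, hkl⟩ : ∃ (k : ℤ) (l : ℕ),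
          (p : ℤ) ^ n ∣ (i * gsum d.u l - k * gsum d.u j) - (p : ℤ) ^ e * w := by
        rcases hmax with h | h
        · exact ⟨0, 0, by
            rw [gsum_zero, mul_zero, zero_mul, sub_zero, zero_sub, dvd_neg, h]
            exact dvd_mul_right _ _⟩
        · by_cases h1 : (p : ℤ) ^ (e + 1) ∣ i
          · obtain ⟨s, hs⟩ := hsolve (gsum d.u j)
              (by rw [← one_mul (gsum d.u j), dvd_mul_gsum_iff d.hp2 d.hu, one_mul]
                  exact_mod_cast hj)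
              (Or.inr (by
                rw [← one_mul (gsum d.u j), dvd_mul_gsum_iff d.hp2 d.hu, one_mul]
                exact fun h2 => h ⟨h1, by exact_mod_cast h2⟩)) w
            refine ⟨-s, 0, ?_⟩
            rw [gsum_zero, mul_zero, zero_sub, neg_mul, neg_neg, mul_comm s]
            exact hs
          · obtain ⟨s, hs⟩ := hsolve i hi (Or.inr h1) w
            obtain ⟨l, hl⟩ := d.exists_gsum_eq s
            refine ⟨0, l, ?_⟩
            rw [zero_mul, sub_zero]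
            have : i * gsum d.u l - (p : ℤ) ^ e * w
                = i * (gsum d.u l - s) + (i * s - (p : ℤ) ^ e * w) := by ring
            rw [this]
            exact dvd_add (dvd_mul_of_dvd_right hl _) hs
      refine ⟨ConjAct.toConjAct (d.a ^ k * d.b ^ l), ?_⟩
      show ConjAct.toConjAct (d.a ^ k * d.b ^ l) • g = c ^ w * g
      rw [ConjAct.toConjAct_smul, hg, d.conj_eq, mul_left_inj, hc,
        ← zpow_mul (d.a ^ (d.u - 1)), ← mul_inv_eq_one, ← zpow_sub, d.cpow_eq_one]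
      exact hkl
  have hidx : (Subgroup.centralizer ({g} : Set G)).index
      = (MulAction.stabilizer (ConjAct G) g).index := by
    rw [Subgroup.centralizer_eq_comap_stabilizer]
    exact Subgroup.index_comap_of_surjective (G' := ConjAct G) _
      (f := ConjAct.toConjAct.toMonoidHom) ConjAct.toConjAct.surjective
  rw [hidx, MulAction.index_stabilizer, horb, Set.ncard_image_of_injective _ (mul_left_injective g), ← Nat.card_coe_set_eq]
  exact (Nat.card_zpowers c).trans (d.orderOf_cpow he)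

/-- The subgroup of elements with both coordinates divisible by `p^s`, `s ≤ n`. -/
theorem exists_Nsub {s : ℕ} (hs : s ≤ n) : ∃ S : Subgroup G, d.Params S s s ∧
    ∀ (i : ℤ) (j : ℕ), d.a ^ i * d.b ^ j ∈ S ↔ (p : ℤ) ^ s ∣ i ∧ p ^ s ∣ j := by
  haveI := d.finiteGroup
  have hwd : ∀ (i k : ℤ) (j l : ℕ), d.a ^ i * d.b ^ j = d.a ^ k * d.b ^ l →
      (p : ℤ) ^ s ∣ i ∧ p ^ s ∣ j → (p : ℤ) ^ s ∣ k ∧ p ^ s ∣ l := by
    intro i k j l he ⟨hi, hj⟩
    have hc : (p : ℤ) ^ s ∣ d.c := (pow_dvd_pow _ hs).trans d.pn_dvd_c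
    have hts : p ^ s ∣ p ^ t := pow_dvd_pow _ (hs.trans d.nt)
    have hrs : (p : ℤ) ^ s ∣ (p : ℤ) ^ r := pow_dvd_pow _ (hs.trans d.nr)
    rcases le_total j l with h | h
    · obtain ⟨m, rfl⟩ := Nat.exists_eq_add_of_le h
      rw [pow_add, (Commute.pow_pow_self d.b j m).eq, ← mul_assoc, mul_left_inj] at he
      obtain ⟨q, hq⟩ := (d.hb m).1 ⟨i - k, by rw [sub_eq_neg_add, zpow_add, he, zpow_neg]; group⟩
      rw [hq, pow_mul, d.hbc, ← zpow_natCast, ← zpow_mul, ← zpow_add, d.eq_iff] at he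
      refine ⟨?_, Nat.dvd_add hj (hq ▸ dvd_mul_of_dvd_left hts q)⟩
      have := dvd_sub (dvd_sub hi (hrs.trans he)) (dvd_mul_of_dvd_left hc (q : ℤ))
      rw [show i - (i - (k + d.c * ↑q)) - d.c * ↑q = k by ring] at this
      exact this
    · obtain ⟨m, rfl⟩ := Nat.exists_eq_add_of_le h
      rw [pow_add, (Commute.pow_pow_self d.b l m).eq, ← mul_assoc, mul_left_inj] at he
      obtain ⟨q, hq⟩ := (d.hb m).1 ⟨k - i, by rw [sub_eq_neg_add, zpow_add, ← he, zpow_neg]; group⟩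
      rw [hq, pow_mul, d.hbc, ← zpow_natCast, ← zpow_mul, ← zpow_add, d.eq_iff] at he
      refine ⟨?_, (Nat.dvd_add_left (hq ▸ dvd_mul_of_dvd_left hts q)).1 hj⟩
      have := dvd_sub (dvd_add hi (dvd_mul_of_dvd_left hc (q : ℤ))) (hrs.trans he)
      rw [show i + d.c * ↑q - (i + d.c * ↑q - k) = k by ring] at this
      exact this
  let S : Subgroup G := Subgroup.closure
    {g | ∃ (i : ℤ) (j : ℕ), g = d.a ^ i * d.b ^ j ∧ (p : ℤ) ^ s ∣ i ∧ p ^ s ∣ j}
  have hS : ∀ g ∈ S, ∃ (i : ℤ) (j : ℕ), g = d.a ^ i * d.b ^ j ∧ (p : ℤ) ^ s ∣ i ∧ p ^ s ∣ j := by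
    intro g hg
    rw [show S = Subgroup.closure _ from rfl, ← Subgroup.mem_toSubmonoid,
      Subgroup.closure_toSubmonoid_of_finite] at hg
    induction hg using Submonoid.closure_induction with
    | mem x hx => exact hx
    | one => exact ⟨0, 0, by simp, dvd_zero _, dvd_zero _⟩
    | mul x y _ _ hx hy =>
      obtain ⟨i, j, rfl, hi, hj⟩ := hx
      obtain ⟨k, l, rfl, hk, hl⟩ := hy
      exact ⟨_, _, d.mul_rule i k j l, dvd_add hi (dvd_mul_of_dvd_right hk _), Nat.dvd_add hj hl⟩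
  have hiff : ∀ (i : ℤ) (j : ℕ), d.a ^ i * d.b ^ j ∈ S ↔ (p : ℤ) ^ s ∣ i ∧ p ^ s ∣ j := by
    refine fun i j => ⟨fun h => ?_, fun h => Subgroup.subset_closure ⟨i, j, rfl, h⟩⟩
    obtain ⟨k, l, he, hkl⟩ := hS _ h
    exact hwd k i l j he.symm hkl
  refine ⟨S, ⟨fun i => ?_, fun j => ⟨fun ⟨i, hi⟩ => ((hiff i j).1 hi).2,
    fun hj => ⟨0, (hiff 0 j).2 ⟨dvd_zero _, hj⟩⟩⟩, hs.trans d.nr, hs.trans d.nt⟩, hiff⟩
  have := hiff i 0
  rw [pow_zero, mul_one] at this
  simpa using this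

theorem mem_iff_index_le {S : Subgroup G} {s : ℕ}
    (hS : ∀ (i : ℤ) (j : ℕ), d.a ^ i * d.b ^ j ∈ S ↔ (p : ℤ) ^ s ∣ i ∧ p ^ s ∣ j) (hs : s ≤ n)
    (g : G) : g ∈ S ↔ (Subgroup.centralizer ({g} : Set G)).index ≤ p ^ (n - s) := by
  obtain ⟨i, j, rfl⟩ := d.repr g
  obtain ⟨e, hen, hi, hj, hmax⟩ := d.exists_level i j
  rw [hS, d.classSize hen hi hj hmax, Nat.pow_le_pow_iff_right hp.out.one_lt]
  constructor
  · rintro ⟨hsi, hsj⟩
    by_contra hlt
    push Not at hlt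
    rcases hmax with h | h
    · omega
    · exact h ⟨(pow_dvd_pow _ (by omega)).trans hsi, (pow_dvd_pow _ (by omega)).trans hsj⟩
  · intro hle
    exact ⟨(pow_dvd_pow _ (by omega)).trans hi, (pow_dvd_pow _ (by omega)).trans hj⟩

theorem closure_powers_eq {S : Subgroup G} {s : ℕ}
    (hS : ∀ (i : ℤ) (j : ℕ), d.a ^ i * d.b ^ j ∈ S ↔ (p : ℤ) ^ s ∣ i ∧ p ^ s ∣ j) :
    Subgroup.closure {x : G | ∃ y : G, y ^ p ^ s = x} = S := by
  refine le_antisymm ((Subgroup.closure_le _).2 ?_) ?_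
  · rintro _ ⟨y, rfl⟩
    obtain ⟨i, j, rfl⟩ := d.repr y
    rw [SetLike.mem_coe, zpow_mul_pow (d.b_pow_conj j) i, ← pow_mul, hS]
    refine ⟨?_, dvd_mul_left _ _⟩
    show (p : ℤ) ^ s ∣ i * gsum (d.u ^ j) (p ^ s)
    rw [dvd_mul_gsum_iff d.hp2 (dvd_pow_sub_one d.hu j)]
    exact dvd_mul_of_dvd_right (by simp) _
  · intro g hg
    obtain ⟨i, j, rfl⟩ := d.repr g
    obtain ⟨⟨i', rfl⟩, ⟨j', rfl⟩⟩ := (hS i j).1 hg
    refine Subgroup.mul_mem _ (Subgroup.subset_closure ⟨d.a ^ i', ?_⟩)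
      (Subgroup.subset_closure ⟨d.b ^ j', ?_⟩)
    · rw [← zpow_natCast, ← zpow_mul, mul_comm, Int.natCast_pow]
    · rw [← pow_mul, mul_comm]

theorem params_inf_centralizer {L : Subgroup G} {α β : ℕ} (hL : d.Params L α β)
    (hn : α + β ≤ n) : d.Params (L ⊓ Subgroup.centralizer (L : Set G)) (n - β) (n - α) := by
  obtain ⟨x, hx, hu⟩ := d.params_elts hL
  have ha : d.a ^ ((p : ℤ) ^ α) ∈ L := (hL.1 _).2 dvd_rfl
  have hcen : ∀ g, g ∈ Subgroup.centralizer (L : Set G) ↔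
      Commute (d.a ^ ((p : ℤ) ^ α)) g ∧ Commute (d.a ^ x * d.b ^ p ^ β) g := by
    intro g
    refine ⟨fun h => ⟨h _ ha, h _ hx⟩, fun ⟨h1, h2⟩ y hy => ?_⟩
    obtain ⟨kl, hkl, -⟩ := hu y hy
    rw [← hkl, zpow_mul]
    exact ((h1.zpow_left _).mul_left (h2.pow_left _)).eq
  have hp0 : ∀ m : ℕ, (p : ℤ) ^ m ≠ 0 := fun m => pow_ne_zero _ (by exact_mod_cast hp.out.pos.ne')
  refine ⟨fun i => ?_, fun j => ⟨?_, ?_⟩, ?_, ?_⟩
  · rw [Subgroup.mem_inf, hcen, hL.1]
    constructor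
    · rintro ⟨-, -, h⟩
      have h' := (d.commute_a_iff x (p ^ β) i).1 h.symm
      rw [← Nat.sub_add_cancel (show β ≤ n by omega), pow_add, Int.natCast_pow] at h'
      exact Int.dvd_of_mul_dvd_mul_right (hp0 β) h'
    · intro h
      refine ⟨(pow_dvd_pow _ (by omega)).trans h, Commute.zpow_zpow_self _ _ _,
        ((d.commute_a_iff x (p ^ β) i).2 ?_).symm⟩
      rw [← Nat.sub_add_cancel (show β ≤ n by omega), pow_add, Int.natCast_pow]
      exact mul_dvd_mul_right h _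
  · rintro ⟨i, hi, hi'⟩
    have h := (d.commute_a_iff i j _).1 ((hcen _).1 hi').1
    rw [← Nat.add_sub_cancel' (show α ≤ n by omega), pow_add] at h
    exact_mod_cast Int.dvd_of_mul_dvd_mul_left (hp0 α) h
  · intro hj
    obtain ⟨m, hm⟩ := (pow_dvd_pow p (show β ≤ n - α by omega)).trans hj
    refine ⟨x * ∑ k ∈ Finset.range m, (d.u ^ p ^ β) ^ k, ?_⟩
    have e : (d.a ^ x * d.b ^ p ^ β) ^ m
        = d.a ^ (x * ∑ k ∈ Finset.range m, (d.u ^ p ^ β) ^ k) * d.b ^ j := by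
      rw [zpow_mul_pow (d.b_pow_conj (p ^ β)) x m, ← pow_mul, ← hm]
    rw [← e]
    refine ⟨L.pow_mem hx m, (hcen _).2 ⟨?_, Commute.self_pow _ m⟩⟩
    rw [e, d.commute_a_iff, ← Nat.add_sub_cancel' (show α ≤ n by omega), pow_add]
    exact mul_dvd_mul_left _ (by exact_mod_cast hj)
  · have := d.nr; omega
  · have := d.nt; omega

theorem params_le {L : Subgroup G} {α β : ℕ} (hL : d.Params L α β)
    (hZ : Subgroup.center G ≤ L) : α ≤ n ∧ β ≤ n := by
  have h1 : (p : ℤ) ^ α ∣ (p : ℤ) ^ n := (hL.1 _).1 (hZ ((d.params_center.1 _).2 dvd_rfl))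
  have h2 : p ^ β ∣ p ^ n := (hL.2.1 _).1
    (((d.params_center.2.1 _).2 dvd_rfl).imp fun i hi => hZ hi)
  have h1' : p ^ α ∣ p ^ n := by exact_mod_cast h1
  exact ⟨(Nat.pow_dvd_pow_iff_le_right hp.out.one_lt).1 h1',
    (Nat.pow_dvd_pow_iff_le_right hp.out.one_lt).1 h2⟩

theorem params_centralizer {L : Subgroup G} {α β : ℕ} (hL : d.Params L α β)
    (hZ : Subgroup.center G ≤ L) :
    d.Params (Subgroup.centralizer (L : Set G)) (n - β) (n - α) := by
  obtain ⟨hαn, hβn⟩ := d.params_le hL hZ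
  obtain ⟨x, hx, hu⟩ := d.params_elts hL
  have ha : d.a ^ ((p : ℤ) ^ α) ∈ L := (hL.1 _).2 dvd_rfl
  have hcen : ∀ g, g ∈ Subgroup.centralizer (L : Set G) ↔
      Commute (d.a ^ ((p : ℤ) ^ α)) g ∧ Commute (d.a ^ x * d.b ^ p ^ β) g := by
    intro g
    refine ⟨fun h => ⟨h _ ha, h _ hx⟩, fun ⟨h1, h2⟩ y hy => ?_⟩
    obtain ⟨kl, hkl, -⟩ := hu y hy
    rw [← hkl, zpow_mul]
    exact ((h1.zpow_left _).mul_left (h2.pow_left _)).eq
  have hp0 : ∀ m : ℕ, (p : ℤ) ^ m ≠ 0 := fun m => pow_ne_zero _ (by exact_mod_cast hp.out.pos.ne')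
  refine ⟨fun i => ?_, fun j => ⟨?_, ?_⟩, ?_, ?_⟩
  · rw [hcen]
    constructor
    · rintro ⟨-, h⟩
      have h' := (d.commute_a_iff x (p ^ β) i).1 h.symm
      rw [← Nat.sub_add_cancel hβn, pow_add, Int.natCast_pow] at h'
      exact Int.dvd_of_mul_dvd_mul_right (hp0 β) h'
    · intro h
      refine ⟨Commute.zpow_zpow_self _ _ _, ((d.commute_a_iff x (p ^ β) i).2 ?_).symm⟩
      rw [← Nat.sub_add_cancel hβn, pow_add, Int.natCast_pow]
      exact mul_dvd_mul_right h _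
  · rintro ⟨i, hi⟩
    have h := (d.commute_a_iff i j _).1 ((hcen _).1 hi).1
    rw [← Nat.add_sub_cancel' hαn, pow_add] at h
    exact_mod_cast Int.dvd_of_mul_dvd_mul_left (hp0 α) h
  · intro hj
    -- compatibility from `h^(p^(n-β))`
    have hcomp : (p : ℤ) ^ α ∣ x * (p : ℤ) ^ (n - β) := by
      have hz : d.a ^ (0 : ℤ) * d.b ^ p ^ n ∈ L :=
        hZ ((d.mem_center_iff 0 _).2 ⟨dvd_zero _, dvd_rfl⟩)
      have hy := L.pow_mem hx (p ^ (n - β))
      rw [zpow_mul_pow (d.b_pow_conj (p ^ β)) x, ← pow_mul, ← pow_add,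
        Nat.add_sub_cancel' hβn] at hy
      rw [zpow_zero, one_mul] at hz
      have := (L.mul_mem_cancel_right hz).1 hy
      rw [hL.1] at this
      have h2 : (p : ℤ) ^ α ∣ x * ((p ^ (n - β) : ℕ) : ℤ) :=
        (dvd_mul_gsum_iff d.hp2 (dvd_pow_sub_one d.hu _) α x _).1 this
      simpa using h2
    have hxj : (p : ℤ) ^ β ∣ x * gsum d.u j := by
      rw [dvd_mul_gsum_iff d.hp2 d.hu]
      refine dvd_trans ?_ (mul_dvd_mul_left x (show (p : ℤ) ^ (n - α) ∣ j by exact_mod_cast hj))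
      have h3 := mul_dvd_mul_right hcomp ((p : ℤ) ^ (n - α))
      rw [← pow_add, Nat.add_sub_cancel' hαn] at h3
      conv at h3 => lhs; rw [← Nat.add_sub_cancel' hβn, pow_add, mul_comm]
      rw [show x * (p : ℤ) ^ (n - β) * (p : ℤ) ^ (n - α)
          = (p : ℤ) ^ (n - β) * (x * (p : ℤ) ^ (n - α)) by ring] at h3
      exact Int.dvd_of_mul_dvd_mul_left (hp0 _) h3
    obtain ⟨v, hv, hve⟩ := gsum_prime_pow d.hp2 β d.hu
    obtain ⟨q, hq⟩ := hxj
    obtain ⟨k, hk⟩ := exists_solve hp.out hv (n - β) (-q)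
    refine ⟨k, (hcen _).2 ⟨(d.commute_a_iff k j _).2 ?_, (d.commute_iff x k (p ^ β) j).2 ?_⟩⟩
    · rw [← Nat.add_sub_cancel' hαn, pow_add]
      exact mul_dvd_mul_left _ (by exact_mod_cast hj)
    · rw [hq, hve, ← Nat.add_sub_cancel' hβn, pow_add,
        show (p : ℤ) ^ β * q - k * ((p : ℤ) ^ β * v) = (p : ℤ) ^ β * (-(k * v + -q)) by ring]
      exact mul_dvd_mul_left _ (dvd_neg.2 hk)
  · have := d.nr; omega
  · have := d.nt; omega

/-- A metacyclic `p`-group, `p` odd, is a product of two cyclic subgroups meeting trivially. -/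
theorem exists_factor : ∃ A B : Subgroup G, IsCyclic A ∧ IsCyclic B ∧ A ⊓ B = ⊥ ∧
    Nat.card A * Nat.card B = Nat.card G := by
  haveI := d.finiteGroup
  have hp' : Prime (p : ℤ) := Nat.prime_iff_prime_int.1 hp.out
  have hlevel : ∃ v ≤ min r t, (p : ℤ) ^ v ∣ d.c ∧
      (v = min r t ∨ ¬ (p : ℤ) ^ (v + 1) ∣ d.c) := by
    classical
    refine ⟨Nat.findGreatest (fun v => (p : ℤ) ^ v ∣ d.c) (min r t),
      Nat.findGreatest_le _, Nat.findGreatest_spec (P := fun v => (p : ℤ) ^ v ∣ d.c)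
        (Nat.zero_le _) (by simp), ?_⟩
    by_contra hh
    push Not at hh
    obtain ⟨h1, h2⟩ := hh
    exact absurd (Nat.le_findGreatest (P := fun v => (p : ℤ) ^ v ∣ d.c)
      (show Nat.findGreatest _ (min r t) + 1 ≤ min r t from
        lt_of_le_of_ne (Nat.findGreatest_le _) h1) h2) (by omega)
  obtain ⟨v, hv, ⟨c₀, hc₀⟩, hvmax⟩ := hlevel
  have hvr : v ≤ r := hv.trans (min_le_left _ _)
  have hvt : v ≤ t := hv.trans (min_le_right _ _)
  obtain ⟨w, hw, hwe⟩ := gsum_prime_pow d.hp2 v (dvd_pow_sub_one d.hu (p ^ (t - v)))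
  obtain ⟨z, hz⟩ := exists_solve hp.out hw (r - v) c₀
  have hgv : (d.a ^ z * d.b ^ p ^ (t - v)) ^ p ^ v = 1 := by
    rw [zpow_mul_pow (d.b_pow_conj _) z, ← pow_mul, ← pow_add, Nat.sub_add_cancel hvt, d.hbc,
      ← zpow_add, d.ha]
    show (p : ℤ) ^ r ∣ z * gsum (d.u ^ p ^ (t - v)) (p ^ v) + d.c
    rw [hwe, hc₀, ← Nat.add_sub_cancel' hvr, pow_add,
      show z * ((p : ℤ) ^ v * w) + (p : ℤ) ^ v * c₀ = (p : ℤ) ^ v * (z * w + c₀) by ring]
    exact mul_dvd_mul_left _ hz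
  by_cases hvt' : v = t
  · -- the quotient splits
    subst hvt'
    rw [Nat.sub_self, pow_zero, pow_one] at hgv
    set g := d.a ^ z * d.b with hg
    have hgj : ∀ j : ℕ, ∃ y : ℤ, g ^ j = d.a ^ y * d.b ^ j := fun j =>
      ⟨_, by rw [hg]; exact zpow_mul_pow d.conj z j⟩
    have hmem : ∀ j : ℕ, g ^ j ∈ Subgroup.zpowers d.a → p ^ v ∣ j := by
      intro j hj
      obtain ⟨y, hy⟩ := hgj j
      obtain ⟨i, hi⟩ := Subgroup.mem_zpowers_iff.1 hj
      rw [hy] at hi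
      exact (d.hb j).1 ⟨-y + i, by rw [zpow_add, hi, zpow_neg]; group⟩
    refine ⟨Subgroup.zpowers d.a, Subgroup.zpowers g, inferInstance, inferInstance, ?_, ?_⟩
    · rw [eq_bot_iff]
      rintro y ⟨hy1, hy2⟩
      obtain ⟨j, rfl⟩ := (isOfFinOrder_of_finite g).mem_powers_iff_mem_zpowers.2 hy2
      obtain ⟨q, rfl⟩ := hmem j hy1
      rw [Subgroup.mem_bot]
      show g ^ (p ^ v * q) = 1
      rw [pow_mul, hgv, one_pow]
    · rw [Nat.card_zpowers, Nat.card_zpowers, d.card_G, pow_add]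
      congr 1
      · refine Nat.dvd_antisymm (orderOf_dvd_of_pow_eq_one ?_) ?_
        · rw [← zpow_natCast, d.ha]; simp
        · have h := pow_orderOf_eq_one d.a
          rw [← zpow_natCast, d.ha] at h
          exact_mod_cast h
      · refine Nat.dvd_antisymm (orderOf_dvd_of_pow_eq_one hgv) (hmem _ ?_)
        rw [pow_orderOf_eq_one]
        exact Subgroup.one_mem _
  · have hvlt : v < t := lt_of_le_of_ne hvt hvt'
    -- `z` may be taken prime to `p`
    obtain ⟨z, hzu, hgv⟩ : ∃ z : ℤ, ¬ (p : ℤ) ∣ z ∧ (d.a ^ z * d.b ^ p ^ (t - v)) ^ p ^ v = 1 := by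
      rcases Nat.lt_or_ge v r with hvr' | hvr'
      · refine ⟨z, fun hpz => ?_, hgv⟩
        have hc : (p : ℤ) ∣ c₀ := by
          have h := dvd_sub ((dvd_pow_self _ (by omega : r - v ≠ 0)).trans hz)
            (dvd_mul_of_dvd_left hpz w)
          simpa using h
        rcases hvmax with h | h
        · omega
        · exact h (by rw [hc₀, pow_succ]; exact mul_dvd_mul_left _ hc)
      · have hvr'' : v = r := le_antisymm hvr hvr'
        refine ⟨1, fun h => hp.out.one_lt.ne'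
          (by exact_mod_cast Int.eq_one_of_dvd_one (Int.natCast_nonneg p) h), ?_⟩
        rw [zpow_mul_pow (d.b_pow_conj _) 1, ← pow_mul, ← pow_add, Nat.sub_add_cancel hvt, d.hbc,
          ← zpow_add, d.ha]
        show (p : ℤ) ^ r ∣ 1 * gsum (d.u ^ p ^ (t - v)) (p ^ v) + d.c
        rw [hwe, hc₀, one_mul, ← hvr'']
        exact dvd_add (dvd_mul_right _ _) (dvd_mul_right _ _)
    set g := d.a ^ z * d.b ^ p ^ (t - v) with hg
    have hgk : ∀ k : ℕ, g ^ k ∈ Subgroup.zpowers d.b → p ^ v ∣ k := by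
      intro k hk
      obtain ⟨m, hm⟩ := (isOfFinOrder_of_finite d.b).mem_powers_iff_mem_zpowers.2 hk
      have hm' : d.b ^ m = g ^ k := hm
      rw [hg, zpow_mul_pow (d.b_pow_conj _) z, ← pow_mul] at hm'
      have hdiv : ∀ A B : ℕ, d.b ^ (A + B) = d.b ^ A → B = 0 ∨ d.b ^ B = 1 := fun A B h => by
        rw [pow_add, mul_eq_left] at h
        exact Or.inr h
      -- the `a`-part is a power of `a^c`
      have hA : d.a ^ (z * gsum (d.u ^ p ^ (t - v)) k) ∈ Subgroup.zpowers (d.a ^ d.c) := by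
        have h1 : d.a ^ (z * gsum (d.u ^ p ^ (t - v)) k)
            = d.b ^ ((m : ℤ) - ((p ^ (t - v) * k : ℕ) : ℤ)) := by
          rw [zpow_sub, zpow_natCast, zpow_natCast, hm']
          exact (mul_inv_cancel_right _ _).symm
        set e : ℤ := (m : ℤ) - ((p ^ (t - v) * k : ℕ) : ℤ) with he
        have h2 : ∃ i : ℤ, d.b ^ e.natAbs = d.a ^ i := by
          rcases Int.natAbs_eq e with h | h
          · exact ⟨_, by rw [← zpow_natCast, ← h, ← h1]⟩
          · refine ⟨-(z * gsum (d.u ^ p ^ (t - v)) k), ?_⟩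
            rw [← zpow_natCast, zpow_neg, h1]
            conv_rhs => rw [h, zpow_neg, inv_inv]
        obtain ⟨q, hq⟩ := (d.hb _).1 h2
        have h3 : ((p : ℤ) ^ t) ∣ e :=
          Int.dvd_natAbs.1 ⟨q, by rw [hq]; push_cast; ring⟩
        obtain ⟨q', hq'⟩ := h3
        rw [h1, hq', zpow_mul, ← Int.natCast_pow, zpow_natCast, d.hbc]
        exact Subgroup.zpow_mem _ (Subgroup.mem_zpowers _) _
      obtain ⟨q, hq⟩ := Subgroup.mem_zpowers_iff.1 hA
      rw [← zpow_mul, d.eq_iff] at hq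
      have h4 : (p : ℤ) ^ v ∣ z * gsum (d.u ^ p ^ (t - v)) k := by
        have := dvd_sub (dvd_mul_of_dvd_left (hc₀ ▸ dvd_mul_right _ _) q : (p : ℤ) ^ v ∣ d.c * q)
          ((pow_dvd_pow _ hvr).trans hq)
        simpa using this
      rw [dvd_mul_gsum_iff d.hp2 (dvd_pow_sub_one d.hu _)] at h4
      exact_mod_cast ((hp'.coprime_iff_not_dvd.2 hzu).pow_left).dvd_of_dvd_mul_left h4
    refine ⟨Subgroup.zpowers g, Subgroup.zpowers d.b, inferInstance, inferInstance, ?_, ?_⟩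
    · rw [eq_bot_iff]
      rintro y ⟨hy1, hy2⟩
      obtain ⟨k, rfl⟩ := (isOfFinOrder_of_finite g).mem_powers_iff_mem_zpowers.2 hy1
      obtain ⟨q, rfl⟩ := hgk k hy2
      rw [Subgroup.mem_bot]
      show g ^ (p ^ v * q) = 1
      rw [pow_mul, hgv, one_pow]
    · rw [Nat.card_zpowers, Nat.card_zpowers, d.card_G]
      have hog : orderOf g = p ^ v := Nat.dvd_antisymm (orderOf_dvd_of_pow_eq_one hgv)
        (hgk _ (by rw [pow_orderOf_eq_one]; exact Subgroup.one_mem _))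
      -- the order of `b` is `p^t` times the order of `a^c`
      have hv1 : v = r ∨ ¬ (p : ℤ) ∣ c₀ := by
        rcases hvmax with h | h
        · left; omega
        · right; intro h2; exact h (by rw [hc₀, pow_succ]; exact mul_dvd_mul_left _ h2)
      have hob : orderOf d.b = p ^ (t + (r - v)) := by
        refine Nat.dvd_antisymm (orderOf_dvd_of_pow_eq_one ?_) ?_
        · rw [pow_add, pow_mul, d.hbc, ← zpow_natCast, ← zpow_mul, d.ha, hc₀,
            Int.natCast_pow, mul_right_comm, ← pow_add, Nat.add_sub_cancel' hvr]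
          exact dvd_mul_right _ _
        · obtain ⟨q, hq⟩ := (d.hb (orderOf d.b)).1 ⟨0, by rw [pow_orderOf_eq_one, zpow_zero]⟩
          rw [hq, pow_add]
          refine mul_dvd_mul_left _ ?_
          rcases hv1 with h | h
          · rw [h, Nat.sub_self, pow_zero]; exact one_dvd _
          · have h5 := pow_orderOf_eq_one d.b
            rw [hq, pow_mul, d.hbc, ← zpow_natCast, ← zpow_mul, d.ha, hc₀, mul_assoc] at h5
            conv at h5 => lhs; rw [← Nat.add_sub_cancel' hvr, pow_add]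
            have h6 := Int.dvd_of_mul_dvd_mul_left
              (pow_ne_zero _ (by exact_mod_cast hp.out.pos.ne')) h5
            exact_mod_cast ((hp'.coprime_iff_not_dvd.2 h).pow_left).dvd_of_dvd_mul_left h6
      rw [hog, hob, ← pow_add]
      congr 1
      omega

end Cfsg.Agent.H85.MetaData
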