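import Mathlib

/-!
Points of odd period of a permutation, and basic identities for two involutions.
-/

namespace Cfsg.Agent.H85.InvGraph

open Equiv

variable {α : Type*}

/-- The point `x` returns to itself after an odd number of steps. -/
def OddPer (f : Perm α) (x : α) : Prop := ∃ k : ℕ, Odd k ∧ (f ^ k) x = x

theorem oddPer_of_fixed {f : Perm α} {x : α} (h : f x = x) : OddPer f x :=
  ⟨1, odd_one, by simpa using h⟩

theorem oddPer_of_three {f : Perm α} {a b c : α} (h1 : f a = b) (h2 : f b = c) (h3 : f c = a) :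
    OddPer f a ∧ OddPer f b ∧ OddPer f c :=
  ⟨⟨3, by decide, by simp [pow_succ, h1, h2, h3]⟩, ⟨3, by decide, by simp [pow_succ, h1, h2, h3]⟩,
    ⟨3, by decide, by simp [pow_succ, h1, h2, h3]⟩⟩

theorem oddPer_pow {f : Perm α} {x : α} (h : OddPer f x) (j : ℕ) : OddPer f ((f ^ j) x) := by
  obtain ⟨k, hk, hx⟩ := h
  refine ⟨k, hk, ?_⟩
  rw [← Perm.mul_apply, ← pow_add, add_comm, pow_add, Perm.mul_apply, hx]

theorem oddPer_apply {f : Perm α} {x : α} (h : OddPer f x) : OddPer f (f x) := by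
  simpa using oddPer_pow h 1

/-- Following a path. -/
theorem pow_seg {f : Perm α} (a : ℕ → α) :
    ∀ k : ℕ, (∀ j < k, f (a j) = a (j + 1)) → (f ^ k) (a 0) = a k := by
  intro k
  induction k with
  | zero => intro _; simp
  | succ k ih =>
      intro h
      rw [pow_succ', Perm.mul_apply, ih (fun j hj => h j (by omega)), h k (by omega)]

theorem oddPer_of_insert {f f0 : Perm α} (R : Set α) (hR : ∀ z ∈ R, f0 z ∈ R) (m : α → ℕ)
    (hm : ∀ z ∈ R, Odd (m z)) (hf : ∀ z ∈ R, (f ^ m z) z = f0 z) {z : α} (hz : z ∈ R)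
    (hp : OddPer f0 z) : OddPer f z := by
  have key : ∀ k : ℕ, (f0 ^ k) z ∈ R ∧
      ∃ N : ℕ, (Odd N ↔ Odd k) ∧ (f ^ N) z = (f0 ^ k) z := by
    intro k
    induction k with
    | zero => exact ⟨by simpa using hz, 0, Iff.rfl, by simp⟩
    | succ k ih =>
        obtain ⟨hk, N, hN, hNz⟩ := ih
        refine ⟨by rw [pow_succ', Perm.mul_apply]; exact hR _ hk, m ((f0 ^ k) z) + N, ?_, ?_⟩
        · have := hm _ hk
          rw [Nat.odd_add', Nat.odd_add_one, ← hN]
          simp [this, ← Nat.not_odd_iff_even]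
        · rw [pow_add, Perm.mul_apply, hNz, hf _ hk, pow_succ', Perm.mul_apply]
  obtain ⟨k, hk, hzk⟩ := hp
  obtain ⟨-, N, hN, hNz⟩ := key k
  exact ⟨N, hN.mpr hk, hNz.trans hzk⟩

theorem odd_orderOf_of_oddPer [Finite α] {f : Perm α} (h : ∀ x, OddPer f x) :
    Odd (orderOf f) := by
  have : Fintype α := Fintype.ofFinite α
  choose k hk hx using h
  have hN : Odd (∏ x, k x) :=
    Finset.prod_induction k Odd (fun _ _ ha hb => ha.mul hb) odd_one fun x _ => hk x
  refine hN.of_dvd_nat (orderOf_dvd_of_pow_eq_one ?_)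
  ext x
  obtain ⟨c, hc⟩ := Finset.dvd_prod_of_mem k (Finset.mem_univ x)
  rw [hc, pow_mul, Perm.one_apply]
  exact Equiv.Perm.pow_apply_eq_self_of_apply_eq_self (hx x) c

section Invol

variable (s t : Perm α)

theorem inv_apply_of_sq {s : Perm α} (hs : ∀ x, s (s x) = x) : s⁻¹ = s := by
  apply inv_eq_of_mul_eq_one_right
  ext x
  simp [hs x]

variable {s t}

theorem invol_zpow (hs : ∀ x, s (s x) = x) (ht : ∀ x, t (t x) = x) (i : ℤ) (x : α) :
    s (((s * t) ^ i) x) = ((s * t) ^ (-i)) (s x) := by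
  have e : s * (s * t) * s⁻¹ = (s * t)⁻¹ := by
    rw [mul_inv_rev, inv_apply_of_sq ht, inv_apply_of_sq hs]
    ext x
    simp [hs]
  have := congrArg (fun g : Perm α => g (s x))
    (conj_zpow (a := s) (b := s * t) (i := i))
  rw [e, inv_zpow, ← zpow_neg] at this
  simpa using this.symm

theorem snd_invol_zpow (hs : ∀ x, s (s x) = x) (ht : ∀ x, t (t x) = x) (i : ℤ) (x : α) :
    t (((s * t) ^ i) x) = ((s * t) ^ (-(i + 1))) (s x) := by
  rw [← invol_zpow hs ht (i + 1) x, add_comm i 1, zpow_add, zpow_one]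
  simp [hs]

/-- Even least period. -/
theorem exists_even_period [Finite α] {z : Perm α} {p : α} (h : ¬ OddPer z p) :
    ∃ L : ℕ, 0 < L ∧ Even L ∧ ∀ i j : ℤ, (z ^ i) p = (z ^ j) p ↔ (L : ℤ) ∣ i - j := by
  have key : ∀ i : ℤ, (z ^ i) p = p ↔ (MulAction.period z p : ℤ) ∣ i := fun i => by
    rw [← MulAction.zpow_smul_eq_iff_period_dvd (g := z) (a := p)]
    rfl
  refine ⟨MulAction.period z p, ?_, ?_, ?_⟩
  · refine MulAction.period_pos_of_orderOf_pos ?_ p
    exact orderOf_pos z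
  · by_contra hne
    exact h ⟨_, Nat.not_even_iff_odd.mp hne, MulAction.pow_period_smul z p⟩
  · intro i j
    rw [← key, sub_eq_neg_add, zpow_add, Perm.mul_apply]
    constructor
    · intro e
      rw [e, zpow_neg]
      simp
    · intro e
      have := congrArg (z ^ j) e
      simpa [zpow_neg] using this

end Invol

end Cfsg.Agent.H85.InvGraph
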