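import Cfsg.Agent.H35.Sections
import Cfsg.Agent.H23.MinimalStable
import Cfsg.Agent.H20.PxQ
import Cfsg.Agent.H85.InvertedBasic

set_option autoImplicit false

/-!
Two quadratically acting elements which do not generate a `q`-group on the module (`q` odd) generate a
group containing a two-element which commutes with the first one on the module but is not trivial on it.
-/

namespace Cfsg.Agent.H85

open scoped commutatorElement

/-- If `n`, `m` square to zero, then every element of the monoid generated by `1 + n`, `1 + m` plus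
its inverse commutes with `n`. -/
theorem commute_add_inverse {H R : Type*} [Group H] [Finite H] [Ring R] (ρ : H →* R) {a b : H}
    (hab : Subgroup.closure ({a, b} : Set H) = ⊤) (ha : (ρ a - 1) * (ρ a - 1) = 0)
    (hb : (ρ b - 1) * (ρ b - 1) = 0) (h : H) : Commute (ρ a) (ρ h + ρ h⁻¹) := by
  obtain ⟨n, hn⟩ : ∃ n, n = ρ a - 1 := ⟨_, rfl⟩
  obtain ⟨m, hm⟩ : ∃ m, m = ρ b - 1 := ⟨_, rfl⟩
  rw [← hn] at ha
  rw [← hm] at hb
  have hA : ρ a = 1 + n := by rw [hn]; abel
  have hB : ρ b = 1 + m := by rw [hm]; abel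
  have hinv : ∀ (x : H) (w : R), w * w = 0 → ρ x = 1 + w → ρ x⁻¹ = 1 - w := by
    intro x w hw hx
    calc ρ x⁻¹ = ρ x⁻¹ * ((1 + w) * (1 - w)) := by
          rw [show (1 + w) * (1 - w) = 1 - w * w by noncomm_ring, hw, sub_zero, mul_one]
      _ = ρ (x⁻¹ * x) * (1 - w) := by rw [map_mul, hx, mul_assoc]
      _ = 1 - w := by rw [inv_mul_cancel, map_one, one_mul]
  obtain ⟨c, hc⟩ : ∃ c, c = n * m + m * n := ⟨_, rfl⟩
  have hnc : Commute n c := by
    show n * c = c * n
    rw [hc, mul_add, add_mul, ← mul_assoc, ha, zero_mul, zero_add, mul_assoc m n n, ha, mul_zero,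
      add_zero, mul_assoc]
  have hmc : Commute m c := by
    show m * c = c * m
    rw [hc, mul_add, add_mul, ← mul_assoc m m n, hb, zero_mul, add_zero, mul_assoc n m m, hb,
      mul_zero, zero_add, mul_assoc]
  set C := Subring.closure ({c} : Set R) with hC
  have hCn : ∀ x ∈ C, Commute n x := by
    intro x hx
    induction hx using Subring.closure_induction with
    | mem y hy => rw [Set.mem_singleton_iff] at hy; rw [hy]; exact hnc
    | zero => exact Commute.zero_right n
    | one => exact Commute.one_right n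
    | add u v _ _ iu iv => exact iu.add_right iv
    | neg u _ iu => exact iu.neg_right
    | mul u v _ _ iu iv => exact iu.mul_right iv
  have hCm : ∀ x ∈ C, Commute m x := by
    intro x hx
    induction hx using Subring.closure_induction with
    | mem y hy => rw [Set.mem_singleton_iff] at hy; rw [hy]; exact hmc
    | zero => exact Commute.zero_right m
    | one => exact Commute.one_right m
    | add u v _ _ iu iv => exact iu.add_right iv
    | neg u _ iu => exact iu.neg_right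
    | mul u v _ _ iu iv => exact iu.mul_right iv
  have hcC : c ∈ C := Subring.subset_closure rfl
  let S : Submonoid H :=
    { carrier := {g | ∀ α ∈ C, ∀ β ∈ C, ∀ γ ∈ C, ∀ δ ∈ C, ∀ r r' : R,
        r = α + β * n + γ * m + δ * (n * m) → r' = α - β * n - γ * m + δ * (m * n) →
        ∃ α' ∈ C, ∃ β' ∈ C, ∃ γ' ∈ C, ∃ δ' ∈ C,
          ρ g * r = α' + β' * n + γ' * m + δ' * (n * m) ∧
          r' * ρ g⁻¹ = α' - β' * n - γ' * m + δ' * (m * n)}
      one_mem' := fun α hα β hβ γ hγ δ hδ r r' hr hr' =>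
        ⟨α, hα, β, hβ, γ, hγ, δ, hδ, by rw [map_one, one_mul, hr],
          by rw [inv_one, map_one, mul_one, hr']⟩
      mul_mem' := fun {g g'} hg hg' α hα β hβ γ hγ δ hδ r r' hr hr' => by
        obtain ⟨α₁, h1, β₁, h2, γ₁, h3, δ₁, h4, e1, e2⟩ := hg' α hα β hβ γ hγ δ hδ r r' hr hr'
        obtain ⟨α₂, h5, β₂, h6, γ₂, h7, δ₂, h8, e3, e4⟩ := hg α₁ h1 β₁ h2 γ₁ h3 δ₁ h4 _ _ e1 e2
        refine ⟨α₂, h5, β₂, h6, γ₂, h7, δ₂, h8, ?_, ?_⟩
        · rw [map_mul, mul_assoc, e3]
        · rw [mul_inv_rev, map_mul, ← mul_assoc, e4] }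
  have haS : a ∈ S := fun α hα β hβ γ hγ δ hδ r r' hr hr' => by
    refine ⟨α, hα, α + β, add_mem hα hβ, γ, hγ, γ + δ, add_mem hγ hδ, ?_, ?_⟩
    · rw [hA, hr]
      calc (1 + n) * (α + β * n + γ * m + δ * (n * m))
          = α + β * n + γ * m + δ * (n * m) + (n * α + (n * β) * n + (n * γ) * m
              + (n * δ) * (n * m)) := by noncomm_ring
        _ = α + β * n + γ * m + δ * (n * m) + (α * n + β * (n * n) + γ * (n * m)
              + δ * (n * n) * m) := by
            rw [(hCn α hα).eq, (hCn β hβ).eq, (hCn γ hγ).eq, (hCn δ hδ).eq]; noncomm_ring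
        _ = α + (α + β) * n + γ * m + (γ + δ) * (n * m) := by rw [ha]; noncomm_ring
    · rw [hinv a n ha hA, hr']
      calc (α - β * n - γ * m + δ * (m * n)) * (1 - n)
          = α - β * n - γ * m + δ * (m * n) - α * n + β * (n * n) + γ * (m * n)
              - δ * m * (n * n) := by noncomm_ring
        _ = α - (α + β) * n - γ * m + (γ + δ) * (m * n) := by rw [ha]; noncomm_ring
  have hbS : b ∈ S := fun α hα β hβ γ hγ δ hδ r r' hr hr' => by
    refine ⟨α + β * c, add_mem hα (mul_mem hβ hcC), β, hβ, γ + α + δ * c,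
      add_mem (add_mem hγ hα) (mul_mem hδ hcC), δ - β, sub_mem hδ hβ, ?_, ?_⟩
    · rw [hB, hr]
      calc (1 + m) * (α + β * n + γ * m + δ * (n * m))
          = α + β * n + γ * m + δ * (n * m) + (m * α + (m * β) * n + (m * γ) * m
              + (m * δ) * (n * m)) := by noncomm_ring
        _ = α + β * n + γ * m + δ * (n * m) + (α * m + β * (c - n * m) + γ * (m * m)
              + δ * ((c - n * m) * m)) := by
            rw [(hCm α hα).eq, (hCm β hβ).eq, (hCm γ hγ).eq, (hCm δ hδ).eq, hc]; noncomm_ring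
        _ = α + β * n + γ * m + δ * (n * m) + (α * m + β * (c - n * m) + γ * (m * m)
              + δ * (c * m - n * (m * m))) := by noncomm_ring
        _ = α + β * c + β * n + (γ + α + δ * c) * m + (δ - β) * (n * m) := by
            rw [hb]; noncomm_ring
    · rw [hinv b m hb hB, hr']
      calc (α - β * n - γ * m + δ * (m * n)) * (1 - m)
          = α - β * n - γ * m + δ * (m * n) - α * m + β * (c - m * n) + γ * (m * m)
              - δ * (m * (c - m * n)) := by rw [hc]; noncomm_ring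
        _ = α - β * n - γ * m + δ * (m * n) - α * m + β * (c - m * n) + γ * (m * m)
              - δ * (c * m - (m * m) * n) := by rw [show m * (c - m * n) = c * m - (m * m) * n by rw [mul_sub, hmc.eq, mul_assoc]]
        _ = α + β * c - β * n - (γ + α + δ * c) * m + (δ - β) * (m * n) := by
            rw [hb]; noncomm_ring
  have hall : h ∈ S := by
    have hh : h ∈ (Subgroup.closure ({a, b} : Set H)).toSubmonoid := hab ▸ Subgroup.mem_top h
    rw [Subgroup.closure_toSubmonoid_of_finite] at hh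
    exact Submonoid.closure_le.2 (by rintro y (rfl | rfl) <;> assumption) hh
  obtain ⟨α, hα, β, -, γ, -, δ, hδ, e1, e2⟩ :=
    hall 1 (one_mem C) 0 (zero_mem C) 0 (zero_mem C) 0 (zero_mem C) 1 1 (by noncomm_ring) (by noncomm_ring)
  rw [mul_one] at e1
  rw [one_mul] at e2
  have key : Commute n (ρ h + ρ h⁻¹) := by
    have e : ρ h + ρ h⁻¹ = (α + α) + δ * c := by rw [e1, e2, hc]; noncomm_ring
    rw [e]
    exact ((hCn α hα).add_right (hCn α hα)).add_right ((hCn δ hδ).mul_right hnc)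
  rw [hA]
  exact (Commute.one_left _).add_left key

/-- Two quadratic elements which do not generate a `q`-group on the module: some two-element of the
group they generate is nontrivial on the module and commutes there with the first one. -/
theorem exists_two_element_commute {H W : Type*} [Group H] [Finite H] [AddCommGroup W] [Finite W]
    {q : ℕ} [Fact q.Prime] (hq : q ≠ 2) (hW : ∀ x : W, q • x = 0) (ρ : H →* AddMonoid.End W)
    (a b : H) (hab : Subgroup.closure {a, b} = ⊤) (ha : ∀ x, ρ a (ρ a x - x) = ρ a x - x)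
    (hb : ∀ x, ρ b (ρ b x - x) = ρ b x - x) (hnp : ¬ ∀ h : H, ∃ k : ℕ, ρ (h ^ (q ^ k)) = 1) :
    ∃ z : H, (∃ k, orderOf z = 2 ^ k) ∧ ρ z ≠ 1 ∧ Commute (ρ z) (ρ a) := by
  obtain ⟨a', b', S₁, S₂, v, w, hnat⟩ := H35.exists_natural_pair hq hW ρ a b hab ha hb hnp
  obtain ⟨c, φ, hφ, -, hcsurj, hceq⟩ := H35.natural_pair_coord hnat
  have : Fact (2 < q) := ⟨lt_of_le_of_ne (Fact.out : q.Prime).two_le hq.symm⟩
  obtain ⟨g, hg⟩ := hφ (-1)
  have hneg : (-1 : Matrix.SpecialLinearGroup (Fin 2) (ZMod q)) ≠ 1 := by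
    intro h
    have h1 := congrArg (fun M : Matrix.SpecialLinearGroup (Fin 2) (ZMod q) => M.1 0 0) h
    simp at h1
    exact ZMod.neg_one_ne_one h1
  obtain ⟨j, hj, k, hk⟩ := exists_odd_two_part (g : H)
  have hgρ : ρ ((g : H) ^ j) ≠ 1 := by
    intro h
    apply hneg
    have hφj : φ (g ^ j) = -1 := by rw [map_pow, hg, hj.neg_one_pow]
    rw [← hφj]
    refine Subtype.ext (Matrix.toLin'.injective (LinearMap.ext fun d => ?_))
    obtain ⟨x, hx, rfl⟩ := hcsurj d
    have e := (hceq (g ^ j) x hx).2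
    rw [SubmonoidClass.coe_pow, h] at e
    rw [Matrix.toLin'_apply, Matrix.toLin'_apply, ← e, Matrix.SpecialLinearGroup.coe_one,
      Matrix.one_mulVec]
    rfl
  classical
  set u := (g : H) ^ j with hu
  have hex : ∃ i, ρ (u ^ 2 ^ i) = 1 := ⟨k, by rw [← hk, pow_orderOf_eq_one, map_one]⟩
  obtain ⟨i, hi⟩ : ∃ i, Nat.find hex = i + 1 := by
    refine ⟨Nat.find hex - 1, ?_⟩
    have : Nat.find hex ≠ 0 := fun h => hgρ (by
      have := Nat.find_spec hex
      rwa [h, pow_zero, pow_one] at this)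
    omega
  have hz : ρ (u ^ 2 ^ i) ≠ 1 := Nat.find_min hex (by omega)
  have hzz : ρ (u ^ 2 ^ i) * ρ (u ^ 2 ^ i) = 1 := by
    rw [← map_mul, ← pow_add, ← two_mul, ← pow_succ', ← hi]
    exact Nat.find_spec hex
  refine ⟨u ^ 2 ^ i, ?_, hz, ?_⟩
  · obtain ⟨l, -, hl⟩ := (Nat.dvd_prime_pow Nat.prime_two).1 (hk ▸ orderOf_pow_dvd (x := u) (2 ^ i))
    exact ⟨l, hl⟩
  have hquad : ∀ x : H, (∀ y, ρ x (ρ x y - y) = ρ x y - y) → (ρ x - 1) * (ρ x - 1) = 0 :=
    fun x hx => AddMonoidHom.ext fun y => sub_eq_zero.2 (hx y)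
  have hinv : ρ (u ^ 2 ^ i)⁻¹ = ρ (u ^ 2 ^ i) := by
    calc ρ (u ^ 2 ^ i)⁻¹ = ρ (u ^ 2 ^ i)⁻¹ * (ρ (u ^ 2 ^ i) * ρ (u ^ 2 ^ i)) := by rw [hzz, mul_one]
      _ = ρ (u ^ 2 ^ i) := by rw [← mul_assoc, ← map_mul, inv_mul_cancel, map_one, one_mul]
  have h2 := commute_add_inverse ρ hab (hquad a ha) (hquad b hb) (u ^ 2 ^ i)
  rw [hinv] at h2
  generalize ρ (u ^ 2 ^ i) = Z at h2 ⊢
  refine AddMonoidHom.ext fun x => ?_
  have h3 : ρ a ((Z + Z) x) = (Z + Z) (ρ a x) := DFunLike.congr_fun h2.eq x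
  show Z (ρ a x) = ρ a (Z x)
  have h4 : (2 : ℕ) • (Z (ρ a x) - ρ a (Z x)) = 0 := by
    rw [two_nsmul, sub_add_sub_comm, sub_eq_zero, ← map_add (ρ a)]
    exact h3.symm
  obtain ⟨r, hr⟩ := (Fact.out : q.Prime).odd_of_ne_two hq
  have h5 := hW (Z (ρ a x) - ρ a (Z x))
  rw [hr, add_nsmul, mul_comm, mul_nsmul', h4, nsmul_zero, zero_add, one_nsmul, sub_eq_zero] at h5
  exact h5

/-- Two elements acting quadratically on the normal `q`-subgroup `V` and not generating a `q`-group
on it give, modulo the centraliser, a nontrivial two-element normalising a `q`-group which contains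
the first element. -/
theorem exists_two_element_normalising {G : Type*} [Group G] [Finite G] {q : ℕ} [Fact q.Prime]
    (hq : q ≠ 2) {V : Subgroup G} [V.Normal] (hV : IsPGroup q V) {a b : G}
    (ha : ⁅⁅V, Subgroup.zpowers a⁆, Subgroup.zpowers a⁆ = ⊥)
    (hb : ⁅⁅V, Subgroup.zpowers b⁆, Subgroup.zpowers b⁆ = ⊥)
    (hnp : ¬ IsPGroup q ↥(Subgroup.closure
      ({(QuotientGroup.mk a : G ⧸ Subgroup.centralizer (V : Set G)), QuotientGroup.mk b} :
        Set (G ⧸ Subgroup.centralizer (V : Set G))))) :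
    ∃ (t : G ⧸ Subgroup.centralizer (V : Set G)) (P : Subgroup (G ⧸ Subgroup.centralizer (V : Set G))),
      t ∈ Subgroup.closure ({(QuotientGroup.mk a : G ⧸ Subgroup.centralizer (V : Set G)),
        QuotientGroup.mk b} : Set (G ⧸ Subgroup.centralizer (V : Set G))) ∧
      P ≤ Subgroup.closure ({(QuotientGroup.mk a : G ⧸ Subgroup.centralizer (V : Set G)),
        QuotientGroup.mk b} : Set (G ⧸ Subgroup.centralizer (V : Set G))) ∧
      (∃ k, orderOf t = 2 ^ k) ∧ t ≠ 1 ∧ IsPGroup q P ∧ QuotientGroup.mk a ∈ P ∧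
      t ∈ Subgroup.normalizer (P : Set (G ⧸ Subgroup.centralizer (V : Set G))) := by
  set π := QuotientGroup.mk' (Subgroup.centralizer (V : Set G)) with hπ
  set F := (frattini V).map V.subtype with hF
  have hFn : F.Normal := ConjAct.normal_of_characteristic_of_normal
  set H0 := Subgroup.closure ({a, b} : Set G) with hH0
  have hVn : (F.subgroupOf V).Normal := hFn.subgroupOf V
  have hFsub : F.subgroupOf V = frattini V :=
    Subgroup.comap_map_eq_self_of_injective V.subtype_injective _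
  have hpow : ∀ x ∈ V, x ^ q ∈ F := fun x hx =>
    ⟨⟨x, hx⟩ ^ q, Cfsg.Agent.H24.pow_mem_frattini hV _, rfl⟩
  have hcomm : ∀ x ∈ V, ∀ y ∈ V, ⁅x, y⁆ ∈ F := fun x hx y hy =>
    ⟨⁅(⟨x, hx⟩ : V), ⟨y, hy⟩⁆,
      Cfsg.Agent.H24.commutator_le_frattini hV (Subgroup.commutator_mem_commutator trivial trivial), rfl⟩
  let Q := V ⧸ F.subgroupOf V
  letI : CommGroup Q :=
    { (inferInstance : Group Q) with
      mul_comm := fun x y => by
        induction x using QuotientGroup.induction_on with | _ x =>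
        induction y using QuotientGroup.induction_on with | _ y =>
        refine QuotientGroup.eq.2 ?_
        show (((x * y)⁻¹ * (y * x) : V) : G) ∈ F
        have : (((x * y)⁻¹ * (y * x) : V) : G) = ⁅(y : G)⁻¹, (x : G)⁻¹⁆ := by
          simp [commutatorElement_def, mul_assoc]
        rw [this]
        exact hcomm _ (inv_mem y.2) _ (inv_mem x.2) }
  let mkq : V → Additive Q := fun x => Additive.ofMul (QuotientGroup.mk x : Q)
  have hqmul : ∀ x y, mkq (x * y) = mkq x + mkq y := fun _ _ => rfl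
  have hq0 : ∀ x, mkq x = 0 ↔ (x : G) ∈ F := fun x => QuotientGroup.eq_one_iff x
  have hqsurj : Function.Surjective mkq := fun y => by
    obtain ⟨x, hx⟩ := QuotientGroup.mk_surjective (Additive.toMul y)
    exact ⟨x, congrArg Additive.ofMul hx⟩
  let cj : H0 → V →* V := fun h => MonoidHom.mk'
    (fun x => ⟨(h : G) * x * (h : G)⁻¹, (inferInstance : V.Normal).conj_mem x x.2 h⟩)
    (fun x y => Subtype.ext (by simp [mul_assoc]))
  have hcj : ∀ h, F.subgroupOf V ≤ (F.subgroupOf V).comap (cj h) := fun h x hx => hFn.conj_mem _ hx h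
  let ρ : H0 →* AddMonoid.End (Additive Q) :=
    { toFun := fun h => MonoidHom.toAdditive (QuotientGroup.map _ _ (cj h) (hcj h))
      map_one' := by
        refine AddMonoidHom.ext fun y => ?_
        obtain ⟨x, rfl⟩ := hqsurj y
        show mkq (cj 1 x) = mkq x
        exact congrArg mkq (Subtype.ext (by simp [cj]))
      map_mul' := fun g h => by
        refine AddMonoidHom.ext fun y => ?_
        obtain ⟨x, rfl⟩ := hqsurj y
        show mkq (cj (g * h) x) = mkq (cj g (cj h x))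
        exact congrArg mkq (Subtype.ext (by simp [cj, mul_assoc])) }
  have hρ : ∀ h x, ρ h (mkq x) = mkq (cj h x) := fun _ _ => rfl
  have hW : ∀ y : Additive Q, q • y = 0 := by
    intro y
    obtain ⟨x, rfl⟩ := hqsurj y
    have hn : ∀ n : ℕ, n • mkq x = mkq (x ^ n) := by
      intro n
      induction n with
      | zero => rw [zero_nsmul, pow_zero]; rfl
      | succ n ih => rw [succ_nsmul, ih, pow_succ, hqmul]
    rw [hn, hq0]
    simpa using hpow _ x.2
  have hkey : ∀ (h : H0) (x : V), ρ h (mkq x) - mkq x = mkq (cj h x * x⁻¹) := fun h x => by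
    rw [sub_eq_iff_eq_add, hρ, ← hqmul, inv_mul_cancel_right]
  have hquad : ∀ h : H0, ⁅⁅V, Subgroup.zpowers (h : G)⁆, Subgroup.zpowers (h : G)⁆ = ⊥ →
      ∀ y, ρ h (ρ h y - y) = ρ h y - y := by
    intro h hh y
    obtain ⟨x, rfl⟩ := hqsurj y
    rw [hkey, hρ]
    refine congrArg mkq (Subtype.ext ?_)
    show (h : G) * ((h : G) * x * (h : G)⁻¹ * (x : G)⁻¹) * (h : G)⁻¹ = _
    rw [(Cfsg.Agent.H23.commute_of_quadratic hh x.2).eq, mul_inv_cancel_right]
    rfl
  let a₀ : H0 := ⟨a, Subgroup.subset_closure (Or.inl rfl)⟩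
  let b₀ : H0 := ⟨b, Subgroup.subset_closure (Or.inr rfl)⟩
  have hab : Subgroup.closure ({a₀, b₀} : Set H0) = ⊤ := by
    have : ({a₀, b₀} : Set H0) = ((↑) : H0 → G) ⁻¹' {a, b} := by
      ext x; simp [a₀, b₀, Subtype.ext_iff]
    rw [this]
    exact Subgroup.closure_closure_coe_preimage
  -- the kernel on the section is a `q`-group modulo the centraliser
  have hker : ∀ h : H0, ρ h = 1 → ∃ i, π (h : G) ^ q ^ i = 1 := by
    intro h hh
    obtain ⟨i, m, hm, ho⟩ :=
      Nat.exists_eq_pow_mul_and_not_dvd (orderOf_pos (h : G)).ne' q (Fact.out : q.Prime).ne_one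
    refine ⟨i, ?_⟩
    rw [← map_pow, hπ, QuotientGroup.mk'_apply, QuotientGroup.eq_one_iff]
    refine H20.le_centralizer_of_trivial_on_frattini ?_ ?_ ?_ (Subgroup.mem_zpowers _)
    · rw [Subgroup.normalizer_eq_top V]; exact le_top
    · rw [Nat.card_zpowers, orderOf_pow, ho, Nat.gcd_eq_right (dvd_mul_right _ m),
        Nat.mul_div_cancel_left _ (pow_pos (Fact.out : q.Prime).pos i)]
      obtain ⟨e, he⟩ := IsPGroup.iff_card.1 (hV.to_subgroup (frattini V))
      rw [he]
      exact ((Fact.out : q.Prime).coprime_iff_not_dvd.2 hm).symm.pow_right e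
    · rintro y hy x hx
      obtain ⟨l, rfl⟩ := hy
      show ((h : G) ^ q ^ i) ^ l * x * (((h : G) ^ q ^ i) ^ l)⁻¹ * x⁻¹ ∈ F
      have h1 : ρ ((h ^ q ^ i) ^ l) = 1 := by
        have h3 : h ∈ ρ.ker := hh
        exact zpow_mem (pow_mem h3 _) l
      have h2 : ρ ((h ^ q ^ i) ^ l) (mkq ⟨x, hx⟩) - mkq ⟨x, hx⟩ = 0 := by rw [h1]; exact sub_self _
      rw [hkey, hq0] at h2
      simpa [cj] using h2
  have hπH : H0.map π = Subgroup.closure ({(QuotientGroup.mk a : G ⧸ Subgroup.centralizer (V : Set G)),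
      QuotientGroup.mk b} : Set (G ⧸ Subgroup.centralizer (V : Set G))) := by
    rw [hH0, MonoidHom.map_closure, Set.image_pair]; rfl
  have hnp' : ¬ ∀ h : H0, ∃ k : ℕ, ρ (h ^ (q ^ k)) = 1 := by
    intro hall
    apply hnp
    rw [← hπH]
    rintro ⟨_, g, hg, rfl⟩
    obtain ⟨k, hk⟩ := hall ⟨g, hg⟩
    obtain ⟨i, hi⟩ := hker _ hk
    refine ⟨k + i, Subtype.ext ?_⟩
    rw [SubgroupClass.coe_pow, OneMemClass.coe_one, pow_add, pow_mul, ← map_pow π g]
    exact hi
  have : Finite (Additive Q) := Finite.of_equiv Q Additive.ofMul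
  obtain ⟨z, hz2, hz1, hzc⟩ :=
    exists_two_element_commute hq hW ρ a₀ b₀ hab (hquad a₀ ha) (hquad b₀ hb) hnp'
  set ρ' := ρ.toHomUnits with hρ'
  set P0 := (Subgroup.zpowers (ρ' a₀)).comap ρ' with hP0
  have hzc' : Commute (ρ' z) (ρ' a₀) := Units.ext hzc
  refine ⟨π (z : G), (P0.map H0.subtype).map π, ?_, ?_, ?_, ?_, ?_, ?_, ?_⟩
  · rw [← hπH]; exact ⟨z, z.2, rfl⟩
  · rw [← hπH]; exact Subgroup.map_mono (Subgroup.map_subtype_le _)
  · exact two_power_map (π.comp H0.subtype) hz2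
  · intro h
    rw [hπ, QuotientGroup.mk'_apply, QuotientGroup.eq_one_iff, Subgroup.mem_centralizer_iff] at h
    apply hz1
    refine AddMonoidHom.ext fun y => ?_
    obtain ⟨x, rfl⟩ := hqsurj y
    show ρ z (mkq x) = mkq x
    rw [hρ]
    refine congrArg mkq (Subtype.ext ?_)
    show (z : G) * x * (z : G)⁻¹ = x
    rw [← h x x.2, mul_inv_cancel_right]
  · rintro ⟨_, _, ⟨h, hh, rfl⟩, rfl⟩
    obtain ⟨l, hl⟩ := hh
    obtain ⟨ka, hka⟩ := H23.exists_pow_mem_centralizer hV ha
    have hρa : ρ a₀ ^ q ^ ka = 1 := by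
      rw [← map_pow]
      refine AddMonoidHom.ext fun y => ?_
      obtain ⟨x, rfl⟩ := hqsurj y
      show ρ (a₀ ^ q ^ ka) (mkq x) = mkq x
      rw [hρ]
      refine congrArg mkq (Subtype.ext ?_)
      show ((a₀ ^ q ^ ka : H0) : G) * x * ((a₀ ^ q ^ ka : H0) : G)⁻¹ = x
      rw [SubgroupClass.coe_pow]
      rw [← Subgroup.mem_centralizer_iff.1 hka x x.2, mul_inv_cancel_right]
    have hk : ρ (h ^ q ^ ka) = 1 := by
      have h1 : ρ' h ^ q ^ ka = 1 := by
        rw [show ρ' h = ρ' a₀ ^ l from hl.symm, ← zpow_natCast, ← zpow_mul, mul_comm, zpow_mul,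
          zpow_natCast]
        rw [show ρ' a₀ ^ q ^ ka = 1 from Units.ext (by simpa [hρ'] using hρa), one_zpow]
      rw [map_pow]
      simpa [hρ'] using congrArg Units.val h1
    obtain ⟨i, hi⟩ := hker _ hk
    refine ⟨ka + i, Subtype.ext ?_⟩
    rw [SubgroupClass.coe_pow, OneMemClass.coe_one, pow_add, pow_mul, ← map_pow π]
    exact hi
  · exact ⟨a, ⟨a₀, Subgroup.mem_zpowers _, rfl⟩, rfl⟩
  · have hn : z ∈ Subgroup.normalizer (P0 : Set H0) := by
      refine Subgroup.mem_normalizer_iff.2 fun h => ?_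
      show h ∈ P0 ↔ z * h * z⁻¹ ∈ P0
      simp only [hP0, Subgroup.mem_comap, map_mul, map_inv]
      constructor
      · rintro ⟨l, hl⟩
        exact ⟨l, by
          show ρ' a₀ ^ l = _
          rw [← hl, (hzc'.zpow_right l).eq, mul_inv_cancel_right]⟩
      · rintro ⟨l, hl⟩
        refine ⟨l, ?_⟩
        show ρ' a₀ ^ l = ρ' h
        have h1 : ρ' h = (ρ' z)⁻¹ * (ρ' a₀ ^ l) * ρ' z := by rw [show ρ' a₀ ^ l = _ from hl]; group
        rw [h1, mul_assoc, ← (hzc'.zpow_right l).eq, inv_mul_cancel_left]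
    have h1 : (z : G) ∈ Subgroup.normalizer ((P0.map H0.subtype : Subgroup G) : Set G) :=
      Subgroup.le_normalizer_map H0.subtype ⟨z, hn, rfl⟩
    exact Subgroup.le_normalizer_map π ⟨(z : G), h1, rfl⟩

end Cfsg.Agent.H85
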