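import Cfsg.Agent.H85.QuadraticPairInvolution
import Cfsg.Agent.H28.BaerSuzuki

set_option autoImplicit false

/-!
A non-`q`-stable action gives a proper subgroup containing a given Sylow `q`-subgroup in which some
two-element acts nontrivially.
-/

namespace Cfsg.Agent.H85

open Subgroup
open scoped Pointwise

variable {L : Type*} [Group L] [Finite L] {q : ℕ} [Fact q.Prime]

omit [Finite L] [Fact q.Prime] in
/-- A normaliser of `P` normalises the group generated by a conjugation invariant set inside `P`. -/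
theorem normalizer_le_normalizer_closure {Q : Set L} (hconj : ∀ g : L, ∀ a ∈ Q, g * a * g⁻¹ ∈ Q)
    (P : Subgroup L) :
    normalizer (P : Set L) ≤ normalizer (closure (Q ∩ (P : Set L)) : Set L) := by
  intro g hg
  have key : ∀ h ∈ normalizer (P : Set L), ∀ x ∈ closure (Q ∩ (P : Set L)),
      h * x * h⁻¹ ∈ closure (Q ∩ (P : Set L)) := by
    intro h hh x hx
    induction hx using closure_induction with
    | mem y hy => exact subset_closure ⟨hconj h y hy.1, (mem_normalizer_iff.1 hh y).1 hy.2⟩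
    | one => simp
    | mul u v _ _ iu iv =>
      rw [← conj_mul]; exact mul_mem iu iv
    | inv u _ iu =>
      rw [show h * u⁻¹ * h⁻¹ = (h * u * h⁻¹)⁻¹ by group]; exact inv_mem iu
  refine mem_normalizer_iff.2 fun x => ⟨key g hg x, fun hx => ?_⟩
  have h1 := key g⁻¹ (inv_mem hg) _ hx
  simpa [mul_assoc] using h1

/-- Weakly closed group generated by a conjugation invariant set of `q`-elements. -/
theorem exists_two_element_normalising_closure (Q : Set L)
    (hconj : ∀ g : L, ∀ a ∈ Q, g * a * g⁻¹ ∈ Q)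
    (hkey : ∀ a ∈ Q, ∀ g : L, ¬ IsPGroup q ↥(closure ({a, g * a * g⁻¹} : Set L)) →
      ∃ (t : L) (P : Subgroup L), t ∈ closure ({a, g * a * g⁻¹} : Set L) ∧
        P ≤ closure ({a, g * a * g⁻¹} : Set L) ∧ (∃ k, orderOf t = 2 ^ k) ∧ t ≠ 1 ∧
        IsPGroup q P ∧ a ∈ P ∧ t ∈ normalizer (P : Set L))
    {a₀ : L} (ha₀ : a₀ ∈ Q) (hna₀ : a₀ ∉ Cfsg.pCore q L) (T : Sylow q L) :
    ∃ t : L, (∃ k, orderOf t = 2 ^ k) ∧ t ≠ 1 ∧
      t ∈ normalizer (closure (Q ∩ ((T : Subgroup L) : Set L)) : Set L) := by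
  obtain ⟨g, hg⟩ : ∃ g, ¬ IsPGroup q ↥(closure ({a₀, g * a₀ * g⁻¹} : Set L)) := by
    by_contra h
    push Not at h
    obtain ⟨N, hN, hNp, haN⟩ := H28.baer_suzuki_element a₀ h
    exact hna₀ (H19.le_pCore hN hNp haN)
  obtain ⟨t₀, P₀, -, -, ht₀, ht₀1, -, -, -⟩ := hkey a₀ ha₀ g hg
  obtain ⟨P, ⟨hP, t, ht, ht1, htP⟩, hmax⟩ := Set.Finite.exists_maximalFor
    (fun P : Subgroup L => Nat.card ↥(closure (Q ∩ (P : Set L))))
    {P | IsPGroup q P ∧ ∃ t : L, (∃ k, orderOf t = 2 ^ k) ∧ t ≠ 1 ∧ t ∈ normalizer (P : Set L)}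
    (Set.toFinite _) ⟨⊥, IsPGroup.of_bot, t₀, ht₀, ht₀1, by rw [normalizer_eq_top]; exact mem_top _⟩
  set S := closure (Q ∩ (P : Set L)) with hS
  obtain ⟨T₁, hT₁⟩ := hP.exists_le_sylow
  suffices h : Q ∩ ((T₁ : Subgroup L) : Set L) ⊆ S by
    have hTS : closure (Q ∩ ((T₁ : Subgroup L) : Set L)) = S :=
      le_antisymm ((closure_le _).2 h) (closure_mono fun x hx => ⟨hx.1, hT₁ hx.2⟩)
    obtain ⟨c, hc⟩ := MulAction.exists_smul_eq L T₁ T
    refine ⟨c * t * c⁻¹, ?_, ?_, ?_⟩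
    · exact two_power_map (MulAut.conj c).toMonoidHom ht
    · exact fun h1 => ht1 (conj_eq_one_iff.1 h1)
    · have h1 : t ∈ normalizer (closure (Q ∩ ((T₁ : Subgroup L) : Set L)) : Set L) := by
        rw [hTS]; exact normalizer_le_normalizer_closure hconj P htP
      have h2 := le_normalizer_map (MulAut.conj c).toMonoidHom ⟨t, h1, rfl⟩
      rw [MonoidHom.map_closure] at h2
      have himg : (MulAut.conj c).toMonoidHom '' (Q ∩ ((T₁ : Subgroup L) : Set L)) =
          Q ∩ ((T : Subgroup L) : Set L) := by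
        rw [← hc, Sylow.coe_subgroup_smul]
        ext x
        constructor
        · rintro ⟨y, ⟨hy1, hy2⟩, rfl⟩
          exact ⟨hconj c y hy1, ⟨y, hy2, rfl⟩⟩
        · rintro ⟨hx1, y, hy2, rfl⟩
          refine ⟨y, ⟨?_, hy2⟩, rfl⟩
          have := hconj c⁻¹ _ hx1
          simpa [mul_assoc] using this
      rw [himg] at h2
      exact h2
  by_contra hnot
  -- an element of the set outside `S` normalising `S`
  obtain ⟨d, hdQ, hdS, hdN⟩ : ∃ d, d ∈ Q ∧ d ∉ S ∧ d ∈ normalizer (S : Set L) := by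
    by_cases hall : Q ∩ ((T₁ : Subgroup L) : Set L) ⊆ (normalizer (S : Set L) : Set L)
    · obtain ⟨d, hd, hdS⟩ := Set.not_subset.1 hnot
      exact ⟨d, hd.1, hdS, hall hd⟩
    set N₁ := (T₁ : Subgroup L) ⊓ normalizer (S : Set L) with hN₁
    have hne : N₁ ≠ (T₁ : Subgroup L) := fun h =>
      hall fun x hx => (inf_eq_left.1 h) hx.2
    obtain ⟨u, huT, huN₁, huN⟩ :=
      H28.exists_mem_normalizer_not_mem T₁.isPGroup' (inf_le_left : N₁ ≤ T₁) hne
    have hu : u ∉ normalizer (S : Set L) := fun h => huN₁ ⟨huT, h⟩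
    obtain ⟨s, hs, hus⟩ : ∃ s ∈ Q ∩ (P : Set L), u * s * u⁻¹ ∉ S := by
      by_contra h
      push Not at h
      apply hu
      have hle : S.map (MulAut.conj u).toMonoidHom ≤ S := by
        rw [hS, MonoidHom.map_closure, closure_le]
        rintro _ ⟨s, hs, rfl⟩
        exact h s hs
      exact mem_normalizer_iff_map_conj_eq.2
        (eq_of_le_of_card_ge hle (card_map_of_injective (MulAut.conj u).injective).ge)
    have hsN₁ : s ∈ N₁ := ⟨hT₁ hs.2, le_normalizer (subset_closure hs)⟩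
    exact ⟨u * s * u⁻¹, hconj u s hs.1, hus, ((mem_normalizer_iff.1 huN s).1 hsN₁).2⟩
  set E := normalizer (S : Set L) with hE
  have hSP : S ≤ P := (closure_le _).2 fun x hx => hx.2
  have hSp : IsPGroup q S := hP.to_le hSP
  obtain ⟨t', P', ht', ht'1, hP'p, hP'E, hdP', ht'P', ht'E⟩ :
      ∃ (t' : L) (P' : Subgroup L), (∃ k, orderOf t' = 2 ^ k) ∧ t' ≠ 1 ∧ IsPGroup q P' ∧ P' ≤ E ∧
        d ∈ P' ∧ t' ∈ normalizer (P' : Set L) ∧ t' ∈ E := by
    by_cases hb : ∀ g ∈ E, IsPGroup q ↥(closure ({d, g * d * g⁻¹} : Set L))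
    · obtain ⟨N, hN, hNp, hdN⟩ := H28.baer_suzuki_element (⟨d, hdN⟩ : E) fun g => by
        refine IsPGroup.of_injective (hb g g.2)
          ((E.subtype.comp (Subgroup.closure _).subtype).codRestrict _ fun x => ?_) ?_
        · have h1 : (x : E) ∈
              (closure ({d, (g : L) * d * (g : L)⁻¹} : Set L)).comap E.subtype :=
            (closure_le _).2 (by
              rintro y (rfl | rfl)
              · exact subset_closure (Or.inl rfl)
              · exact subset_closure (Or.inr rfl)) x.2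
          exact h1
        · intro x y hxy
          have h := congrArg Subtype.val hxy
          exact Subtype.ext (E.subtype_injective h)
      refine ⟨t, N.map E.subtype, ht, ht1, hNp.map _, map_subtype_le _, ⟨_, hdN, rfl⟩, ?_,
        normalizer_le_normalizer_closure hconj P htP⟩
      refine le_normalizer_map E.subtype ⟨⟨t, normalizer_le_normalizer_closure hconj P htP⟩, ?_, rfl⟩
      rw [normalizer_eq_top N]
      exact mem_top _
    push Not at hb
    obtain ⟨g, hgE, hgp⟩ := hb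
    obtain ⟨t', P', ht'c, hP'c, ht', ht'1, hP'p, hdP', ht'P'⟩ := hkey d hdQ g hgp
    have hcE : closure ({d, g * d * g⁻¹} : Set L) ≤ E := (closure_le _).2 (by
      rintro y (rfl | rfl)
      · exact hdN
      · exact mul_mem (mul_mem hgE hdN) (inv_mem hgE))
    exact ⟨t', P', ht', ht'1, hP'p, hP'c.trans hcE, hdP', ht'P', hcE ht'c⟩
  have hmem : S ⊔ P' ∈ {P : Subgroup L | IsPGroup q P ∧
      ∃ t : L, (∃ k, orderOf t = 2 ^ k) ∧ t ≠ 1 ∧ t ∈ normalizer (P : Set L)} := by
    refine ⟨hSp.to_sup_of_normal_left' hP'p hP'E, t', ht', ht'1, ?_⟩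
    refine mem_normalizer_iff_map_conj_eq.2 ?_
    rw [Subgroup.map_sup, mem_normalizer_iff_map_conj_eq.1 ht'E,
      mem_normalizer_iff_map_conj_eq.1 ht'P']
  have hle : S ≤ closure (Q ∩ ((S ⊔ P' : Subgroup L) : Set L)) :=
    closure_mono fun x hx => ⟨hx.1, (le_sup_left : S ≤ S ⊔ P') (subset_closure hx)⟩
  have heq := eq_of_le_of_card_ge hle (hmax hmem (card_le_of_le hle))
  exact hdS (heq ▸ subset_closure ⟨hdQ, (le_sup_right : P' ≤ S ⊔ P') hdP'⟩)

/-- A non-stable action of `G` on a normal `q`-subgroup gives a proper subgroup over a Sylow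
`q`-subgroup with a two-element not centralising that normal subgroup. -/
theorem exists_proper_of_not_stable {G : Type*} [Group G] [Finite G] (hq : q ≠ 2) (V : Subgroup G)
    [V.Normal] (hV : IsPGroup q V) (hns : ¬ Cfsg.IsPStableOn q V) (T : Sylow q G) :
    ∃ M : Subgroup G, M ≠ ⊤ ∧ (T : Subgroup G) ≤ M ∧
      ∃ t ∈ M, (∃ k, orderOf t = 2 ^ k) ∧ t ∉ centralizer (V : Set G) := by
  rw [Cfsg.IsPStableOn] at hns
  push Not at hns
  obtain ⟨a, ha, hna⟩ := hns
  set π := QuotientGroup.mk' (centralizer (V : Set G)) with hπ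
  have hπs : Function.Surjective π := QuotientGroup.mk'_surjective _
  set Q := π '' {a : G | ⁅⁅V, zpowers a⁆, zpowers a⁆ = ⊥} with hQ
  have hconj : ∀ g, ∀ x ∈ Q, g * x * g⁻¹ ∈ Q := by
    rintro g _ ⟨b, hb, rfl⟩
    obtain ⟨h, rfl⟩ := hπs g
    refine ⟨h * b * h⁻¹, ?_, by rw [map_mul, map_mul, map_inv]⟩
    have hz : zpowers (h * b * h⁻¹) = (zpowers b).map (MulAut.conj h).toMonoidHom := by
      rw [MonoidHom.map_zpowers]; rfl
    have hVh : V.map (MulAut.conj h).toMonoidHom = V :=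
      mem_normalizer_iff_map_conj_eq.1 (by rw [normalizer_eq_top V]; exact mem_top h)
    show ⁅⁅V, zpowers (h * b * h⁻¹)⁆, zpowers (h * b * h⁻¹)⁆ = ⊥
    rw [hz]
    nth_rewrite 1 [← hVh]
    rw [← map_commutator, ← map_commutator, show ⁅⁅V, zpowers b⁆, zpowers b⁆ = ⊥ from hb,
      Subgroup.map_bot]
  have hkey : ∀ x ∈ Q, ∀ g, ¬ IsPGroup q ↥(closure ({x, g * x * g⁻¹} :
      Set (G ⧸ centralizer (V : Set G)))) →
      ∃ t P, t ∈ closure ({x, g * x * g⁻¹} : Set (G ⧸ centralizer (V : Set G))) ∧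
        P ≤ closure ({x, g * x * g⁻¹} : Set (G ⧸ centralizer (V : Set G))) ∧
        (∃ k, orderOf t = 2 ^ k) ∧ t ≠ 1 ∧ IsPGroup q P ∧ x ∈ P ∧
        t ∈ normalizer (P : Set (G ⧸ centralizer (V : Set G))) := by
    intro x hx g hnp
    obtain ⟨c, hc, hcx⟩ := hconj g x hx
    obtain ⟨b, hb, rfl⟩ := hx
    rw [← hcx] at hnp ⊢
    exact exists_two_element_normalising hq hV hb hc hnp
  set T' := T.mapSurjective hπs with hT'
  obtain ⟨t, ⟨k, ht⟩, ht1, htN⟩ :=
    exists_two_element_normalising_closure Q hconj hkey ⟨a, ha, rfl⟩ hna T'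
  obtain ⟨s, rfl⟩ := hπs t
  obtain ⟨m, hm, hs⟩ := exists_odd_two_part s
  refine ⟨(normalizer (closure (Q ∩ ((T' : Subgroup (G ⧸ centralizer (V : Set G))) : Set _)) :
    Set (G ⧸ centralizer (V : Set G)))).comap π, ?_, ?_, s ^ m, pow_mem (mem_comap.2 htN) m, hs, ?_⟩
  · intro htop
    apply hna
    have h1 : (closure (Q ∩ ((T' : Subgroup (G ⧸ centralizer (V : Set G))) : Set _))).Normal := by
      rw [← normalizer_eq_top_iff, eq_top_iff, ← map_top_of_surjective π hπs, ← htop]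
      exact map_comap_le _ _
    have h2 : closure (Q ∩ ((T' : Subgroup (G ⧸ centralizer (V : Set G))) : Set _)) ≤
        Cfsg.pCore q (G ⧸ centralizer (V : Set G)) :=
      H19.le_pCore h1 (T'.isPGroup'.to_le ((closure_le _).2 fun x hx => hx.2))
    obtain ⟨e, he⟩ := H23.exists_pow_mem_centralizer hV ha
    have hp : IsPGroup q ↥(zpowers (π a)) := by
      rintro ⟨_, l, rfl⟩
      refine ⟨e, Subtype.ext ?_⟩
      rw [SubgroupClass.coe_pow, OneMemClass.coe_one]
      show (π a ^ l) ^ q ^ e = 1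
      rw [← zpow_natCast, ← zpow_mul, mul_comm, zpow_mul, zpow_natCast, ← map_pow,
        show π (a ^ q ^ e) = 1 from (QuotientGroup.eq_one_iff _).2 he, one_zpow]
    obtain ⟨R, hR⟩ := hp.exists_le_sylow
    obtain ⟨c, hc⟩ := MulAction.exists_smul_eq (G ⧸ centralizer (V : Set G)) R T'
    have h3 : c * π a * c⁻¹ ∈ Q ∩ ((T' : Subgroup (G ⧸ centralizer (V : Set G))) : Set _) := by
      refine ⟨hconj c _ ⟨a, ha, rfl⟩, ?_⟩
      rw [← hc, Sylow.coe_subgroup_smul]
      exact ⟨π a, hR (mem_zpowers _), rfl⟩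
    have h4 := (H19.pCore_normal q _).conj_mem _ (h2 (subset_closure h3)) c⁻¹
    simpa [mul_assoc, hπ] using h4
  · refine map_le_iff_le_comap.1 (le_trans ?_ (normalizer_le_normalizer_closure hconj _))
    rw [hT', Sylow.coe_mapSurjective]
    exact le_normalizer
  · intro h
    apply ht1
    refine orderOf_eq_one_iff.1 (Nat.eq_one_of_dvd_coprimes (a := 2 ^ k) (b := m)
      ((Nat.coprime_two_left.2 hm).pow_left k) (ht ▸ dvd_rfl) (orderOf_dvd_of_pow_eq_one ?_))
    rw [← map_pow]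
    exact (QuotientGroup.eq_one_iff _).2 h

end Cfsg.Agent.H85
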