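import Mathlib

/-!
Regular unipotent matrices: triangular matrices with nonzero (super)diagonal, and bordered
matrices.
-/

set_option linter.unusedSectionVars false

namespace Cfsg.Agent.H85

open Matrix

variable {K : Type*} [Field K]

/-- Upper unitriangular with every superdiagonal entry nonzero. -/
def UpReg {n : ℕ} (U : Matrix (Fin n) (Fin n) K) : Prop :=
  (∀ i j : Fin n, j < i → U i j = 0) ∧ (∀ i, U i i = 1) ∧
    (∀ i j : Fin n, j.val = i.val + 1 → U i j ≠ 0)

/-- A bordered matrix. -/
def bordered {k : ℕ} (a : K) (R C : Fin k → K) (D : Matrix (Fin k) (Fin k) K) :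
    Matrix (Fin (k + 1)) (Fin (k + 1)) K :=
  Matrix.of (Fin.cons (Fin.cons a R) (fun i => Fin.cons (C i) (D i)))

section
variable {k : ℕ} (a : K) (R C : Fin k → K) (D : Matrix (Fin k) (Fin k) K)

@[simp] theorem bordered_zero_zero : bordered a R C D 0 0 = a := rfl
@[simp] theorem bordered_zero_succ (j : Fin k) : bordered a R C D 0 j.succ = R j := by
  simp [bordered]
@[simp] theorem bordered_succ_zero (i : Fin k) : bordered a R C D i.succ 0 = C i := by
  simp [bordered]
@[simp] theorem bordered_succ_succ (i j : Fin k) : bordered a R C D i.succ j.succ = D i j := by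
  simp [bordered]

theorem bordered_transpose : (bordered a R C D)ᵀ = bordered a C R Dᵀ := by
  ext i j
  refine Fin.cases ?_ (fun i => ?_) i <;> refine Fin.cases ?_ (fun j => ?_) j <;>
    simp [Matrix.transpose_apply]

theorem bordered_eta (M : Matrix (Fin (k + 1)) (Fin (k + 1)) K) :
    bordered (M 0 0) (fun j => M 0 j.succ) (fun i => M i.succ 0) (M.submatrix Fin.succ Fin.succ)
      = M := by
  ext i j
  refine Fin.cases ?_ (fun i => ?_) i <;> refine Fin.cases ?_ (fun j => ?_) j <;> simp

theorem bordered_mul (a' : K) (R' C' : Fin k → K) (D' : Matrix (Fin k) (Fin k) K) :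
    bordered a R C D * bordered a' R' C' D' =
      bordered (a * a' + R ⬝ᵥ C') (a • R' + R ᵥ* D') (a' • C + D *ᵥ C')
        (vecMulVec C R' + D * D') := by
  ext i j
  refine Fin.cases ?_ (fun i => ?_) i <;> refine Fin.cases ?_ (fun j => ?_) j <;>
    simp [Matrix.mul_apply, Fin.sum_univ_succ, dotProduct, Matrix.vecMul, Matrix.mulVec,
      vecMulVec, mul_comm]

theorem bordered_mulVec_cons (t : K) (y : Fin k → K) :
    bordered a R C D *ᵥ (Fin.cons t y) =
      Fin.cons (a * t + R ⬝ᵥ y) (t • C + D *ᵥ y) := by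
  ext i
  refine Fin.cases ?_ (fun i => ?_) i <;>
    simp [Matrix.mulVec, dotProduct, Fin.sum_univ_succ, mul_comm]

theorem det_bordered_upper : (bordered a R 0 D).det = a * D.det := by
  rw [Matrix.det_succ_column_zero, Fin.sum_univ_succ]
  have h : (bordered a R 0 D).submatrix Fin.succ Fin.succ = D := by
    ext i j; simp
  simp [h]

theorem det_bordered_lower : (bordered a 0 C D).det = a * D.det := by
  rw [← Matrix.det_transpose, bordered_transpose, det_bordered_upper, Matrix.det_transpose]

theorem upReg_bordered {U : Matrix (Fin k) (Fin k) K} (hU : UpReg U)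
    (hR : ∀ j : Fin k, j.val = 0 → R j ≠ 0) : UpReg (bordered 1 R 0 U) := by
  refine ⟨fun i j => ?_, fun i => ?_, fun i j => ?_⟩
  · refine Fin.cases ?_ (fun i => ?_) i
    · intro h; exact absurd h (Fin.not_lt_zero _)
    · refine Fin.cases ?_ (fun j => ?_) j
      · intro _; simp
      · intro h; simp [hU.1 i j (Fin.succ_lt_succ_iff.mp h)]
  · refine Fin.cases ?_ (fun i => ?_) i
    · simp
    · simp [hU.2.1 i]
  · refine Fin.cases ?_ (fun i => ?_) i
    · refine Fin.cases ?_ (fun j => ?_) j
      · simp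
      · intro h; simp only [bordered_zero_succ]; exact hR j (by simpa using h)
    · refine Fin.cases ?_ (fun j => ?_) j
      · simp
      · intro h; simp only [bordered_succ_succ]; exact hU.2.2 i j (by simpa using h)

end

/-- A nilpotent matrix with maximal nilpotency index is similar to the shift. -/
theorem exists_conj_shift {n : ℕ} (A J : Matrix (Fin n) (Fin n) K)
    (hJ : ∀ i j : Fin n, J i j = if i = j then 1 else if j.val = i.val + 1 then 1 else 0)
    (h0 : (A - 1) ^ n = 0) (h1 : (A - 1) ^ (n - 1) ≠ 0) :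
    ∃ P : Matrix (Fin n) (Fin n) K, IsUnit P.det ∧ A * P = P * J := by
  classical
  set N := A - 1 with hN
  obtain ⟨v, hv⟩ : ∃ v : Fin n → K, (N ^ (n - 1)) *ᵥ v ≠ 0 := by
    by_contra hc
    push Not at hc
    apply h1
    exact Matrix.ext_iff_mulVec.mpr (fun v => by rw [hc v, Matrix.zero_mulVec])
  let P : Matrix (Fin n) (Fin n) K := Matrix.of (fun i j => ((N ^ (n - 1 - j.val)) *ᵥ v) i)
  have hcol : ∀ j : Fin n, P *ᵥ Pi.single j 1 = (N ^ (n - 1 - j.val)) *ᵥ v := by
    intro j; rw [Matrix.mulVec_single_one]; rfl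
  refine ⟨P, ?_, ?_⟩
  · rw [← Matrix.isUnit_iff_isUnit_det, ← Matrix.mulVec_injective_iff_isUnit]
    intro x y hxy
    rw [← sub_eq_zero]
    set z := x - y with hz
    have hPz : P *ᵥ z = 0 := by rw [hz, Matrix.mulVec_sub, hxy, sub_self]
    by_contra hne
    obtain ⟨j0, hj0⟩ : ∃ j, z j ≠ 0 := by
      by_contra hc; push Not at hc; exact hne (funext hc)
    obtain ⟨jm, hjm, hmax⟩ := Finset.exists_max_image (Finset.univ.filter fun j => z j ≠ 0)
      (fun j => j.val) ⟨j0, by simp [hj0]⟩
    simp only [Finset.mem_filter, Finset.mem_univ, true_and] at hjm hmax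
    have hz2 : P *ᵥ z = ∑ j, z j • ((N ^ (n - 1 - j.val)) *ᵥ v) := by
      ext i
      simp [P, Matrix.mulVec, dotProduct, mul_comm, Finset.sum_apply]
    have h2 : (N ^ jm.val) *ᵥ (P *ᵥ z) = 0 := by rw [hPz, Matrix.mulVec_zero]
    rw [hz2, Matrix.mulVec_sum] at h2
    rw [Finset.sum_eq_single jm] at h2
    · rw [Matrix.mulVec_smul, Matrix.mulVec_mulVec, ← pow_add] at h2
      have he : jm.val + (n - 1 - jm.val) = n - 1 := by omega
      rw [he] at h2
      rcases smul_eq_zero.mp h2 with h | h
      · exact hjm h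
      · exact hv h
    · intro j _ hj
      by_cases hzj : z j = 0
      · simp [hzj]
      · have hlt : j.val < jm.val := by
          rcases lt_or_eq_of_le (hmax j hzj) with h | h
          · exact h
          · exact absurd (Fin.ext h) hj
        rw [Matrix.mulVec_smul, Matrix.mulVec_mulVec, ← pow_add]
        have he : jm.val + (n - 1 - j.val) = n + (jm.val - j.val - 1) := by omega
        rw [he, pow_add, h0, zero_mul, Matrix.zero_mulVec, smul_zero]
    · simp
  · have hA : A = 1 + N := by rw [hN]; abel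
    rw [hA, add_mul, one_mul]
    ext i j
    have hNP : (N * P) i j = ((N ^ (n - 1 - j.val + 1)) *ᵥ v) i := by
      rw [pow_succ', ← Matrix.mulVec_mulVec]
      simp [P, Matrix.mul_apply, Matrix.mulVec, dotProduct]
    rw [Matrix.add_apply, hNP, Matrix.mul_apply]
    rcases Nat.eq_zero_or_pos j.val with hj | hj
    · have he : n - 1 - j.val + 1 = n := by have := j.isLt; omega
      rw [he, h0, Matrix.zero_mulVec, Pi.zero_apply, add_zero, Finset.sum_eq_single j]
      · simp [hJ]
      · intro l _ hl
        rw [hJ, if_neg hl, if_neg (by omega), mul_zero]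
      · simp
    · let l0 : Fin n := ⟨j.val - 1, by omega⟩
      rw [Finset.sum_eq_add_of_mem j l0 (Finset.mem_univ _) (Finset.mem_univ _)]
      · rw [hJ, hJ, if_pos rfl, if_neg (by simp [l0, Fin.ext_iff]; omega),
          if_pos (by simp [l0]; omega), mul_one, mul_one]
        have he : n - 1 - j.val + 1 = n - 1 - l0.val := by have := j.isLt; simp [l0]; omega
        rw [he]; rfl
      · intro h; simp [l0, Fin.ext_iff] at h; omega
      · intro l _ hl
        rw [hJ, if_neg hl.1, if_neg (by
          intro h; apply hl.2; ext; simp [l0]; omega), mul_zero]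

theorem upReg_pow {n : ℕ} {U : Matrix (Fin n) (Fin n) K} (hU : UpReg U) :
    ∀ k : ℕ, (∀ i j : Fin n, j.val < i.val + k → ((U - 1) ^ k) i j = 0) ∧
      (∀ i j : Fin n, j.val = i.val + k → ((U - 1) ^ k) i j ≠ 0) := by
  have h0 : ∀ i j : Fin n, j.val < i.val + 1 → (U - 1) i j = 0 := by
    intro i j h
    rcases lt_or_eq_of_le (Nat.lt_succ_iff.mp h) with h | h
    · rw [Matrix.sub_apply, hU.1 i j h, Matrix.one_apply_ne (by omega), sub_zero]
    · obtain rfl := Fin.ext h
      rw [Matrix.sub_apply, hU.2.1, Matrix.one_apply_eq, sub_self]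
  intro k
  induction k with
  | zero =>
      refine ⟨fun i j h => ?_, fun i j h => ?_⟩
      · rw [pow_zero, Matrix.one_apply_ne (by omega)]
      · obtain rfl : j = i := Fin.ext (by simpa using h)
        simp
  | succ k ih =>
      refine ⟨fun i j h => ?_, fun i j h => ?_⟩
      · rw [pow_succ, Matrix.mul_apply]
        refine Finset.sum_eq_zero fun l _ => ?_
        by_cases hl : l.val < i.val + k
        · rw [ih.1 i l hl, zero_mul]
        · rw [h0 l j (by omega), mul_zero]
      · rw [pow_succ, Matrix.mul_apply]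
        let l0 : Fin n := ⟨i.val + k, by omega⟩
        rw [Finset.sum_eq_single l0]
        · refine mul_ne_zero (ih.2 i l0 rfl) ?_
          rw [Matrix.sub_apply, Matrix.one_apply_ne (by simp [l0, Fin.ext_iff]; omega), sub_zero]
          exact hU.2.2 l0 j (by simp [l0]; omega)
        · intro l _ hl
          by_cases hl' : l.val < i.val + k
          · rw [ih.1 i l hl', zero_mul]
          · rw [h0 l j (by
              have : l.val ≠ i.val + k := fun h' => hl (Fin.ext h')
              omega), mul_zero]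
        · simp

theorem upReg_regular {n : ℕ} (hn : 0 < n) {U : Matrix (Fin n) (Fin n) K} (hU : UpReg U) :
    (U - 1) ^ n = 0 ∧ (U - 1) ^ (n - 1) ≠ 0 := by
  refine ⟨?_, ?_⟩
  · ext i j; exact (upReg_pow hU n).1 i j (by omega)
  · intro h
    exact (upReg_pow hU (n - 1)).2 ⟨0, hn⟩ ⟨n - 1, by omega⟩ (by simp) (by rw [h]; rfl)

theorem lowReg_regular {n : ℕ} (hn : 0 < n) {L : Matrix (Fin n) (Fin n) K} (hL : UpReg Lᵀ) :
    (L - 1) ^ n = 0 ∧ (L - 1) ^ (n - 1) ≠ 0 := by
  obtain ⟨h1, h2⟩ := upReg_regular hn hL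
  have e : ∀ k : ℕ, (L - 1) ^ k = ((Lᵀ - 1) ^ k)ᵀ := by
    intro k; rw [Matrix.transpose_pow]; simp
  refine ⟨by rw [e, h1, Matrix.transpose_zero], fun h => h2 ?_⟩
  rw [e] at h
  simpa using congrArg Matrix.transpose h

end Cfsg.Agent.H85
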