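import Mathlib

/-!
Avoiding three proper affine hyperplanes over a field with at least four elements, and the
choice of a vector and a functional used in factorizing a matrix into two regular unipotents.
-/

set_option linter.unusedSectionVars false

namespace Cfsg.Agent.H85

universe u

variable {K : Type u} [Field K]

theorem exists_avoid_three_scalars (hK : 4 ≤ Cardinal.mk K) (a b c : K) :
    ∃ s : K, s ≠ a ∧ s ≠ b ∧ s ≠ c := by
  classical
  by_contra h
  push Not at h
  have hsub : (Set.univ : Set K) ⊆ ((({a, b, c} : Finset K)) : Set K) := by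
    intro s _
    simp only [Finset.coe_insert, Finset.coe_singleton, Set.mem_insert_iff, Set.mem_singleton_iff]
    by_cases h1 : s = a
    · exact Or.inl h1
    · by_cases h2 : s = b
      · exact Or.inr (Or.inl h2)
      · exact Or.inr (Or.inr (h s h1 h2))
  have h1 := Cardinal.mk_le_mk_of_subset hsub
  rw [Cardinal.mk_univ] at h1
  have h2 : Cardinal.mk ((({a, b, c} : Finset K)) : Set K) ≤ 3 := by
    rw [Finset.coe_sort_coe, Cardinal.mk_coe_finset]
    exact_mod_cast Finset.card_le_three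
  have h3 := hK.trans (h1.trans h2)
  norm_num at h3

theorem affine_root_unique {E : Type*} [AddCommGroup E] [Module K E] (φ : E →ₗ[K] K) (a : K)
    (e d : E) (h : φ e + a ≠ 0 ∨ φ (e + d) + a ≠ 0) :
    ∃ r : K, ∀ s : K, φ (e + s • d) + a = 0 → s = r := by
  by_cases hd : φ d = 0
  · refine ⟨0, fun s hs => ?_⟩
    exfalso
    rw [map_add, map_smul, hd, smul_zero, add_zero] at hs
    rcases h with h | h
    · exact h hs
    · rw [map_add, hd, add_zero] at h; exact h hs
  · refine ⟨-(φ e + a) / φ d, fun s hs => ?_⟩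
    rw [map_add, map_smul, smul_eq_mul] at hs
    rw [eq_div_iff hd]
    linear_combination hs

theorem exists_avoid_three (hK : 4 ≤ Cardinal.mk K) {E : Type*} [AddCommGroup E] [Module K E]
    (φ1 φ2 φ3 : E →ₗ[K] K) (a1 a2 a3 : K) (h1 : ∃ e, φ1 e + a1 ≠ 0) (h2 : ∃ e, φ2 e + a2 ≠ 0)
    (h3 : ∃ e, φ3 e + a3 ≠ 0) :
    ∃ e, φ1 e + a1 ≠ 0 ∧ φ2 e + a2 ≠ 0 ∧ φ3 e + a3 ≠ 0 := by
  obtain ⟨e1, he1⟩ := h1
  obtain ⟨e2, he2⟩ := h2
  obtain ⟨e3, he3⟩ := h3
  obtain ⟨r1, hr1⟩ := affine_root_unique φ1 a1 e1 (e2 - e1) (Or.inl he1)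
  obtain ⟨r2, hr2⟩ := affine_root_unique φ2 a2 e1 (e2 - e1) (Or.inr (by simpa using he2))
  obtain ⟨s, hs1, hs2, -⟩ := exists_avoid_three_scalars hK r1 r2 r2
  have hA1 : φ1 (e1 + s • (e2 - e1)) + a1 ≠ 0 := fun h => hs1 (hr1 s h)
  have hA2 : φ2 (e1 + s • (e2 - e1)) + a2 ≠ 0 := fun h => hs2 (hr2 s h)
  generalize e1 + s • (e2 - e1) = e at hA1 hA2
  obtain ⟨q1, hq1⟩ := affine_root_unique φ1 a1 e (e3 - e) (Or.inl hA1)
  obtain ⟨q2, hq2⟩ := affine_root_unique φ2 a2 e (e3 - e) (Or.inl hA2)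
  obtain ⟨q3, hq3⟩ := affine_root_unique φ3 a3 e (e3 - e) (Or.inr (by simpa using he3))
  obtain ⟨t, ht1, ht2, ht3⟩ := exists_avoid_three_scalars hK q1 q2 q3
  exact ⟨e + t • (e3 - e), fun h => ht1 (hq1 t h), fun h => ht2 (hq2 t h),
    fun h => ht3 (hq3 t h)⟩

theorem exists_notMem_three (hK : 4 ≤ Cardinal.mk K) {E : Type*} [AddCommGroup E] [Module K E]
    (p1 p2 p3 : Submodule K E) (h1 : p1 ≠ ⊤) (h2 : p2 ≠ ⊤) (h3 : p3 ≠ ⊤) :
    ∃ x, x ∉ p1 ∧ x ∉ p2 ∧ x ∉ p3 := by
  have key : ∀ p : Submodule K E, p ≠ ⊤ →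
      ∃ φ : E →ₗ[K] K, (∃ e, φ e + 0 ≠ 0) ∧ ∀ x ∈ p, φ x = 0 := by
    intro p hp
    obtain ⟨x, hx⟩ : ∃ x, x ∉ p := by
      by_contra hc
      push Not at hc
      exact hp (eq_top_iff.mpr fun x _ => hc x)
    obtain ⟨φ, hφ, hφp⟩ := Submodule.exists_dual_map_eq_bot_of_notMem hx inferInstance
    refine ⟨φ, ⟨x, by simpa using hφ⟩, fun y hy => ?_⟩
    have := Submodule.mem_map_of_mem (f := φ) hy
    rwa [hφp, Submodule.mem_bot] at this
  obtain ⟨φ1, hn1, hz1⟩ := key p1 h1
  obtain ⟨φ2, hn2, hz2⟩ := key p2 h2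
  obtain ⟨φ3, hn3, hz3⟩ := key p3 h3
  obtain ⟨e, he1, he2, he3⟩ := exists_avoid_three hK φ1 φ2 φ3 0 0 0 hn1 hn2 hn3
  simp only [add_zero] at he1 he2 he3
  exact ⟨e, fun h => he1 (hz1 e h), fun h => he2 (hz2 e h), fun h => he3 (hz3 e h)⟩

open Matrix

variable {m : ℕ}

/-- If the image of `D - 1` lies in a line and `det D = 1` then `(D - 1) ^ 2 = 0`. -/
theorem sq_sub_one_eq_zero_of_line (D : Matrix (Fin m) (Fin m) K) (hdet : D.det = 1)
    (c : Fin m → K) (h : ∀ x, ∃ k : K, D *ᵥ x - x = k • c) : (D - 1) ^ 2 = 0 := by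
  choose k hk using h
  set φ : Fin m → K := fun j => k (Pi.single j 1) with hφ
  have hDc : D - 1 = Matrix.replicateCol (Fin 1) c * Matrix.replicateRow (Fin 1) φ := by
    ext i j
    have := congrFun (hk (Pi.single j 1)) i
    simp [Matrix.mul_apply, hφ] at this ⊢
    rw [Matrix.one_apply]
    rw [Pi.single_apply] at this
    rw [this]
    ring
  have hD : D = 1 + Matrix.replicateCol (Fin 1) c * Matrix.replicateRow (Fin 1) φ := by
    rw [← hDc]; abel
  have hd : φ ⬝ᵥ c = 0 := by
    have := hdet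
    rw [hD] at this
    have e := Matrix.det_one_add_replicateCol_mul_replicateRow (ι := Fin 1) c φ
    have h' : 1 + φ ⬝ᵥ c = 1 := e.symm.trans (by convert this)
    replace this := h'
    linear_combination this
  have hz : Matrix.replicateRow (Fin 1) φ * Matrix.replicateCol (Fin 1) c = 0 := by
    ext i j
    rw [Matrix.mul_apply]
    exact hd
  rw [hDc, sq, Matrix.mul_assoc, ← Matrix.mul_assoc (Matrix.replicateRow (Fin 1) φ), hz]
  simp

theorem exists_off_line (D : Matrix (Fin m) (Fin m) K) (hdet : D.det = 1)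
    (hnu : ¬ IsNilpotent (D - 1)) (c : Fin m → K) :
    ∃ x, ¬ ∃ k : K, D *ᵥ x - x = k • c := by
  by_contra h
  push Not at h
  exact hnu ⟨2, sq_sub_one_eq_zero_of_line D hdet c h⟩

/-- The image of a high power of `D - 1`. -/
noncomputable def coreImage (D : Matrix (Fin m) (Fin m) K) :
    Submodule K (Fin m → K) :=
  LinearMap.range (Matrix.mulVecLin ((D - 1) ^ (m - 1)))

theorem eigenvector_mem_coreImage (D : Matrix (Fin m) (Fin m) K) (x : Fin m → K) (l : K)
    (hl : l ≠ 1) (hx : D *ᵥ x = l • x) : x ∈ coreImage D := by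
  have hp : ∀ j : ℕ, ((D - 1) ^ j) *ᵥ x = (l - 1) ^ j • x := by
    intro j
    induction j with
    | zero => simp
    | succ j ih =>
        rw [pow_succ', ← Matrix.mulVec_mulVec, ih, Matrix.mulVec_smul, Matrix.sub_mulVec,
          Matrix.one_mulVec, hx, pow_succ, smul_sub, smul_smul, ← sub_smul]
        congr 1
        ring
  refine ⟨((l - 1) ^ (m - 1))⁻¹ • x, ?_⟩
  rw [Matrix.mulVecLin_apply, Matrix.mulVec_smul, hp, smul_smul,
    inv_mul_cancel₀ (pow_ne_zero _ (sub_ne_zero.mpr hl)), one_smul]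

/-- Choice of the vector. -/
theorem exists_good_vector (hK : 4 ≤ Cardinal.mk K) (D : Matrix (Fin m) (Fin m) K)
    (hdet : D.det = 1) (hns : ¬ ∃ l : K, D = l • 1) (hnu : ¬ IsNilpotent (D - 1))
    (c r : Fin m → K) (hr : r ≠ 0) :
    ∃ v : Fin m → K, r ⬝ᵥ v ≠ 0 ∧ (¬ ∃ k : K, D *ᵥ v - v = k • c) ∧
      (coreImage D ≠ ⊤ → v ∉ coreImage D) ∧ ¬ ∃ l : K, D *ᵥ v = l • v := by
  classical
  let rl : (Fin m → K) →ₗ[K] K :=
    { toFun := fun x => r ⬝ᵥ x
      map_add' := fun x y => dotProduct_add r x y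
      map_smul' := fun t x => by simp [dotProduct_smul] }
  let S : Submodule K (Fin m → K) :=
    Submodule.comap (Matrix.mulVecLin (D - 1)) (Submodule.span K {c})
  have hSmem : ∀ x, x ∈ S ↔ ∃ k : K, D *ᵥ x - x = k • c := by
    intro x
    simp [S, Submodule.mem_span_singleton, eq_comm]
  have hS : S ≠ ⊤ := by
    intro h
    obtain ⟨x, hx⟩ := exists_off_line D hdet hnu c
    exact hx ((hSmem x).mp (h ▸ Submodule.mem_top))
  have hr' : LinearMap.ker rl ≠ ⊤ := by
    intro h
    apply hr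
    ext i
    have : rl (Pi.single i 1) = 0 := LinearMap.mem_ker.mp (h ▸ Submodule.mem_top)
    simpa [rl, dotProduct_single] using this
  by_cases hF : coreImage D = ⊤
  · -- line argument
    obtain ⟨v0, h1, h2, -⟩ := exists_notMem_three hK _ S S hr' hS hS
    have hrv0 : r ⬝ᵥ v0 ≠ 0 := fun h => h1 (LinearMap.mem_ker.mpr h)
    by_cases he : ∃ l : K, D *ᵥ v0 = l • v0
    swap
    · exact ⟨v0, hrv0, fun h => h2 ((hSmem _).mpr h), fun h => absurd hF h, he⟩
    obtain ⟨l, hl⟩ := he
    obtain ⟨u, hu, hul⟩ : ∃ u, r ⬝ᵥ u = 0 ∧ D *ᵥ u ≠ l • u := by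
      by_contra hc
      push Not at hc
      apply hns
      refine ⟨l, Matrix.ext_iff_mulVec.mpr fun x => ?_⟩
      set t := (r ⬝ᵥ x) / (r ⬝ᵥ v0) with ht
      have h := hc (x - t • v0) (by
        rw [dotProduct_sub, dotProduct_smul, smul_eq_mul, ht, div_mul_cancel₀ _ hrv0, sub_self])
      rw [Matrix.mulVec_sub, Matrix.mulVec_smul, hl] at h
      rw [Matrix.smul_mulVec, Matrix.one_mulVec]
      linear_combination (norm := module) h
    have hu0 : u ≠ 0 := by rintro rfl; simp at hul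
    -- at most one bad value for S
    obtain ⟨a, ha⟩ : ∃ a : K, ∀ s : K, v0 + s • u ∈ S → s = a := by
      by_cases hex : ∃ s : K, v0 + s • u ∈ S
      · obtain ⟨a, ha⟩ := hex
        refine ⟨a, fun s hs => ?_⟩
        by_contra hne
        have huS : u ∈ S := by
          have := S.smul_mem (s - a)⁻¹ (S.sub_mem hs ha)
          rwa [add_sub_add_left_eq_sub, ← sub_smul, smul_smul,
            inv_mul_cancel₀ (sub_ne_zero.mpr hne), one_smul] at this
        apply h2
        simpa using S.sub_mem hs (S.smul_mem s huS)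
      · exact ⟨0, fun s hs => absurd ⟨s, hs⟩ hex⟩
    -- at most one bad nonzero value for eigenvectors
    obtain ⟨b, hb⟩ : ∃ b : K, ∀ s : K, s ≠ 0 → (∃ k : K, D *ᵥ (v0 + s • u) = k • (v0 + s • u)) →
        s = b := by
      by_cases hex : ∃ s : K, s ≠ 0 ∧ ∃ k : K, D *ᵥ (v0 + s • u) = k • (v0 + s • u)
      · obtain ⟨b, hb0, k, hk⟩ := hex
        refine ⟨b, fun s hs0 ⟨n, hn⟩ => ?_⟩
        rw [Matrix.mulVec_add, Matrix.mulVec_smul, hl] at hk hn
        by_contra hne
        have hk' : b • (D *ᵥ u) = (k - l) • v0 + (b * k) • u := by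
          linear_combination (norm := module) hk
        have hn' : s • (D *ᵥ u) = (n - l) • v0 + (s * n) • u := by
          linear_combination (norm := module) hn
        have hcomb : (s * (k - l) - b * (n - l)) • v0 + (s * b * (k - n)) • u = 0 := by
          have := congrArg (s • ·) hk'
          have h' := congrArg (b • ·) hn'
          linear_combination (norm := module) h' - this
        have hx : s * (k - l) - b * (n - l) = 0 := by
          have := congrArg (r ⬝ᵥ ·) hcomb
          simp only [dotProduct_add, dotProduct_smul, hu, dotProduct_zero, smul_eq_mul, mul_zero,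
            add_zero] at this
          rcases mul_eq_zero.mp this with h | h
          · exact h
          · exact absurd h hrv0
        have hkn : k = n := by
          rw [hx, zero_smul, zero_add] at hcomb
          rcases smul_eq_zero.mp hcomb with h | h
          · rcases mul_eq_zero.mp h with h | h
            · rcases mul_eq_zero.mp h with h | h
              · exact absurd h hs0
              · exact absurd h hb0
            · exact sub_eq_zero.mp h
          · exact absurd h hu0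
        subst hkn
        have hkl : k = l := by
          have : (s - b) * (k - l) = 0 := by linear_combination hx
          rcases mul_eq_zero.mp this with h | h
          · exact absurd (sub_eq_zero.mp h) hne
          · exact sub_eq_zero.mp h
        subst hkl
        apply hul
        rw [sub_self, zero_smul, zero_add, mul_smul] at hk'
        exact smul_right_injective _ hb0 hk'
      · exact ⟨0, fun s hs0 h => absurd ⟨s, hs0, h⟩ hex⟩
    obtain ⟨s, hs0, hsa, hsb⟩ := exists_avoid_three_scalars hK 0 a b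
    refine ⟨v0 + s • u, ?_, fun h => hsa (ha s ((hSmem _).mpr h)), fun h => absurd hF h,
      fun h => hsb (hb s hs0 h)⟩
    rw [dotProduct_add, dotProduct_smul, hu, smul_zero, add_zero]
    exact hrv0
  · obtain ⟨v, h1, h2, h3⟩ := exists_notMem_three hK _ S (coreImage D) hr' hS hF
    refine ⟨v, fun h => h1 (LinearMap.mem_ker.mpr h), fun h => h2 ((hSmem v).mpr h),
      fun _ => h3, ?_⟩
    rintro ⟨l, hl⟩
    by_cases hl1 : l = 1
    · exact h2 ((hSmem v).mpr ⟨0, by rw [hl, hl1, one_smul, sub_self, zero_smul]⟩)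
    · exact h3 (eigenvector_mem_coreImage D v l hl1 hl)

/-- If `x ∉ K (D v - v)`, some normalized functional does not vanish at `x`. -/
theorem exists_functional_ne_zero {V : Type*} [AddCommGroup V] [Module K V] (v d x : V)
    (hd : ¬ ∃ k : K, v = k • d) (hx : ¬ ∃ k : K, x = k • d) :
    ∃ f : Module.Dual K V, f v = 1 ∧ f d = 0 ∧ f x ≠ 0 := by
  classical
  have hv : v ∉ Submodule.span K {d} := by
    rw [Submodule.mem_span_singleton]; rintro ⟨k, hk⟩; exact hd ⟨k, hk.symm⟩
  obtain ⟨φ, hφ, hφd⟩ := Submodule.exists_dual_map_eq_bot_of_notMem hv inferInstance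
  have hφd' : φ d = 0 := by
    have := Submodule.mem_map_of_mem (f := φ) (Submodule.mem_span_singleton_self d)
    rwa [hφd, Submodule.mem_bot] at this
  set f := (φ v)⁻¹ • φ with hf
  have hfv : f v = 1 := by simp [hf, inv_mul_cancel₀ hφ]
  have hfd : f d = 0 := by simp [hf, hφd']
  by_cases h0 : f x ≠ 0
  · exact ⟨f, hfv, hfd, h0⟩
  push Not at h0
  have hx2 : x ∉ Submodule.span K {v, d} := by
    rw [Submodule.mem_span_pair]
    rintro ⟨a, b, rfl⟩
    rw [map_add, map_smul, map_smul, hfv, hfd, smul_zero, add_zero, smul_eq_mul, mul_one] at h0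
    subst h0
    exact hx ⟨b, by simp⟩
  obtain ⟨ψ, hψ, hψs⟩ := Submodule.exists_dual_map_eq_bot_of_notMem hx2 inferInstance
  have hz : ∀ y ∈ Submodule.span K {v, d}, ψ y = 0 := by
    intro y hy
    have := Submodule.mem_map_of_mem (f := ψ) hy
    rwa [hψs, Submodule.mem_bot] at this
  refine ⟨f + ψ, ?_, ?_, ?_⟩
  · simp [hfv, hz v (Submodule.subset_span (by simp))]
  · simp [hfd, hz d (Submodule.subset_span (by simp))]
  · simpa [h0] using hψ

end Cfsg.Agent.H85
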