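import Cfsg.Agent.H85.RegularUnipotentBasics
import Cfsg.Agent.H85.RegularUnipotentChoice

/-!
A non-central matrix of determinant one over a field with at least four elements is a product of
two regular unipotent matrices.
-/

namespace Cfsg.Agent.H85

open Matrix

set_option linter.unusedSectionVars false

universe u

variable {K : Type u} [Field K]

theorem pow_eq_zero_of_isNilpotent_matrix {n : ℕ} {N : Matrix (Fin n) (Fin n) K}
    (h : IsNilpotent N) : N ^ n = 0 := by
  have h1 := Matrix.isNilpotent_charpoly_sub_pow_of_isNilpotent h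
  have h2 : N.charpoly = Polynomial.X ^ n := by
    have := sub_eq_zero.mp h1.eq_zero
    simpa using this
  have h3 := Matrix.aeval_self_charpoly N
  rwa [h2, map_pow, Polynomial.aeval_X] at h3

/-- A change of basis adapted to a vector and a functional equal to one on it. -/
theorem exists_adapted {k : ℕ} (v : Fin (k + 1) → K) (f : Module.Dual K (Fin (k + 1) → K))
    (hfv : f v = 1) :
    ∃ P : Matrix (Fin (k + 1)) (Fin (k + 1)) K, IsUnit P.det ∧
      P *ᵥ (Fin.cons 1 0) = v ∧ ∀ y, f (P *ᵥ y) = y 0 := by
  classical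
  have hne : f ≠ 0 := by rintro rfl; simp at hfv
  have hfin : Module.finrank K (LinearMap.ker f) = k := by
    have h := Module.Dual.finrank_ker_add_one_of_ne_zero hne
    simp only [Module.finrank_pi, Fintype.card_fin] at h
    omega
  let b := Module.finBasisOfFinrankEq K (LinearMap.ker f) hfin
  let P : Matrix (Fin (k + 1)) (Fin (k + 1)) K :=
    Matrix.of (fun i j => (Fin.cons (α := fun _ => Fin (k + 1) → K) v
      (fun j => ((b j : LinearMap.ker f) : Fin (k + 1) → K)) j) i)
  have hPy : ∀ y, P *ᵥ y = y 0 • v + ((∑ j, y j.succ • b j : LinearMap.ker f) :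
      Fin (k + 1) → K) := by
    intro y
    ext i
    simp [P, Matrix.mulVec, dotProduct, Fin.sum_univ_succ, Finset.sum_apply, mul_comm]
  have hfP : ∀ y, f (P *ᵥ y) = y 0 := by
    intro y
    rw [hPy, map_add, map_smul, hfv, LinearMap.mem_ker.mp (Subtype.coe_prop _)]
    simp
  refine ⟨P, ?_, ?_, hfP⟩
  · rw [← Matrix.isUnit_iff_isUnit_det, ← Matrix.mulVec_injective_iff_isUnit]
    intro x y hxy
    have h0 : x 0 = y 0 := by rw [← hfP x, ← hfP y, hxy]
    have h1 : (∑ j, x j.succ • b j) = ∑ j, y j.succ • b j := by
      apply Subtype.ext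
      rw [hPy, hPy, h0] at hxy
      exact add_left_cancel hxy
    funext i
    refine Fin.cases h0 (fun i => ?_) i
    rw [← b.equivFun_symm_apply, ← b.equivFun_symm_apply] at h1
    exact congrFun (b.equivFun.symm.injective h1) i
  · rw [hPy]
    simp

set_option maxHeartbeats 1600000 in
/-- The inductive statement: simultaneous triangular factorization with side conditions. -/
theorem tri_factor (hK : 4 ≤ Cardinal.mk K) :
    ∀ (k : ℕ) (D : Matrix (Fin (k + 1)) (Fin (k + 1)) K), D.det = 1 →
      (1 ≤ k → (¬ ∃ l : K, D = l • 1) ∧ ¬ IsNilpotent (D - 1)) →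
      ∀ c r : Fin (k + 1) → K, c ≠ 0 → r ≠ 0 →
        ∃ P L U : Matrix (Fin (k + 1)) (Fin (k + 1)) K, IsUnit P.det ∧ D * P = P * (L * U) ∧
          UpReg Lᵀ ∧ UpReg U ∧ (∀ y, P *ᵥ y = c → y 0 ≠ 0) ∧ (r ᵥ* P) 0 ≠ 0 := by
  intro k
  induction k with
  | zero =>
    intro D hdet _ c r hc hr
    have hU : UpReg (1 : Matrix (Fin 1) (Fin 1) K) :=
      ⟨fun i j h => absurd h (by omega), fun i => by simp, fun i j h => absurd h (by omega)⟩
    refine ⟨1, 1, 1, by simp, ?_, by simpa using hU, hU, ?_, ?_⟩
    · rw [mul_one, mul_one, one_mul]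
      ext i j
      obtain rfl := Fin.fin_one_eq_zero i
      obtain rfl := Fin.fin_one_eq_zero j
      simpa using hdet
    · intro y hy h0
      apply hc
      rw [← hy, Matrix.one_mulVec]
      funext i
      rw [Fin.fin_one_eq_zero i]
      exact h0
    · rw [Matrix.vecMul_one]
      intro h0
      apply hr
      funext i
      rw [Fin.fin_one_eq_zero i]
      exact h0
  | succ k ih =>
    intro D hdet hD c r hc hr
    classical
    obtain ⟨hns, hnu⟩ := hD (by omega)
    obtain ⟨v, hrv, hvc, hvF, hve⟩ := exists_good_vector hK D hdet hns hnu c r hr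
    set d := D *ᵥ v - v with hddef
    have hd : ¬ ∃ t : K, v = t • d := by
      rintro ⟨t, ht⟩
      by_cases ht0 : t = 0
      · rw [ht0, zero_smul] at ht
        exact hve ⟨0, by rw [ht, Matrix.mulVec_zero, zero_smul]⟩
      · refine hve ⟨1 + t⁻¹, ?_⟩
        have : d = t⁻¹ • v := by rw [ht, smul_smul, inv_mul_cancel₀ ht0, one_smul]
        rw [hddef] at this
        linear_combination (norm := module) this
    have hdc : ¬ ∃ t : K, c = t • d := by
      rintro ⟨t, ht⟩
      by_cases ht0 : t = 0
      · rw [ht0, zero_smul] at ht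
        exact hc ht
      · exact hvc ⟨t⁻¹, by rw [ht, smul_smul, inv_mul_cancel₀ ht0, one_smul]⟩
    have hdc' : d ≠ 0 := fun h' =>
      hve ⟨1, by rw [one_smul]; exact sub_eq_zero.mp (hddef.symm.trans h')⟩
    obtain ⟨x0, hx0⟩ := exists_off_line D hdet hnu d
    obtain ⟨f1, hf1v, hf1d, hf1c⟩ := exists_functional_ne_zero v d c hd hdc
    obtain ⟨f2, hf2v, hf2d, hf2x⟩ := exists_functional_ne_zero v d (D *ᵥ x0 - x0) hd hx0
    let U : Submodule K (Fin (k + 2) → K) := Submodule.span K {v, d}
    have hUmem : ∀ {h : Module.Dual K (Fin (k + 2) → K)}, h ∈ U.dualAnnihilator →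
        h v = 0 ∧ h d = 0 := fun {h} hh =>
      ⟨(Submodule.mem_dualAnnihilator h).mp hh v (Submodule.subset_span (by simp)),
        (Submodule.mem_dualAnnihilator h).mp hh d (Submodule.subset_span (by simp))⟩
    -- evaluation at a point, as an affine function on normalized functionals
    let ev : (Fin (k + 2) → K) → (U.dualAnnihilator →ₗ[K] K) := fun x =>
      (LinearMap.applyₗ x).comp U.dualAnnihilator.subtype
    have hev : ∀ x (h : U.dualAnnihilator),
        ev x h + f1 x = (f1 + (h : Module.Dual K (Fin (k + 2) → K))) x := by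
      intro x h; simp [ev, add_comm]
    have hex : ∀ x, (∃ g : Module.Dual K (Fin (k + 2) → K), g v = 1 ∧ g d = 0 ∧ g x ≠ 0) →
        ∃ h : U.dualAnnihilator, ev x h + f1 x ≠ 0 := by
      rintro x ⟨g, hgv, hgd, hgx⟩
      refine ⟨⟨g - f1, ?_⟩, ?_⟩
      · rw [Submodule.mem_dualAnnihilator]
        intro y hy
        obtain ⟨a, b, rfl⟩ := Submodule.mem_span_pair.mp hy
        simp [hgv, hgd, hf1v, hf1d]
      · rw [hev]
        simpa using hgx
    have hexU : ∀ x, x ∉ U → ∀ t : K, ∃ h : U.dualAnnihilator, ev x h + t ≠ 0 := by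
      intro x hx t
      obtain ⟨ψ, hψ, hψU⟩ := Submodule.exists_dual_map_eq_bot_of_notMem hx inferInstance
      have hmem : ψ ∈ U.dualAnnihilator := by
        rw [Submodule.mem_dualAnnihilator]
        intro y hy
        have := Submodule.mem_map_of_mem (f := ψ) hy
        rwa [hψU, Submodule.mem_bot] at this
      by_cases ht : t = 0
      · exact ⟨⟨ψ, hmem⟩, by simpa [ev, ht] using hψ⟩
      · exact ⟨0, by simpa using ht⟩
    -- the third condition
    let w2 := D *ᵥ (D *ᵥ v)
    -- scalar functionals in the quadratic case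
    let Bad : Module.Dual K (Fin (k + 2) → K) → Prop := fun f =>
      ∃ l : K, ∀ w, f w = 0 → D *ᵥ w - f (D *ᵥ w) • (D *ᵥ v) = l • w
    obtain ⟨h, hhc, hhx, hh3⟩ : ∃ h : U.dualAnnihilator,
        ev c h + f1 c ≠ 0 ∧ ev (D *ᵥ x0 - x0) h + f1 (D *ᵥ x0 - x0) ≠ 0 ∧
        ((w2 ∉ U → (f1 + (h : Module.Dual K (Fin (k + 2) → K))) w2 ≠ D.trace - (k + 1 : ℕ)) ∧
         (w2 ∈ U → 1 ≤ k → ¬ Bad (f1 + (h : Module.Dual K (Fin (k + 2) → K))))) := by
      by_cases hw : w2 ∈ U
      · -- quadratic case
        by_cases hk : 1 ≤ k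
        swap
        · obtain ⟨h, a, b, -⟩ := exists_avoid_three hK (E := U.dualAnnihilator) (ev c) (ev (D *ᵥ x0 - x0))
            (0 : U.dualAnnihilator →ₗ[K] K) (f1 c) (f1 (D *ᵥ x0 - x0)) 1
            (hex c ⟨f1, hf1v, hf1d, hf1c⟩) (hex _ ⟨f2, hf2v, hf2d, hf2x⟩) ⟨0, by simp⟩
          exact ⟨h, a, b, fun h' => absurd hw h', fun _ h' => absurd h' hk⟩
        by_cases hb : ∃ h : U.dualAnnihilator, Bad (f1 + (h : Module.Dual K (Fin (k + 2) → K)))
        swap
        · obtain ⟨h, a, b, -⟩ := exists_avoid_three hK (E := U.dualAnnihilator) (ev c) (ev (D *ᵥ x0 - x0))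
            (0 : U.dualAnnihilator →ₗ[K] K) (f1 c) (f1 (D *ᵥ x0 - x0)) 1
            (hex c ⟨f1, hf1v, hf1d, hf1c⟩) (hex _ ⟨f2, hf2v, hf2d, hf2x⟩) ⟨0, by simp⟩
          exact ⟨h, a, b, fun h' => absurd hw h', fun _ _ h' => hb ⟨h, h'⟩⟩
        obtain ⟨h0, hb0⟩ := hb
        obtain ⟨y, hy⟩ : ∃ y, y ∉ U := by
          by_contra hc'
          push Not at hc'
          have htop : U = ⊤ := eq_top_iff.mpr fun z _ => hc' z
          have h2 : Module.finrank K U ≤ 2 := by
            refine le_trans (finrank_span_le_card (R := K) ({v, d} : Set (Fin (k + 2) → K))) ?_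
            rw [Set.toFinset_insert, Set.toFinset_singleton]
            exact Finset.card_le_two
          rw [htop, finrank_top, Module.finrank_pi, Fintype.card_fin] at h2
          omega
        obtain ⟨h, a, b, c'⟩ := exists_avoid_three hK (E := U.dualAnnihilator) (ev c) (ev (D *ᵥ x0 - x0))
          (ev y) (f1 c) (f1 (D *ᵥ x0 - x0)) (-(ev y h0))
          (hex c ⟨f1, hf1v, hf1d, hf1c⟩) (hex _ ⟨f2, hf2v, hf2d, hf2x⟩) (hexU y hy _)
        refine ⟨h, a, b, fun h' => absurd hw h', fun _ _ hbad => c' ?_⟩
        -- two bad functionals coincide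
        suffices heq : ∀ x, (h : Module.Dual K (Fin (k + 2) → K)) x =
            (h0 : Module.Dual K (Fin (k + 2) → K)) x by
          simp [ev, heq y]
        set g := f1 + (h : Module.Dual K (Fin (k + 2) → K)) with hg
        set g0 := f1 + (h0 : Module.Dual K (Fin (k + 2) → K)) with hg0
        obtain ⟨l, hl⟩ := hbad
        obtain ⟨l0, hl0⟩ := hb0
        have hgv : g v = 1 := by simp [hg, hf1v, (hUmem h.2).1]
        have hgd : g d = 0 := by simp [hg, hf1d, (hUmem h.2).2]
        have hg0v : g0 v = 1 := by simp [hg0, hf1v, (hUmem h0.2).1]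
        have hg0d : g0 d = 0 := by simp [hg0, hf1d, (hUmem h0.2).2]
        obtain ⟨α, β, hαβ⟩ := Submodule.mem_span_pair.mp hw
        have hDd : D *ᵥ d = w2 - D *ᵥ v := by rw [hddef, Matrix.mulVec_sub]
        have hDv : D *ᵥ v = v + d := by rw [hddef]; abel
        have hld : ∀ (g' : Module.Dual K (Fin (k + 2) → K)) (l' : K), g' v = 1 → g' d = 0 →
            (∀ w, g' w = 0 → D *ᵥ w - g' (D *ᵥ w) • (D *ᵥ v) = l' • w) →
            (β - α) • d = l' • d := by
          intro g' l' h1 h2 h3
          have e : D *ᵥ d = (α - 1) • v + (β - 1) • d := by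
            rw [hDd, hDv, ← hαβ]; module
          have := h3 d h2
          rw [e, map_add, map_smul, map_smul, h1, h2, smul_zero, add_zero, smul_eq_mul, mul_one,
            hDv] at this
          linear_combination (norm := module) this
        have hd0 : d ≠ 0 := fun h' => hdc' h'
        have hll : l = l0 := smul_left_injective K hd0
          ((hld g l hgv hgd hl).symm.trans (hld g0 l0 hg0v hg0d hl0))
        subst hll
        intro x
        by_contra hne
        have e1 := hl (x - g x • v) (by simp [hgv])
        have e2 := hl0 (x - g0 x • v) (by simp [hg0v])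
        set t := g0 x - g x with ht
        have ht0 : t ≠ 0 := by
          simp only [ht, hg, hg0, LinearMap.add_apply]
          intro h'
          exact hne (by linear_combination -h')
        obtain ⟨A, hA⟩ : ∃ A : K, t • (D *ᵥ v - l • v) = A • (D *ᵥ v) := by
          refine ⟨g (D *ᵥ (x - g x • v)) - g0 (D *ᵥ (x - g0 x • v)), ?_⟩
          simp only [Matrix.mulVec_sub, Matrix.mulVec_smul] at e1 e2 ⊢
          rw [ht]
          linear_combination (norm := module) e1 - e2
        by_cases htA : t - A = 0
        · have h' : (t * l) • v = 0 := by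
            have : t = A := sub_eq_zero.mp htA
            rw [← this] at hA
            linear_combination (norm := module) -hA
          rcases smul_eq_zero.mp h' with h'' | h''
          · have hl0 : l = 0 := (mul_eq_zero.mp h'').resolve_left ht0
            -- then `D d` is a multiple of `D v`
            have e3 := hl d hgd
            rw [hl0, zero_smul, sub_eq_zero, ← Matrix.mulVec_smul] at e3
            have hinj : Function.Injective D.mulVec :=
              Matrix.mulVec_injective_iff_isUnit.mpr ((Matrix.isUnit_iff_isUnit_det _).mpr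
                (by rw [hdet]; exact isUnit_one))
            have e4 := hinj e3
            have := congrArg g e4
            rw [hgd, map_smul, hgv, smul_eq_mul, mul_one] at this
            rw [← this, zero_smul] at e4
            exact hd0 e4
          · rw [h'', map_zero] at hgv
            exact zero_ne_one hgv
        · refine hve ⟨(t * l) / (t - A), ?_⟩
          have h' : (t - A) • (D *ᵥ v) = (t * l) • v := by
            linear_combination (norm := module) hA
          rw [div_eq_inv_mul, ← smul_smul, ← h', smul_smul, inv_mul_cancel₀ htA, one_smul]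
      · -- free trace
        obtain ⟨h, a, b, c'⟩ := exists_avoid_three hK (E := U.dualAnnihilator) (ev c) (ev (D *ᵥ x0 - x0)) (ev w2)
          (f1 c) (f1 (D *ᵥ x0 - x0)) (f1 w2 - (D.trace - (k + 1 : ℕ)))
          (hex c ⟨f1, hf1v, hf1d, hf1c⟩) (hex _ ⟨f2, hf2v, hf2d, hf2x⟩) (hexU w2 hw _)
        refine ⟨h, a, b, fun _ h' => c' ?_, fun h' => absurd h' hw⟩
        rw [← add_sub_assoc, hev, h', sub_self]
    rw [hev] at hhc hhx
    set f := f1 + (h : Module.Dual K (Fin (k + 2) → K)) with hf
    have hfv : f v = 1 := by simp [hf, hf1v, (hUmem h.2).1]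
    have hfd : f d = 0 := by simp [hf, hf1d, (hUmem h.2).2]
    have hfDv : f (D *ᵥ v) = 1 := by
      have : D *ᵥ v = v + d := by rw [hddef]; abel
      rw [this, map_add, hfv, hfd, add_zero]
    obtain ⟨P, hPdet, hPv, hfP⟩ := exists_adapted v f hfv
    set M := P⁻¹ * D * P with hM
    have hPinv : P⁻¹ * P = 1 := Matrix.nonsing_inv_mul _ hPdet
    have hPinv' : P * P⁻¹ = 1 := Matrix.mul_nonsing_inv _ hPdet
    have hDP : D * P = P * M := by
      rw [hM, ← Matrix.mul_assoc, ← Matrix.mul_assoc, hPinv', Matrix.one_mul]
    have hPM : ∀ y, P *ᵥ (M *ᵥ y) = D *ᵥ (P *ᵥ y) := by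
      intro y; rw [Matrix.mulVec_mulVec, Matrix.mulVec_mulVec, hDP]
    have hPinj : Function.Injective P.mulVec :=
      Matrix.mulVec_injective_iff_isUnit.mpr ((Matrix.isUnit_iff_isUnit_det _).mpr hPdet)
    set R : Fin (k + 1) → K := fun j => M 0 j.succ with hR
    set C : Fin (k + 1) → K := fun i => M i.succ 0 with hC
    set X : Matrix (Fin (k + 1)) (Fin (k + 1)) K := M.submatrix Fin.succ Fin.succ with hX
    have hMe : bordered (M 0 0) R C X = M := bordered_eta M
    have hM1 : M *ᵥ (Fin.cons 1 0) = Fin.cons (M 0 0) C := by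
      conv_lhs => rw [← hMe]
      rw [bordered_mulVec_cons]
      simp
    have hM00 : M 0 0 = 1 := by
      have := hfP (M *ᵥ (Fin.cons 1 0))
      rw [hPM, hPv, hfDv, hM1] at this
      simpa using this.symm
    rw [hM00] at hMe hM1
    have hDvC : D *ᵥ v = P *ᵥ (Fin.cons 1 C) := by rw [← hM1, hPM, hPv]
    -- the map induced on the kernel of `f`
    set D' := X - vecMulVec C R with hD'
    let ι : (Fin (k + 1) → K) →ₗ[K] (Fin (k + 2) → K) :=
      { toFun := fun y => P *ᵥ (Fin.cons 0 y)
        map_add' := fun y z => by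
          rw [← Matrix.mulVec_add]; congr 1
          funext i; refine Fin.cases ?_ (fun i => ?_) i <;> simp
        map_smul' := fun t y => by
          rw [RingHom.id_apply, ← Matrix.mulVec_smul]; congr 1
          funext i; refine Fin.cases ?_ (fun i => ?_) i <;> simp }
    have hι : ∀ y, ι y = P *ᵥ (Fin.cons 0 y) := fun y => rfl
    have hιker : ∀ y, f (ι y) = 0 := fun y => by rw [hι, hfP]; simp
    have hιsurj : ∀ w, f w = 0 → ∃ y, ι y = w := by
      intro w hw
      set z := P⁻¹ *ᵥ w with hz
      have hPz : P *ᵥ z = w := by rw [hz, Matrix.mulVec_mulVec, hPinv', Matrix.one_mulVec]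
      have hz0 : z 0 = 0 := by rw [← hfP z, hPz, hw]
      exact ⟨Fin.tail z, by rw [hι, ← hz0, Fin.cons_self_tail, hPz]⟩
    have hDι : ∀ y, D *ᵥ ι y = P *ᵥ (Fin.cons (R ⬝ᵥ y) (X *ᵥ y)) := by
      intro y
      rw [hι, ← hPM, ← hMe, bordered_mulVec_cons]
      simp
    have hfDι : ∀ y, f (D *ᵥ ι y) = R ⬝ᵥ y := fun y => by rw [hDι, hfP]; simp
    have hιD' : ∀ y, ι (D' *ᵥ y) = D *ᵥ ι y - f (D *ᵥ ι y) • (D *ᵥ v) := by
      intro y
      rw [hfDι, hDι, hDvC, hι, ← Matrix.mulVec_smul, ← Matrix.mulVec_sub]
      congr 1
      funext i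
      refine Fin.cases ?_ (fun i => ?_) i
      · simp
      · simp [hD', Matrix.sub_mulVec, Matrix.vecMulVec_mulVec, mul_comm]
    have hιinj : Function.Injective ι := by
      intro y z hyz
      have := hPinj hyz
      have h' := congrArg Fin.tail this
      simpa using h'
    -- determinant
    have hdetM : M.det = 1 := by
      rw [hM, Matrix.det_mul, Matrix.det_mul, hdet, mul_one, ← Matrix.det_mul, hPinv,
        Matrix.det_one]
    have hdetD' : D'.det = 1 := by
      have hsplit : bordered 1 0 C (1 : Matrix (Fin (k + 1)) (Fin (k + 1)) K) *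
          bordered 1 R 0 D' = M := by
        rw [bordered_mul, ← hMe]
        simp [hD']
      have h1 : (bordered 1 0 C (1 : Matrix (Fin (k + 1)) (Fin (k + 1)) K)).det = 1 := by
        rw [det_bordered_lower]; simp
      have h2 := congrArg Matrix.det hsplit
      rw [Matrix.det_mul, h1, det_bordered_upper, hdetM, one_mul, one_mul] at h2
      exact h2
    have hR0 : R ≠ 0 := by
      intro h0
      apply hhx
      obtain ⟨y, hy⟩ := hιsurj (x0 - f x0 • v) (by simp [hfv])
      have := hfDι y
      rw [h0, zero_dotProduct, hy, Matrix.mulVec_sub, Matrix.mulVec_smul, map_sub, map_smul,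
        hfDv] at this
      rw [map_sub]
      simpa using this
    have hC0 : C ≠ 0 := by
      intro h0
      apply hve
      refine ⟨1, ?_⟩
      rw [hDvC, h0, one_smul, hPv]
    have hgood : 1 ≤ k → (¬ ∃ l : K, D' = l • 1) ∧ ¬ IsNilpotent (D' - 1) := by
      intro hk
      have hscal : ∀ l : K, D' = l • 1 → Bad f := by
        intro l hl
        refine ⟨l, fun w hw => ?_⟩
        obtain ⟨y, rfl⟩ := hιsurj w hw
        rw [← hιD', hl, Matrix.smul_mulVec, Matrix.one_mulVec, map_smul]
      by_cases hw : w2 ∈ U
      · refine ⟨fun ⟨l, hl⟩ => hh3.2 hw hk (hscal l hl), fun hnil => ?_⟩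
        -- quadratic case: unipotence would put `v` into the core image
        obtain ⟨α, β, hαβ⟩ := Submodule.mem_span_pair.mp hw
        have hDv : D *ᵥ v = v + d := by rw [hddef]; abel
        have hDd : D *ᵥ d = (α - 1) • v + (β - 1) • d := by
          have e : D *ᵥ d = w2 - D *ᵥ v := by rw [hddef, Matrix.mulVec_sub]
          rw [e, hDv, ← hαβ]; module
        have hUinv : ∀ x ∈ U, (D - 1) *ᵥ x ∈ U := by
          intro x hx
          obtain ⟨a, b, rfl⟩ := Submodule.mem_span_pair.mp hx
          rw [Matrix.mulVec_add, Matrix.mulVec_smul, Matrix.mulVec_smul, Matrix.sub_mulVec,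
            Matrix.sub_mulVec, Matrix.one_mulVec, Matrix.one_mulVec, hDv, hDd]
          exact Submodule.mem_span_pair.mpr ⟨b * (α - 1), a + b * (β - 1 - 1), by module⟩
        have hcong : ∀ (j : ℕ) y,
            ι (((D' - 1) ^ j) *ᵥ y) - ((D - 1) ^ j) *ᵥ ι y ∈ U := by
          intro j
          induction j with
          | zero => intro y; simp
          | succ j ihj =>
            intro y
            rw [pow_succ', pow_succ', ← Matrix.mulVec_mulVec, ← Matrix.mulVec_mulVec]
            set z := ((D' - 1) ^ j) *ᵥ y
            have e : ι ((D' - 1) *ᵥ z) = (D - 1) *ᵥ ι z - f (D *ᵥ ι z) • (v + d) := by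
              rw [Matrix.sub_mulVec, Matrix.one_mulVec, map_sub, hιD', Matrix.sub_mulVec,
                Matrix.one_mulVec, hDv]
              abel
            rw [e, sub_right_comm, ← Matrix.mulVec_sub]
            exact U.sub_mem (hUinv _ (ihj y)) (U.smul_mem _ (U.add_mem
              (Submodule.subset_span (by simp)) (Submodule.subset_span (by simp))))
        have hnil' : (D' - 1) ^ (k + 1) = 0 := pow_eq_zero_of_isNilpotent_matrix hnil
        have hrange : ∀ x, ((D - 1) ^ (k + 1)) *ᵥ x ∈ U := by
          intro x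
          obtain ⟨y, hy⟩ := hιsurj (x - f x • v) (by simp [hfv])
          have h1 := hcong (k + 1) y
          rw [hnil', Matrix.zero_mulVec, map_zero, zero_sub, neg_mem_iff, hy] at h1
          have hj : ∀ j : ℕ, ((D - 1) ^ j) *ᵥ v ∈ U := by
            intro j
            induction j with
            | zero => simpa using Submodule.subset_span (by simp)
            | succ j ihj => rw [pow_succ', ← Matrix.mulVec_mulVec]; exact hUinv _ ihj
          have := U.add_mem h1 (U.smul_mem (f x) (hj (k + 1)))
          rwa [← Matrix.mulVec_smul, ← Matrix.mulVec_add, sub_add_cancel] at this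
        -- `D - 1` is injective on `U`
        have hinjU : ∀ x ∈ U, (D - 1) *ᵥ x = 0 → x = 0 := by
          intro x hx hx0
          obtain ⟨a, b, rfl⟩ := Submodule.mem_span_pair.mp hx
          have hlin : (b * (α - 1)) • v + (a + b * (β - 1 - 1)) • d = 0 := by
            rw [Matrix.mulVec_add, Matrix.mulVec_smul, Matrix.mulVec_smul, Matrix.sub_mulVec,
              Matrix.sub_mulVec, Matrix.one_mulVec, Matrix.one_mulVec, hDv, hDd] at hx0
            linear_combination (norm := module) hx0
          have c1 : b * (α - 1) = 0 := by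
            have := congrArg f hlin
            simpa [hfv, hfd] using this
          rw [c1, zero_smul, zero_add] at hlin
          have c2 := (smul_eq_zero.mp hlin).resolve_right (fun h' => hdc' h')
          by_cases hb : b = 0
          · have ha : a = 0 := by rw [hb] at c2; simpa using c2
            simp [ha, hb]
          exfalso
          have hα : α = 1 := sub_eq_zero.mp ((mul_eq_zero.mp c1).resolve_left hb)
          obtain ⟨y, hy⟩ := hιsurj d hfd
          have e3 : D' *ᵥ y = (β - 1) • y := by
            apply hιinj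
            rw [map_smul, hιD', hy, hDd, hα, sub_self, zero_smul, zero_add, map_smul, hfd,
              smul_zero, zero_smul, sub_zero]
          have hy0 : y ≠ 0 := by rintro rfl; rw [map_zero] at hy; exact hdc' hy.symm
          have hβ : β - 1 - 1 = 0 := by
            obtain ⟨N, hN⟩ := hnil
            have key : ∀ j : ℕ, ((D' - 1) ^ j) *ᵥ y = (β - 1 - 1) ^ j • y := by
              intro j
              induction j with
              | zero => simp
              | succ j ihj =>
                rw [pow_succ', ← Matrix.mulVec_mulVec, ihj, Matrix.mulVec_smul, Matrix.sub_mulVec,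
                  Matrix.one_mulVec, e3, pow_succ]
                module
            have := key N
            rw [hN, Matrix.zero_mulVec] at this
            exact eq_zero_of_pow_eq_zero ((smul_eq_zero.mp this.symm).resolve_right hy0)
          apply hnu
          refine ⟨k + 1 + 2, Matrix.ext_iff_mulVec.mpr fun z => ?_⟩
          rw [Matrix.zero_mulVec, show k + 1 + 2 = 2 + (k + 1) by omega, pow_add, ← Matrix.mulVec_mulVec]
          obtain ⟨a', b', hab⟩ := Submodule.mem_span_pair.mp (hrange z)
          rw [← hab, sq, ← Matrix.mulVec_mulVec]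
          have hd' : (D - 1) *ᵥ d = 0 := by
            rw [Matrix.sub_mulVec, Matrix.one_mulVec, hDd, hα, sub_self, zero_smul, zero_add,
              sub_eq_zero.mp hβ, one_smul, sub_self]
          have hv' : (D - 1) *ᵥ v = d := by rw [Matrix.sub_mulVec, Matrix.one_mulVec]
          rw [Matrix.mulVec_add, Matrix.mulVec_smul, Matrix.mulVec_smul, hv', hd', smul_zero,
            add_zero, Matrix.mulVec_smul, hd', smul_zero]
        let T : U →ₗ[K] U :=
          ((Matrix.mulVecLin ((D - 1) ^ (k + 1))).comp U.subtype).codRestrict U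
            (fun x => hrange _)
        have hTinj : Function.Injective T := by
          rw [injective_iff_map_eq_zero]
          intro x hx
          have hx' : ((D - 1) ^ (k + 1)) *ᵥ (x : Fin (k + 2) → K) = 0 := congrArg Subtype.val hx
          have key : ∀ (j : ℕ) (z : Fin (k + 2) → K), z ∈ U →
              ((D - 1) ^ j) *ᵥ z = 0 → z = 0 := by
            intro j
            induction j with
            | zero => intro z _ hz; simpa using hz
            | succ j ihj =>
              intro z hz hz0
              rw [pow_succ, ← Matrix.mulVec_mulVec] at hz0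
              exact hinjU z hz (ihj _ (hUinv z hz) hz0)
          exact Subtype.ext (key _ _ x.2 hx')
        have hcore : coreImage D = U := by
          refine le_antisymm ?_ ?_
          · rintro _ ⟨z, rfl⟩; exact hrange z
          · intro z hz
            obtain ⟨w, hw'⟩ := LinearMap.injective_iff_surjective.mp hTinj ⟨z, hz⟩
            exact ⟨(w : Fin (k + 2) → K), congrArg Subtype.val hw'⟩
        have hne : coreImage D ≠ ⊤ := by
          rw [hcore]
          intro htop
          have h2 : Module.finrank K U ≤ 2 := by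
            refine le_trans (finrank_span_le_card (R := K) ({v, d} : Set (Fin (k + 2) → K))) ?_
            rw [Set.toFinset_insert, Set.toFinset_singleton]
            exact Finset.card_le_two
          rw [htop, finrank_top, Module.finrank_pi, Fintype.card_fin] at h2
          omega
        exact hvF hne (hcore ▸ Submodule.subset_span (by simp))
      · refine ⟨fun ⟨l, hl⟩ => hw ?_, fun hnil => hh3.1 hw ?_⟩
        · obtain ⟨l', hl'⟩ := hscal l hl
          have e := hl' d hfd
          have e' : w2 = (1 + f (D *ᵥ d)) • (v + d) + l' • d := by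
            have e1 : D *ᵥ v = v + d := by rw [hddef]; abel
            have e2 : D *ᵥ d = w2 - D *ᵥ v := by rw [hddef, Matrix.mulVec_sub]
            rw [e1] at e e2
            linear_combination (norm := module) e - e2
          rw [e']
          exact Submodule.mem_span_pair.mpr
            ⟨1 + f (D *ᵥ d), 1 + f (D *ᵥ d) + l', by module⟩
        · have ht := Matrix.isNilpotent_trace_of_isNilpotent hnil
          have ht0 : (D' - 1).trace = 0 := ht.eq_zero
          rw [Matrix.trace_sub, Matrix.trace_one, Fintype.card_fin, hD', Matrix.trace_sub,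
            Matrix.trace_vecMulVec] at ht0
          have htrM : M.trace = D.trace := by
            rw [hM, Matrix.trace_mul_cycle, hPinv', Matrix.one_mul]
          have htrX : M.trace = 1 + X.trace := by
            rw [← hM00]
            simp [Matrix.trace, Fin.sum_univ_succ, hX, Matrix.diag]
          have hfw : f w2 = 1 + R ⬝ᵥ C := by
            have e : w2 = P *ᵥ (M *ᵥ Fin.cons 1 C) := by rw [hPM, ← hDvC]
            rw [e, hfP, ← hMe, bordered_mulVec_cons]
            simp
          rw [hfw, dotProduct_comm R C]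
          linear_combination -htrX + htrM - ht0
    obtain ⟨P', L', U', hP'det, hP', hL', hU', hPc, hPr⟩ :=
      ih D' hdetD' hgood C R hC0 hR0
    set C' := P'⁻¹ *ᵥ C with hC'
    set R' := R ᵥ* P' with hR'
    have hP'C : P' *ᵥ C' = C := by
      rw [hC', Matrix.mulVec_mulVec, Matrix.mul_nonsing_inv _ hP'det, Matrix.one_mulVec]
    refine ⟨P * bordered 1 0 0 P', bordered 1 0 C' L', bordered 1 R' 0 U', ?_, ?_, ?_, ?_, ?_, ?_⟩
    · rw [Matrix.det_mul, det_bordered_upper, one_mul]
      exact hPdet.mul hP'det
    · rw [← Matrix.mul_assoc D P, hDP]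
      simp only [Matrix.mul_assoc]
      congr 1
      have hXeq : vecMulVec C R' + P' * (L' * U') = X * P' := by
        rw [← hP', hD', Matrix.sub_mul, hR', Matrix.vecMulVec_mul]
        abel
      rw [← hMe, bordered_mul, bordered_mul, bordered_mul]
      simp [Matrix.mulVec_smul, hP'C, Matrix.mul_add, ← hXeq, Matrix.mul_vecMulVec, hR']
    · rw [bordered_transpose]
      exact upReg_bordered _ hL' (fun j hj => by
        obtain rfl : j = 0 := Fin.ext hj
        exact hPc _ hP'C)
    · exact upReg_bordered _ hU' (fun j hj => by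
        obtain rfl : j = 0 := Fin.ext hj
        exact hPr)
    · intro y hy
      rw [← Matrix.mulVec_mulVec] at hy
      have e : (bordered 1 0 0 P' *ᵥ y) 0 = y 0 := by
        conv_lhs => rw [← Fin.cons_self_tail y, bordered_mulVec_cons]
        simp
      rw [← e, ← hfP (bordered 1 0 0 P' *ᵥ y), hy]
      exact hhc
    · have e : (P * bordered 1 0 0 P') *ᵥ (Fin.cons 1 0) = v := by
        rw [← Matrix.mulVec_mulVec, bordered_mulVec_cons]
        simpa using hPv
      have : (r ᵥ* (P * bordered 1 0 0 P')) 0 = r ⬝ᵥ v := by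
        rw [← e]
        simp [Matrix.vecMul, Matrix.mulVec, dotProduct, Fin.sum_univ_succ]
      rw [this]
      exact hrv

end Cfsg.Agent.H85
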