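import Cfsg.Agent.H85.RegularUnipotentFactor

/-!
Products of two conjugates of the regular unipotent Jordan block.
-/

namespace Cfsg.Agent.H85

open Matrix

set_option linter.unusedSectionVars false

universe u

variable {K : Type u} [Field K]

/-- A nilpotent matrix is similar to a strictly upper triangular one. -/
theorem exists_strict_upper : ∀ (n : ℕ) (N : Matrix (Fin n) (Fin n) K), IsNilpotent N →
    ∃ P T : Matrix (Fin n) (Fin n) K, IsUnit P.det ∧ N * P = P * T ∧
      ∀ i j : Fin n, j ≤ i → T i j = 0 := by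
  intro n
  induction n with
  | zero => intro N _; exact ⟨1, 0, by simp, Subsingleton.elim _ _, fun i => i.elim0⟩
  | succ k ih =>
    intro N hN
    obtain ⟨v, hv0, hNv⟩ : ∃ v : Fin (k + 1) → K, v ≠ 0 ∧ N *ᵥ v = 0 := by
      have hdet : N.det = 0 := by
        obtain ⟨m, hm⟩ := hN
        rcases Nat.eq_zero_or_pos m with h | h
        · subst h; rw [pow_zero] at hm; exact absurd hm one_ne_zero
        · have := congrArg Matrix.det hm
          rw [Matrix.det_pow, Matrix.det_zero] at this
          exact eq_zero_of_pow_eq_zero this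
      obtain ⟨v, h1, h2⟩ := Matrix.exists_mulVec_eq_zero_iff.mpr hdet
      exact ⟨v, h1, h2⟩
    obtain ⟨φ, hφ, -⟩ := Submodule.exists_dual_map_eq_bot_of_notMem
      (p := (⊥ : Submodule K (Fin (k + 1) → K))) (x := v) (by simpa using hv0) inferInstance
    obtain ⟨P, hPdet, hPv, -⟩ := exists_adapted v ((φ v)⁻¹ • φ) (by simp [inv_mul_cancel₀ hφ])
    set M := P⁻¹ * N * P with hM
    have hPinv' : P * P⁻¹ = 1 := Matrix.mul_nonsing_inv _ hPdet
    have hPinv : P⁻¹ * P = 1 := Matrix.nonsing_inv_mul _ hPdet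
    have hNP : N * P = P * M := by
      rw [hM, ← Matrix.mul_assoc, ← Matrix.mul_assoc, hPinv', Matrix.one_mul]
    have hM1 : M *ᵥ (Fin.cons 1 0) = 0 := by
      rw [hM, ← Matrix.mulVec_mulVec, hPv, ← Matrix.mulVec_mulVec, hNv, Matrix.mulVec_zero]
    set R : Fin k → K := fun j => M 0 j.succ with hR
    set X : Matrix (Fin k) (Fin k) K := M.submatrix Fin.succ Fin.succ with hX
    have hMe : bordered 0 R 0 X = M := by
      have hc : ∀ i, M i 0 = 0 := by
        intro i
        have := congrFun hM1 i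
        simpa [Matrix.mulVec, dotProduct, Fin.sum_univ_succ] using this
      have e := bordered_eta M
      rw [hc 0] at e
      conv_rhs => rw [← e]
      rw [hR, hX]
      congr 1
      funext i
      exact (hc i.succ).symm
    have hpow : ∀ m : ℕ, ∀ i j : Fin k, (M ^ m) i.succ j.succ = (X ^ m) i j ∧
        (M ^ m) i.succ 0 = 0 := by
      intro m
      induction m with
      | zero => intro i j; simp [Matrix.one_apply, Fin.succ_ne_zero]
      | succ m ihm =>
        intro i j
        constructor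
        · rw [pow_succ, pow_succ, Matrix.mul_apply, Matrix.mul_apply, Fin.sum_univ_succ,
            (ihm i j).2, zero_mul, zero_add]
          refine Finset.sum_congr rfl fun l _ => ?_
          rw [(ihm i l).1]; rfl
        · rw [pow_succ, Matrix.mul_apply]
          refine Finset.sum_eq_zero fun l _ => ?_
          rw [← hMe]
          refine Fin.cases ?_ (fun l => ?_) l <;> simp
    have hXnil : IsNilpotent X := by
      obtain ⟨m, hm⟩ := hN
      refine ⟨m, ?_⟩
      have hMm : ∀ m : ℕ, P * M ^ m = N ^ m * P := by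
        intro m
        induction m with
        | zero => simp
        | succ m ihm =>
          rw [pow_succ, pow_succ, ← Matrix.mul_assoc, ihm, Matrix.mul_assoc, ← hNP,
            Matrix.mul_assoc]
      have hM0 : M ^ m = 0 := by
        have := hMm m
        rw [hm, Matrix.zero_mul] at this
        calc M ^ m = P⁻¹ * (P * M ^ m) := by rw [← Matrix.mul_assoc, hPinv, Matrix.one_mul]
          _ = 0 := by rw [this, Matrix.mul_zero]
      ext i j
      rw [← (hpow m i j).1, hM0]; rfl
    obtain ⟨P', T', hP'det, hP', hT'⟩ := ih X hXnil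
    refine ⟨P * bordered 1 0 0 P', bordered 0 (R ᵥ* P') 0 T', ?_, ?_, ?_⟩
    · rw [Matrix.det_mul, det_bordered_upper, one_mul]; exact hPdet.mul hP'det
    · rw [← Matrix.mul_assoc N P, hNP]
      simp only [Matrix.mul_assoc]
      congr 1
      rw [← hMe, bordered_mul, bordered_mul, hP']
      simp
    · intro i j
      refine Fin.cases ?_ (fun i => ?_) i
      · intro h
        obtain rfl : j = 0 := Fin.le_zero_iff.mp h
        simp
      · refine Fin.cases ?_ (fun j => ?_) j
        · intro _; simp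
        · intro h; simp [hT' i j (Fin.succ_le_succ_iff.mp h)]

/-- The unipotent case: a product of two upper regular unipotents. -/
theorem upper_factor (hK : 4 ≤ Cardinal.mk K) {n : ℕ} (T : Matrix (Fin n) (Fin n) K)
    (hT : ∀ i j : Fin n, j ≤ i → T i j = 0) :
    ∃ A B : Matrix (Fin n) (Fin n) K, UpReg A ∧ UpReg B ∧ 1 + T = A * B := by
  classical
  choose s hs0 hs1 _ using fun (i : Fin n) =>
    exists_avoid_three_scalars hK 0 (if h : i.val + 1 < n then T i ⟨i.val + 1, h⟩ else 0) 0
  let A : Matrix (Fin n) (Fin n) K :=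
    Matrix.of fun i j => if i = j then 1 else if j.val = i.val + 1 then s i else 0
  have hA : UpReg A := by
    refine ⟨fun i j h => ?_, fun i => by simp [A], fun i j h => ?_⟩
    · simp [A, ne_of_gt h, show ¬ j.val = i.val + 1 by omega]
    · simp [A, show i ≠ j by intro e; subst e; omega, h, hs0 i]
  have hAdet : A.det = 1 := by
    rw [Matrix.det_of_upperTriangular (fun i j h => hA.1 i j h)]
    exact Finset.prod_eq_one fun i _ => hA.2.1 i
  have hAu : IsUnit A.det := hAdet ▸ isUnit_one
  set B := A⁻¹ * (1 + T) with hB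
  have hAB : 1 + T = A * B := by
    rw [hB, ← Matrix.mul_assoc, Matrix.mul_nonsing_inv _ hAu, Matrix.one_mul]
  refine ⟨A, B, hA, ?_, hAB⟩
  have hTu : ∀ i j : Fin n, j < i → (1 + T) i j = 0 := fun i j h => by
    rw [Matrix.add_apply, Matrix.one_apply_ne (ne_of_gt h), hT i j h.le, add_zero]
  have hTd : ∀ i : Fin n, (1 + T) i i = 1 := fun i => by
    rw [Matrix.add_apply, Matrix.one_apply_eq, hT i i le_rfl, add_zero]
  have : Invertible A := Matrix.invertibleOfIsUnitDet A hAu
  have hBu : ∀ i j : Fin n, j < i → B i j = 0 := by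
    have h1 : Matrix.BlockTriangular A⁻¹ id :=
      Matrix.blockTriangular_inv_of_blockTriangular (fun i j h => hA.1 i j h)
    exact fun i j h => (h1.mul (fun i j h => hTu i j h)) h
  -- entries of the product
  have hd : ∀ i : Fin n, B i i = 1 := by
    intro i
    have := congrFun (congrFun hAB i) i
    rw [hTd, Matrix.mul_apply, Finset.sum_eq_single i] at this
    · rw [hA.2.1, one_mul] at this; exact this.symm
    · intro l _ hl
      rcases lt_or_gt_of_ne hl with h | h
      · rw [hA.1 i l h, zero_mul]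
      · rw [hBu l i h, mul_zero]
    · simp
  refine ⟨hBu, hd, fun i j h => ?_⟩
  have e := congrFun (congrFun hAB i) j
  have hij : i ≠ j := by intro e; subst e; omega
  rw [Matrix.mul_apply, Finset.sum_eq_add_of_mem i j (Finset.mem_univ _) (Finset.mem_univ _) hij]
    at e
  · intro h0
    rw [hA.2.1, one_mul, hd, mul_one, h0, zero_add, Matrix.add_apply, Matrix.one_apply_ne hij,
      zero_add] at e
    apply hs1 i
    rw [dif_pos (by omega)]
    have hj : (⟨i.val + 1, by omega⟩ : Fin n) = j := Fin.ext h.symm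
    rw [hj]
    simp [A, hij, h] at e
    exact e.symm
  · intro l _ hl
    rcases lt_trichotomy l.val i.val with h' | h' | h'
    · rw [hA.1 i l h', zero_mul]
    · exact absurd (Fin.ext h') hl.1
    · rw [hBu l j (by
        have : l.val ≠ j.val := fun e => hl.2 (Fin.ext e)
        show j.val < l.val
        omega), mul_zero]

/-- A non-scalar matrix of determinant one is a product of two conjugates of the Jordan block. -/
theorem exists_product_two_jordan (hK : 4 ≤ Cardinal.mk K) {n : ℕ} (hn : 2 ≤ n)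
    (J g : Matrix (Fin n) (Fin n) K)
    (hJ : ∀ i j : Fin n, J i j = if i = j then 1 else if j.val = i.val + 1 then 1 else 0)
    (hg : ¬ ∃ l : K, g = l • 1) (hdet : g.det = 1) :
    ∃ A B : Matrix (Fin n) (Fin n) K, IsUnit A.det ∧ IsUnit B.det ∧
      g = (A * J * A⁻¹) * (B * J * B⁻¹) := by
  obtain ⟨k, rfl⟩ : ∃ k, n = k + 1 := ⟨n - 1, by omega⟩
  obtain ⟨P, X, Y, hP, hgP, hX, hY⟩ : ∃ P X Y : Matrix (Fin (k + 1)) (Fin (k + 1)) K,
      IsUnit P.det ∧ g * P = P * (X * Y) ∧
      ((X - 1) ^ (k + 1) = 0 ∧ (X - 1) ^ (k + 1 - 1) ≠ 0) ∧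
      ((Y - 1) ^ (k + 1) = 0 ∧ (Y - 1) ^ (k + 1 - 1) ≠ 0) := by
    by_cases hu : IsNilpotent (g - 1)
    · obtain ⟨P, T, hP, hT, hTz⟩ := exists_strict_upper (k + 1) (g - 1) hu
      obtain ⟨A, B, hA, hB, hAB⟩ := upper_factor hK T hTz
      refine ⟨P, A, B, hP, ?_, upReg_regular (by omega) hA, upReg_regular (by omega) hB⟩
      rw [← hAB, Matrix.mul_add, ← hT, Matrix.sub_mul, Matrix.one_mul, Matrix.mul_one]
      abel
    · obtain ⟨P, L, U, hP, h, hL, hU, -, -⟩ := tri_factor hK k g hdet (fun _ => ⟨hg, hu⟩)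
        (Pi.single 0 1) (Pi.single 0 1) (by simp) (by simp)
      exact ⟨P, L, U, hP, h, lowReg_regular (by omega) hL, upReg_regular (by omega) hU⟩
  obtain ⟨A, hA, hXA⟩ := exists_conj_shift X J hJ hX.1 hX.2
  obtain ⟨B, hB, hYB⟩ := exists_conj_shift Y J hJ hY.1 hY.2
  refine ⟨P * A, P * B, by rw [Matrix.det_mul]; exact hP.mul hA,
    by rw [Matrix.det_mul]; exact hP.mul hB, ?_⟩
  have hX' : X = A * J * A⁻¹ := by
    rw [← hXA, Matrix.mul_assoc, Matrix.mul_nonsing_inv _ hA, Matrix.mul_one]
  have hY' : Y = B * J * B⁻¹ := by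
    rw [← hYB, Matrix.mul_assoc, Matrix.mul_nonsing_inv _ hB, Matrix.mul_one]
  have e : g = P * X * Y * P⁻¹ := by
    rw [Matrix.mul_assoc P X Y, ← hgP, Matrix.mul_assoc, Matrix.mul_nonsing_inv _ hP,
      Matrix.mul_one]
  rw [Matrix.mul_inv_rev, Matrix.mul_inv_rev, e, hX', hY']
  simp only [Matrix.mul_assoc]
  rw [← Matrix.mul_assoc P⁻¹ P, Matrix.nonsing_inv_mul _ hP, Matrix.one_mul]

end Cfsg.Agent.H85
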