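import Mathlib
import Cfsg.Agent.H24.MaxClass
import Cfsg.Agent.H24.CentralizerIndex
import Cfsg.Agent.H21.UniqueSubgroup
import Cfsg.Agent.H85.AbelianConjugate

/-!
# p-groups with self-centralising non-cyclic subgroups
-/

set_option autoImplicit false
set_option linter.style.haveILetI false
set_option linter.unusedSectionVars false

namespace Cfsg.Agent.H85

/-- Every non-cyclic subgroup contains its centraliser. -/
def SelfCentNoncyclic (G : Type*) [Group G] : Prop :=
  ∀ H : Subgroup G, ¬ IsCyclic ↥H → Subgroup.centralizer (H : Set G) ≤ H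

universe u
variable {G : Type u} [Group G] [Finite G] {p : ℕ} [hp : Fact p.Prime]

theorem card_three_le (hG : IsPGroup p G) (hna : ¬ IsMulCommutative G) :
    ∃ k, Nat.card G = p ^ k ∧ 3 ≤ k := by
  obtain ⟨k, hk⟩ := IsPGroup.iff_card.1 hG
  refine ⟨k, hk, ?_⟩
  by_contra hlt
  apply hna
  rcases (by omega : k ≤ 1 ∨ k = 2) with h | h
  · haveI := Cfsg.Agent.H24.isCyclic_of_card_pow_le hk h
    exact IsCyclic.isMulCommutative
  · exact ⟨⟨IsPGroup.commutative_of_card_eq_prime_sq (h ▸ hk)⟩⟩

theorem card_sq_le_of_not_isCyclic (hG : IsPGroup p G) {H : Subgroup G} (hH : ¬ IsCyclic H) :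
    p ^ 2 ≤ Nat.card H := by
  obtain ⟨k, hk⟩ := IsPGroup.iff_card.1 (hG.to_subgroup H)
  rw [hk]
  refine Nat.pow_le_pow_right hp.out.pos ?_
  by_contra hlt
  exact hH (Cfsg.Agent.H24.isCyclic_of_card_pow_le hk (by omega))

theorem selfCentNoncyclic_of_card_cube (hna : ¬ IsMulCommutative G) (hG : Nat.card G = p ^ 3) :
    SelfCentNoncyclic G := by
  intro H hH g hg
  have hP : IsPGroup p G := IsPGroup.of_card hG
  by_contra hgH
  have h2 := card_sq_le_of_not_isCyclic hP hH
  have hlt : H < ⊤ := lt_top_iff_ne_top.2 fun h => hgH (h ▸ Subgroup.mem_top g)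
  obtain ⟨k, hk⟩ := IsPGroup.iff_card.1 (hP.to_subgroup H)
  have hk2 : k = 2 := by
    have h3 : p ^ k < p ^ 3 := by
      rw [← hk, ← hG, ← Subgroup.card_top (G := G)]
      exact Set.Finite.card_lt_card (Set.toFinite _) (SetLike.coe_ssubset_coe.2 hlt)
    rw [hk] at h2
    have := (Nat.pow_le_pow_iff_right hp.out.one_lt).1 h2
    have := (Nat.pow_lt_pow_iff_right hp.out.one_lt).1 h3
    omega
  subst hk2
  have hHc : ∀ a ∈ H, ∀ b ∈ H, a * b = b * a := fun a ha b hb =>
    congrArg Subtype.val (IsPGroup.commutative_of_card_eq_prime_sq hk ⟨a, ha⟩ ⟨b, hb⟩)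
  have hHC : H < Subgroup.centralizer (H : Set G) := lt_of_le_of_ne
    (fun a ha => Subgroup.mem_centralizer_iff.2 fun b hb => hHc b hb a ha) fun h => hgH (h.symm ▸ hg)
  have htop : Subgroup.centralizer (H : Set G) = ⊤ := by
    rw [← Subgroup.card_eq_iff_eq_top]
    obtain ⟨l, hl, hlc⟩ := (Nat.dvd_prime_pow hp.out).1 (hG ▸ Subgroup.card_subgroup_dvd_card
      (Subgroup.centralizer (H : Set G)))
    have h4 : p ^ 2 < p ^ l := by
      rw [← hk, ← hlc]
      exact Set.Finite.card_lt_card (Set.toFinite _) (SetLike.coe_ssubset_coe.2 hHC)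
    have := (Nat.pow_lt_pow_iff_right hp.out.one_lt).1 h4
    rw [hlc, hG, show l = 3 by omega]
  have hZ : H ≤ Subgroup.center G := fun a ha => Subgroup.mem_center_iff.2 fun b =>
    ((Subgroup.mem_centralizer_iff.1 (htop ▸ Subgroup.mem_top b)) a ha).symm
  haveI : H.Normal := ⟨fun a ha b => by
    rw [Subgroup.mem_center_iff.1 (hZ ha) b, mul_inv_cancel_right]; exact ha⟩
  haveI : IsCyclic (G ⧸ H) := by
    refine isCyclic_of_prime_card (p := p) ?_
    have h5 := Subgroup.card_mul_index H
    rw [hk, hG, pow_succ p 2] at h5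
    exact Nat.eq_of_mul_eq_mul_left (pow_pos hp.out.pos 2) h5
  exact hna (Cfsg.Agent.H24.isMulCommutative_of_cyclic_quotient hZ)

theorem card_cube_of_selfCentNoncyclic (hp2 : p ≠ 2) (hG : IsPGroup p G) (hna : ¬ IsMulCommutative G)
    (h : SelfCentNoncyclic G) : Nat.card G = p ^ 3 := by
  obtain ⟨k, hk, hk3⟩ := card_three_le hG hna
  obtain ⟨E, hEn, hEc, hEp, hE⟩ := Cfsg.Agent.H24.exists_normal_elementary_two G p hp2 hG
    fun hc => hna IsCyclic.isMulCommutative
  have hncyc : ¬ IsCyclic E := by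
    intro hc
    obtain ⟨⟨g, hgE⟩, hg⟩ := hc.exists_ofOrder_eq_natCard
    rw [Subgroup.orderOf_mk, hE] at hg
    have h1 := Nat.le_of_dvd hp.out.pos (orderOf_dvd_of_pow_eq_one (hEp g hgE))
    rw [hg] at h1
    nlinarith [hp.out.one_lt]
  have hidx := Cfsg.Agent.H24.index_centralizer_le hG hE
  rw [show Nat.choose 2 2 = 1 from rfl, pow_one] at hidx
  have h2 : Nat.card (Subgroup.centralizer (E : Set G)) ≤ p ^ 2 := hE ▸ Subgroup.card_le_of_le (h E hncyc)
  have h3 : Nat.card G ≤ p ^ 3 := by
    rw [← Subgroup.card_mul_index (Subgroup.centralizer (E : Set G)), pow_succ]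
    exact Nat.mul_le_mul h2 hidx
  rw [hk] at h3 ⊢
  have := (Nat.pow_le_pow_iff_right hp.out.one_lt).1 h3
  rw [show k = 3 by omega]

theorem class_eq_of_selfCentNoncyclic {n : ℕ} (hG : Nat.card G = 2 ^ n)
    (hna : ¬ IsMulCommutative G) (h : SelfCentNoncyclic G) : Group.nilpotencyClass G = n - 1 := by
  have hP : IsPGroup 2 G := IsPGroup.of_card hG
  rcases AbConj.unique_or_exists_elementary (p := 2) hP with huniq | ⟨E, hE, hcard⟩
  · rcases Cfsg.Agent.H21.cyclic_or_quaternion 2 hP huniq with hc | ⟨-, l, ⟨e⟩⟩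
    · exact absurd IsCyclic.isMulCommutative hna
    rcases l with _ | l
    · haveI : IsCyclic (QuaternionGroup (2 ^ 0)) := by
        rw [pow_zero]; exact QuaternionGroup.quaternionGroup_one_isCyclic
      haveI := isCyclic_of_surjective e.symm.toMonoidHom e.symm.surjective
      exact absurd IsCyclic.isMulCommutative hna
    obtain ⟨m, hm0, ⟨e⟩⟩ : ∃ m, NeZero m ∧ Nonempty (G ≃* QuaternionGroup m) :=
      ⟨2 ^ (l + 1), inferInstance, ⟨e⟩⟩
    set x := e.symm (QuaternionGroup.xa 0) with hx
    refine Cfsg.Agent.H24.class_eq_of_self_centralizing G 2 n hG (Subgroup.zpowers x) (by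
      rw [Nat.card_zpowers, hx, MulEquiv.orderOf_eq, QuaternionGroup.orderOf_xa]; rfl) ?_
    refine le_antisymm (fun g hg => ?_) fun g hg => Subgroup.mem_centralizer_iff.2 fun b hb => by
      obtain ⟨i, rfl⟩ := hg
      obtain ⟨j, rfl⟩ := hb
      exact (Commute.refl x).zpow_zpow j i
    have h1 := congrArg e (Subgroup.mem_centralizer_iff.1 hg x (Subgroup.mem_zpowers x))
    rw [map_mul, map_mul, hx, e.apply_symm_apply] at h1
    have key : ∀ j : ZMod (2 * m), j + j = 0 → j = 0 ∨ j = (m : ZMod (2 * m)) := by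
      intro j hj
      have h2 : 2 * m ∣ 2 * j.val := by
        rw [← ZMod.natCast_eq_zero_iff, Nat.cast_mul, ZMod.natCast_zmod_val, Nat.cast_two, two_mul j, hj]
      obtain ⟨t, ht⟩ := Nat.dvd_of_mul_dvd_mul_left two_pos h2
      have := j.val_lt
      rw [ht] at this
      rcases t with _ | _ | t
      · left; rw [← ZMod.natCast_zmod_val j, ht, mul_zero, Nat.cast_zero]
      · right; rw [← ZMod.natCast_zmod_val j, ht, zero_add, mul_one]
      · exfalso; nlinarith
    have hmem : ∀ i : ℕ, e.symm (QuaternionGroup.xa 0 ^ i) ∈ Subgroup.zpowers x := fun i => by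
      rw [map_pow, ← hx]; exact pow_mem (Subgroup.mem_zpowers x) i
    rw [← e.symm_apply_apply g]
    generalize e g = w at h1
    rcases w with j | j
    · simp at h1
      rcases key j (by linear_combination h1) with rfl | rfl
      · exact hmem 0
      · rw [← QuaternionGroup.xa_sq (0 : ZMod (2 * m))]; exact hmem 2
    · simp at h1
      rcases key j (by linear_combination h1) with rfl | rfl
      · rw [← pow_one (QuaternionGroup.xa (0 : ZMod (2 * m)))]; exact hmem 1
      · have h3 : QuaternionGroup.xa (0 : ZMod (2 * m)) ^ 3 = QuaternionGroup.xa (m : ZMod (2 * m)) := by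
          rw [pow_succ', QuaternionGroup.xa_sq, QuaternionGroup.xa_mul_a, zero_add]
        rw [← h3]; exact hmem 3
  · obtain ⟨B, hB⟩ := Sylow.exists_subgroup_card_pow_prime (G := E) 2 hcard
    set A := B.map E.subtype with hA
    have hAc : Nat.card A = 2 ^ 2 := by
      rw [← hB]; exact (Nat.card_congr (B.equivMapOfInjective _ E.subtype_injective).toEquiv).symm
    refine Cfsg.Agent.H24.class_eq_of_self_centralizing G 2 n hG A hAc (le_antisymm (h A fun hc => ?_)
      fun a ha => Subgroup.mem_centralizer_iff.2 fun b hb => ?_)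
    · obtain ⟨⟨g, hgA⟩, hg⟩ := hc.exists_ofOrder_eq_natCard
      rw [Subgroup.orderOf_mk, hAc] at hg
      have h1 := orderOf_dvd_of_pow_eq_one (hE.2 g (Subgroup.map_subtype_le B hgA))
      rw [hg] at h1
      norm_num at h1
    · exact congrArg Subtype.val (hE.1.is_comm.comm ⟨b, Subgroup.map_subtype_le B hb⟩
        ⟨a, Subgroup.map_subtype_le B ha⟩)

theorem selfCentNoncyclic_of_class_eq {n : ℕ} (hG : Nat.card G = 2 ^ n)
    (hna : ¬ IsMulCommutative G) (hc : Group.nilpotencyClass G = n - 1) : SelfCentNoncyclic G := by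
  have hP : IsPGroup 2 G := IsPGroup.of_card hG
  have hn3 : 3 ≤ n := by
    obtain ⟨k, hk, hk3⟩ := card_three_le (p := 2) hP hna
    rw [hG] at hk
    rwa [Nat.pow_right_injective (le_refl 2) hk]
  obtain ⟨hidx, hZ⟩ := Cfsg.Agent.H24.index_commutator_of_max_class G 2 n hG (by omega) hc
  obtain ⟨⟨C, hCc, hC2⟩, -, -⟩ := Cfsg.Agent.H24.two_group_commutator_index_four G n hG (by omega) hidx
  have hZc := hZ hn3
  have hCn : C.Normal := Subgroup.normal_of_index_eq_two hC2
  have hcomm : ∀ a ∈ C, ∀ b ∈ C, a * b = b * a := fun a ha b hb =>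
    congrArg Subtype.val ((IsCyclic.isMulCommutative (α := C)).is_comm.comm ⟨a, ha⟩ ⟨b, hb⟩)
  intro H hH g hg
  obtain ⟨x, hxH, hxC⟩ : ∃ x ∈ H, x ∉ C := by
    by_contra hall
    push Not at hall
    exact hH (Subgroup.isCyclic_of_le hall)
  -- the central elements of `C` lie in `H`
  have hCH : ∀ c ∈ C, Commute c x → c ∈ H := by
    intro c hc hcx
    by_cases hc1 : c = 1
    · rw [hc1]; exact one_mem H
    have hcZ : c ∈ Subgroup.center G := by
      rw [Subgroup.mem_center_iff]
      intro y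
      by_cases hy : y ∈ C
      · exact hcomm y hy c hc
      · have hyx : y * x⁻¹ ∈ C := by
          rw [Subgroup.mul_mem_iff_of_index_two hC2, inv_mem_iff]
          exact ⟨fun h => absurd h hy, fun h => absurd h hxC⟩
        have h2 : Commute (y * x⁻¹ * x) c :=
          Commute.mul_left (hcomm _ hyx c hc) hcx.symm
        rwa [inv_mul_cancel_right] at h2
    obtain ⟨z, hz1, hzC⟩ : ∃ z ∈ H, z ≠ 1 ∧ z ∈ C := by
      by_contra hall
      push Not at hall
      refine hH (Subgroup.isCyclic_of_le (H' := Subgroup.zpowers x) fun y hy => ?_)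
      by_cases hyC : y ∈ C
      · by_cases hy1 : y = 1
        · rw [hy1]; exact one_mem _
        · exact absurd hyC (hall y hy hy1)
      · have h2 : y * x ∈ C := by
          rw [Subgroup.mul_mem_iff_of_index_two hC2]
          exact ⟨fun h => absurd h hyC, fun h => absurd h hxC⟩
        have h3 : y * x = 1 := by
          by_contra h4
          exact hall _ (mul_mem hy hxH) h4 h2
        rw [eq_inv_of_mul_eq_one_left h3]
        exact inv_mem (Subgroup.mem_zpowers x)
    obtain ⟨d, hd⟩ := exists_prime_orderOf_dvd_card' (G := Subgroup.zpowers z) 2 (by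
      obtain ⟨j, hj⟩ := IsPGroup.iff_card.1 (hP.to_subgroup (Subgroup.zpowers z))
      rcases j with _ | j
      · rw [pow_zero, Nat.card_zpowers, orderOf_eq_one_iff] at hj
        exact absurd hj hzC.1
      · rw [hj]; exact dvd_pow_self 2 j.succ_ne_zero)
    have hdC : (d : G) ∈ C := Subgroup.zpowers_le.2 hzC.2 d.2
    have hcsq : c ^ 2 = 1 := by
      have h1 := congrArg Subtype.val (pow_card_eq_one' (x := (⟨c, hcZ⟩ : Subgroup.center G)))
      rwa [hZc] at h1
    have hdz : c ∈ Subgroup.zpowers (d : G) := by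
      obtain ⟨γ, hγ⟩ := IsCyclic.exists_generator (α := C)
      have huniq : ∀ a b : C, a ^ 2 = 1 → a ≠ 1 → b ^ 2 = 1 → b ≠ 1 → a = b := by
        intro a b ha ha1 hb hb1
        classical
        by_contra hab
        haveI := Fintype.ofFinite C
        have h1 := IsCyclic.card_pow_eq_one_le (α := C) (n := 2) two_pos
        have h2 : ({1, a, b} : Finset C) ⊆ Finset.univ.filter (fun y : C => y ^ 2 = 1) := by
          intro y hy
          simp only [Finset.mem_insert, Finset.mem_singleton] at hy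
          rcases hy with rfl | rfl | rfl <;> simp [ha, hb]
        have h3 := (Finset.card_le_card h2).trans h1
        rw [Finset.card_insert_of_notMem (by simp [Ne.symm ha1, Ne.symm hb1]),
          Finset.card_pair hab] at h3
        omega
      have hd1 : (d : G) ^ 2 = 1 ∧ (d : G) ≠ 1 := by
        rw [← Subgroup.orderOf_coe] at hd
        exact ⟨by rw [← hd, pow_orderOf_eq_one], fun h => by rw [h, orderOf_one] at hd; omega⟩
      have := huniq ⟨c, hc⟩ ⟨d, hdC⟩ (Subtype.ext hcsq) (fun h => hc1 (congrArg Subtype.val h))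
        (Subtype.ext hd1.1) (fun h => hd1.2 (congrArg Subtype.val h))
      rw [show c = (d : G) from congrArg Subtype.val this]
      exact Subgroup.mem_zpowers _
    exact Subgroup.zpowers_le.2 (Subgroup.zpowers_le.2 hz1 d.2) hdz
  have hgx : Commute g x := (Subgroup.mem_centralizer_iff.1 hg x hxH).symm
  by_cases hgC : g ∈ C
  · exact hCH g hgC hgx
  · have h2 : g * x⁻¹ ∈ C := by
      rw [Subgroup.mul_mem_iff_of_index_two hC2, inv_mem_iff]
      exact ⟨fun h => absurd h hgC, fun h => absurd h hxC⟩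
    have h3 := mul_mem (hCH _ h2 (hgx.mul_left (Commute.refl x).inv_left)) hxH
    rwa [inv_mul_cancel_right] at h3

end Cfsg.Agent.H85
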