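import Cfsg.Agent.H85.InvertedThompson

set_option autoImplicit false

/-! Normal Sylow two-subgroups and inverted elements. -/

namespace Cfsg.Agent.H85

open Subgroup
open scoped Pointwise

variable {G : Type*} [Group G] [Finite G]

/-- Normal Sylow two-subgroups pass to subgroups. -/
theorem sylow_two_normal_subgroup (h : ∀ P : Sylow 2 G, (P : Subgroup G).Normal) (N : Subgroup G)
    (P : Sylow 2 N) : (P : Subgroup N).Normal := by
  obtain ⟨S, hS⟩ := (P.isPGroup'.map N.subtype).exists_le_sylow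
  have := h S
  have h1 : ((S : Subgroup G).subgroupOf N) = (P : Subgroup N) :=
    P.is_maximal' (S.isPGroup'.comap_of_injective N.subtype N.subtype_injective)
      fun x hx => hS ⟨x, hx, rfl⟩
  rw [← h1]
  exact this.subgroupOf N

/-- With a normal Sylow two-subgroup, a two-element inverts no nontrivial element of odd prime power
order. -/
theorem not_inverted_of_two_closed (h : ∀ P : Sylow 2 G, (P : Subgroup G).Normal) {q : ℕ}
    [Fact q.Prime] (hq : q ≠ 2) {g x : G} (hx : ∃ k, x ^ q ^ k = 1) (hx1 : x ≠ 1)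
    (hgx : g * x * g⁻¹ = x⁻¹) : False := by
  obtain ⟨j, hj, k, hk⟩ := exists_odd_two_part g
  have hinv : ∀ i, g ^ (2 * i + 1) * x * (g ^ (2 * i + 1))⁻¹ = x⁻¹ := by
    intro i
    induction i with
    | zero => simpa using hgx
    | succ i ih =>
      have e : 2 * (i + 1) + 1 = 2 + (2 * i + 1) := by ring
      have h2 : g * (g * x⁻¹ * g⁻¹) * g⁻¹ = x⁻¹ := by
        rw [← conj_inv, hgx, inv_inv, hgx]
      rw [e, pow_add, mul_inv_rev]
      calc g ^ 2 * g ^ (2 * i + 1) * x * ((g ^ (2 * i + 1))⁻¹ * (g ^ 2)⁻¹)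
          = g ^ 2 * (g ^ (2 * i + 1) * x * (g ^ (2 * i + 1))⁻¹) * (g ^ 2)⁻¹ := by group
        _ = g ^ 2 * x⁻¹ * (g ^ 2)⁻¹ := by rw [ih]
        _ = g * (g * x⁻¹ * g⁻¹) * g⁻¹ := by rw [sq]; group
        _ = x⁻¹ := h2
  obtain ⟨i, hi⟩ := hj
  set t := g ^ j with ht
  have htx : t * x * t⁻¹ = x⁻¹ := by rw [ht, hi]; exact hinv i
  obtain ⟨S, hS⟩ := (IsPGroup.of_card (p := 2) (n := k)
    (show Nat.card (zpowers t) = 2 ^ k by rw [Nat.card_zpowers, hk])).exists_le_sylow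
  have hn := h S
  have htS : t ∈ (S : Subgroup G) := hS (mem_zpowers t)
  have h2 : x * x ∈ (S : Subgroup G) := by
    have h3 : x * t * x⁻¹ * t⁻¹ ∈ (S : Subgroup G) := mul_mem (hn.conj_mem t htS x) (inv_mem htS)
    have e : x * t * x⁻¹ * t⁻¹ = x * x := by
      calc x * t * x⁻¹ * t⁻¹ = x * (t * x * t⁻¹)⁻¹ := by group
        _ = x * x := by rw [htx, inv_inv]
    rwa [e] at h3
  obtain ⟨n, hn2⟩ := S.isPGroup' ⟨x * x, h2⟩
  obtain ⟨l, hl⟩ := hx
  have h4 : x * x = 1 := by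
    refine eq_one_of_two_power hq ?_ ⟨l, ?_⟩
    · obtain ⟨m, -, hm⟩ := (Nat.dvd_prime_pow Nat.prime_two).1
        (orderOf_dvd_of_pow_eq_one (congrArg Subtype.val hn2 : (x * x) ^ 2 ^ n = 1))
      exact ⟨m, hm⟩
    · rw [(Commute.refl x).mul_pow, hl, one_mul]
  refine hx1 (eq_one_of_two_power hq ?_ ⟨l, hl⟩)
  obtain ⟨m, -, hm⟩ := (Nat.dvd_prime_pow Nat.prime_two).1
    (show orderOf x ∣ 2 ^ 1 from orderOf_dvd_of_pow_eq_one (by rw [pow_one, sq, h4]))
  exact ⟨m, hm⟩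

/-- Without a normal Sylow two-subgroup, a dihedral group of twice odd prime order is involved. -/
theorem exists_involves_of_not_two_closed (h : ¬ ∀ P : Sylow 2 G, (P : Subgroup G).Normal) :
    ∃ q : ℕ, ∃ _ : Fact q.Prime, q ≠ 2 ∧ Cfsg.Involves (DihedralGroup q) G := by
  set O := Cfsg.pCore 2 G with hO
  have hOn : O.Normal := H19.pCore_normal 2 G
  have heven : 2 ∣ Nat.card (G ⧸ O) := by
    by_contra hodd
    apply h
    intro P
    have hPO : (P : Subgroup G) = O := by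
      refine le_antisymm (fun x hx => ?_) (H19.pCore_le_sylow P)
      obtain ⟨n, hn⟩ := P.isPGroup' ⟨x, hx⟩
      refine (QuotientGroup.eq_one_iff x).1 (orderOf_eq_one_iff.1 ?_)
      refine Nat.eq_one_of_dvd_coprimes ((Nat.prime_two.coprime_iff_not_dvd.2 hodd).pow_left n) ?_
        (orderOf_dvd_natCard _)
      refine orderOf_dvd_of_pow_eq_one ?_
      rw [← QuotientGroup.mk_pow, show x ^ 2 ^ n = 1 from congrArg Subtype.val hn]
      rfl
    rw [hPO]
    exact hOn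
  obtain ⟨t, ht⟩ := exists_prime_orderOf_dvd_card' 2 heven
  have ht2 : t * t = 1 := by rw [← sq, ← ht, pow_orderOf_eq_one]
  obtain ⟨g, hg⟩ : ∃ g, ¬ IsPGroup 2 ↥(closure ({t, g * t * g⁻¹} : Set (G ⧸ O))) := by
    by_contra hall
    push Not at hall
    obtain ⟨N, hN, hNp, htN⟩ := H28.baer_suzuki_element t hall
    have h1 := H19.le_pCore hN hNp htN
    rw [H19.pCore_quotient_pCore 2, mem_bot] at h1
    rw [h1, orderOf_one] at ht
    omega
  set s := g * t * g⁻¹ with hs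
  have hs2 : s * s = 1 := by rw [hs, show g * t * g⁻¹ * (g * t * g⁻¹) = g * (t * t) * g⁻¹ by group, ht2]; group
  have htinv : t⁻¹ = t := inv_eq_of_mul_eq_one_right ht2
  have hsinv : s⁻¹ = s := inv_eq_of_mul_eq_one_right hs2
  set w := t * s with hw
  have htw : t * w * t⁻¹ = w⁻¹ := by
    rw [hw, mul_inv_rev, htinv, hsinv, ← mul_assoc t t s, ht2, one_mul]
  have hexq : ∃ q, q.Prime ∧ q ∣ orderOf w ∧ q ≠ 2 := by
    by_contra hno
    push Not at hno
    obtain ⟨k, hk⟩ : ∃ k, orderOf w = 2 ^ k :=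
      ⟨_, Nat.eq_prime_pow_of_unique_prime_dvd (orderOf_pos w).ne' fun {d} hd hdvd => hno d hd hdvd⟩
    apply hg
    have hz : IsPGroup 2 ↥(zpowers w) := IsPGroup.of_card (n := k) (by rw [Nat.card_zpowers, hk])
    have htz : IsPGroup 2 ↥(zpowers t) := IsPGroup.of_card (n := 1) (by rw [Nat.card_zpowers, ht, pow_one])
    have htn : zpowers t ≤ normalizer (zpowers w : Set (G ⧸ O)) := by
      rw [zpowers_le, mem_normalizer_iff_map_conj_eq, MonoidHom.map_zpowers]
      show zpowers (t * w * t⁻¹) = _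
      rw [htw, zpowers_inv]
    refine (hz.to_sup_of_normal_left' htz htn).to_le ((closure_le _).2 ?_)
    rintro y (rfl | rfl)
    · exact (le_sup_right : _ ≤ zpowers w ⊔ zpowers y) (mem_zpowers y)
    · have e : s = t⁻¹ * w := by rw [hw, inv_mul_cancel_left]
      rw [SetLike.mem_coe, e]
      exact mul_mem (inv_mem ((le_sup_right : _ ≤ zpowers w ⊔ zpowers t) (mem_zpowers t)))
        ((le_sup_left : _ ≤ zpowers w ⊔ zpowers t) (mem_zpowers w))
  obtain ⟨q, hq, hqw, hq2⟩ := hexq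
  haveI : Fact q.Prime := ⟨hq⟩
  refine ⟨q, ⟨hq⟩, hq2, H83.involves_of_quotient (N := O) ?_⟩
  refine Agent.S2758.involves_of_inverted hq2 (x := t) (y := w ^ (orderOf w / q)) ⟨1, by rw [ht, pow_one]⟩ ?_ ?_
  · exact orderOf_pow_orderOf_div (orderOf_pos w).ne' hqw
  · rw [← conj_pow, htw, inv_pow]

end Cfsg.Agent.H85
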