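import Mathlib
import Cfsg.Agent.H19.Cores
import Cfsg.Agent.H19.Fitting
import Cfsg.Agent.H55.FittingHall
import Cfsg.Agent.H85.CommutatorValues

/-!
# The order condition on values forces a nilpotent term of the lower central series: solvable groups
-/

set_option autoImplicit false
set_option linter.style.haveILetI false
set_option linter.unusedSectionVars false

namespace Cfsg.Agent.H85

variable {G : Type*} [Group G] [Finite G]

/-- An element lies in a subgroup containing all its primary parts. -/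
theorem mem_of_primary {g : G} {K : Subgroup G}
    (h : ∀ q : ℕ, q.Prime → g ^ (orderOf g / q ^ (orderOf g).factorization q) ∈ K) : g ∈ K := by
  set o := orderOf g with ho
  have hone : ∀ d, d ∣ o → (∀ q : ℕ, q.Prime → q ^ o.factorization q ∣ d) → d = o := by
    intro d hd hq
    have hd0 : d ≠ 0 := ne_zero_of_dvd_ne_zero (orderOf_pos g).ne' hd
    refine Nat.eq_of_factorization_eq hd0 (orderOf_pos g).ne' fun q => le_antisymm
      ((Nat.factorization_le_iff_dvd hd0 (orderOf_pos g).ne').2 hd q) ?_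
    by_cases hqp : q.Prime
    · exact (hqp.pow_dvd_iff_le_factorization hd0).1 (hq q hqp)
    · rw [Nat.factorization_eq_zero_of_not_prime o hqp]; exact Nat.zero_le _
  have hcard : Nat.card (Subgroup.zpowers g ⊓ K : Subgroup G) = o := by
    refine hone _ ?_ fun q hq => ?_
    · rw [ho, ← Nat.card_zpowers]; exact Subgroup.card_dvd_of_le inf_le_left
    · set u := g ^ (o / q ^ o.factorization q) with hu
      have h1 : orderOf u = q ^ o.factorization q := by
        have hd : o / q ^ o.factorization q ∣ o := Nat.div_dvd_of_dvd (Nat.ordProj_dvd _ _)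
        have hne : o / q ^ o.factorization q ≠ 0 := ne_zero_of_dvd_ne_zero (orderOf_pos g).ne' hd
        rw [hu, orderOf_pow_of_dvd hne hd, ← ho, Nat.div_div_self (Nat.ordProj_dvd _ _) (orderOf_pos g).ne']
      have hu' : u ∈ Subgroup.zpowers g ⊓ K := Subgroup.mem_inf.2 ⟨pow_mem (Subgroup.mem_zpowers g) _, h q hq⟩
      rw [← h1, ← Subgroup.orderOf_mk u hu']
      exact orderOf_dvd_natCard _
  have h2 : Subgroup.zpowers g ⊓ K = Subgroup.zpowers g :=
    Subgroup.eq_of_le_of_card_ge inf_le_left (by rw [hcard, Nat.card_zpowers])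
  exact (h2.ge (Subgroup.mem_zpowers g)).2

/-- The primary elements of a normal nilpotent subgroup lie in the cores. -/
theorem mem_pCore_of_primary {F : Subgroup G} [F.Normal] (hF : Group.IsNilpotent F) {q : ℕ}
    [Fact q.Prime] {f : G} (hf : f ∈ F) {j : ℕ} (hfo : orderOf f ∣ q ^ j) : f ∈ Cfsg.pCore q G := by
  haveI := hF
  obtain ⟨S⟩ := (inferInstance : Nonempty (Sylow q F))
  haveI hSn : (S : Subgroup F).Normal :=
    (Group.isNilpotent_of_finite_tfae.out 0 3 rfl rfl).mp hF q ‹_› S
  haveI := Sylow.unique_of_normal S hSn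
  haveI : (S : Subgroup F).Characteristic := Sylow.characteristic_of_normal S hSn
  haveI : ((S : Subgroup F).map F.subtype).Normal := ConjAct.normal_of_characteristic_of_normal
  refine Cfsg.Agent.H19.le_pCore (N := (S : Subgroup F).map F.subtype) inferInstance (S.2.map _) ?_
  have hp : IsPGroup q (Subgroup.zpowers (⟨f, hf⟩ : F)) := by
    obtain ⟨i, -, hi⟩ := (Nat.dvd_prime_pow (Fact.out : q.Prime)).1 hfo
    exact IsPGroup.of_card (n := i) (by rw [Nat.card_zpowers, Subgroup.orderOf_mk, hi])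
  obtain ⟨T, hT⟩ := hp.exists_le_sylow
  rw [Subsingleton.elim T S] at hT
  exact ⟨⟨f, hf⟩, hT (Subgroup.mem_zpowers _), rfl⟩

/-- A normal subgroup which is an `r`-group modulo a nilpotent normal subgroup `F` and centralises
the parts of `F` of order prime to `r` lies in the Fitting subgroup. -/
theorem le_fitting_of_centralizes {F W : Subgroup G} [F.Normal] [W.Normal] (hF : Group.IsNilpotent F)
    {r : ℕ} (hr : r.Prime) (hWF : ∀ w ∈ W, ∃ j : ℕ, w ^ r ^ j ∈ F)
    (hc : ∀ q : ℕ, q.Prime → q ≠ r → ∀ f ∈ F, (∃ j, orderOf f ∣ q ^ j) → ∀ w ∈ W, Commute f w) :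
    W ≤ Cfsg.fittingSubgroup G := by
  haveI : Fact r.Prime := ⟨hr⟩
  have hq : IsPGroup r (W ⧸ Subgroup.center W) := by
    intro g
    obtain ⟨⟨w, hw⟩, rfl⟩ := QuotientGroup.mk_surjective g
    obtain ⟨j, hj⟩ := hWF w hw
    set i := (orderOf (w ^ r ^ j)).factorization r with hi
    refine ⟨j + i, ?_⟩
    rw [← QuotientGroup.mk_pow, QuotientGroup.eq_one_iff, Subgroup.mem_center_iff]
    intro m
    refine Subtype.ext ?_
    show (m : G) * w ^ r ^ (j + i) = w ^ r ^ (j + i) * m
    rw [pow_add, pow_mul]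
    set f := (w ^ r ^ j) ^ r ^ i with hf
    have hfF : f ∈ F := pow_mem hj _
    have hfo : ¬ r ∣ orderOf f := by
      rw [hf, orderOf_pow_of_dvd (pow_ne_zero _ hr.ne_zero) (Nat.ordProj_dvd _ _)]
      exact Nat.not_dvd_ordCompl hr (orderOf_pos _).ne'
    suffices hfm : f ∈ Subgroup.centralizer ({(m : G)} : Set G) from
      (Subgroup.mem_centralizer_singleton_iff.1 hfm).symm
    refine mem_of_primary fun q hq => Subgroup.mem_centralizer_singleton_iff.2 ?_
    by_cases hqr : q = r
    · subst hqr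
      rw [Nat.factorization_eq_zero_of_not_dvd hfo, pow_zero, Nat.div_one, pow_orderOf_eq_one,
        one_mul, mul_one]
    · exact (hc q hq hqr _ (pow_mem hfF _) ⟨(orderOf f).factorization q, orderOf_dvd_of_pow_eq_one (by
        rw [← pow_mul, Nat.div_mul_cancel (Nat.ordProj_dvd _ _), pow_orderOf_eq_one])⟩ m m.2).eq
  exact Cfsg.Agent.H19.le_fitting inferInstance (Group.of_quotient_center_nilpotent hq.isNilpotent)

/-- Values of prime power order in a subgroup which covers a normal `r`-section over `F(G)`. -/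
theorem ValueCondition.mem_fitting {k r : ℕ} [Fact r.Prime] (h : ValueCondition k G) {R : Subgroup G}
    (hR : IsPGroup r R) (hn : (R ⊔ Cfsg.fittingSubgroup G).Normal) {x : G} (hx : x ∈ R)
    (hxv : IsValue k x) : x ∈ Cfsg.fittingSubgroup G := by
  set F := Cfsg.fittingSubgroup G with hF
  haveI : F.Normal := Cfsg.Agent.H19.fitting_normal G
  set Cs : Subgroup G := ⨅ q : {q : ℕ // q.Prime ∧ q ≠ r}, Subgroup.centralizer (Cfsg.pCore q G : Set G)
    with hCs
  haveI : Cs.Normal := by
    refine Subgroup.normal_iInf_normal fun q => ?_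
    haveI := Cfsg.Agent.H19.pCore_normal (q : ℕ) G
    infer_instance
  haveI := hn
  have hmem : x ∈ (R ⊔ F) ⊓ Cs := by
    refine Subgroup.mem_inf.2 ⟨Subgroup.mem_sup_left hx, Subgroup.mem_iInf.2 fun q => ?_⟩
    haveI : Fact (q : ℕ).Prime := ⟨q.2.1⟩
    refine Subgroup.mem_centralizer_iff.2 fun u hu => ?_
    obtain ⟨i, hi⟩ := IsPGroup.iff_orderOf.1 hR ⟨x, hx⟩
    rw [Subgroup.orderOf_mk] at hi
    obtain ⟨j, hj⟩ := IsPGroup.iff_card.1 (Cfsg.Agent.H19.pCore_isPGroup (G := G) (q : ℕ))
    refine (h.commute hxv ?_ ?_ hu).eq.symm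
    · haveI := Cfsg.Agent.H19.pCore_normal (q : ℕ) G
      rw [Subgroup.normalizer_eq_top]; exact Subgroup.mem_top x
    · rw [hi, hj]
      exact Nat.Coprime.pow _ _ ((Nat.coprime_primes Fact.out q.2.1).2 (Ne.symm q.2.2))
  refine le_fitting_of_centralizes (F := F) Cfsg.Agent.H19.fitting_isNilpotent (Fact.out : r.Prime)
    (W := (R ⊔ F) ⊓ Cs) (fun w hw => ?_) (fun q hq hqr f hf hfo w hw => ?_) hmem
  · obtain ⟨ρ, hρ, f, hf, rfl⟩ : ∃ ρ ∈ R, ∃ f ∈ F, ρ * f = w := by
      have h1 : w ∈ ((R ⊔ F : Subgroup G) : Set G) := hw.1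
      rw [Subgroup.mul_normal] at h1
      exact h1
    obtain ⟨j, hj⟩ := IsPGroup.iff_orderOf.1 hR ⟨ρ, hρ⟩
    rw [Subgroup.orderOf_mk] at hj
    refine ⟨j, ?_⟩
    rw [← QuotientGroup.eq_one_iff, QuotientGroup.mk_pow, QuotientGroup.mk_mul,
      (QuotientGroup.eq_one_iff f).2 hf, mul_one, ← QuotientGroup.mk_pow, ← hj, pow_orderOf_eq_one]
    rfl
  · haveI : Fact q.Prime := ⟨hq⟩
    obtain ⟨j, hj⟩ := hfo
    exact Subgroup.mem_centralizer_iff.1 (Subgroup.mem_iInf.1 hw.2 ⟨q, hq, hqr⟩) f
      (mem_pCore_of_primary Cfsg.Agent.H19.fitting_isNilpotent hf hj)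

/-- If `R` is a Sylow subgroup and `t` normalises it, an element `[v, t, …, t]` is a value in `R`. -/
def iterComm (v t : G) : ℕ → G
  | 0 => v
  | n + 1 => iterComm v t n * t * (iterComm v t n)⁻¹ * t⁻¹

theorem iterComm_mem {R : Subgroup G} {v t : G} (hv : v ∈ R) (ht : t ∈ Subgroup.normalizer (R : Set G))
    (n : ℕ) : iterComm v t n ∈ R := by
  induction n with
  | zero => exact hv
  | succ n ih =>
    rw [iterComm, mul_assoc, mul_assoc, ← mul_assoc t]
    exact mul_mem ih ((Subgroup.mem_normalizer_iff.1 ht _).1 (inv_mem ih))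

theorem iterComm_isValue (v t : G) (n : ℕ) : IsValue n (iterComm v t n) := by
  induction n with
  | zero => trivial
  | succ n ih => exact ⟨_, t, ih, rfl⟩

theorem map_iterComm {H : Type*} [Group H] [Finite H] (f : G →* H) (v t : G) (n : ℕ) :
    f (iterComm v t n) = iterComm (f v) (f t) n := by
  induction n with
  | zero => rfl
  | succ n ih => rw [iterComm, iterComm, map_mul, map_mul, map_mul, map_inv, map_inv, ih]

/-- Coprime action: if all iterated commutators `[v, t, …, t]` of fixed length die, the action is trivial. -/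
theorem commute_of_iterComm {P : Subgroup G} {r : ℕ} [Fact r.Prime] (hP : IsPGroup r P) {t : G}
    (ht : t ∈ Subgroup.normalizer (P : Set G)) (hco : ¬ r ∣ orderOf t) :
    ∀ n : ℕ, (∀ v ∈ P, iterComm v t n = 1) → ∀ v ∈ P, Commute v t := by
  intro n
  induction n with
  | zero => intro h v hv; rw [show v = 1 from h v hv]; exact Commute.one_left t
  | succ n ih =>
    intro h
    have hc : ∀ v ∈ P, Commute (iterComm v t n) t := fun v hv => by
      have h1 := h v hv
      rw [iterComm, mul_inv_eq_one, mul_inv_eq_iff_eq_mul] at h1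
      exact h1
    rcases n with _ | n
    · exact hc
    refine ih fun v hv => ?_
    set z := iterComm v t n with hz
    set c := iterComm v t (n + 1) with hcdef
    have hcc : Commute c t := hc v hv
    have hcP : c ∈ P := iterComm_mem hv ht _
    have h1 : t * z⁻¹ * t⁻¹ = z⁻¹ * c := by rw [hcdef, iterComm, ← hz]; group
    have h2 : ∀ i : ℕ, t ^ i * z⁻¹ * (t ^ i)⁻¹ = z⁻¹ * c ^ i := by
      intro i
      induction i with
      | zero => simp
      | succ i ih' =>
        calc t ^ (i + 1) * z⁻¹ * (t ^ (i + 1))⁻¹ = t * (t ^ i * z⁻¹ * (t ^ i)⁻¹) * t⁻¹ := by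
              rw [pow_succ', mul_inv_rev]; simp only [mul_assoc]
          _ = t * z⁻¹ * t⁻¹ * (t * c ^ i * t⁻¹) := by rw [ih']; group
          _ = z⁻¹ * c * c ^ i := by
              rw [h1, (hcc.symm.pow_right i).eq, mul_inv_cancel_right]
          _ = z⁻¹ * c ^ (i + 1) := by rw [mul_assoc, ← pow_succ']
    have h3 := h2 (orderOf t)
    rw [pow_orderOf_eq_one, one_mul, inv_one, mul_one, left_eq_mul] at h3
    obtain ⟨j, hj⟩ := IsPGroup.iff_orderOf.1 hP ⟨c, hcP⟩
    rw [Subgroup.orderOf_mk] at hj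
    exact orderOf_eq_one_iff.1 (Nat.eq_one_of_dvd_coprimes
      ((Fact.out : r.Prime).coprime_iff_not_dvd.2 hco |>.pow_left j) (dvd_of_eq hj)
      (orderOf_dvd_of_pow_eq_one h3))

/-- In a solvable group the coprime elements of `G / F(G)` centralise its cores. -/
theorem ValueCondition.quotient_fitting_nilpotent {k : ℕ} (h : ValueCondition k G)
    (hsol : Group.IsSolvable G) [(Cfsg.fittingSubgroup G).Normal] :
    Group.IsNilpotent (G ⧸ Cfsg.fittingSubgroup G) := by
  haveI := hsol
  set F := Cfsg.fittingSubgroup G with hF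
  set π := QuotientGroup.mk' F with hπ
  set F' := Cfsg.fittingSubgroup (G ⧸ F) with hF'
  haveI : F'.Normal := Cfsg.Agent.H19.fitting_normal _
  have hF'n : Group.IsNilpotent F' := Cfsg.Agent.H19.fitting_isNilpotent
  -- the basic fact
  have key : ∀ r : ℕ, r.Prime → ∀ t : G ⧸ F, ¬ r ∣ orderOf t → ∀ v ∈ F', (∃ j, orderOf v ∣ r ^ j) →
      Commute v t := by
    intro r hr t ht v hv hvo
    haveI : Fact r.Prime := ⟨hr⟩
    obtain ⟨j, hj⟩ := hvo
    have hvr : v ∈ Cfsg.pCore r (G ⧸ F) := mem_pCore_of_primary hF'n hv hj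
    haveI : (Cfsg.pCore r (G ⧸ F)).Normal := Cfsg.Agent.H19.pCore_normal r _
    set A := (Cfsg.pCore r (G ⧸ F)).comap π with hA
    haveI : A.Normal := (inferInstance : (Cfsg.pCore r (G ⧸ F)).Normal).comap π
    obtain ⟨S⟩ := (inferInstance : Nonempty (Sylow r A))
    have hfr := Sylow.normalizer_sup_eq_top S
    set R := (S : Subgroup A).map A.subtype with hR
    have hFA : F ≤ A := fun f hf => by
      rw [hA, Subgroup.mem_comap, show π f = 1 from (QuotientGroup.eq_one_iff f).2 hf]; exact one_mem _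
    have hRA : R ≤ A := Subgroup.map_subtype_le _
    have hmapR : R.map π = Cfsg.pCore r (G ⧸ F) := by
      let f : A →* Cfsg.pCore r (G ⧸ F) := π.subgroupComap _
      have hf : Function.Surjective f := fun ⟨u, hu⟩ => by
        obtain ⟨g, rfl⟩ := QuotientGroup.mk'_surjective F u
        exact ⟨⟨g, hu⟩, rfl⟩
      have hST : ((S.mapSurjective hf : Sylow r _) : Subgroup (Cfsg.pCore r (G ⧸ F))) = ⊤ :=
        ((S.mapSurjective hf).3 (Q := ⊤)
          ((Cfsg.Agent.H19.pCore_isPGroup (G := G ⧸ F) r).of_equiv Subgroup.topEquiv.symm) le_top).symm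
      apply le_antisymm
      · rintro _ ⟨g, hg, rfl⟩; exact hRA hg
      · intro u hu
        have h1 : (⟨u, hu⟩ : Cfsg.pCore r (G ⧸ F)) ∈
            ((S.mapSurjective hf : Sylow r _) : Subgroup (Cfsg.pCore r (G ⧸ F))) := hST ▸ Subgroup.mem_top _
        obtain ⟨g, hg, hgu⟩ := h1
        exact ⟨(g : G), ⟨g, hg, rfl⟩, congrArg Subtype.val hgu⟩
    have hRF : R ⊔ F = A := by
      refine le_antisymm (sup_le hRA hFA) fun a ha => ?_
      have h1 : π a ∈ R.map π := hmapR ▸ ha
      obtain ⟨ρ, hρ, hρa⟩ := h1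
      rw [show a = ρ * (ρ⁻¹ * a) by group]
      exact mul_mem (Subgroup.mem_sup_left hρ) (Subgroup.mem_sup_right ((QuotientGroup.eq_one_iff _).1 (by
        show π (ρ⁻¹ * a) = 1
        rw [map_mul, map_inv, hρa, inv_mul_cancel])))
    have hRp : IsPGroup r R := S.2.map _
    -- lift `t`
    obtain ⟨g, rfl⟩ := QuotientGroup.mk'_surjective F t
    have hg : g ∈ Subgroup.normalizer (R : Set G) ⊔ A := by rw [hfr]; exact Subgroup.mem_top g
    rw [← hRF, ← sup_assoc, sup_of_le_left (Subgroup.le_normalizer (H := R)), ← SetLike.mem_coe,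
      Subgroup.mul_normal] at hg
    obtain ⟨m, hm, f, hf, rfl⟩ := hg
    rw [map_mul, show π f = 1 from (QuotientGroup.eq_one_iff f).2 hf, mul_one] at ht ⊢
    set m' := m ^ r ^ (orderOf m).factorization r with hm'
    have hm'o : ¬ r ∣ orderOf m' := by
      rw [hm', orderOf_pow_of_dvd (pow_ne_zero _ hr.ne_zero) (Nat.ordProj_dvd _ _)]
      exact Nat.not_dvd_ordCompl hr (orderOf_pos m).ne'
    have hgen : π m ∈ Subgroup.zpowers (π m') := by
      rw [hm', map_pow]
      obtain ⟨s, hs⟩ := exists_pow_eq_self_of_coprime (x := π m)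
        ((hr.coprime_iff_not_dvd.2 ht).pow_left ((orderOf m).factorization r))
      have h7 := pow_mem (Subgroup.mem_zpowers ((π m) ^ r ^ (orderOf m).factorization r)) s
      rwa [hs] at h7
    obtain ⟨i, hi⟩ := hgen
    rw [← hi]
    refine Commute.zpow_right ?_ i
    -- the action of `m'` on the core is trivial
    have hd : ¬ r ∣ orderOf (π m') := fun hd => hm'o (hd.trans (orderOf_map_dvd π m'))
    have hnorm : π m' ∈ Subgroup.normalizer ((Cfsg.pCore r (G ⧸ F) : Subgroup _) : Set (G ⧸ F)) := by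
      rw [Subgroup.normalizer_eq_top]; exact Subgroup.mem_top _
    refine commute_of_iterComm (Cfsg.Agent.H19.pCore_isPGroup r) hnorm hd k (fun u hu => ?_) v hvr
    obtain ⟨ρ, hρ, rfl⟩ : u ∈ R.map π := hmapR.symm ▸ hu
    rw [← map_iterComm]
    refine (QuotientGroup.eq_one_iff _).2 ?_
    have hm'n : m' ∈ Subgroup.normalizer (R : Set G) := pow_mem hm _
    exact h.mem_fitting hRp (hRF ▸ inferInstance) (iterComm_mem hρ hm'n k) (iterComm_isValue ρ m' k)
  -- so every Sylow subgroup is in the Fitting subgroup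
  set C := Subgroup.centralizer (F' : Set (G ⧸ F)) with hC
  have hCF : C ≤ F' := Cfsg.Agent.H19.centralizer_fitting_le
  haveI : C.Normal := inferInstance
  have hnd : ∀ {a : G ⧸ F} {r : ℕ}, r.Prime → ∀ {q i : ℕ}, q.Prime → r ≠ q → orderOf a ∣ q ^ i →
      ¬ r ∣ orderOf a := fun hr _ _ hq hne h1 hd =>
    hne ((Nat.prime_dvd_prime_iff_eq hr hq).1 (hr.dvd_of_dvd_pow (hd.trans h1)))
  have hcomm : ∀ r q : ℕ, r.Prime → q.Prime → r ≠ q → ∀ a b : G ⧸ F, (∃ j, orderOf a ∣ r ^ j) →
      (∃ j, orderOf b ∣ q ^ j) → a * b * a⁻¹ * b⁻¹ ∈ C := by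
    rintro r q hr hq hrq a b ⟨i, hi⟩ ⟨j, hj⟩
    refine Subgroup.mem_centralizer_iff.2 fun v hv => ?_
    suffices hv' : v ∈ Subgroup.centralizer ({a * b * a⁻¹ * b⁻¹} : Set (G ⧸ F)) from
      Subgroup.mem_centralizer_singleton_iff.1 hv'
    refine mem_of_primary fun s hs => Subgroup.mem_centralizer_singleton_iff.2 ?_
    set v' := v ^ (orderOf v / s ^ (orderOf v).factorization s) with hv'
    have hv'F : v' ∈ F' := pow_mem hv _
    have hv'o : ∃ j, orderOf v' ∣ s ^ j := ⟨(orderOf v).factorization s, orderOf_dvd_of_pow_eq_one (by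
      rw [hv', ← pow_mul, Nat.div_mul_cancel (Nat.ordProj_dvd _ _), pow_orderOf_eq_one])⟩
    by_cases hsr : s = r
    · subst hsr
      have hcb : ∀ u ∈ F', (∃ j, orderOf u ∣ s ^ j) → Commute u b := fun u hu huo =>
        key s hs b (hnd hs hq hrq hj) u hu huo
      have h1 : Commute (a⁻¹ * v' * a) b := by
        refine hcb _ ?_ ?_
        · simpa using (inferInstance : F'.Normal).conj_mem v' hv'F a⁻¹
        · obtain ⟨l, hl⟩ := hv'o
          exact ⟨l, by rw [← show (MulAut.conj a⁻¹) v' = a⁻¹ * v' * a by simp, MulEquiv.orderOf_eq]; exact hl⟩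
      have h2 : Commute v' (a * b * a⁻¹) := by
        have h3 := (Commute.conj_iff a).2 h1
        simpa [mul_assoc] using h3
      exact (h2.mul_right (hcb v' hv'F hv'o).inv_right).eq
    · have hca : ∀ u ∈ F', (∃ j, orderOf u ∣ s ^ j) → Commute u a := fun u hu huo =>
        key s hs a (hnd hs hr hsr hi) u hu huo
      have h1 : Commute (b⁻¹ * v' * b) a⁻¹ := by
        refine (hca _ ?_ ?_).inv_right
        · simpa using (inferInstance : F'.Normal).conj_mem v' hv'F b⁻¹
        · obtain ⟨l, hl⟩ := hv'o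
          exact ⟨l, by rw [← show (MulAut.conj b⁻¹) v' = b⁻¹ * v' * b by simp, MulEquiv.orderOf_eq]; exact hl⟩
      have h2 : Commute v' (b * a⁻¹ * b⁻¹) := by
        have h3 := (Commute.conj_iff b).2 h1
        simpa [mul_assoc] using h3
      have h4 := ((hca v' hv'F hv'o).mul_right h2).eq
      simpa [mul_assoc] using h4
  suffices htop : (⊤ : Subgroup (G ⧸ F)) ≤ F' by
    haveI := Cfsg.Agent.H19.isNilpotent_of_le_fitting htop
    exact Group.nilpotent_of_mulEquiv Subgroup.topEquiv
  intro g _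
  refine mem_of_primary fun r hr => ?_
  haveI : Fact r.Prime := ⟨hr⟩
  set g' := g ^ (orderOf g / r ^ (orderOf g).factorization r) with hg'
  obtain ⟨l, -, hl⟩ := (Nat.dvd_prime_pow hr).1 (orderOf_dvd_of_pow_eq_one (by
    rw [hg', ← pow_mul, Nat.div_mul_cancel (Nat.ordProj_dvd _ _), pow_orderOf_eq_one]) :
      orderOf g' ∣ r ^ (orderOf g).factorization r)
  obtain ⟨S, hS⟩ := (IsPGroup.of_card (n := l) (by rw [Nat.card_zpowers, hl]) :
    IsPGroup r (Subgroup.zpowers g')).exists_le_sylow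
  set W := (S : Subgroup (G ⧸ F)) ⊔ C with hW
  haveI : W.Normal := by
    rw [← Subgroup.normalizer_eq_top_iff]
    refine top_le_iff.1 fun u _ => mem_of_primary fun q hq => ?_
    set u' := u ^ (orderOf u / q ^ (orderOf u).factorization q) with hu'
    have hu'o : ∃ j, orderOf u' ∣ q ^ j := ⟨(orderOf u).factorization q, orderOf_dvd_of_pow_eq_one (by
      rw [hu', ← pow_mul, Nat.div_mul_cancel (Nat.ordProj_dvd _ _), pow_orderOf_eq_one])⟩
    by_cases hqr : q = r
    · subst hqr
      -- an `r`-element lies in a conjugate of `S` by an element normalising `W`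
      haveI : Fact q.Prime := ⟨hq⟩
      obtain ⟨i, hi⟩ := hu'o
      obtain ⟨i', -, hi'⟩ := (Nat.dvd_prime_pow hq).1 hi
      obtain ⟨T, hT⟩ := (IsPGroup.of_card (n := i') (by rw [Nat.card_zpowers, hi']) :
        IsPGroup q (Subgroup.zpowers u')).exists_le_sylow
      obtain ⟨w, hw⟩ := MulAction.exists_smul_eq (G ⧸ F) S T
      have hmem : ∀ z : G ⧸ F, z ∈ (S : Subgroup (G ⧸ F)) →
          ∀ c ∈ (Subgroup.closure {c : G ⧸ F | ∃ j q', q'.Prime ∧ q' ≠ q ∧ orderOf c ∣ q' ^ j}),
            c * z * c⁻¹ ∈ W := by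
        intro z hz c hc
        induction hc using Subgroup.closure_induction generalizing z with
        | mem c hc =>
          obtain ⟨j, q', hq', hne, hc⟩ := hc
          obtain ⟨jz, hjz⟩ := IsPGroup.iff_orderOf.1 S.2 ⟨z, hz⟩
          rw [Subgroup.orderOf_mk] at hjz
          have h5 := hcomm q' q hq' hq hne c z ⟨j, hc⟩ ⟨jz, hjz.dvd⟩
          rw [show c * z * c⁻¹ = c * z * c⁻¹ * z⁻¹ * z by group]
          exact mul_mem (Subgroup.mem_sup_right h5) (Subgroup.mem_sup_left hz)
        | one => simpa using Subgroup.mem_sup_left hz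
        | mul a b _ _ iha ihb =>
          have h6 := ihb z hz
          rw [← SetLike.mem_coe, hW, Subgroup.mul_normal] at h6
          obtain ⟨s, hs, d, hd, hsd⟩ := h6
          have hsd' : s * d = b * z * b⁻¹ := hsd
          rw [show a * b * z * (a * b)⁻¹ = a * s * a⁻¹ * (a * d * a⁻¹) by
            rw [show a * b * z * (a * b)⁻¹ = a * (b * z * b⁻¹) * a⁻¹ by group, ← hsd']; group]
          exact mul_mem (iha s hs) (Subgroup.mem_sup_right ((inferInstance : C.Normal).conj_mem d hd a))
        | inv a ha iha =>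
          rw [inv_inv]
          obtain ⟨i, hi⟩ : ∃ i : ℕ, a ^ i = a⁻¹ := ⟨orderOf a - 1, by
            rw [eq_inv_iff_mul_eq_one, ← pow_succ, Nat.sub_add_cancel (orderOf_pos a), pow_orderOf_eq_one]⟩
          have hpw : ∀ i : ℕ, ∀ z ∈ (S : Subgroup (G ⧸ F)), a ^ i * z * (a ^ i)⁻¹ ∈ W := by
            intro i
            induction i with
            | zero => intro z hz; simpa using Subgroup.mem_sup_left hz
            | succ i ih' =>
              intro z hz
              have h6 := ih' z hz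
              rw [← SetLike.mem_coe, hW, Subgroup.mul_normal] at h6
              obtain ⟨s, hs, d, hd, hsd⟩ := h6
              have hsd' : s * d = a ^ i * z * (a ^ i)⁻¹ := hsd
              rw [show a ^ (i + 1) * z * (a ^ (i + 1))⁻¹ = a * s * a⁻¹ * (a * d * a⁻¹) by
                rw [pow_succ', show a * a ^ i * z * (a * a ^ i)⁻¹ = a * (a ^ i * z * (a ^ i)⁻¹) * a⁻¹ by group,
                  ← hsd']; group]
              exact mul_mem (iha s hs) (Subgroup.mem_sup_right ((inferInstance : C.Normal).conj_mem d hd a))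
          have := hpw i z hz
          rwa [hi, inv_inv] at this
      -- the Sylow subgroup and the other primary elements generate
      have hgen : w ∈ (S : Subgroup (G ⧸ F)) ⊔
          Subgroup.closure {c : G ⧸ F | ∃ j q', q'.Prime ∧ q' ≠ q ∧ orderOf c ∣ q' ^ j} := by
        have htop : (S : Subgroup (G ⧸ F)) ⊔
            Subgroup.closure {c : G ⧸ F | ∃ j q', q'.Prime ∧ q' ≠ q ∧ orderOf c ∣ q' ^ j} = ⊤ := by
          set K := (S : Subgroup (G ⧸ F)) ⊔
            Subgroup.closure {c : G ⧸ F | ∃ j q', q'.Prime ∧ q' ≠ q ∧ orderOf c ∣ q' ^ j}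
          refine Subgroup.eq_top_of_card_eq _ (Nat.eq_of_factorization_eq Nat.card_pos.ne'
            Nat.card_pos.ne' fun q' => le_antisymm
              ((Nat.factorization_le_iff_dvd Nat.card_pos.ne' Nat.card_pos.ne').2
                (Subgroup.card_subgroup_dvd_card K) q') ?_)
          by_cases hq'p : q'.Prime
          · haveI : Fact q'.Prime := ⟨hq'p⟩
            obtain ⟨T'⟩ := (inferInstance : Nonempty (Sylow q' (G ⧸ F)))
            have hTK : ∃ T : Sylow q' (G ⧸ F), (T : Subgroup (G ⧸ F)) ≤ K := by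
              by_cases hqq : q' = q
              · subst hqq; exact ⟨S, le_sup_left⟩
              · refine ⟨T', fun c hc => Subgroup.mem_sup_right (Subgroup.subset_closure ?_)⟩
                obtain ⟨j, hj⟩ := IsPGroup.iff_orderOf.1 T'.2 ⟨c, hc⟩
                rw [Subgroup.orderOf_mk] at hj
                exact ⟨j, q', hq'p, hqq, hj.dvd⟩
            obtain ⟨T, hT⟩ := hTK
            have h7 := Subgroup.card_dvd_of_le hT
            rw [Sylow.card_eq_multiplicity] at h7
            exact (hq'p.pow_dvd_iff_le_factorization Nat.card_pos.ne').1 h7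
          · rw [Nat.factorization_eq_zero_of_not_prime _ hq'p]; exact Nat.zero_le _
        rw [htop]; exact Subgroup.mem_top w
      have hwn : w ∈ Subgroup.normalizer (W : Set (G ⧸ F)) := by
        refine (sup_le ?_ ?_ : _ ≤ Subgroup.normalizer (W : Set (G ⧸ F))) hgen
        · exact le_sup_left.trans Subgroup.le_normalizer
        · intro c hc
          refine Subgroup.mem_normalizer_fintype fun z hz => ?_
          rw [hW, Subgroup.mul_normal] at hz
          obtain ⟨s, hs, d, hd, rfl⟩ := hz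
          show c * (s * d) * c⁻¹ ∈ W
          rw [show c * (s * d) * c⁻¹ = c * s * c⁻¹ * (c * d * c⁻¹) by group]
          exact mul_mem (hmem s hs c hc) (Subgroup.mem_sup_right ((inferInstance : C.Normal).conj_mem d hd c))
      have hTW : (T : Subgroup (G ⧸ F)) ≤ W := by
        intro c hc
        have h8 : c ∈ ((w • S : Sylow q (G ⧸ F)) : Subgroup (G ⧸ F)) := by rw [hw]; exact hc
        rw [Sylow.coe_subgroup_smul] at h8
        obtain ⟨s, hs, rfl⟩ := h8
        exact (Subgroup.mem_normalizer_iff.1 hwn s).1 (Subgroup.mem_sup_left hs)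
      exact Subgroup.le_normalizer (hTW (hT (Subgroup.mem_zpowers u')))
    · refine Subgroup.mem_normalizer_fintype fun w hw => ?_
      rw [hW, Subgroup.mul_normal] at hw
      obtain ⟨s, hs, c, hc, rfl⟩ := hw
      obtain ⟨js, hjs⟩ := IsPGroup.iff_orderOf.1 S.2 ⟨s, hs⟩
      rw [Subgroup.orderOf_mk] at hjs
      have h5 := hcomm q r hq hr hqr u' s hu'o ⟨js, hjs.dvd⟩
      show u' * (s * c) * u'⁻¹ ∈ W
      rw [show u' * (s * c) * u'⁻¹ = u' * s * u'⁻¹ * s⁻¹ * s * (u' * c * u'⁻¹) by group]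
      exact mul_mem (mul_mem (Subgroup.mem_sup_right h5) (Subgroup.mem_sup_left hs))
        (Subgroup.mem_sup_right ((inferInstance : C.Normal).conj_mem c hc u'))
  refine (le_fitting_of_centralizes (F := F') hF'n hr (fun w hw => ?_) (fun q hq hqr f hf hfo w hw => ?_) :
    W ≤ _) (Subgroup.mem_sup_left (hS (Subgroup.mem_zpowers g')))
  · rw [← SetLike.mem_coe, hW, Subgroup.mul_normal] at hw
    obtain ⟨s, hs, c, hc, rfl⟩ := hw
    obtain ⟨js, hjs⟩ := IsPGroup.iff_orderOf.1 S.2 ⟨s, hs⟩
    rw [Subgroup.orderOf_mk] at hjs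
    refine ⟨js, ?_⟩
    rw [← QuotientGroup.eq_one_iff, QuotientGroup.mk_pow]
    simp only [QuotientGroup.mk_mul, (QuotientGroup.eq_one_iff c).2 (hCF hc), mul_one]
    rw [← QuotientGroup.mk_pow, ← hjs, pow_orderOf_eq_one]
    rfl
  · suffices hle : W ≤ Subgroup.centralizer ({f} : Set (G ⧸ F)) from
      (Subgroup.mem_centralizer_singleton_iff.1 (hle hw) : w * f = f * w).symm
    refine sup_le (fun s hs => Subgroup.mem_centralizer_singleton_iff.2 ?_) fun c hc =>
      Subgroup.mem_centralizer_singleton_iff.2 (Subgroup.mem_centralizer_iff.1 hc f hf).symm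
    obtain ⟨js, hjs⟩ := IsPGroup.iff_orderOf.1 S.2 ⟨s, hs⟩
    rw [Subgroup.orderOf_mk] at hjs
    exact (key q hq s (hnd hq hr hqr hjs.dvd) f hf hfo).eq.symm

/-- The solvable case. -/
theorem ValueCondition.lcs_nilpotent {k : ℕ} (h : ValueCondition k G) (hsol : Group.IsSolvable G) :
    Group.IsNilpotent ((⊤ : Subgroup G).lowerCentralSeries k) := by
  haveI hFn : (Cfsg.fittingSubgroup G).Normal := Cfsg.Agent.H19.fitting_normal G
  haveI := h.quotient_fitting_nilpotent hsol
  set F := Cfsg.fittingSubgroup G with hF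
  refine Cfsg.Agent.H19.isNilpotent_of_le_fitting ((lcs_le_closure_values k).trans
    ((Subgroup.closure_le _).2 fun c hc => ?_))
  set π := QuotientGroup.mk' F with hπ
  rw [SetLike.mem_coe, ← QuotientGroup.eq_one_iff, ← orderOf_eq_one_iff]
  by_contra hne
  obtain ⟨r, hr, hrd⟩ := Nat.exists_prime_and_dvd hne
  haveI : Fact r.Prime := ⟨hr⟩
  obtain ⟨R⟩ := (inferInstance : Nonempty (Sylow r G))
  set R' := R.mapSurjective (QuotientGroup.mk'_surjective F) with hR'
  haveI hR'n : (R' : Subgroup (G ⧸ F)).Normal :=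
    (Group.isNilpotent_of_finite_tfae.out 0 3 rfl rfl).mp ‹_› r ‹_› R'
  haveI := Sylow.unique_of_normal R' hR'n
  obtain ⟨K, hK⟩ := Subgroup.exists_right_complement'_of_coprime (N := (R' : Subgroup (G ⧸ F))) (by
    obtain ⟨j, hj⟩ := IsPGroup.iff_card.1 R'.2
    rw [hj]
    exact (hr.coprime_iff_not_dvd.2 R'.not_dvd_index).pow_left j)
  have hKr : ¬ r ∣ Nat.card K := by rw [← hK.symm.index_eq_card]; exact R'.not_dvd_index
  have hRK : ∀ a ∈ (R' : Subgroup (G ⧸ F)), ∀ b ∈ K, Commute a b := by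
    intro a ha b hb
    refine Cfsg.Agent.H55.commute_of_coprime_orderOf inferInstance ?_
    obtain ⟨j, hj⟩ := IsPGroup.iff_orderOf.1 R'.2 ⟨a, ha⟩
    rw [Subgroup.orderOf_mk] at hj
    rw [hj]
    refine (hr.coprime_iff_not_dvd.2 fun hd => hKr (hd.trans ?_)).pow_left j
    rw [← Subgroup.orderOf_mk b hb]; exact orderOf_dvd_natCard _
  have hKn : K.Normal := by
    rw [← Subgroup.normalizer_eq_top_iff, ← top_le_iff, ← hK.sup_eq_top]
    refine sup_le (fun a ha => ?_) Subgroup.le_normalizer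
    refine Subgroup.mem_normalizer_fintype fun b hb => ?_
    rwa [(hRK a ha b hb).eq, mul_inv_cancel_right]
  haveI := hKn
  set M := K.comap π with hM
  haveI : M.Normal := hKn.comap π
  have hsurj : ∀ z : G ⧸ M, z ∈ ((QuotientGroup.mk' M).comp (R : Subgroup G).subtype).range := by
    intro z
    obtain ⟨g, rfl⟩ := QuotientGroup.mk_surjective z
    obtain ⟨⟨⟨a, ha⟩, ⟨b, hb⟩⟩, hab⟩ := (Subgroup.isComplement'_def.1 hK).2 (π g)
    simp only at hab
    obtain ⟨ρ, hρ, rfl⟩ := ha
    refine ⟨⟨ρ, hρ⟩, ?_⟩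
    show QuotientGroup.mk' M ρ = _
    rw [QuotientGroup.mk'_apply, QuotientGroup.eq, hM, Subgroup.mem_comap, map_mul, map_inv, ← hab]
    simpa [hπ] using hb
  obtain ⟨⟨d, hd⟩, hdv, hdc⟩ := IsValue.lift _ (hc.map (QuotientGroup.mk' M)) hsurj
  have hdv' : IsValue k d := hdv.map (R : Subgroup G).subtype
  have hRn : ((R : Subgroup G) ⊔ F).Normal := by
    have h1 := hR'n.comap π
    rwa [Sylow.coe_mapSurjective, Subgroup.comap_map_eq, QuotientGroup.ker_mk'] at h1
  have hdF : d ∈ F := h.mem_fitting R.2 hRn hd hdv'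
  have hcM : c ∈ M := by
    have h1 : QuotientGroup.mk' M d = QuotientGroup.mk' M c := hdc
    rw [show QuotientGroup.mk' M d = 1 from (QuotientGroup.eq_one_iff d).2 (by
      rw [hM, Subgroup.mem_comap, show π d = 1 from (QuotientGroup.eq_one_iff d).2 hdF]
      exact one_mem _)] at h1
    exact (QuotientGroup.eq_one_iff c).1 h1.symm
  have h2 : orderOf (c : G ⧸ F) ∣ Nat.card K := by
    rw [← Subgroup.orderOf_mk (c : G ⧸ F) (show (c : G ⧸ F) ∈ K from hcM)]
    exact orderOf_dvd_natCard _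
  exact hKr (hrd.trans h2)

end Cfsg.Agent.H85
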