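import Mathlib
import Cfsg.Agent.H19.Cores
import Cfsg.Agent.H85.CommutatorValues
import Cfsg.Agent.H85.ValueNilpotent
import Cfsg.Agent.S0199
import Cfsg.Agent.S0116
import Cfsg.Agent.S0215

/-!
# The order condition on values forces solvability, given the odd order theorem
-/

set_option autoImplicit false
set_option linter.style.haveILetI false
set_option linter.unusedSectionVars false

namespace Cfsg.Agent.H85

universe u

/-- Lifting a coprime action on an `r`-subgroup of an image. -/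
theorem exists_lift_normalizing {X Y : Type*} [Group X] [Finite X] [Group Y] [Finite Y] (f : X →* Y)
    (hf : Function.Surjective f) {r : ℕ} [Fact r.Prime] {V : Subgroup Y} (hV : IsPGroup r V) {t : Y}
    (ht : t ∈ Subgroup.normalizer (V : Set Y)) (hto : ¬ r ∣ orderOf t) :
    ∃ (R : Subgroup X) (m : X), IsPGroup r R ∧ R.map f = V ∧ m ∈ Subgroup.normalizer (R : Set X) ∧
      ¬ r ∣ orderOf m ∧ f m ∈ Subgroup.normalizer (V : Set Y) ∧ t ∈ Subgroup.zpowers (f m) := by
  set B := (Subgroup.normalizer (V : Set Y)).comap f with hB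
  set A := (V.comap f).subgroupOf B with hA
  haveI hAn : A.Normal := by
    refine ⟨fun a ha b => ?_⟩
    rw [hA, Subgroup.mem_subgroupOf, Subgroup.mem_comap] at ha ⊢
    have hb : f b ∈ Subgroup.normalizer (V : Set Y) := b.2
    simpa using (Subgroup.mem_normalizer_iff.1 hb _).1 ha
  obtain ⟨S⟩ := (inferInstance : Nonempty (Sylow r A))
  have hfr := Sylow.normalizer_sup_eq_top S
  set R₀ := (S : Subgroup A).map A.subtype with hR₀
  set R := R₀.map B.subtype with hR
  have hRp : IsPGroup r R := (S.2.map _).map _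
  have hVB : ∀ v ∈ V, ∀ g : X, f g = v → g ∈ B := fun v hv g hg => by
    rw [hB, Subgroup.mem_comap, hg]; exact Subgroup.le_normalizer hv
  have hmap : R.map f = V := by
    let φ : A →* V := ((f.comp B.subtype).comp A.subtype).codRestrict V fun a => a.2
    have hφ : Function.Surjective φ := fun ⟨v, hv⟩ => by
      obtain ⟨g, hg⟩ := hf v
      exact ⟨⟨⟨g, hVB v hv g hg⟩, show f g ∈ V from hg ▸ hv⟩, Subtype.ext hg⟩
    have hST : ((S.mapSurjective hφ : Sylow r V) : Subgroup V) = ⊤ :=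
      ((S.mapSurjective hφ).3 (Q := ⊤) (hV.of_equiv Subgroup.topEquiv.symm) le_top).symm
    apply le_antisymm
    · rintro _ ⟨_, ⟨_, ⟨g, hg, rfl⟩, rfl⟩, rfl⟩
      exact g.2
    · intro v hv
      have h1 : (⟨v, hv⟩ : V) ∈ ((S.mapSurjective hφ : Sylow r V) : Subgroup V) := hST ▸ Subgroup.mem_top _
      obtain ⟨g, hg, hgv⟩ := h1
      exact ⟨((g : B) : X), ⟨(g : B), ⟨g, hg, rfl⟩, rfl⟩, congrArg Subtype.val hgv⟩
  obtain ⟨g, rfl⟩ := hf t
  have hgB : g ∈ B := ht
  have hg : (⟨g, hgB⟩ : B) ∈ Subgroup.normalizer (R₀ : Set B) ⊔ A := by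
    rw [hfr]; exact Subgroup.mem_top _
  rw [← SetLike.mem_coe, Subgroup.mul_normal] at hg
  obtain ⟨m₀, hm₀, a, ha, hma⟩ := hg
  have haR : f (a : X) ∈ R.map f := by rw [hmap]; exact ha
  obtain ⟨_, ⟨ρ, hρ, rfl⟩, hρa⟩ := haR
  set m₁ : B := m₀ * ρ with hm₁
  have hm₁n : m₁ ∈ Subgroup.normalizer (R₀ : Set B) := mul_mem hm₀ (Subgroup.le_normalizer hρ)
  have hfm : f (m₁ : X) = f g := by
    have h1 : ((m₀ * a : B) : X) = g := congrArg Subtype.val hma
    rw [← h1, hm₁, Subgroup.coe_mul, Subgroup.coe_mul, map_mul, map_mul]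
    rw [show f (ρ : X) = f (a : X) from hρa]
  set s := r ^ (orderOf (m₁ : X)).factorization r with hs
  refine ⟨R, (m₁ : X) ^ s, hRp, hmap, pow_mem ?_ s, ?_, ?_, ?_⟩
  · rw [Subgroup.mem_normalizer_iff]
    rw [Subgroup.mem_normalizer_iff] at hm₁n
    intro z
    constructor
    · rintro ⟨y, hy, rfl⟩
      exact ⟨m₁ * y * m₁⁻¹, (hm₁n y).1 hy, by simp⟩
    · rintro ⟨y, hy, hyz⟩
      refine ⟨m₁⁻¹ * y * m₁, (hm₁n _).2 (by simpa [mul_assoc] using hy), ?_⟩
      simp only [Subgroup.subtype_apply, Subgroup.coe_mul, InvMemClass.coe_inv]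
      rw [show (y : X) = (m₁ : X) * z * (m₁ : X)⁻¹ from hyz]
      group
  · rw [hs, orderOf_pow_of_dvd (pow_ne_zero _ (Fact.out : r.Prime).ne_zero) (Nat.ordProj_dvd _ _)]
    exact Nat.not_dvd_ordCompl Fact.out (orderOf_pos _).ne'
  · rw [map_pow]; exact pow_mem (hfm ▸ ht) s
  · rw [map_pow, hfm]
    obtain ⟨i, hi⟩ := exists_pow_eq_self_of_coprime (x := f g) (n := s)
      (((Fact.out : r.Prime).coprime_iff_not_dvd.2 hto).pow_left _)
    have h7 := pow_mem (Subgroup.mem_zpowers ((f g) ^ s)) i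
    rwa [hi] at h7

/-- A moved element yields a value. -/
theorem exists_value_of_action {X Y : Type*} [Group X] [Finite X] [Group Y] [Finite Y] (f : X →* Y)
    (hf : Function.Surjective f) {r : ℕ} [Fact r.Prime] {V : Subgroup Y} (hV : IsPGroup r V) {t z : Y}
    (ht : t ∈ Subgroup.normalizer (V : Set Y)) (hto : ¬ r ∣ orderOf t) (hz : z ∈ V)
    (hzt : ¬ Commute z t) (k : ℕ) :
    ∃ x : X, IsValue k x ∧ (∃ j, orderOf x = r ^ j) ∧ f x ∈ V ∧ f x ≠ 1 := by
  obtain ⟨R, m, hR, hmap, hmn, hmo, hmV, htm⟩ := exists_lift_normalizing f hf hV ht hto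
  by_contra hall
  push Not at hall
  apply hzt
  obtain ⟨i, hi⟩ := htm
  rw [← hi]
  refine Commute.zpow_right ?_ i
  refine commute_of_iterComm hV hmV (fun hd => hmo (hd.trans (orderOf_map_dvd f m))) k (fun v hv => ?_) z hz
  obtain ⟨ρ, hρ, rfl⟩ := (hmap.symm ▸ hv : v ∈ R.map f)
  rw [← map_iterComm]
  obtain ⟨j, hj⟩ := IsPGroup.iff_orderOf.1 hR ⟨_, iterComm_mem hρ hmn k⟩
  rw [Subgroup.orderOf_mk] at hj
  exact hall _ (iterComm_isValue ρ m k) ⟨j, hj⟩ (hmap ▸ ⟨_, iterComm_mem hρ hmn k, rfl⟩)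

theorem isSolvable_of_quotient {G : Type*} [Group G] (M : Subgroup G) [M.Normal]
    (h₁ : Group.IsSolvable M) (h₂ : Group.IsSolvable (G ⧸ M)) : Group.IsSolvable G := by
  haveI := h₁; haveI := h₂
  exact solvable_of_ker_le_range M.subtype (QuotientGroup.mk' M)
    (by rw [QuotientGroup.ker_mk', Subgroup.range_subtype])

/-- The order condition forces solvability, given the odd order theorem. -/
theorem ValueCondition.solvable
    (hFT : ∀ (H : Type u) [Group H] [Finite H], Odd (Nat.card H) → Group.IsSolvable H) {k : ℕ}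
    (G : Type u) [Group G] [Finite G] (h : ValueCondition k G) : Group.IsSolvable G := by
  induction hn : Nat.card G using Nat.strong_induction_on generalizing G with
  | _ n ih =>
  subst hn
  by_contra hns
  have hsub : ∀ H : Subgroup G, H ≠ ⊤ → Group.IsSolvable H := fun H hH =>
    ih _ (lt_of_le_of_ne (Subgroup.card_le_card_group H) fun he => hH (Subgroup.card_eq_iff_eq_top H |>.1 he))
      H (h.of_injective H.subtype H.subtype_injective) rfl
  -- a maximal normal subgroup
  haveI : Nontrivial G := by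
    rcases subsingleton_or_nontrivial G with hG | hG
    · exact absurd (isSolvable_of_comm fun a b => Subsingleton.elim _ _) hns
    · exact hG
  obtain ⟨M, ⟨hMn, hMt⟩, hMmax⟩ := (Set.toFinite {M : Subgroup G | M.Normal ∧ M ≠ ⊤}).exists_maximal
    ⟨⊥, inferInstance, bot_ne_top⟩
  haveI := hMn
  have hMsol := hsub M hMt
  set π := QuotientGroup.mk' M with hπ
  have hπs : Function.Surjective π := QuotientGroup.mk'_surjective M
  have hnsQ : ¬ Group.IsSolvable (G ⧸ M) := fun hq => hns (isSolvable_of_quotient M hMsol hq)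
  haveI : Nontrivial (G ⧸ M) := by
    rcases subsingleton_or_nontrivial (G ⧸ M) with hG | hG
    · exact absurd (isSolvable_of_comm fun a b => Subsingleton.elim _ _) hnsQ
    · exact hG
  haveI hsimp : IsSimpleGroup (G ⧸ M) := ⟨fun K hK => by
    haveI := hK
    have hle : M ≤ K.comap π := fun m hm => by
      rw [Subgroup.mem_comap, show π m = 1 from (QuotientGroup.eq_one_iff m).2 hm]; exact one_mem K
    by_cases htop : K.comap π = ⊤
    · right; refine Subgroup.comap_injective hπs ?_; rw [htop, Subgroup.comap_top]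
    · left
      refine Subgroup.comap_injective hπs ?_
      rw [MonoidHom.comap_bot, hπ, QuotientGroup.ker_mk']
      exact le_antisymm (hMmax ⟨hK.comap π, htop⟩ hle) hle⟩
  have hMnil : Group.IsNilpotent M := by
    have hle : M ≤ frattini G := by
      refine le_iInf₂ fun H hH => ?_
      by_contra hMH
      haveI := hsub H hH.1
      have htop : H ⊔ M = ⊤ := hH.2 _ (lt_of_le_of_ne le_sup_left fun he => hMH (he ▸ le_sup_right))
      refine hnsQ (solvable_of_surjective (f := π.comp H.subtype) fun z => ?_)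
      obtain ⟨g, rfl⟩ := hπs z
      have hg : g ∈ H ⊔ M := htop ▸ Subgroup.mem_top g
      rw [← SetLike.mem_coe, Subgroup.mul_normal] at hg
      obtain ⟨a, ha, m, hm, rfl⟩ := hg
      exact ⟨⟨a, ha⟩, by simp [hπ, (QuotientGroup.eq_one_iff m).2 hm]⟩
    haveI : Group.IsNilpotent (frattini G) := frattini_nilpotent
    exact Group.nilpotent_of_mulEquiv (Subgroup.subgroupOfEquivOfLe hle)
  -- normal subgroups outside `M` are the whole group
  have hperf : ∀ N : Subgroup G, N.Normal → ¬ N ≤ M → N = ⊤ := by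
    intro N hN hNM
    by_contra hNt
    haveI := hN
    haveI := hsub N hNt
    refine hnsQ (solvable_of_surjective (f := π.comp N.subtype) ?_)
    rw [← MonoidHom.range_eq_top, MonoidHom.range_comp, Subgroup.range_subtype]
    haveI : (N.map π).Normal := hN.map π hπs
    refine ((inferInstance : (N.map π).Normal).eq_bot_or_eq_top).resolve_left fun hb => hNM ?_
    rwa [Subgroup.map_eq_bot_iff, hπ, QuotientGroup.ker_mk'] at hb
  have hcenQ : Subgroup.center (G ⧸ M) = ⊥ :=
    (inferInstance : (Subgroup.center (G ⧸ M)).Normal).eq_bot_or_eq_top.resolve_right fun ht =>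
      hnsQ (isSolvable_of_comm fun a b => Subgroup.mem_center_iff.1 (ht ▸ Subgroup.mem_top b) a)
  have h2Q : 2 ∣ Nat.card (G ⧸ M) := by
    by_contra hd
    exact hnsQ (hFT (G ⧸ M) (Nat.odd_iff.2 (by omega)))
  haveI : Fact (Nat.Prime 2) := ⟨Nat.prime_two⟩
  obtain ⟨P⟩ := (inferInstance : Nonempty (Sylow 2 (G ⧸ M)))
  haveI : Nontrivial (P : Subgroup (G ⧸ M)) := by
    rw [Subgroup.nontrivial_iff_ne_bot]
    intro hb
    exact P.not_dvd_index (by rw [hb, Subgroup.index_bot]; exact h2Q)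
  -- an involution in the centre of `P`
  obtain ⟨z, hzP, hz2, hzc⟩ : ∃ z, z ∈ (P : Subgroup (G ⧸ M)) ∧ orderOf z = 2 ∧
      ∀ a ∈ (P : Subgroup (G ⧸ M)), Commute z a := by
    haveI := P.2.center_nontrivial
    obtain ⟨j, hj0, hj⟩ := (IsPGroup.nontrivial_iff_card (P.2.to_subgroup (Subgroup.center _))).1 inferInstance
    obtain ⟨⟨⟨z, hzP⟩, hz⟩, hzo⟩ := exists_prime_orderOf_dvd_card'
      (G := Subgroup.center (P : Subgroup (G ⧸ M))) 2 (hj ▸ dvd_pow_self 2 hj0.ne')
    rw [Subgroup.orderOf_mk, Subgroup.orderOf_mk] at hzo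
    exact ⟨z, hzP, hzo, fun a ha => (congrArg Subtype.val (Subgroup.mem_center_iff.1 hz ⟨a, ha⟩)).symm⟩
  obtain ⟨g, hgP, hgz⟩ : ∃ g, g * z * g⁻¹ ∈ (P : Subgroup (G ⧸ M)) ∧ g * z * g⁻¹ ≠ z := by
    by_contra hall
    push Not at hall
    obtain ⟨N, hN, hodd, hcomm⟩ := Cfsg.Agent.S0215.result P z hz2 hzP hall
    rcases hN.eq_bot_or_eq_top with hb | ht
    · have : z ∈ Subgroup.center (G ⧸ M) := Subgroup.mem_center_iff.2 fun g => by
        have h1 := hcomm g
        rw [hb, Subgroup.mem_bot, mul_inv_eq_one, mul_inv_eq_iff_eq_mul] at h1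
        exact h1.symm
      rw [hcenQ, Subgroup.mem_bot] at this
      rw [this, orderOf_one] at hz2
      omega
    · rw [ht, Subgroup.card_top] at hodd
      exact Nat.not_even_iff_odd.2 hodd (even_iff_two_dvd.2 h2Q)
  -- a step of the fusion moves `z`
  obtain ⟨nn, Q, xs, hprod, hxs, h0, hstep⟩ := Cfsg.Agent.S0116.result P {z} g⁻¹
    (fun b hb => by rw [Set.mem_singleton_iff.1 hb]; exact hzP)
    (by rintro _ ⟨b, hb, rfl⟩; rw [Set.mem_singleton_iff.1 hb, inv_inv]; exact hgP)
  have hmove : ∃ i : Fin nn, z ∈ (P : Subgroup (G ⧸ M)) ⊓ (Q i : Subgroup (G ⧸ M)) ∧ ¬ Commute z (xs i) := by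
    by_contra hall
    push Not at hall
    have hfix : ∀ i, i ≤ nn → Commute z ((List.ofFn xs).take i).prod := by
      intro i
      induction i with
      | zero => intro _; simp
      | succ i ih' =>
        intro hi
        have hc := ih' (by omega)
        rw [List.prod_take_succ _ _ (by simpa using hi)]
        refine hc.mul_right ?_
        have hzI : z ∈ (P : Subgroup (G ⧸ M)) ⊓ (Q ⟨i, by omega⟩ : Subgroup (G ⧸ M)) := by
          rcases i with _ | j
          · exact h0 (by omega) (Set.mem_singleton z)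
          · have h1 := hstep ⟨j, by omega⟩ (by simpa using hi) (Set.mem_image_of_mem _ (Set.mem_singleton z))
            simp only at h1
            rwa [mul_assoc, hc.eq, inv_mul_cancel_left] at h1
        simpa using hall ⟨i, by omega⟩ hzI
    have h1 := hfix nn le_rfl
    rw [List.take_of_length_le (by simp), hprod] at h1
    apply hgz
    rw [(Commute.inv_right_iff.1 h1).symm.eq, mul_inv_cancel_right]
  obtain ⟨i, hzI, hzx⟩ := hmove
  set I := (P : Subgroup (G ⧸ M)) ⊓ (Q i : Subgroup (G ⧸ M)) with hI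
  set NI := Subgroup.normalizer (I : Set (G ⧸ M)) with hNI
  -- an element of odd order of the normaliser moves `z`
  obtain ⟨t, htN, hto, hzt⟩ : ∃ t ∈ NI, ¬ 2 ∣ orderOf t ∧ ¬ Commute z t := by
    by_contra hall
    push Not at hall
    apply hzx
    set K := NI ⊓ Subgroup.centralizer ({z} : Set (G ⧸ M)) with hK
    have hKN : K = NI := by
      refine Subgroup.eq_of_le_of_card_ge inf_le_left (Nat.le_of_dvd Nat.card_pos ?_)
      refine (Nat.factorization_le_iff_dvd Nat.card_pos.ne' Nat.card_pos.ne').1 fun q => ?_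
      by_cases hq : q.Prime
      swap
      · rw [Nat.factorization_eq_zero_of_not_prime _ hq]; exact Nat.zero_le _
      haveI : Fact q.Prime := ⟨hq⟩
      by_cases hq2 : q = 2
      · subst hq2
        have h1 : Nat.card ((P : Subgroup (G ⧸ M)) ⊓ NI : Subgroup _) *
            ((P : Subgroup (G ⧸ M)) ⊓ NI).relIndex NI = Nat.card NI := by
          rw [← Subgroup.relIndex_bot_left (H := (P : Subgroup (G ⧸ M)) ⊓ NI),
            Subgroup.relIndex_mul_relIndex ⊥ _ NI bot_le inf_le_right, Subgroup.relIndex_bot_left]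
        have hrel : ¬ 2 ∣ ((P : Subgroup (G ⧸ M)) ⊓ NI).relIndex NI := (hxs i).2.1
        rw [← h1, Nat.factorization_mul Nat.card_pos.ne' (fun h0 => hrel (by rw [h0]; exact dvd_zero 2)),
          Finsupp.add_apply, Nat.factorization_eq_zero_of_not_dvd hrel, add_zero]
        have h4 : (P : Subgroup (G ⧸ M)) ⊓ NI ≤ K := fun a ha => Subgroup.mem_inf.2 ⟨ha.2,
          Subgroup.mem_centralizer_singleton_iff.2 (hzc a ha.1).eq.symm⟩
        exact (Nat.factorization_le_iff_dvd Nat.card_pos.ne' Nat.card_pos.ne').2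
          (Subgroup.card_dvd_of_le h4) 2
      · obtain ⟨S⟩ := (inferInstance : Nonempty (Sylow q NI))
        have h2 : (S : Subgroup NI).map NI.subtype ≤ K := by
          rintro _ ⟨a, ha, rfl⟩
          refine Subgroup.mem_inf.2 ⟨a.2, Subgroup.mem_centralizer_singleton_iff.2 (hall a a.2 ?_).eq.symm⟩
          obtain ⟨j, hj⟩ := IsPGroup.iff_orderOf.1 S.2 ⟨a, ha⟩
          rw [Subgroup.orderOf_mk, ← Subgroup.orderOf_coe] at hj
          rw [hj]
          exact fun hd => hq2 ((Nat.prime_dvd_prime_iff_eq Nat.prime_two hq).1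
            (Nat.prime_two.dvd_of_dvd_pow hd)).symm
        have h3 := Subgroup.card_dvd_of_le h2
        rw [← Nat.card_congr ((S : Subgroup NI).equivMapOfInjective _ NI.subtype_injective).toEquiv,
          Sylow.card_eq_multiplicity] at h3
        exact (hq.pow_dvd_iff_le_factorization Nat.card_pos.ne').1 h3
    exact (Subgroup.mem_centralizer_singleton_iff.1 (hKN ▸ (hxs i).1 : xs i ∈ K).2).symm
  -- the elementary abelian subgroup
  let V : Subgroup (G ⧸ M) :=
    { carrier := {a | a ∈ I ∧ a * a = 1 ∧ ∀ b ∈ I, Commute a b}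
      one_mem' := ⟨one_mem I, one_mul 1, fun b _ => Commute.one_left b⟩
      mul_mem' := fun {a b} ha hb => ⟨mul_mem ha.1 hb.1, by
        rw [(ha.2.2 b hb.1).symm.mul_mul_mul_comm, ha.2.1, hb.2.1, one_mul],
        fun c hc => (ha.2.2 c hc).mul_left (hb.2.2 c hc)⟩
      inv_mem' := fun {a} ha => ⟨inv_mem ha.1, by rw [← mul_inv_rev, ha.2.1, inv_one],
        fun c hc => (ha.2.2 c hc).inv_left⟩ }
  have hVp : IsPGroup 2 V := fun a => ⟨1, Subtype.ext (by
    rw [Subgroup.coe_pow, pow_one, sq]; exact a.2.2.1)⟩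
  have htV : t ∈ Subgroup.normalizer (V : Set (G ⧸ M)) := by
    refine Subgroup.mem_normalizer_fintype fun a ha => ?_
    obtain ⟨haI, haa, hac⟩ := ha
    refine ⟨(Subgroup.mem_normalizer_iff.1 htN a).1 haI, ?_, fun b hb => ?_⟩
    · rw [show t * a * t⁻¹ * (t * a * t⁻¹) = t * (a * a) * t⁻¹ by group, haa, mul_one, mul_inv_cancel]
    · have h1 : t⁻¹ * b * t ∈ I := (Subgroup.mem_normalizer_iff.1 htN _).2 (by simpa [mul_assoc] using hb)
      have h2 := (Commute.conj_iff t).2 (hac _ h1)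
      simpa [mul_assoc] using h2
  have hzV : z ∈ V := ⟨hzI, by rw [← sq, ← hz2]; exact pow_orderOf_eq_one z, fun b hb => hzc b hb.1⟩
  obtain ⟨x, hxv, ⟨jx, hjx⟩, hxV, hx1⟩ := exists_value_of_action π hπs hVp htV hto hzV hzt k
  set a := π x with ha
  have haa : a * a = 1 := hxV.2.1
  -- an element of odd prime order inverted by `a`
  obtain ⟨q, w, hq, hq2, hw, haw⟩ : ∃ (q : ℕ) (w : G ⧸ M), q.Prime ∧ q ≠ 2 ∧ orderOf w = q ∧
      a * w * a⁻¹ = w⁻¹ := by
    have hainv : a⁻¹ = a := inv_eq_of_mul_eq_one_right haa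
    have ha2 : IsPGroup 2 (Subgroup.zpowers a) := IsPGroup.of_card (n := 1) (by
      rw [Nat.card_zpowers, pow_one, orderOf_eq_prime (by rw [sq]; exact haa) hx1])
    by_contra hall
    push Not at hall
    obtain ⟨N, hN, hNp, haN⟩ := Cfsg.Agent.S0199.result (Subgroup.zpowers a) ha2 fun g => by
      set b := g * a * g⁻¹ with hb
      have hbb : b * b = 1 := by rw [hb, show g * a * g⁻¹ * (g * a * g⁻¹) = g * (a * a) * g⁻¹ by group,
        haa, mul_one, mul_inv_cancel]
      set c := a * b with hc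
      have hac : a * c * a⁻¹ = c⁻¹ := by
        rw [hc, mul_inv_rev, hainv, ← mul_assoc, haa, one_mul, inv_eq_of_mul_eq_one_right hbb]
      have hcp : IsPGroup 2 (Subgroup.zpowers c) := by
        have hc2 : orderOf c = 2 ^ (orderOf c).factorization 2 := by
          by_contra hne
          have h1 : orderOf c / 2 ^ (orderOf c).factorization 2 ≠ 1 := fun h1 => hne (by
            have h2 := Nat.div_mul_cancel (Nat.ordProj_dvd (orderOf c) 2)
            rw [h1, one_mul] at h2
            exact h2.symm)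
          obtain ⟨q, hq, hqd⟩ := Nat.exists_prime_and_dvd h1
          have hq2 : q ≠ 2 := fun h2 => Nat.not_dvd_ordCompl Nat.prime_two (orderOf_pos c).ne' (h2 ▸ hqd)
          have hqo : q ∣ orderOf c := hqd.trans (Nat.div_dvd_of_dvd (Nat.ordProj_dvd _ _))
          refine hall q (c ^ (orderOf c / q)) hq hq2 ?_ ?_
          · exact orderOf_pow_orderOf_div (orderOf_pos c).ne' hqo
          · rw [← conj_pow, hac, inv_pow]
        exact IsPGroup.of_card (n := (orderOf c).factorization 2) (by rw [Nat.card_zpowers]; exact hc2)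
      have han : Subgroup.zpowers a ≤ Subgroup.normalizer ((Subgroup.zpowers c : Subgroup _) : Set (G ⧸ M)) := by
        rw [Subgroup.zpowers_le]
        refine Subgroup.mem_normalizer_fintype ?_
        rintro _ ⟨i, rfl⟩
        show a * c ^ i * a⁻¹ ∈ Subgroup.zpowers c
        rw [← conj_zpow, hac]
        exact zpow_mem (inv_mem (Subgroup.mem_zpowers c)) i
      refine (ha2.to_sup_of_normal_right' hcp han).to_le (sup_le le_sup_left ?_)
      rintro _ ⟨_, ⟨i, rfl⟩, rfl⟩
      show g * a ^ i * g⁻¹ ∈ _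
      rw [← conj_zpow, ← hb, show b = a * c by rw [hc, ← mul_assoc, haa, one_mul]]
      exact zpow_mem (mul_mem (Subgroup.mem_sup_left (Subgroup.mem_zpowers a))
        (Subgroup.mem_sup_right (Subgroup.mem_zpowers c))) i
    rcases hN.eq_bot_or_eq_top with hb | ht
    · rw [hb] at haN
      exact hx1 ((Subgroup.mem_bot).1 (haN (Subgroup.mem_zpowers a)))
    · rw [ht] at hNp
      haveI := (hNp.of_equiv Subgroup.topEquiv).isNilpotent
      exact hnsQ inferInstance
  haveI : Fact q.Prime := ⟨hq⟩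
  -- a value of order a power of `q` outside `M`
  have hwa : ¬ Commute w a := fun hc => by
    rw [hc.symm.eq, mul_inv_cancel_right] at haw
    have h1 : w ^ 2 = 1 := by rw [sq]; nth_rewrite 1 [haw]; exact inv_mul_cancel w
    have h2 := orderOf_dvd_of_pow_eq_one h1
    rw [hw] at h2
    exact hq2 ((Nat.prime_dvd_prime_iff_eq hq Nat.prime_two).1 h2)
  have haW : a ∈ Subgroup.normalizer ((Subgroup.zpowers w : Subgroup _) : Set (G ⧸ M)) := by
    refine Subgroup.mem_normalizer_fintype ?_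
    rintro _ ⟨i, rfl⟩
    show a * w ^ i * a⁻¹ ∈ Subgroup.zpowers w
    rw [← conj_zpow, haw]
    exact zpow_mem (inv_mem (Subgroup.mem_zpowers w)) i
  obtain ⟨y, hyv, ⟨jy, hjy⟩, -, hy1⟩ := exists_value_of_action π hπs
    (IsPGroup.of_card (n := 1) (by rw [Nat.card_zpowers, hw, pow_one]) : IsPGroup q (Subgroup.zpowers w))
    haW (by rw [orderOf_eq_prime (by rw [sq]; exact haa) hx1]
            exact fun hd => hq2 ((Nat.prime_dvd_prime_iff_eq hq Nat.prime_two).1 hd))
    (Subgroup.mem_zpowers w) hwa k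
  -- `M` is central
  have hMc : M ≤ Subgroup.center G := by
    intro m hm
    refine mem_of_primary fun s hs => ?_
    haveI : Fact s.Prime := ⟨hs⟩
    set m' := m ^ (orderOf m / s ^ (orderOf m).factorization s) with hm'
    have hm'c : m' ∈ Cfsg.pCore s G := mem_pCore_of_primary hMnil (pow_mem hm _)
      (j := (orderOf m).factorization s) (orderOf_dvd_of_pow_eq_one (by
        rw [hm', ← pow_mul, Nat.div_mul_cancel (Nat.ordProj_dvd _ _), pow_orderOf_eq_one]))
    haveI := Cfsg.Agent.H19.pCore_normal s G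
    set C := Subgroup.centralizer (Cfsg.pCore s G : Set G) with hC
    have key : ∀ (u : G) (r j : ℕ), r.Prime → r ≠ s → orderOf u = r ^ j → IsValue k u → π u ≠ 1 → C = ⊤ := by
      intro u r j hr hrs huo huv hu1
      refine hperf C inferInstance fun hle => hu1 ((QuotientGroup.eq_one_iff u).2 (hle ?_))
      refine Subgroup.mem_centralizer_iff.2 fun v hv => (h.commute huv ?_ ?_ hv).eq.symm
      · rw [Subgroup.normalizer_eq_top]; exact Subgroup.mem_top u
      · obtain ⟨i, hi⟩ := IsPGroup.iff_card.1 (Cfsg.Agent.H19.pCore_isPGroup (G := G) s)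
        rw [huo, hi]
        exact Nat.Coprime.pow _ _ ((Nat.coprime_primes hr hs).2 hrs)
    have hCt : C = ⊤ := by
      by_cases hs2 : s = 2
      · exact key y q jy hq (hs2 ▸ hq2) hjy hyv hy1
      · exact key x 2 jx Nat.prime_two (Ne.symm hs2) hjx hxv hx1
    exact Subgroup.mem_center_iff.2 fun g =>
      (Subgroup.mem_centralizer_iff.1 (hCt ▸ Subgroup.mem_top g : g ∈ C) m' hm'c).symm
  -- the contradiction
  obtain ⟨w₀, hw₀⟩ := hπs w
  set H := (Subgroup.zpowers w).comap π with hH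
  have hHc : ∀ u ∈ H, ∀ v ∈ H, Commute u v := by
    have hdec : ∀ u ∈ H, ∃ (i : ℤ) (m : G), m ∈ M ∧ u = w₀ ^ i * m := by
      rintro u ⟨i, hi⟩
      refine ⟨i, (w₀ ^ i)⁻¹ * u, ?_, by group⟩
      rw [← QuotientGroup.eq_one_iff]
      show π ((w₀ ^ i)⁻¹ * u) = 1
      rw [map_mul, map_inv, map_zpow, hw₀, ← hi, inv_mul_cancel]
    intro u hu v hv
    obtain ⟨i, m, hm, rfl⟩ := hdec u hu
    obtain ⟨i', m', hm', rfl⟩ := hdec v hv
    have hc : ∀ m ∈ M, ∀ g : G, Commute g m := fun m hm g => Subgroup.mem_center_iff.1 (hMc hm) g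
    exact ((((Commute.refl w₀).zpow_zpow i i').mul_right (hc m' hm' _))).mul_left
      ((hc m hm _).symm.mul_right (hc m' hm' m))
  let W : Subgroup G :=
    { carrier := {u | u ∈ H ∧ ∃ j : ℕ, u ^ q ^ j = 1}
      one_mem' := ⟨one_mem H, 0, one_pow _⟩
      mul_mem' := fun {u v} hu hv => by
        obtain ⟨hu, i, hi⟩ := hu
        obtain ⟨hv, j, hj⟩ := hv
        refine ⟨mul_mem hu hv, i + j, ?_⟩
        rw [(hHc u hu v hv).mul_pow]
        conv_lhs => arg 1; rw [pow_add, pow_mul, hi, one_pow]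
        rw [add_comm, pow_add, pow_mul, hj, one_pow, one_mul]
      inv_mem' := fun {u} hu => by
        obtain ⟨hu, i, hi⟩ := hu
        exact ⟨inv_mem hu, i, by rw [inv_pow, hi, inv_one]⟩ }
  have hWp : IsPGroup q W := fun u => by
    obtain ⟨-, i, hi⟩ := u.2
    exact ⟨i, Subtype.ext (by rw [Subgroup.coe_pow, hi, Subgroup.coe_one])⟩
  have hxH : ∀ u ∈ H, x * u * x⁻¹ ∈ H := fun u hu => by
    rw [hH, Subgroup.mem_comap, map_mul, map_mul, map_inv, ← ha]
    exact (Subgroup.mem_normalizer_iff.1 haW _).1 hu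
  set w₁ := w₀ ^ (orderOf w₀ / q ^ (orderOf w₀).factorization q) with hw₁
  have hw₁W : w₁ ∈ W := ⟨pow_mem (show π w₀ ∈ Subgroup.zpowers w from hw₀.symm ▸ Subgroup.mem_zpowers w) _,
    (orderOf w₀).factorization q, by
      rw [hw₁, ← pow_mul, Nat.div_mul_cancel (Nat.ordProj_dvd _ _), pow_orderOf_eq_one]⟩
  have hcomm : Commute x w₁ := by
    refine h.commute hxv (P := W) (Subgroup.mem_normalizer_fintype fun u hu => ?_) ?_ hw₁W
    · obtain ⟨huH, i, hi⟩ := hu
      exact ⟨hxH u huH, i, by rw [conj_pow, hi, mul_one, mul_inv_cancel]⟩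
    · obtain ⟨i, hi⟩ := IsPGroup.iff_card.1 hWp
      rw [hjx, hi]
      exact Nat.Coprime.pow _ _ ((Nat.coprime_primes Nat.prime_two hq).2 (Ne.symm hq2))
  apply hwa
  have h1 := hcomm.map π
  rw [hw₁, map_pow, hw₀, ← ha] at h1
  set e := orderOf w₀ / q ^ (orderOf w₀).factorization q with he
  have hco : Nat.Coprime e (orderOf w) := by
    rw [hw, Nat.coprime_comm, hq.coprime_iff_not_dvd]
    exact Nat.not_dvd_ordCompl hq (orderOf_pos w₀).ne'
  obtain ⟨i, hi⟩ := exists_pow_eq_self_of_coprime hco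
  rw [← hi]
  exact (h1.symm).pow_left i

end Cfsg.Agent.H85
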